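import Cfsg.Agent.H20.HarB
import Cfsg.Agent.H39.HarC

set_option autoImplicit false
set_option linter.unusedSectionVars false

/-! Harada's theorem, piece (b2) of case B (helper47). -/

namespace Cfsg.Agent.H47.HarB2

open Subgroup Cfsg.Agent.H20.Har

variable {S : Type*} [Group S] [Finite S]

theorem b2 {A V : Subgroup S} {a v z b : S} (H : HB A V a v z) (hb : Hb V b) (hbz : b * b = z) : R4 S := by
  have : Fact (Nat.Prime 2) := ⟨Nat.prime_two⟩
  have hzz : z * z = 1 := H.h.Vsq z H.zV
  have hzc : ∀ s : S, s * z = z * s := fun s => by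
    have := H.bbc hb s; rwa [hbz] at this
  obtain ⟨f, hf⟩ : ∃ f, f = b⁻¹ * cj a b := ⟨_, rfl⟩
  have hfV : f ∈ V := hf ▸ H.fV hb
  have hfA : f ∈ A := hf ▸ H.fA hb
  have hf1 : f ≠ 1 := hf ▸ H.f1 hb
  have hfz : f ≠ z := hf ▸ H.fz hb
  have hff : f * f = 1 := H.h.Vsq f hfV
  have hba : cj a b = b * f := by rw [hf]; group
  have hbi : ∀ u ∈ V, b⁻¹ * u = u * b⁻¹ := by
    intro u hu
    rw [inv_mul_eq_iff_eq_mul, ← mul_assoc, hb.bC u hu, mul_assoc, mul_inv_cancel, mul_one]
  have hbi2 : b⁻¹ * b⁻¹ = z := by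
    rw [← mul_inv_rev, hbz]; exact inv_eq_of_mul_eq_one_left hzz
  -- (i)
  have hCB : ∀ x : S, (∀ u ∈ V, x * u = u * x) → x ∈ V ⊔ zpowers b := by
    by_contra hcon
    push Not at hcon
    obtain ⟨x, hxC, hxB⟩ := hcon
    have hle : V ⊔ zpowers b ≤ Subgroup.centralizer (V : Set S) := by
      refine sup_le H.VC ?_
      rw [zpowers_le]
      exact H.memC.2 hb.bC
    have hlt : V ⊔ zpowers b < Subgroup.centralizer (V : Set S) :=
      lt_of_le_of_ne hle (fun h => hxB (h ▸ H.memC.2 hxC))
    obtain ⟨y, hyC, hyB, -, hyg, -, -⟩ := H23.exists_step H.h.two hb.bn H.Cn hlt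
    have hyC' := H.memC.1 hyC
    have hβ : y⁻¹ * cj a y ∈ V ⊔ zpowers b := form1 hb.bn (hyg a)
    have hβV : y⁻¹ * cj a y ∉ V := by
      intro h1
      rcases H.P hb hyC' h1 with h2 | h2
      · exact hyB ((le_sup_left : V ≤ _) h2)
      · apply hyB
        have h3 : y = b * (b⁻¹ * y) := by group
        rw [h3]
        exact mul_mem ((le_sup_right : zpowers b ≤ _) (mem_zpowers b)) ((le_sup_left : V ≤ _) h2)
    have h1 := hb.mem H hβ hβV
    have h2 := H.dd y
    generalize y⁻¹ * cj a y = β at hβ hβV h1 h2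
    -- `β = b * u`
    obtain ⟨u, hu, rfl⟩ : ∃ u ∈ V, β = b * u := by
      refine ⟨b⁻¹ * β, ?_, by group⟩
      have h3 : b⁻¹ * β = z * (β * b) := by
        have h4 := hbi _ h1
        calc b⁻¹ * β = (b⁻¹ * (β * b)) * b⁻¹ := by group
          _ = (β * b) * (b⁻¹ * b⁻¹) := by rw [h4]; group
          _ = z * (β * b) := by rw [hbi2, hzc]
      rw [h3]
      exact V.mul_mem H.zV h1
    rw [map_mul, hba] at h2
    have h3 : b * u * (b * f * cj a u) = z * (f * (u * cj a u)) := by
      calc b * u * (b * f * cj a u) = b * (u * b) * f * cj a u := by group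
        _ = (b * b) * (u * f) * cj a u := by rw [← hb.bC u hu]; group
        _ = _ := by rw [hbz, H.h.Vcomm u hu f hfV]; group
    rw [h3] at h2
    have huu := H.h.Vsq u hu
    by_cases huA : u ∈ A
    · rw [H.ca huA, huu, mul_one] at h2
      apply hfz
      have h4 : z * f = z * z := by rw [h2, hzz]
      exact mul_left_cancel h4
    · rw [H.cv hu huA, ← mul_assoc u, huu, one_mul, ← hzc] at h2
      apply hf1
      have h4 : (f * z) * z = 1 := h2
      rwa [mul_assoc, hzz, mul_one] at h4
  have hCV : ∀ x : S, (∀ u ∈ V, x * u = u * x) → x ∉ V → x * b ∈ V := fun x hx hxV =>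
    hb.mem H (hCB x hx) hxV
  refine H39.HarC.c16 H.h.two V H.h.Vn H.h.Vcomm H.h.Vsq H.V8 z H.zV H.z1 ?_ ?_ ?_
  · intro x hx hxV
    have h1 := hCV x hx hxV
    have h2 := H.h.Vsq _ h1
    have h3 := hbi _ h1
    calc x * x = (x * b) * (b⁻¹ * (x * b)) * b⁻¹ := by group
      _ = ((x * b) * (x * b)) * (b⁻¹ * b⁻¹) := by rw [h3]; group
      _ = z := by rw [h2, hbi2, one_mul]
  · intro x y hx hy hxV hyV
    have h1 := hCV x hx hxV
    have h2 := hCV y hy hyV
    have h3 : x⁻¹ * y = b * ((x * b)⁻¹ * (y * b)) * b⁻¹ := by group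
    rw [h3]
    exact H.h.Vn _ (V.mul_mem (V.inv_mem h1) h2) b
  · intro L hL
    have claim : ∀ l ∈ L, l * f = f * l → ∀ u ∈ V, l * u = u * l := by
      intro l hl hlf
      have hspan : ∀ l' : S, l' * f = f * l' → l' * v = v * l' → ∀ u ∈ V, l' * u = u * l' := by
        intro l' h1 h2
        have hA : ∀ u ∈ V, u ∈ A → l' * u = u * l' := by
          intro u hu huA
          rcases H.W hfV hfA hf1 hfz hu huA with rfl | rfl | rfl | rfl
          · group
          · exact hzc l'
          · exact h1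
          · rw [← mul_assoc, h1, mul_assoc, hzc, ← mul_assoc]
        intro u hu
        by_cases huA : u ∈ A
        · exact hA u hu huA
        · have h3 : u * v ∈ A := (H.VA hu H.vV).2 ⟨fun k => absurd k huA, fun k => absurd k H.vA⟩
          have h4 := hA _ (V.mul_mem hu H.vV) h3
          have h5 : u = (u * v) * v := by rw [mul_assoc, H.vA', mul_one]
          rw [h5, ← mul_assoc, h4, mul_assoc, h2, ← mul_assoc]
      rcases hL l hl v (fun u hu => H.h.Vcomm v H.vV u hu) with h1 | h1
      · apply hspan l hlf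
        rw [mul_inv_eq_one, mul_inv_eq_iff_eq_mul] at h1
        exact h1
      · exfalso
        have hlv : l * v * l⁻¹ = v * z := by
          rw [mul_inv_eq_iff_eq_mul] at h1
          rw [h1, hzc]
        have hava : a * v * a⁻¹ = v * z := H.va
        have haf : a * f = f * a := H.h.Acomm a H.aA f hfA
        have hcC : ∀ u ∈ V, (l * a) * u = u * (l * a) := by
          apply hspan
          · rw [mul_assoc, haf, ← mul_assoc, hlf, mul_assoc]
          · rw [← mul_inv_eq_iff_eq_mul]
            calc l * a * v * (l * a)⁻¹ = l * (a * v * a⁻¹) * l⁻¹ := by group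
              _ = (l * v * l⁻¹) * (l * z * l⁻¹) := by rw [hava]; group
              _ = v * (z * z) := by rw [hlv, hzc l, mul_inv_cancel_right]; group
              _ = v := by rw [hzz, mul_one]
        -- `l a` commutes with `b`
        have hcb : (l * a) * b = b * (l * a) := by
          by_cases hcV : l * a ∈ V
          · exact (hb.bC _ hcV).symm
          · have h2 := hCV _ hcC hcV
            have h3 := hb.bC _ h2
            have h4 : b * ((l * a) * b) = ((l * a) * b) * b := h3
            have h5 : (b * (l * a)) * b = ((l * a) * b) * b := by rw [← h4]; group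
            exact (mul_right_cancel h5).symm
        have hcf : (l * a) * f = f * (l * a) := hcC f hfV
        have haa := H.aa
        have hbf : l * b * l⁻¹ * b⁻¹ = f := by
          have h2 : a * b * a⁻¹ = b * f := hba
          have hl : l = (l * a) * a := by rw [mul_assoc, haa, mul_one]
          have hai : a⁻¹ = a := H.ainv
          calc l * b * l⁻¹ * b⁻¹ = ((l * a) * a) * b * ((l * a) * a)⁻¹ * b⁻¹ := by rw [← hl]
            _ = (l * a) * (a * b * a⁻¹) * (l * a)⁻¹ * b⁻¹ := by group
            _ = ((l * a) * b) * f * (l * a)⁻¹ * b⁻¹ := by rw [h2]; group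
            _ = b * ((l * a) * f) * (l * a)⁻¹ * b⁻¹ := by rw [hcb]; group
            _ = b * f * b⁻¹ := by rw [hcf]; group
            _ = f := by rw [hb.bC f hfV]; group
        rcases hL l hl b hb.bC with h2 | h2
        · exact hf1 (hbf.symm.trans h2)
        · exact hfz (hbf.symm.trans h2)
    refine card_le_two L _ (fun s hs s' hs' hsC hs'C => ?_)
    have key : ∀ s ∈ L, s ∉ Subgroup.centralizer (V : Set S) → s * f * s⁻¹ = z * f := by
      intro s hs hsC
      rcases hL s hs f (fun u hu => H.h.Vcomm f hfV u hu) with h1 | h1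
      · exfalso
        rw [mul_inv_eq_one, mul_inv_eq_iff_eq_mul] at h1
        exact hsC (H.memC.2 (claim s hs h1))
      · rwa [mul_inv_eq_iff_eq_mul] at h1
    have k1 := key s hs hsC
    have k2 := key s' hs' hs'C
    apply H.memC.2
    apply claim _ (L.mul_mem (L.inv_mem hs) hs')
    rw [← mul_inv_eq_iff_eq_mul]
    calc s⁻¹ * s' * f * (s⁻¹ * s')⁻¹ = s⁻¹ * (s' * f * s'⁻¹) * s := by group
      _ = s⁻¹ * (s * f * s⁻¹) * s := by rw [k2, k1]
      _ = f := by group

end Cfsg.Agent.H47.HarB2
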