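import Cfsg.Agent.H47.HarD
import Cfsg.Agent.H78.HarG

set_option autoImplicit false

namespace Cfsg.Agent.H47.HarD

open Subgroup Cfsg.Agent.H20.Har

variable {S : Type*} [Group S] [Finite S]

theorem caseD {A V : Subgroup S} (h : HS A V) (V16 : Nat.card V = 16)
    (X4 : Nat.card ↥(A ⊓ V) = 4) : R4 S :=
  caseD_of h V16 X4
    (fun hCV F hVF hfree hS hF hcom => H78.HarG.f16 h.two V h.Vn h.Vcomm h.Vsq V16 hCV F hVF hfree hS hF hcom)
    (fun hCV G a t haa hG hG64 hfree htG htV htt htS =>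
      H78.HarG.g16 h.two V h.Vn h.Vcomm h.Vsq V16 hCV G a t haa hG hG64 hfree htG htV htt htS)

end Cfsg.Agent.H47.HarD
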