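import Cfsg.Agent.H47.Mod5

set_option autoImplicit false
set_option linter.unusedSectionVars false
set_option linter.style.haveILetI false
open Cfsg Subgroup
open scoped commutatorElement

namespace Cfsg.Agent.H47

universe u

section
variable {H : Type u} [Group H] {p q : ℕ} {𝒱 : Set (Subgroup H)}

/-- the conclusion when the critical distance is two -/
structure Case2 (p q : ℕ) (G Z C V : Subgroup H) : Prop where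
  p3 : p = 3
  ZC : Z ≤ C
  CV : C ≤ V
  VT : V ≤ pCoreOf p G
  nZ : G ≤ normalizer (Z : Set H)
  nV : G ≤ normalizer (V : Set H)
  cent : Z ≤ centralizer (pCoreOf p G : Set H)
  pow : ∀ z ∈ Z, z ^ p = 1
  nat1 : NatS p q G Z ⊥
  nat2 : NatS p q G V Z
  eC : C = cz V Z G
  res : ⁅pCoreOf p G, pRes p G⁆ ≤ V
  cls3 : ∀ P, SylIn p P G → ⁅⁅⁅P, P⁆, P⁆, P⁆ = ⊥
  cls2 : ∀ P, SylIn p P G → ⁅⁅P, P⁆, P⁆ ≠ ⊥
  exp9 : ∀ P, SylIn p P G → ∀ x ∈ P, x ^ 9 = 1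
  exp3 : ∀ P, SylIn p P G → ∃ x ∈ P, x ^ 3 ≠ 1

theorem dedekind_of {A X B : Subgroup H} (hn : A ≤ normalizer (X : Set H)) (hAB : A ≤ B) (hB : B ≤ A ⊔ X) :
    B = A ⊔ (B ⊓ X) := by
  apply le_antisymm
  · intro b hb
    have h1 := hB hb
    rw [mem_sup_of_le_normalizer hn] at h1
    obtain ⟨a, ha, x, hx, rfl⟩ := h1
    have h2 : x ∈ B := by
      have : x = a⁻¹ * (a * x) := by group
      rw [this]
      exact mul_mem (inv_mem (hAB ha)) hb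
    exact mul_mem (mem_sup_left ha) (mem_sup_right ⟨h2, hx⟩)
  · exact sup_le hAB inf_le_left

variable [Finite H] [Fact p.Prime] {G : Subgroup H}

/-- the data of a path of length three with critical distance two -/
structure P3 (p q : ℕ) (𝒱 : Set (Subgroup H)) (G₀ G₁ G₂ G₃ P₀ P₁ P₂ : Subgroup H) : Prop where
  crt : Crt p q 𝒱 2
  m0 : G₀ ∈ 𝒱
  m1 : G₁ ∈ 𝒱
  m2 : G₂ ∈ 𝒱
  m3 : G₃ ∈ 𝒱
  s0 : SylIn p P₀ G₀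
  s0' : SylIn p P₀ G₁
  s1 : SylIn p P₁ G₁
  s1' : SylIn p P₁ G₂
  s2 : SylIn p P₂ G₂
  s2' : SylIn p P₂ G₃
  e0 : ZV p G₂ ⊔ pCoreOf p G₀ = P₀
  e1 : ZV p G₀ ⊔ pCoreOf p G₂ = P₁
  e1' : ZV p G₃ ⊔ pCoreOf p G₁ = P₁
  e2 : ZV p G₁ ⊔ pCoreOf p G₃ = P₂
  nle : ¬ ZV p G₃ ≤ pCoreOf p G₁

theorem Pt.p3 {M : ℕ} {δ P : ℕ → Subgroup H} (h : Pt p q 𝒱 1 0 M δ P) (hM : 3 ≤ M) :
    P3 p q 𝒱 (δ 0) (δ 1) (δ 2) (δ 3) (P 0) (P 1) (P 2) := by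
  have h0 := h.cpt 0 (by omega)
  have h1 := h.cpt 1 (by omega)
  exact ⟨h.crt, h.wk.mem 0 (by omega), h.wk.mem 1 (by omega), h.wk.mem 2 (by omega), h.wk.mem 3 (by omega),
    h.wk.syl 0 (by omega), h.wk.syl' 0 (by omega), h.wk.syl 1 (by omega), h.wk.syl' 1 (by omega),
    h.wk.syl 2 (by omega), h.wk.syl' 2 (by omega), h0.sup_eq, h0.symm.sup_eq, h1.sup_eq, h1.symm.sup_eq, h1.nle'⟩

namespace P3
variable {G₀ G₁ G₂ G₃ P₀ P₁ P₂ : Subgroup H}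

theorem cr (h : P3 p q 𝒱 G₀ G₁ G₂ G₃ P₀ P₁ P₂) : Crt p q 𝒱 (1 + 1) := h.crt

theorem z01 (h : P3 p q 𝒱 G₀ G₁ G₂ G₃ P₀ P₁ P₂) : ZV p G₀ ≤ pCoreOf p G₁ :=
  h.cr.adj_le le_rfl h.m1 h.m0 h.s0' h.s0
theorem z10 (h : P3 p q 𝒱 G₀ G₁ G₂ G₃ P₀ P₁ P₂) : ZV p G₁ ≤ pCoreOf p G₀ :=
  h.cr.adj_le le_rfl h.m0 h.m1 h.s0 h.s0'
theorem z12 (h : P3 p q 𝒱 G₀ G₁ G₂ G₃ P₀ P₁ P₂) : ZV p G₁ ≤ pCoreOf p G₂ :=
  h.cr.adj_le le_rfl h.m2 h.m1 h.s1' h.s1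
theorem z21 (h : P3 p q 𝒱 G₀ G₁ G₂ G₃ P₀ P₁ P₂) : ZV p G₂ ≤ pCoreOf p G₁ :=
  h.cr.adj_le le_rfl h.m1 h.m2 h.s1 h.s1'
theorem z32 (h : P3 p q 𝒱 G₀ G₁ G₂ G₃ P₀ P₁ P₂) : ZV p G₃ ≤ pCoreOf p G₂ :=
  h.cr.adj_le le_rfl h.m2 h.m3 h.s2 h.s2'
theorem z23 (h : P3 p q 𝒱 G₀ G₁ G₂ G₃ P₀ P₁ P₂) : ZV p G₂ ≤ pCoreOf p G₃ :=
  h.cr.adj_le le_rfl h.m3 h.m2 h.s2' h.s2
theorem z0P (h : P3 p q 𝒱 G₀ G₁ G₂ G₃ P₀ P₁ P₂) : ZV p G₀ ≤ P₁ := by rw [← h.e1]; exact le_sup_left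
theorem z3P (h : P3 p q 𝒱 G₀ G₁ G₂ G₃ P₀ P₁ P₂) : ZV p G₃ ≤ P₁ := by rw [← h.e1']; exact le_sup_left
theorem z1P (h : P3 p q 𝒱 G₀ G₁ G₂ G₃ P₀ P₁ P₂) : ZV p G₁ ≤ P₁ := h.z12.trans (pCoreOf_le_sylIn h.s1')
theorem z2P (h : P3 p q 𝒱 G₀ G₁ G₂ G₃ P₀ P₁ P₂) : ZV p G₂ ≤ P₁ := h.z21.trans (pCoreOf_le_sylIn h.s1)
theorem t1P (h : P3 p q 𝒱 G₀ G₁ G₂ G₃ P₀ P₁ P₂) : pCoreOf p G₁ ≤ P₁ := pCoreOf_le_sylIn h.s1
theorem t2P (h : P3 p q 𝒱 G₀ G₁ G₂ G₃ P₀ P₁ P₂) : pCoreOf p G₂ ≤ P₁ := pCoreOf_le_sylIn h.s1'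
theorem nT1 (h : P3 p q 𝒱 G₀ G₁ G₂ G₃ P₀ P₁ P₂) : P₁ ≤ normalizer ((pCoreOf p G₁ : Subgroup H) : Set H) :=
  h.s1.le.trans pCoreOf_normal_mem
theorem nT2 (h : P3 p q 𝒱 G₀ G₁ G₂ G₃ P₀ P₁ P₂) : P₁ ≤ normalizer ((pCoreOf p G₂ : Subgroup H) : Set H) :=
  h.s1'.le.trans pCoreOf_normal_mem

/-- `T₁ = Z₀ (T₁ ∩ T₂)` -/
theorem f1 (h : P3 p q 𝒱 G₀ G₁ G₂ G₃ P₀ P₁ P₂) : pCoreOf p G₁ = ZV p G₀ ⊔ (pCoreOf p G₁ ⊓ pCoreOf p G₂) :=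
  dedekind_of (h.z0P.trans h.nT2) h.z01 (by rw [h.e1]; exact h.t1P)

theorem f2 (h : P3 p q 𝒱 G₀ G₁ G₂ G₃ P₀ P₁ P₂) : pCoreOf p G₁ = ZV p G₂ ⊔ (pCoreOf p G₁ ⊓ pCoreOf p G₀) := by
  refine dedekind_of ?_ h.z21 (by rw [h.e0]; exact pCoreOf_le_sylIn h.s0')
  have : ZV p G₂ ≤ P₀ := by rw [← h.e0]; exact le_sup_left
  exact this.trans (h.s0.le.trans pCoreOf_normal_mem)

theorem f3 (h : P3 p q 𝒱 G₀ G₁ G₂ G₃ P₀ P₁ P₂) : pCoreOf p G₂ = ZV p G₃ ⊔ (pCoreOf p G₂ ⊓ pCoreOf p G₁) :=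
  dedekind_of (h.z3P.trans h.nT1) h.z32 (by rw [h.e1']; exact h.t2P)

theorem f4 (h : P3 p q 𝒱 G₀ G₁ G₂ G₃ P₀ P₁ P₂) : pCoreOf p G₂ = ZV p G₁ ⊔ (pCoreOf p G₂ ⊓ pCoreOf p G₃) := by
  refine dedekind_of ?_ h.z12 (by rw [h.e2]; exact pCoreOf_le_sylIn h.s2)
  have : ZV p G₁ ≤ P₂ := by rw [← h.e2]; exact le_sup_left
  exact this.trans (h.s2'.le.trans pCoreOf_normal_mem)

/-- `T₁ ∩ T₂ = Z₂ (T₀ ∩ T₁ ∩ T₂)` -/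
theorem f5 (h : P3 p q 𝒱 G₀ G₁ G₂ G₃ P₀ P₁ P₂) : pCoreOf p G₁ ⊓ pCoreOf p G₂ =
    ZV p G₂ ⊔ (pCoreOf p G₁ ⊓ pCoreOf p G₂ ⊓ (pCoreOf p G₁ ⊓ pCoreOf p G₀)) := by
  refine dedekind_of ?_ (le_inf h.z21 (h.cr.am.vtx _ h.m2).ZV_le) (by rw [← h.f2]; exact inf_le_left)
  have : ZV p G₂ ≤ P₀ := by rw [← h.e0]; exact le_sup_left
  exact le_normalizer_inf (this.trans (h.s0'.le.trans pCoreOf_normal_mem))
    (this.trans (h.s0.le.trans pCoreOf_normal_mem))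

/-- the intersection of the four cores -/
def F (p : ℕ) (G₀ G₁ G₂ G₃ : Subgroup H) : Subgroup H :=
  pCoreOf p G₀ ⊓ pCoreOf p G₁ ⊓ (pCoreOf p G₂ ⊓ pCoreOf p G₃)

theorem f6 (h : P3 p q 𝒱 G₀ G₁ G₂ G₃ P₀ P₁ P₂) :
    pCoreOf p G₁ ⊓ pCoreOf p G₂ ⊓ (pCoreOf p G₁ ⊓ pCoreOf p G₀) = ZV p G₁ ⊔ F p G₀ G₁ G₂ G₃ := by
  have h1 : pCoreOf p G₁ ⊓ pCoreOf p G₂ ⊓ (pCoreOf p G₁ ⊓ pCoreOf p G₀) =
      ZV p G₁ ⊔ (pCoreOf p G₁ ⊓ pCoreOf p G₂ ⊓ (pCoreOf p G₁ ⊓ pCoreOf p G₀) ⊓ (pCoreOf p G₂ ⊓ pCoreOf p G₃)) := by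
    refine dedekind_of ?_ (le_inf (le_inf (h.cr.am.vtx _ h.m1).ZV_le h.z12) (le_inf (h.cr.am.vtx _ h.m1).ZV_le h.z10))
      (by rw [← h.f4]; exact inf_le_left.trans inf_le_right)
    have : ZV p G₁ ≤ P₂ := by rw [← h.e2]; exact le_sup_left
    exact le_normalizer_inf (this.trans (h.s2.le.trans pCoreOf_normal_mem))
      (this.trans (h.s2'.le.trans pCoreOf_normal_mem))
  rw [h1]
  congr 1
  unfold F
  apply le_antisymm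
  · exact le_inf (le_inf (inf_le_left.trans (inf_le_right.trans inf_le_right))
      (inf_le_left.trans (inf_le_left.trans inf_le_left))) inf_le_right
  · exact le_inf (le_inf (le_inf (inf_le_left.trans inf_le_right) (inf_le_right.trans inf_le_left))
      (le_inf (inf_le_left.trans inf_le_right) (inf_le_left.trans inf_le_left))) inf_le_right

/-- `T₁ = Z₀ Z₂ Z₁ F` -/
theorem f7 (h : P3 p q 𝒱 G₀ G₁ G₂ G₃ P₀ P₁ P₂) :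
    pCoreOf p G₁ = ZV p G₀ ⊔ (ZV p G₂ ⊔ (ZV p G₁ ⊔ F p G₀ G₁ G₂ G₃)) := by
  conv_lhs => rw [h.f1, h.f5, h.f6]

/-- `P₁ = Z₃ Z₀ Z₂ Z₁ F` -/
theorem f8 (h : P3 p q 𝒱 G₀ G₁ G₂ G₃ P₀ P₁ P₂) :
    P₁ = ZV p G₃ ⊔ (ZV p G₀ ⊔ (ZV p G₂ ⊔ (ZV p G₁ ⊔ F p G₀ G₁ G₂ G₃))) := by
  rw [← h.f7, h.e1']

theorem F_le_P (h : P3 p q 𝒱 G₀ G₁ G₂ G₃ P₀ P₁ P₂) : F p G₀ G₁ G₂ G₃ ≤ P₁ :=
  (inf_le_left.trans inf_le_right).trans h.t1P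

theorem F_le_T (_h : P3 p q 𝒱 G₀ G₁ G₂ G₃ P₀ P₁ P₂) : F p G₀ G₁ G₂ G₃ ≤ pCoreOf p G₁ :=
  inf_le_left.trans inf_le_right

theorem zF (h : P3 p q 𝒱 G₀ G₁ G₂ G₃ P₀ P₁ P₂) : ZV p G₀ ≤ centralizer (F p G₀ G₁ G₂ G₃ : Set H) ∧
    ZV p G₁ ≤ centralizer (F p G₀ G₁ G₂ G₃ : Set H) ∧ ZV p G₂ ≤ centralizer (F p G₀ G₁ G₂ G₃ : Set H) ∧
    ZV p G₃ ≤ centralizer (F p G₀ G₁ G₂ G₃ : Set H) :=
  ⟨(h.cr.am.vtx _ h.m0).ZV_cent.trans (centralizer_le (inf_le_left.trans inf_le_left)),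
   (h.cr.am.vtx _ h.m1).ZV_cent.trans (centralizer_le (inf_le_left.trans inf_le_right)),
   (h.cr.am.vtx _ h.m2).ZV_cent.trans (centralizer_le (inf_le_right.trans inf_le_left)),
   (h.cr.am.vtx _ h.m3).ZV_cent.trans (centralizer_le (inf_le_right.trans inf_le_right))⟩

/-- commutators with `P₁` -/
theorem comm5 (h : P3 p q 𝒱 G₀ G₁ G₂ G₃ P₀ P₁ P₂) {N C : Subgroup H} (hN : P₁ ≤ normalizer (N : Set H))
    (c3 : ⁅ZV p G₃, C⁆ ≤ N) (c0 : ⁅ZV p G₀, C⁆ ≤ N) (c2 : ⁅ZV p G₂, C⁆ ≤ N) (c1 : ⁅ZV p G₁, C⁆ ≤ N)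
    (cF : ⁅F p G₀ G₁ G₂ G₃, C⁆ ≤ N) : ⁅P₁, C⁆ ≤ N := by
  have n3 := h.z3P.trans hN
  have n0 := h.z0P.trans hN
  have n2 := h.z2P.trans hN
  have n1 := h.z1P.trans hN
  have nF := h.F_le_P.trans hN
  rw [h.f8]
  exact comm_sup_le n3 (sup_le n0 (sup_le n2 (sup_le n1 nF))) c3 (comm_sup_le n0 (sup_le n2 (sup_le n1 nF)) c0
    (comm_sup_le n2 (sup_le n1 nF) c2 (comm_sup_le n1 nF c1 cF)))

theorem cZ0 (h : P3 p q 𝒱 G₀ G₁ G₂ G₃ P₀ P₁ P₂) : ZV p G₀ ≤ VG p 𝒱 G₁ := (le_VV h.m0 h.s0).trans (VV_le_VG h.s0')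
theorem cZ2 (h : P3 p q 𝒱 G₀ G₁ G₂ G₃ P₀ P₁ P₂) : ZV p G₂ ≤ VG p 𝒱 G₁ := (le_VV h.m2 h.s1').trans (VV_le_VG h.s1)
theorem cZ1 (h : P3 p q 𝒱 G₀ G₁ G₂ G₃ P₀ P₁ P₂) : ZV p G₁ ≤ VG p 𝒱 G₁ := h.cr.ZV_le_VG h.m1
theorem dZ1 (h : P3 p q 𝒱 G₀ G₁ G₂ G₃ P₀ P₁ P₂) : ZV p G₁ ≤ VG p 𝒱 G₂ := (le_VV h.m1 h.s1).trans (VV_le_VG h.s1')
theorem dZ3 (h : P3 p q 𝒱 G₀ G₁ G₂ G₃ P₀ P₁ P₂) : ZV p G₃ ≤ VG p 𝒱 G₂ := (le_VV h.m3 h.s2').trans (VV_le_VG h.s2)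
theorem dZ2 (h : P3 p q 𝒱 G₀ G₁ G₂ G₃ P₀ P₁ P₂) : ZV p G₂ ≤ VG p 𝒱 G₂ := h.cr.ZV_le_VG h.m2

theorem nV1 (h : P3 p q 𝒱 G₀ G₁ G₂ G₃ P₀ P₁ P₂) : P₁ ≤ normalizer (VG p 𝒱 G₁ : Set H) :=
  h.s1.le.trans (h.cr.am.le_normalizer_VG _)
theorem nV2 (h : P3 p q 𝒱 G₀ G₁ G₂ G₃ P₀ P₁ P₂) : P₁ ≤ normalizer (VG p 𝒱 G₂ : Set H) :=
  h.s1'.le.trans (h.cr.am.le_normalizer_VG _)

/-- `[T₁, O^p(G₁)] ≤ V₁` -/
theorem res (h : P3 p q 𝒱 G₀ G₁ G₂ G₃ P₀ P₁ P₂) : ⁅pCoreOf p G₁, pRes p G₁⁆ ≤ VG p 𝒱 G₁ := by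
  have h1 : ⁅pCoreOf p G₁, ZV p G₃⁆ ≤ VG p 𝒱 G₁ := by
    rw [h.f1]
    apply comm_sup_le (h.z0P.trans h.nV1) ((inf_le_left.trans h.t1P).trans h.nV1)
    · refine (commutator_mono h.cZ0 le_rfl).trans ?_
      rw [← le_normalizer_iff_commutator_le_left]
      exact h.z3P.trans h.nV1
    · calc ⁅pCoreOf p G₁ ⊓ pCoreOf p G₂, ZV p G₃⁆ ≤ ⁅pCoreOf p G₂, VG p 𝒱 G₂⁆ := commutator_mono inf_le_right h.dZ3
        _ = ⁅VG p 𝒱 G₂, pCoreOf p G₂⁆ := commutator_comm _ _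
        _ ≤ cz (ZV p G₂) ⊥ G₂ := h.cr.VG_T le_rfl h.m2
        _ ≤ ZV p G₂ := cz_le
        _ ≤ VG p 𝒱 G₁ := h.cZ2
  have hN : ∀ g ∈ G₁, g ∈ normalizer ((cmod (pCoreOf p G₁) (VG p 𝒱 G₁) : Subgroup H) : Set H) := fun g hg =>
    mem_normalizer_cmod (pCoreOf_normal_mem hg) (h.cr.am.le_normalizer_VG _ hg)
  have hcov : (G₁ ⊓ cmod (pCoreOf p G₁) (VG p 𝒱 G₁)) ⊔ P₁ = G₁ := by
    rcases (h.cr.am.vtx G₁ h.m1).dich h.s1 (N := G₁ ⊓ cmod (pCoreOf p G₁) (VG p 𝒱 G₁)) inf_le_left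
      (le_normalizer_inf le_normalizer hN) with h2 | h2
    · exact h2
    · exfalso
      apply h.nle
      refine le_trans ?_ h2
      refine le_inf (le_inf (h.z3P.trans h.s1.le) ?_) h.z3P
      rw [le_cmod_iff]
      exact ⟨h.z3P.trans h.nV1, h1⟩
  apply commutator_le_of_le_cmod
  rw [pRes_le_iff]
  intro x hx hxp
  obtain ⟨k, hk⟩ := pow_mem_of_sup h.s1.isPGroup (N := G₁ ⊓ cmod (pCoreOf p G₁) (VG p 𝒱 G₁))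
    (le_normalizer_inf (h.s1.le.trans le_normalizer) (fun g hg => hN g (h.s1.le hg))) (x := x)
    (by rw [sup_comm, hcov]; exact hx)
  exact mem_of_pow_mem hxp hk.2

theorem D_le_omega (h : P3 p q 𝒱 G₀ G₁ G₂ G₃ P₀ P₁ P₂) {G : Subgroup H} (hG : G ∈ 𝒱) (hs : SylIn p P₁ G) :
    cz (ZV p G) ⊥ G ≤ omegaOneCenter p P₁ := by
  rw [← (h.cr.am.vtx G hG).cz_omega hs]
  exact cz_anti hs.le

/-- `A = V₁ ∩ V₂` -/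
theorem comm_A (h : P3 p q 𝒱 G₀ G₁ G₂ G₃ P₀ P₁ P₂) : ⁅VG p 𝒱 G₁ ⊓ VG p 𝒱 G₂, P₁⁆ ≤ omegaOneCenter p P₁ := by
  have n1 : P₁ ≤ normalizer (omegaOneCenter p P₁ : Set H) := le_normalizer.trans (normalizer_le_normalizer_omega P₁)
  have d1 := (h.cr.VG_T le_rfl h.m1).trans (h.D_le_omega h.m1 h.s1)
  have d2 := (h.cr.VG_T le_rfl h.m2).trans (h.D_le_omega h.m2 h.s1')
  rw [commutator_comm]
  apply h.comm5 n1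
  · rw [commutator_comm]
    exact (commutator_mono inf_le_right h.z32).trans d2
  · rw [commutator_comm]
    exact (commutator_mono inf_le_left h.z01).trans d1
  · rw [commutator_comm]
    exact (commutator_mono inf_le_left h.z21).trans d1
  · rw [commutator_comm]
    exact (commutator_mono inf_le_right h.z12).trans d2
  · rw [commutator_comm]
    exact (commutator_mono inf_le_left h.F_le_T).trans d1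

theorem comm_PP (h : P3 p q 𝒱 G₀ G₁ G₂ G₃ P₀ P₁ P₂) :
    ⁅P₁, P₁⁆ ≤ (VG p 𝒱 G₁ ⊓ VG p 𝒱 G₂) ⊔ ⁅F p G₀ G₁ G₂ G₃, F p G₀ G₁ G₂ G₃⁆ := by
  obtain ⟨a0, a1, a2, a3⟩ := h.zF
  set F' := F p G₀ G₁ G₂ G₃ with hF'
  set N := (VG p 𝒱 G₁ ⊓ VG p 𝒱 G₂) ⊔ ⁅F', F'⁆ with hN
  have nA : P₁ ≤ normalizer ((VG p 𝒱 G₁ ⊓ VG p 𝒱 G₂ : Subgroup H) : Set H) := le_normalizer_inf h.nV1 h.nV2
  have hFF : ⁅F', F'⁆ ≤ F' := commutator_le_self _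
  have nz : ∀ X : Subgroup H, X ≤ centralizer (F' : Set H) → X ≤ normalizer ((⁅F', F'⁆ : Subgroup H) : Set H) := fun X hX =>
    (hX.trans (centralizer_le hFF)).trans (centralizer_le_normalizer _)
  have nF : P₁ ≤ normalizer ((⁅F', F'⁆ : Subgroup H) : Set H) := by
    rw [h.f8]
    exact sup_le (nz _ a3) (sup_le (nz _ a0) (sup_le (nz _ a2) (sup_le (nz _ a1)
      (le_normalizer_commutator le_normalizer le_normalizer))))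
  have nN : P₁ ≤ normalizer (N : Set H) := le_normalizer_sup nA nF
  have hz : ∀ {X Y : Subgroup H}, X ≤ centralizer (Y : Set H) → ⁅X, Y⁆ ≤ N := fun hX => by
    rw [commutator_eq_bot_iff_le_centralizer.2 hX]; exact bot_le
  have hz' : ∀ {X Y : Subgroup H}, X ≤ centralizer (Y : Set H) → ⁅Y, X⁆ ≤ N := fun hX => by
    rw [commutator_comm]; exact hz hX
  have v0 := (h.cr.am.vtx _ h.m0)
  have v1 := (h.cr.am.vtx _ h.m1)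
  have v2 := (h.cr.am.vtx _ h.m2)
  have v3 := (h.cr.am.vtx _ h.m3)
  have hA : ∀ {X : Subgroup H}, X ≤ VG p 𝒱 G₁ → X ≤ VG p 𝒱 G₂ → ⁅X, P₁⁆ ≤ N := fun h1 h2 =>
    ((commutator_mono (le_inf h1 h2) le_rfl).trans (by
      rw [← le_normalizer_iff_commutator_le_left]; exact nA)).trans le_sup_left
  have k1 : ⁅ZV p G₁, P₁⁆ ≤ N := hA h.cZ1 h.dZ1
  have k2 : ⁅ZV p G₂, P₁⁆ ≤ N := hA h.cZ2 h.dZ2
  have k12 : ∀ {X : Subgroup H}, X ≤ P₁ → ⁅ZV p G₁, X⁆ ≤ N := fun hX => (commutator_mono le_rfl hX).trans k1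
  have k22 : ∀ {X : Subgroup H}, X ≤ P₁ → ⁅ZV p G₂, X⁆ ≤ N := fun hX => (commutator_mono le_rfl hX).trans k2
  -- [Z₃, Z₀]
  have k30 : ⁅ZV p G₃, ZV p G₀⁆ ≤ N := by
    refine le_trans (le_inf ?_ ?_) le_sup_left
    · refine (commutator_mono le_rfl h.cZ0).trans ?_
      rw [← le_normalizer_iff_commutator_le_right]; exact h.z3P.trans h.nV1
    · refine (commutator_mono h.dZ3 le_rfl).trans ?_
      rw [← le_normalizer_iff_commutator_le_left]; exact h.z0P.trans h.nV2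
  have k3 : ⁅ZV p G₃, P₁⁆ ≤ N := by
    rw [commutator_comm]
    refine h.comm5 nN (hz v3.ZV_comm) (by rw [commutator_comm]; exact k30) (k22 h.z3P) (k12 h.z3P) (hz' a3)
  have k0 : ⁅ZV p G₀, P₁⁆ ≤ N := by
    rw [commutator_comm]
    refine h.comm5 nN k30 (hz v0.ZV_comm) (k22 h.z0P) (k12 h.z0P) (hz' a0)
  refine h.comm5 nN k3 k0 k2 k1 ?_
  rw [commutator_comm]
  exact h.comm5 nN (hz a3) (hz a0) (hz a2) (hz a1) le_sup_right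

theorem gamma3 (h : P3 p q 𝒱 G₀ G₁ G₂ G₃ P₀ P₁ P₂) : ⁅⁅P₁, P₁⁆, P₁⁆ ≤
    omegaOneCenter p P₁ ⊔ ⁅⁅F p G₀ G₁ G₂ G₃, F p G₀ G₁ G₂ G₃⁆, F p G₀ G₁ G₂ G₃⁆ := by
  obtain ⟨a0, a1, a2, a3⟩ := h.zF
  have hAc := h.comm_A
  have hPP := h.comm_PP
  have h8 := h.f8
  set F' := F p G₀ G₁ G₂ G₃ with hF'
  set N := omegaOneCenter p P₁ ⊔ ⁅⁅F', F'⁆, F'⁆ with hN
  have hFF : ⁅F', F'⁆ ≤ F' := commutator_le_self _
  have hFFF : ⁅⁅F', F'⁆, F'⁆ ≤ F' := (commutator_mono hFF le_rfl).trans hFF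
  have nz : ∀ X : Subgroup H, X ≤ centralizer (F' : Set H) → X ≤ normalizer ((⁅⁅F', F'⁆, F'⁆ : Subgroup H) : Set H) := fun X hX =>
    (hX.trans (centralizer_le hFFF)).trans (centralizer_le_normalizer _)
  have nF : P₁ ≤ normalizer ((⁅⁅F', F'⁆, F'⁆ : Subgroup H) : Set H) := by
    rw [h8]
    exact sup_le (nz _ a3) (sup_le (nz _ a0) (sup_le (nz _ a2) (sup_le (nz _ a1)
      (le_normalizer_commutator (le_normalizer_commutator le_normalizer le_normalizer) le_normalizer))))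
  have n1 : P₁ ≤ normalizer (omegaOneCenter p P₁ : Set H) := le_normalizer.trans (normalizer_le_normalizer_omega P₁)
  have nN : P₁ ≤ normalizer (N : Set H) := le_normalizer_sup n1 nF
  have hz : ∀ {X : Subgroup H}, X ≤ centralizer (F' : Set H) → ⁅X, ⁅F', F'⁆⁆ ≤ N := fun hX => by
    rw [commutator_eq_bot_iff_le_centralizer.2 (hX.trans (centralizer_le hFF))]; exact bot_le
  refine (commutator_mono hPP le_rfl).trans (comm_sup_le ?_ ?_ ?_ ?_)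
  · exact ((inf_le_left.trans (h.cr.VG_le_core le_rfl h.m1)).trans h.t1P).trans nN
  · exact (hFF.trans h.F_le_P).trans nN
  · exact hAc.trans le_sup_left
  · rw [commutator_comm]
    refine h.comm5 nN (hz a3) (hz a0) (hz a2) (hz a1) ?_
    rw [commutator_comm]; exact le_sup_right

theorem gamma4 (h : P3 p q 𝒱 G₀ G₁ G₂ G₃ P₀ P₁ P₂) : ⁅⁅⁅P₁, P₁⁆, P₁⁆, P₁⁆ = ⊥ := by
  obtain ⟨a0, a1, a2, a3⟩ := h.zF
  have hg3 := h.gamma3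
  have h8 := h.f8
  set F' := F p G₀ G₁ G₂ G₃ with hF'
  have hFF : ⁅F', F'⁆ ≤ F' := commutator_le_self _
  have hFFF : ⁅⁅F', F'⁆, F'⁆ ≤ F' := (commutator_mono hFF le_rfl).trans hFF
  have hFFFF : ⁅⁅⁅F', F'⁆, F'⁆, F'⁆ ≤ F' := (commutator_mono hFFF le_rfl).trans hFF
  have nz : ∀ X : Subgroup H, X ≤ centralizer (F' : Set H) → X ≤ normalizer ((⁅⁅⁅F', F'⁆, F'⁆, F'⁆ : Subgroup H) : Set H) :=
    fun X hX => (hX.trans (centralizer_le hFFFF)).trans (centralizer_le_normalizer _)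
  have nF : P₁ ≤ normalizer ((⁅⁅⁅F', F'⁆, F'⁆, F'⁆ : Subgroup H) : Set H) := by
    rw [h8]
    exact sup_le (nz _ a3) (sup_le (nz _ a0) (sup_le (nz _ a2) (sup_le (nz _ a1)
      (le_normalizer_commutator (le_normalizer_commutator (le_normalizer_commutator le_normalizer le_normalizer)
        le_normalizer) le_normalizer))))
  have hz : ∀ {X : Subgroup H}, X ≤ centralizer (F' : Set H) → ⁅X, ⁅⁅F', F'⁆, F'⁆⁆ ≤ ⁅⁅⁅F', F'⁆, F'⁆, F'⁆ :=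
    fun hX => by
      rw [commutator_eq_bot_iff_le_centralizer.2 (hX.trans (centralizer_le hFFF))]; exact bot_le
  have h1 : ⁅⁅⁅P₁, P₁⁆, P₁⁆, P₁⁆ ≤ ⁅⁅⁅F', F'⁆, F'⁆, F'⁆ := by
    refine (commutator_mono hg3 le_rfl).trans (comm_sup_le ?_ ?_ ?_ ?_)
    · exact Crt.omega_le_self.trans nF
    · exact (hFFF.trans h.F_le_P).trans nF
    · rw [commutator_eq_bot_iff_le_centralizer.2 Crt.omega_le_cent]; exact bot_le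
    · rw [commutator_comm]
      refine h.comm5 nF (hz a3) (hz a0) (hz a2) (hz a1) ?_
      rw [commutator_comm]
  have h3 : ⁅⁅⁅P₁, P₁⁆, P₁⁆, P₁⁆ = ⁅⁅⁅pCoreOf p G₁, pCoreOf p G₁⁆, pCoreOf p G₁⁆, pCoreOf p G₁⁆ := by
    apply le_antisymm
    · exact h1.trans (commutator_mono (commutator_mono (commutator_mono h.F_le_T h.F_le_T) h.F_le_T) h.F_le_T)
    · exact commutator_mono (commutator_mono (commutator_mono h.t1P h.t1P) h.t1P) h.t1P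
  apply h.crt.am.eq_bot h.m1 h.s1
  · exact (commutator_mono ((commutator_mono (commutator_le_self P₁) le_rfl).trans (commutator_le_self P₁))
      le_rfl).trans (commutator_le_self P₁)
  · rw [h3]
    exact le_normalizer_commutator (le_normalizer_commutator (le_normalizer_commutator pCoreOf_normal_mem
      pCoreOf_normal_mem) pCoreOf_normal_mem) pCoreOf_normal_mem
  · exact le_normalizer_commutator (le_normalizer_commutator (le_normalizer_commutator le_rfl le_rfl) le_rfl) le_rfl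

end P3
end

end Cfsg.Agent.H47
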