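import Cfsg.Agent.H47.Amal8

set_option autoImplicit false
set_option linter.unusedSectionVars false
set_option linter.style.haveILetI false
open Cfsg Subgroup
open scoped commutatorElement

namespace Cfsg.Agent.H47

universe u

section
variable {H : Type u} [Group H] [Finite H]

theorem cube_mul {P E : Subgroup H} (hEP : E ≤ P) (hE : P ≤ centralizer (E : Set H)) {x y : H} (hx : x ∈ P)
    (hy : y ∈ P) (hc1 : ⁅⁅y, x⁆, x⁆ ∈ E) (hc2 : ⁅⁅y, x⁆, y⁆ ∈ E) (hx3 : x ^ 3 ∈ E) (hy3 : y ^ 3 ∈ E) :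
    (x * y) ^ 3 ∈ E := by
  haveI hn : (E.subgroupOf P).Normal := normal_subgroupOf_of_le (hE.trans (centralizer_le_normalizer _))
  let mk := QuotientGroup.mk' (E.subgroupOf P)
  have hmk : ∀ z : P, mk z = 1 ↔ (z : H) ∈ E := by
    intro z
    change (QuotientGroup.mk z : P ⧸ E.subgroupOf P) = 1 ↔ _
    rw [QuotientGroup.eq_one_iff, mem_subgroupOf]
  let x' : P := ⟨x, hx⟩
  let y' : P := ⟨y, hy⟩
  have c1 : Commute ⁅mk y', mk x'⁆ (mk x') := by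
    rw [← commutatorElement_eq_one_iff_commute, ← map_commutatorElement, ← map_commutatorElement, hmk]
    exact hc1
  have c2 : Commute ⁅mk y', mk x'⁆ (mk y') := by
    rw [← commutatorElement_eq_one_iff_commute, ← map_commutatorElement, ← map_commutatorElement, hmk]
    exact hc2
  have hx3' : mk x' ^ 3 = 1 := by rw [← map_pow, hmk]; exact hx3
  have hy3' : mk y' ^ 3 = 1 := by rw [← map_pow, hmk]; exact hy3
  have h1 := mul_swap_c2 c1 c2 3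
  rw [hy3', one_mul, mul_one] at h1
  have h2 : ⁅mk y', mk x'⁆ ^ 3 = 1 := left_eq_mul.1 h1
  have h3 := mul_pow_c2 c1 c2 3
  rw [hx3', hy3', show Nat.choose 3 2 = 3 by decide, h2, one_mul, one_mul, ← map_mul, ← map_pow, hmk] at h3
  exact h3

end

section
variable {H : Type u} [Group H] {p q : ℕ} {𝒱 : Set (Subgroup H)} [Finite H] [Fact p.Prime]

theorem Amal.trans_syl (ha : Amal p q 𝒱) {G₁ P₁ G P : Subgroup H} (hG₁ : G₁ ∈ 𝒱) (hP₁ : SylIn p P₁ G₁)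
    (hG : G ∈ 𝒱) (hP : SylIn p P G) :
    ∃ h : H, G = G₁.map (MulAut.conj h).toMonoidHom ∧ P = P₁.map (MulAut.conj h).toMonoidHom := by
  obtain ⟨h, rfl⟩ := ha.trans G₁ hG₁ G hG
  obtain ⟨k, hk, hkP⟩ := (hP₁.map_conj h).conj hP
  refine ⟨k * h, ?_, ?_⟩
  · rw [map_conj_mul, norm_map_conj (le_normalizer hk)]
  · rw [map_conj_mul, hkP]

namespace P3
variable {G₀ G₁ G₂ G₃ P₀ P₁ P₂ : Subgroup H}

/-- the product of the four `Z`s -/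
def Q4 (p : ℕ) (G₀ G₁ G₂ G₃ : Subgroup H) : Subgroup H := ZV p G₃ ⊔ (ZV p G₀ ⊔ (ZV p G₂ ⊔ ZV p G₁))

theorem f9 (h : P3 p q 𝒱 G₀ G₁ G₂ G₃ P₀ P₁ P₂) : P₁ = Q4 p G₀ G₁ G₂ G₃ ⊔ F p G₀ G₁ G₂ G₃ := by
  unfold Q4
  rw [sup_assoc, sup_assoc, sup_assoc]
  exact h.f8

theorem Q4_cent (h : P3 p q 𝒱 G₀ G₁ G₂ G₃ P₀ P₁ P₂) : Q4 p G₀ G₁ G₂ G₃ ≤ centralizer (F p G₀ G₁ G₂ G₃ : Set H) := by
  obtain ⟨a0, a1, a2, a3⟩ := h.zF
  exact sup_le a3 (sup_le a0 (sup_le a2 a1))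

theorem Q4_le (h : P3 p q 𝒱 G₀ G₁ G₂ G₃ P₀ P₁ P₂) : Q4 p G₀ G₁ G₂ G₃ ≤ P₁ := by
  rw [h.f9]; exact le_sup_left

theorem comm4 (h : P3 p q 𝒱 G₀ G₁ G₂ G₃ P₀ P₁ P₂) {N C : Subgroup H} (hN : P₁ ≤ normalizer (N : Set H))
    (c3 : ⁅ZV p G₃, C⁆ ≤ N) (c0 : ⁅ZV p G₀, C⁆ ≤ N) (c2 : ⁅ZV p G₂, C⁆ ≤ N) (c1 : ⁅ZV p G₁, C⁆ ≤ N) :
    ⁅Q4 p G₀ G₁ G₂ G₃, C⁆ ≤ N := by
  have n3 := h.z3P.trans hN
  have n0 := h.z0P.trans hN
  have n2 := h.z2P.trans hN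
  have n1 := h.z1P.trans hN
  exact comm_sup_le n3 (sup_le n0 (sup_le n2 n1)) c3 (comm_sup_le n0 (sup_le n2 n1) c0 (comm_sup_le n2 n1 c2 c1))

theorem comm_QQ (h : P3 p q 𝒱 G₀ G₁ G₂ G₃ P₀ P₁ P₂) :
    ⁅Q4 p G₀ G₁ G₂ G₃, Q4 p G₀ G₁ G₂ G₃⁆ ≤ VG p 𝒱 G₁ ⊓ VG p 𝒱 G₂ := by
  set N := VG p 𝒱 G₁ ⊓ VG p 𝒱 G₂ with hN
  have nN : P₁ ≤ normalizer (N : Set H) := le_normalizer_inf h.nV1 h.nV2
  have hz : ∀ {X Y : Subgroup H}, X ≤ centralizer (Y : Set H) → ⁅X, Y⁆ ≤ N := fun hX => by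
    rw [commutator_eq_bot_iff_le_centralizer.2 hX]; exact bot_le
  have v0 := (h.cr.am.vtx _ h.m0)
  have v3 := (h.cr.am.vtx _ h.m3)
  have hA : ∀ {X : Subgroup H}, X ≤ VG p 𝒱 G₁ → X ≤ VG p 𝒱 G₂ → ⁅X, P₁⁆ ≤ N := fun h1 h2 =>
    ((commutator_mono (le_inf h1 h2) le_rfl).trans (by
      rw [← le_normalizer_iff_commutator_le_left]; exact nN))
  have k1 : ⁅ZV p G₁, P₁⁆ ≤ N := hA h.cZ1 h.dZ1
  have k2 : ⁅ZV p G₂, P₁⁆ ≤ N := hA h.cZ2 h.dZ2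
  have k12 : ∀ {X : Subgroup H}, X ≤ P₁ → ⁅ZV p G₁, X⁆ ≤ N := fun hX => (commutator_mono le_rfl hX).trans k1
  have k22 : ∀ {X : Subgroup H}, X ≤ P₁ → ⁅ZV p G₂, X⁆ ≤ N := fun hX => (commutator_mono le_rfl hX).trans k2
  have k30 : ⁅ZV p G₃, ZV p G₀⁆ ≤ N := by
    refine (le_inf ?_ ?_)
    · refine (commutator_mono le_rfl h.cZ0).trans ?_
      rw [← le_normalizer_iff_commutator_le_right]; exact h.z3P.trans h.nV1
    · refine (commutator_mono h.dZ3 le_rfl).trans ?_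
      rw [← le_normalizer_iff_commutator_le_left]; exact h.z0P.trans h.nV2
  have k3 : ⁅ZV p G₃, Q4 p G₀ G₁ G₂ G₃⁆ ≤ N := by
    rw [commutator_comm]
    exact h.comm4 nN (hz v3.ZV_comm) (by rw [commutator_comm]; exact k30) (k22 h.z3P) (k12 h.z3P)
  have k0 : ⁅ZV p G₀, Q4 p G₀ G₁ G₂ G₃⁆ ≤ N := by
    rw [commutator_comm]
    exact h.comm4 nN k30 (hz v0.ZV_comm) (k22 h.z0P) (k12 h.z0P)
  exact h.comm4 nN k3 k0 (k22 h.Q4_le) (k12 h.Q4_le)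

end P3

/-- cubes of the elements of `Q4` (`p = 3`) -/
theorem P3.Q4_cube {𝒱 : Set (Subgroup H)} {G₀ G₁ G₂ G₃ P₀ P₁ P₂ : Subgroup H} [Fact (Nat.Prime 3)]
    (h : P3 3 q 𝒱 G₀ G₁ G₂ G₃ P₀ P₁ P₂) {x : H}
    (hx : x ∈ P3.Q4 3 G₀ G₁ G₂ G₃) : x ^ 3 ∈ omegaOneCenter 3 P₁ := by
  have hE : P₁ ≤ centralizer ((omegaOneCenter 3 P₁ : Subgroup H) : Set H) := by
    rw [le_centralizer_iff]; exact Crt.omega_le_cent
  have hQQ := h.comm_QQ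
  have hA := h.comm_A
  let Y : Subgroup H :=
    { carrier := {x | x ∈ P3.Q4 3 G₀ G₁ G₂ G₃ ∧ x ^ 3 ∈ omegaOneCenter 3 P₁}
      one_mem' := ⟨one_mem _, by rw [one_pow]; exact one_mem _⟩
      inv_mem' := by
        rintro x ⟨hx, hx2⟩
        exact ⟨inv_mem hx, by rw [inv_pow]; exact inv_mem hx2⟩
      mul_mem' := by
        rintro x y ⟨hx, hx2⟩ ⟨hy, hy2⟩
        refine ⟨mul_mem hx hy, ?_⟩
        have h1 : ⁅y, x⁆ ∈ VG 3 𝒱 G₁ ⊓ VG 3 𝒱 G₂ := hQQ (commutator_mem_commutator hy hx)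
        exact cube_mul Crt.omega_le_self hE (h.Q4_le hx) (h.Q4_le hy)
          (hA (commutator_mem_commutator h1 (h.Q4_le hx))) (hA (commutator_mem_commutator h1 (h.Q4_le hy))) hx2 hy2 }
  have hle : P3.Q4 3 G₀ G₁ G₂ G₃ ≤ Y := by
    have key : ∀ G ∈ 𝒱, ZV 3 G ≤ P3.Q4 3 G₀ G₁ G₂ G₃ → ZV 3 G ≤ Y := by
      intro G hG hle x hx
      refine ⟨hle hx, ?_⟩
      rw [(h.crt.am.vtx G hG).ZV_pow hx]; exact one_mem _
    refine sup_le (key _ h.m3 le_sup_left) (sup_le (key _ h.m0 (le_sup_left.trans le_sup_right))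
      (sup_le (key _ h.m2 ?_) (key _ h.m1 ?_)))
    · exact le_sup_left.trans (le_sup_right.trans le_sup_right)
    · exact le_sup_right.trans (le_sup_right.trans le_sup_right)
  exact (hle hx).2

theorem P3.exp9 {𝒱 : Set (Subgroup H)} {G₀ G₁ G₂ G₃ P₀ P₁ P₂ : Subgroup H} [Fact (Nat.Prime 3)]
    (h : P3 3 q 𝒱 G₀ G₁ G₂ G₃ P₀ P₁ P₂) {x : H} (hx : x ∈ P₁) : x ^ 9 = 1 := by
  have key : ∀ x ∈ P₁, ∃ f ∈ P3.F 3 G₀ G₁ G₂ G₃, x ^ 9 = f ^ 9 := by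
    intro x hx
    rw [h.f9, mem_sup_of_le_normalizer (h.Q4_cent.trans (centralizer_le_normalizer _))] at hx
    obtain ⟨u, hu, f, hf, rfl⟩ := hx
    have hc : Commute u f := by
      have c1 : f * u = u * f := mem_centralizer_iff.1 (h.Q4_cent hu) f hf
      exact c1.symm
    refine ⟨f, hf, ?_⟩
    have h1 := h.Q4_cube hu
    have h2 : u ^ 9 = 1 := by
      rw [show (9 : ℕ) = 3 * 3 by rfl, pow_mul]
      exact (mem_omegaOneCenter.1 h1).2.2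
    rw [hc.mul_pow, h2, one_mul]
  have h1 : pwc 9 P₁ = pwc 9 (pCoreOf 3 G₁) := by
    apply le_antisymm
    · rw [pwc_le_iff]
      intro x hx
      obtain ⟨r, hr, e⟩ := key x hx
      rw [e]; exact pow_mem_pwc (h.F_le_T hr)
    · rw [pwc_le_iff]
      intro x hx
      exact pow_mem_pwc (h.t1P hx)
  have h2 : pwc 9 P₁ = ⊥ := by
    apply h.crt.am.eq_bot h.m1 h.s1
    · rw [pwc_le_iff]
      intro x hx
      exact pow_mem hx _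
    · rw [h1]
      exact pCoreOf_normal_mem.trans (le_normalizer_of_equivariant (pwc_conj 9) _)
    · exact le_normalizer_of_equivariant (pwc_conj 9) _
  have h4 : x ^ 9 ∈ pwc 9 P₁ := pow_mem_pwc hx
  rwa [h2, mem_bot] at h4

theorem Pt.exp3 {𝒱 : Set (Subgroup H)} [Fact (Nat.Prime 3)] {M₀ : ℕ} {δ P : ℕ → Subgroup H}
    (h : Pt 3 q 𝒱 1 0 M₀ δ P) (hM : 3 ≤ M₀) : ∃ x ∈ P 1, x ^ 3 ≠ 1 := by
  by_contra hcon
  push Not at hcon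
  have hm2 := h.wk.mem 2 (by omega)
  obtain ⟨M, W, _, _, _, _, ρ, ρ₂, Zb, j, π, hm⟩ := Crt.exists_vmod (c := 1) h.crt le_rfl hm2
  obtain ⟨S, R, w, a, ho, hw, hwT, ha, hf, hf0⟩ := h.key5 hM hm
  have hs1' : SylIn 3 (P 1) (δ 2) := h.wk.syl' 1 (by omega)
  have hcube : ∀ x ∈ S.map (δ 2).subtype, x ^ 3 = 1 := by
    obtain ⟨k, hk, e⟩ := hs1'.conj (sylIn_map_subtype ho.1)
    intro x hx
    rw [← e] at hx
    obtain ⟨y, hy, rfl⟩ := hx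
    rw [← map_pow, hcon y hy, map_one]
  obtain ⟨v, rfl⟩ := hm.surj a
  apply hf0
  set b := ρ w (π v) - π v with hb
  set f := ρ w b - b with hf'
  have hwf : ρ w f = f := hf.2 w hw
  -- ρ w² a = a + 2 b + f
  have e1 : ρ w (π v) = π v + b := by rw [hb]; abel
  have e2 : ρ w b = b + f := by rw [hf']; abel
  obtain ⟨v1, hv1, e3⟩ := hm.eqv w v
  obtain ⟨v2, hv2, e4⟩ := hm.eqv w v1
  have hvS : (v : H) ∈ S.map (δ 2).subtype := by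
    have h1 : (v : H) ∈ pCoreOf 3 (δ 2) := Crt.VG_le_core (c := 1) h.crt le_rfl hm2 v.2
    exact pCoreOf_le_sylIn (sylIn_map_subtype ho.1) h1
  have hwS : (w : H) ∈ S.map (δ 2).subtype := ⟨w, hw, rfl⟩
  have c1 := hcube _ hwS
  have c2 := hcube _ (mul_mem hvS hwS)
  have e5 : v * (v1 * v2) = 1 := by
    apply Subtype.ext
    rw [Subgroup.coe_mul, Subgroup.coe_mul, hv2, hv1, Subgroup.coe_one]
    have e6 : (v : H) * (w * v * (w : H)⁻¹ * (w * (w * v * (w : H)⁻¹) * (w : H)⁻¹)) = ((v : H) * w) ^ 3 * ((w : H) ^ 3)⁻¹ := by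
      simp only [pow_succ, pow_zero]; group
    rw [e6, c1, c2, inv_one, one_mul]
  have e7 : π v + (π v1 + π v2) = 0 := by
    rw [← hm.add, ← hm.add, e5]
    exact (hm.ker 1).2 (one_mem _)
  rw [e4, e3, e1, map_add, e1, e2] at e7
  have e8 : f = (π v + (π v + b + (π v + b + (b + f)))) - (3 • π v + 3 • b) := by module
  rw [e8, e7, hm.ext.pm, hm.ext.pm]
  simp

theorem Crt.case2 (h : Crt p q 𝒱 2) {G : Subgroup H} (hG : G ∈ 𝒱) :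
    Case2 p q G (ZV p G) (CS p 𝒱 G) (VG p 𝒱 G) := by
  have hp3 := h.three
  subst hp3
  obtain ⟨δ, P, hp⟩ := Crt.exists_pt (c := 1) h 3
  have hq := hp.p3 le_rfl
  have hc : Crt 3 q 𝒱 (1 + 1) := h
  have hv := hc.am.vtx G hG
  have tr : ∀ Q, SylIn 3 Q G → ∃ g : H, G = (δ 1).map (MulAut.conj g).toMonoidHom ∧
      Q = (P 1).map (MulAut.conj g).toMonoidHom := fun Q hQ => hc.am.trans_syl hq.m1 hq.s1 hG hQ
  refine ⟨rfl, hc.ZV_le_CS hG, Crt.CS_le, hc.VG_le_core le_rfl hG, le_normalizer_ZV G, hc.am.le_normalizer_VG G,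
    hv.ZV_cent, fun z hz => hv.ZV_pow hz, hc.natZ hG, hc.natV le_rfl hG, rfl, ?_, ?_, ?_, ?_, ?_⟩
  · obtain ⟨g, hg⟩ := hc.am.trans (δ 1) hq.m1 G hG
    have h1 := map_conj_mono (g := g) hq.res
    rw [map_commutator, ← pCoreOf_map_conj, ← pRes_map_conj, ← VG_conj hc.am.conj, ← hg] at h1
    exact h1
  · intro Q hQ
    obtain ⟨g, -, rfl⟩ := tr Q hQ
    rw [← map_commutator, ← map_commutator, ← map_commutator, hq.gamma4, Subgroup.map_bot]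
  · intro Q hQ
    obtain ⟨g, -, rfl⟩ := tr Q hQ
    rw [← map_commutator, ← map_commutator]
    intro h1
    have h2 := (map_eq_bot_iff_of_injective _ (MulAut.conj g).injective).1 h1
    obtain ⟨w, hw, hwT⟩ := SetLike.not_le_iff_exists.1 (hp.cpt 0 (by omega)).nle
    obtain ⟨a, ha, haT⟩ := SetLike.not_le_iff_exists.1 (hp.cpt 1 (by omega)).nle'
    apply (hp.key4 le_rfl hw hwT ha haT).1
    have h3 : ⁅⁅w, a⁆, w⁆ ∈ ⁅⁅P 1, P 1⁆, P 1⁆ := commutator_mem_commutator (commutator_mem_commutator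
      (hq.z0P hw) (hq.z3P ha)) (hq.z0P hw)
    rw [h2, mem_bot] at h3
    rw [h3]; exact one_mem _
  · intro Q hQ x hx
    obtain ⟨g, -, rfl⟩ := tr Q hQ
    obtain ⟨y, hy, rfl⟩ := hx
    rw [← map_pow, hq.exp9 hy, map_one]
  · intro Q hQ
    obtain ⟨g, -, rfl⟩ := tr Q hQ
    obtain ⟨y, hy, hy2⟩ := hp.exp3 le_rfl
    refine ⟨_, ⟨y, hy, rfl⟩, ?_⟩
    rw [← map_pow]
    intro h1
    exact hy2 ((MulAut.conj g).injective (by rw [map_one]; exact h1))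

end

end Cfsg.Agent.H47
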