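import Cfsg.Agent.H47.NatV
import Cfsg.Agent.H47.JA

set_option autoImplicit false
set_option linter.unusedSectionVars false
set_option linter.style.haveILetI false
open Cfsg Subgroup
open scoped commutatorElement

namespace Cfsg.Agent.H47

variable {G : Type*} [Group G] [Finite G] {p q : ℕ} [Fact p.Prime] {K : Subgroup G} [K.Normal]

/-- the centre of a Sylow subgroup -/
abbrev ZC (S : Subgroup G) : Subgroup G := S ⊓ centralizer (S : Set G)

theorem pCore_le_centralizer_of {V : Subgroup G} (h : V ≤ centralizer (pCore p G : Set G)) :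
    pCore p G ≤ centralizer (V : Set G) := by
  rw [le_centralizer_iff]; exact h

theorem ZC_le (hE : centralizer (pCore p G : Set G) ≤ pCore p G) {S : Subgroup G} (hS : SylIn p S ⊤) :
    ZC S ≤ pCore p G ⊓ centralizer (pCore p G : Set G) := by
  have h1 : ZC S ≤ centralizer (pCore p G : Set G) := inf_le_right.trans (centralizer_le (pCore_le_sylIn hS))
  exact le_inf (h1.trans hE) h1

theorem normal_of_le_center {N : Subgroup G} (h : N ≤ center G) : N.Normal := by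
  refine ⟨fun n hn g => ?_⟩
  rw [mem_center_iff'.1 (h hn) g]
  exact hn

/-- `Z(S)` normal implies central -/
theorem PU.ZC_central (h : PU p q K) {S : Subgroup G} (hS : SylIn p S ⊤) (hN : (ZC S).Normal) :
    ZC S ≤ center G := by
  have h1 : (centralizer (ZC S : Set G)).Normal := by
    haveI := hN; infer_instance
  have h2 := h.normal_top hS h1 (by rw [le_centralizer_iff]; exact inf_le_right)
  intro x hx
  rw [mem_center_iff]
  intro g
  have h3 : g ∈ centralizer (ZC S : Set G) := by rw [h2]; trivial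
  exact (mem_centralizer_iff.1 h3 x hx).symm

theorem ZC_central_of_sup {S : Subgroup G} {V : Subgroup G} (hV : ZC S ≤ V)
    (h : centralizer (V : Set G) ⊔ S = ⊤) : ZC S ≤ center G := by
  intro x hx
  have h1 : (⊤ : Subgroup G) ≤ centralizer ({x} : Set G) := by
    rw [← h]
    apply sup_le
    · exact centralizer_le (Set.singleton_subset_iff.2 (hV hx))
    · intro s hs
      rw [mem_centralizer_singleton_iff]
      exact (mem_centralizer_iff.1 hx.2 s hs)
  rw [mem_center_iff]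
  intro g
  exact (mem_centralizer_singleton_iff.1 (h1 (mem_top g)))

/-- the offender inequality -/
theorem IsMA.offender {S A V : Subgroup G} (hS : SylIn p S ⊤) (hA : IsMA S A) [V.Normal]
    (hVT : V ≤ pCore p G) (hVc : V ≤ centralizer (pCore p G : Set G)) :
    Nat.card V * Nat.card (A ⊓ pCore p G : Subgroup G) ≤
      Nat.card A * Nat.card (V ⊓ centralizer (A : Set G) : Subgroup G) ∧
    (Nat.card V * Nat.card (A ⊓ pCore p G : Subgroup G) =
      Nat.card A * Nat.card (V ⊓ centralizer (A : Set G) : Subgroup G) → IsMA S (V ⊔ (A ⊓ pCore p G))) := by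
  have hn : V ≤ normalizer ((A ⊓ pCore p G : Subgroup G) : Set G) := by
    refine le_trans ?_ (centralizer_le_normalizer _)
    exact hVc.trans (centralizer_le inf_le_right)
  have h1 := card_sup_mul_card_inf hn
  have h2 : V ⊓ (A ⊓ pCore p G) ≤ V ⊓ centralizer (A : Set G) :=
    inf_le_inf_left _ (inf_le_left.trans hA.2.1)
  have h3 : V ⊔ (A ⊓ pCore p G) ≤ S := sup_le (hVT.trans (pCore_le_sylIn hS)) (inf_le_left.trans hA.1)
  have h4 : V ⊔ (A ⊓ pCore p G) ≤ centralizer ((V ⊔ (A ⊓ pCore p G) : Subgroup G) : Set G) := by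
    have h5 : V ⊔ (A ⊓ pCore p G) ≤ centralizer (V : Set G) :=
      sup_le (hVc.trans (centralizer_le hVT)) (inf_le_right.trans (pCore_le_centralizer_of hVc))
    have h6 : V ⊔ (A ⊓ pCore p G) ≤ centralizer ((A ⊓ pCore p G : Subgroup G) : Set G) :=
      sup_le (hVc.trans (centralizer_le inf_le_right)) (inf_le_left.trans (hA.2.1.trans (centralizer_le inf_le_left)))
    rw [le_centralizer_iff]
    apply sup_le
    · rw [le_centralizer_iff]; exact h5
    · rw [le_centralizer_iff]; exact h6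
  have h5 := hA.2.2 _ h3 h4
  have h6 := Subgroup.card_le_of_le h2
  refine ⟨?_, fun heq => ?_⟩
  · rw [← h1]
    exact Nat.mul_le_mul h5 h6
  · apply hA.of_card h3 h4
    rw [← h1] at heq
    have h7 : 0 < Nat.card (V ⊓ centralizer (A : Set G) : Subgroup G) := Nat.card_pos
    apply Nat.le_of_mul_le_mul_right _ h7
    rw [← heq]
    exact Nat.mul_le_mul_left _ h6

/-- the Baumann situation -/
structure BS (p q : ℕ) {G : Type*} [Group G] [Finite G] (K V : Subgroup G) : Prop where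
  nat : NatV p q K V
  norm : V.Normal
  le : V ≤ pCore p G
  cen : V ≤ centralizer (pCore p G : Set G)
  off : ∀ S : Subgroup G, SylIn p S ⊤ → ∃ A, IsMA S A ∧ ¬ A ≤ pCore p G

theorem bs_of (h : PU p q K) (hE : centralizer (pCore p G : Set G) ≤ pCore p G) {S : Subgroup G}
    (hS : SylIn p S ⊤) (hZ : ¬ (ZC S).Normal) (hJ : ¬ JJ S ≤ pCore p G) :
    BS p q K (normalClosure (ZC S : Set G)) := by
  haveI := pCore_normal p G
  set V := normalClosure (ZC S : Set G) with hV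
  have hZV : ZC S ≤ V := subset_normalClosure
  have h1 : V ≤ pCore p G ⊓ centralizer (pCore p G : Set G) := by
    rw [hV]
    exact normalClosure_le_normal (ZC_le hE hS)
  have hVT := h1.trans inf_le_left
  have hVc := h1.trans inf_le_right
  have h2 : ∃ A, IsMA S A ∧ ¬ A ≤ pCore p G := by
    by_contra h3
    push Not at h3
    exact hJ (JJ_le_iff.2 h3)
  obtain ⟨A, hA, hAT⟩ := h2
  refine ⟨?_, inferInstance, hVT, hVc, ?_⟩
  · refine natV_of h hS (hS.isPGroup.to_le (hVT.trans (pCore_le_sylIn hS))) (hVc.trans (centralizer_le hVT))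
      (pCore_le_centralizer_of hVc) ?_ hA.1 hAT (hA.offender hS hVT hVc).1
    intro h3
    exact hZ (normal_of_le_center (ZC_central_of_sup hZV h3))
  · intro R hR
    obtain ⟨g, -, rfl⟩ := hS.conj hR
    refine ⟨_, hA.conj g, fun h3 => hAT ?_⟩
    have h4 : (pCore p G).map (MulAut.conj g).toMonoidHom = pCore p G := norm_map_conj (by
      rw [normalizer_eq_top]; trivial)
    rw [← h4] at h3
    exact (map_le_map_iff_of_injective (MulAut.conj g).injective).1 h3

namespace BS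

variable {V : Subgroup G}

theorem exists_dec (hb : BS p q K V) (h : PU p q K) {S : Subgroup G} (hS : SylIn p S ⊤) {A : Subgroup G} (hA : IsMA S A)
    (hAT : ¬ A ≤ pCore p G) : A ⊔ pCore p G = S ∧ IsMA S (V ⊔ (A ⊓ pCore p G)) := by
  haveI := pCore_normal p G
  haveI := hb.norm
  have hTS := pCore_le_sylIn hS
  obtain ⟨a, ha, haT⟩ := SetLike.not_le_iff_exists.1 hAT
  have h1 : V ⊓ centralizer (A : Set G) = V ⊓ centralizer (S : Set G) := by
    apply le_antisymm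
    · rintro v ⟨hv, hv2⟩
      exact ⟨hv, hb.nat.fix S hS a (hA.1 ha) haT v hv (mem_centralizer_iff'.1 hv2 a ha)⟩
    · exact inf_le_inf_left _ (centralizer_le hA.1)
  obtain ⟨h2, h3⟩ := hA.offender hS hb.le hb.cen
  rw [h1, hb.nat.card_U S hS] at h2 h3
  have hn : A ≤ normalizer ((pCore p G : Subgroup G) : Set G) := by rw [normalizer_eq_top]; exact le_top
  have h4 := card_sup_mul_card_inf hn
  have h5 : Nat.card (A ⊔ pCore p G : Subgroup G) ≤ Nat.card S := Subgroup.card_le_of_le (sup_le hA.1 hTS)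
  have h6 : q * Nat.card (A ⊓ pCore p G : Subgroup G) ≤ Nat.card A := by
    have h7 : 0 < Nat.card (V ⊓ centralizer (S : Set G) : Subgroup G) := Nat.card_pos
    apply Nat.le_of_mul_le_mul_right _ h7
    calc _ = q * Nat.card (V ⊓ centralizer (S : Set G) : Subgroup G) * Nat.card (A ⊓ pCore p G : Subgroup G) := by ring
      _ ≤ _ := h2
  have h7 : Nat.card A ≤ q * Nat.card (A ⊓ pCore p G : Subgroup G) := by
    have h8 : 0 < Nat.card (pCore p G) := Nat.card_pos
    apply Nat.le_of_mul_le_mul_right _ h8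
    rw [← h4]
    calc _ ≤ Nat.card S * Nat.card (A ⊓ pCore p G : Subgroup G) := Nat.mul_le_mul_right _ h5
      _ = _ := by rw [h.card hS]; ring
  have h8 : Nat.card A = q * Nat.card (A ⊓ pCore p G : Subgroup G) := le_antisymm h7 h6
  refine ⟨?_, h3 ?_⟩
  · apply eq_of_le_of_card_ge (sup_le hA.1 hTS)
    have h9 : 0 < Nat.card (A ⊓ pCore p G : Subgroup G) := Nat.card_pos
    apply Nat.le_of_mul_le_mul_right _ h9
    rw [h4, h.card hS, h8]
    exact le_of_eq (by ring)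
  · rw [h8]; ring

theorem W_le (hb : BS p q K V) (h : PU p q K) {S : Subgroup G} (hS : SylIn p S ⊤) {A : Subgroup G}
    (hA : IsMA S A) (hAT : ¬ A ≤ pCore p G) : ZZ (pCore p G) ≤ V ⊔ (A ⊓ pCore p G) := by
  have h1 := (hb.exists_dec h hS hA hAT).2
  exact ZZ_le_of_isMA (h1.of_le (sup_le hb.le inf_le_right) (pCore_le_sylIn hS))

theorem ZZ_le_W (hb : BS p q K V) (h : PU p q K) {S : Subgroup G} (hS : SylIn p S ⊤) :
    ZZ S ≤ ZZ (pCore p G) := by
  obtain ⟨A, hA, hAT⟩ := hb.off S hS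
  have h1 := (hb.exists_dec h hS hA hAT).2
  have h2 : ZZ S ≤ pCore p G := (ZZ_le_of_isMA h1).trans (sup_le hb.le inf_le_right)
  rw [ZZ_eq (pCore p G)]
  apply le_inf h2
  apply inf_le_right.trans
  apply centralizer_le
  rw [SetLike.coe_subset_coe, JJ_le_iff]
  intro B hB
  exact (h1.up (sup_le hb.le inf_le_right) (pCore_le_sylIn hS) hB).le_JJ

theorem key (hb : BS p q K V) (h : PU p q K) {S R : Subgroup G} (hS : SylIn p S ⊤) (hR : SylIn p R ⊤)
    (hSR : ¬ S ≤ R ⊔ K) {A₁ A₂ : Subgroup G} (hA₁ : IsMA S A₁) (hA₁T : ¬ A₁ ≤ pCore p G)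
    (hA₂ : IsMA S A₂) (hA₂T : ¬ A₂ ≤ pCore p G) {w : G} (hw : w ∈ ZZ R) (hw1 : ∀ a ∈ A₁, a * w * a⁻¹ = w) :
    ∀ a ∈ A₂, a * w * a⁻¹ = w := by
  haveI := pCore_normal p G
  haveI := hb.norm
  have main : ∀ a ∈ A₂, a ∉ pCore p G → a * w * a⁻¹ = w := by
    intro a ha haT
    have h1 := (hb.exists_dec h hS hA₁ hA₁T).1
    have h2 : a ∈ A₁ ⊔ pCore p G := by rw [h1]; exact hA₂.1 ha
    rw [mem_sup_of_normal_right] at h2
    obtain ⟨a₁, ha₁, t, ht, hat⟩ := h2
    have h3 : w ∈ V ⊔ (A₂ ⊓ pCore p G) := hb.W_le h hS hA₂ hA₂T (hb.ZZ_le_W h hR hw)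
    rw [mem_sup_of_normal_left] at h3
    obtain ⟨v, hv, s, hs, hvs⟩ := h3
    have h4 : a * s * a⁻¹ = s := mem_centralizer_iff'.1 (hA₂.2.1 hs.1) a ha
    have h5 : a * w * a⁻¹ * w⁻¹ = a * v * a⁻¹ * v⁻¹ := by
      rw [← hvs]
      calc a * (v * s) * a⁻¹ * (v * s)⁻¹ = a * v * a⁻¹ * (a * s * a⁻¹) * s⁻¹ * v⁻¹ := by group
        _ = _ := by rw [h4]; group
    set c := a * w * a⁻¹ * w⁻¹ with hc
    have h6 : c ∈ V ⊓ centralizer (S : Set G) := by
      rw [h5]; exact hb.nat.quad S hS v hv a (hA₂.1 ha)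
    have h7 : t * w * t⁻¹ * w⁻¹ ∈ ZZ R := by
      have h8 : t ∈ normalizer (ZZ R : Set G) := normalizer_le_normalizer_ZZ R (le_normalizer (pCore_le_sylIn hR ht))
      exact mul_mem ((mem_normalizer_iff.1 h8 w).1 hw) (inv_mem hw)
    have h8 : c = a₁ * (t * w * t⁻¹ * w⁻¹) * a₁⁻¹ := by
      have h9 := hw1 a₁ ha₁
      calc c = a₁ * (t * w * t⁻¹ * w⁻¹) * a₁⁻¹ * (a₁ * w * a₁⁻¹) * w⁻¹ := by rw [hc, ← hat]; group
        _ = _ := by rw [h9]; group
    have h9 : c = t * w * t⁻¹ * w⁻¹ := by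
      have h10 : a₁⁻¹ * c * a₁⁻¹⁻¹ = c := mem_centralizer_iff'.1 h6.2 _ (inv_mem (hA₁.1 ha₁))
      calc c = a₁⁻¹ * c * a₁⁻¹⁻¹ := h10.symm
        _ = a₁⁻¹ * (a₁ * (t * w * t⁻¹ * w⁻¹) * a₁⁻¹) * a₁⁻¹⁻¹ := by rw [← h8]
        _ = _ := by group
    rw [← h9] at h7
    obtain ⟨A', hA', hA'T⟩ := hb.off R hR
    obtain ⟨a', ha', ha'T⟩ := SetLike.not_le_iff_exists.1 hA'T
    have h10 : c ∈ centralizer (R : Set G) :=
      hb.nat.fix R hR a' (hA'.1 ha') ha'T c h6.1 (mem_centralizer_iff'.1 h7.2 a' (hA'.le_JJ ha'))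
    have h11 := hb.nat.inf S R hS hR hSR c h6.1 h6.2 h10
    have h12 : v ∈ centralizer (S : Set G) := by
      by_contra h13
      exact hb.nat.comm S hS a (hA₂.1 ha) haT v hv h13 (h5 ▸ h11)
    have h13 : c = 1 := by
      rw [h5, mem_centralizer_iff'.1 h12 a (hA₂.1 ha), mul_inv_cancel]
    exact mul_inv_eq_one.1 h13
  intro a ha
  by_cases haT : a ∈ pCore p G
  · obtain ⟨b, hb1, hbT⟩ := SetLike.not_le_iff_exists.1 hA₂T
    have h1 : a * b ∉ pCore p G := fun h2 => hbT (by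
      have := mul_mem (inv_mem haT) h2
      rwa [inv_mul_cancel_left] at this)
    have h2 := main (a * b) (mul_mem ha hb1) h1
    have h3 := main b hb1 hbT
    calc a * w * a⁻¹ = a * (b * w * b⁻¹) * a⁻¹ := by rw [h3]
      _ = (a * b) * w * (a * b)⁻¹ := by group
      _ = w := h2
  · exact main a ha haT

theorem mem_ZZ (hb : BS p q K V) (h : PU p q K) {S R : Subgroup G} (hS : SylIn p S ⊤) (hR : SylIn p R ⊤)
    (hSR : ¬ S ≤ R ⊔ K) {A₁ : Subgroup G} (hA₁ : IsMA S A₁) (hA₁T : ¬ A₁ ≤ pCore p G)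
    {w : G} (hw : w ∈ ZZ R) (hw1 : ∀ a ∈ A₁, a * w * a⁻¹ = w) : w ∈ ZZ S := by
  have hwW := hb.ZZ_le_W h hR hw
  rw [ZZ_eq, mem_inf]
  refine ⟨pCore_le_sylIn hS (ZZ_le _ hwW), ?_⟩
  have h1 : JJ S ≤ centralizer ({w} : Set G) := by
    rw [JJ_le_iff]
    intro A hA a ha
    have h2 : a * w * a⁻¹ = w := by
      by_cases hAT : A ≤ pCore p G
      · have h3 : w ∈ A := ZZ_le_of_isMA (hA.of_le hAT (pCore_le_sylIn hS)) hwW
        exact mem_centralizer_iff'.1 (hA.2.1 h3) a ha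
      · exact hb.key h hS hR hSR hA₁ hA₁T hA hAT hw hw1 a ha
    rw [mem_centralizer_singleton_iff]
    calc a * w = a * w * a⁻¹ * a := by group
      _ = w * a := by rw [h2]
  rw [mem_centralizer_iff]
  intro x hx
  exact mem_centralizer_singleton_iff.1 (h1 hx)

theorem dec (hb : BS p q K V) (h : PU p q K) {S R : Subgroup G} (hS : SylIn p S ⊤) (hR : SylIn p R ⊤)
    (hSR : ¬ S ≤ R ⊔ K) {w : G} (hw : w ∈ ZZ R) :
    ∃ v ∈ V ⊓ centralizer (R : Set G), ∃ d ∈ ZZ S ⊓ ZZ R, w = v * d := by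
  haveI := pCore_normal p G
  haveI := hb.norm
  obtain ⟨A, hA, hAT⟩ := hb.off S hS
  have h3 : w ∈ V ⊔ (A ⊓ pCore p G) := hb.W_le h hS hA hAT (hb.ZZ_le_W h hR hw)
  rw [mem_sup_of_normal_left] at h3
  obtain ⟨v, hv, s, hs, hvs⟩ := h3
  have hn : V ⊓ centralizer (R : Set G) ≤ normalizer ((V ⊓ centralizer (S : Set G) : Subgroup G) : Set G) := by
    refine le_trans ?_ (centralizer_le_normalizer _)
    exact inf_le_left.trans (hb.cen.trans (centralizer_le (inf_le_left.trans hb.le)))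
  have h4 : v ∈ (V ⊓ centralizer (R : Set G)) ⊔ (V ⊓ centralizer (S : Set G)) := by
    rw [sup_comm, hb.nat.sup S R hS hR hSR]; exact hv
  rw [mem_sup_of_le_normalizer hn] at h4
  obtain ⟨v₂, hv₂, v₁, hv₁, hvv⟩ := h4
  refine ⟨v₂, hv₂, v₁ * s, ?_, by rw [← hvs, ← hvv, mul_assoc]⟩
  have h5 : v₁ * s = v₂⁻¹ * w := by rw [← hvs, ← hvv]; group
  have h6 : v₁ * s ∈ ZZ R := by
    rw [h5]
    apply mul_mem (inv_mem _) hw
    exact center_le_ZZ R ⟨pCore_le_sylIn hR (hb.le hv₂.1), hv₂.2⟩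
  refine ⟨hb.mem_ZZ h hS hR hSR hA hAT h6 ?_, h6⟩
  intro a ha
  have h7 : a * v₁ * a⁻¹ = v₁ := mem_centralizer_iff'.1 hv₁.2 a (hA.1 ha)
  have h8 : a * s * a⁻¹ = s := mem_centralizer_iff'.1 (hA.2.1 hs.1) a ha
  calc a * (v₁ * s) * a⁻¹ = (a * v₁ * a⁻¹) * (a * s * a⁻¹) := by group
    _ = _ := by rw [h7, h8]

/-- Baumann's lemma -/
theorem baumann (hb : BS p q K V) (h : PU p q K) {S : Subgroup G} (hS : SylIn p S ⊤) :
    ∃ D : Subgroup G, D.Normal ∧ D ≤ ZZ S ∧ JJ S ⊔ pCore p G = S ∧ (∀ w ∈ ZZ S, ∃ v ∈ V ⊓ centralizer (S : Set G), ∃ d ∈ D, w = v * d) ∧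
      ∃ L : Subgroup G, L ≤ centralizer (D : Set G) ∧ L ⊔ pCore p G = ⊤ := by
  haveI := pCore_normal p G
  obtain ⟨R, hR, hSR, hRS⟩ := h.exists_other hS
  obtain ⟨A, hA, hAT⟩ := hb.off S hS
  obtain ⟨B, hB, hBT⟩ := hb.off R hR
  obtain ⟨a, ha, haT⟩ := SetLike.not_le_iff_exists.1 hAT
  have hJS : ∀ (X C : Subgroup G), SylIn p X ⊤ → IsMA X C → ¬ C ≤ pCore p G → JJ X ⊔ pCore p G = X := by
    intro X C hX hC hCT
    apply le_antisymm (sup_le (JJ_le X) (pCore_le_sylIn hX))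
    conv_lhs => rw [← (hb.exists_dec h hX hC hCT).1]
    exact sup_le_sup_right hC.le_JJ _
  have h1 := hJS S A hS hA hAT
  have h2 := hJS R B hR hB hBT
  have h3 : (JJ S ⊔ JJ R) ⊔ pCore p G = ⊤ := by
    rw [eq_top_iff, ← h.gen hS hR hSR (hA.1 ha) haT]
    apply sup_le
    · rw [zpowers_le]
      exact (le_sup_left.trans le_sup_left : JJ S ≤ _) (hA.le_JJ ha)
    · conv_lhs => rw [← h2]
      exact sup_le_sup_right le_sup_right _
  have h4 : JJ S ⊔ JJ R ≤ centralizer ((ZZ S ⊓ ZZ R : Subgroup G) : Set G) := by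
    apply sup_le
    · rw [le_centralizer_iff]; exact inf_le_left.trans inf_le_right
    · rw [le_centralizer_iff]; exact inf_le_right.trans inf_le_right
  refine ⟨ZZ S ⊓ ZZ R, ?_, inf_le_left, h1, ?_, JJ S ⊔ JJ R, h4, h3⟩
  · rw [← normalizer_eq_top_iff, eq_top_iff, ← h3]
    apply sup_le
    · exact h4.trans (centralizer_le_normalizer _)
    · exact le_normalizer_inf ((pCore_le_sylIn hS).trans (le_normalizer.trans (normalizer_le_normalizer_ZZ S)))
        ((pCore_le_sylIn hR).trans (le_normalizer.trans (normalizer_le_normalizer_ZZ R)))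
  · intro w hw
    obtain ⟨v, hv, d, hd, hwd⟩ := hb.dec h hR hS hRS hw
    exact ⟨v, hv, d, ⟨hd.2, hd.1⟩, hwd⟩

end BS

end Cfsg.Agent.H47
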