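import Cfsg.Agent.H47.Bau

set_option autoImplicit false
set_option linter.unusedSectionVars false
set_option linter.style.haveILetI false
open Cfsg Subgroup
open scoped commutatorElement

namespace Cfsg.Agent.H47

variable {G : Type*} [Group G] [Finite G] {p q : ℕ} [Fact p.Prime] {K : Subgroup G} [K.Normal]

theorem sylIn_nc {S D B : Subgroup G} (hS : SylIn p S ⊤) (hD : D.Normal)
    (hB : B = S ⊓ centralizer (D : Set G)) : SylIn p B (normalClosure (B : Set G)) := by
  haveI := hD
  have hN : (centralizer (D : Set G)).Normal := inferInstance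
  have h1 : SylIn p (S ⊓ centralizer (D : Set G)) (centralizer (D : Set G)) :=
    hS.inf_normal le_top (by rw [normalizer_eq_top])
  rw [hB]
  exact h1.of_le subset_normalClosure (normalClosure_le_normal inf_le_right)

theorem ZZ_normal_of_le {S : Subgroup G} (hS : SylIn p S ⊤) (hJ : JJ S ≤ pCore p G) : (ZZ S).Normal := by
  have h1 : JJ (pCore p G) = JJ S := JJ_eq_of_le (pCore_le_sylIn hS) hJ
  have h2 : ZZ S = ZZ (pCore p G) := by
    unfold ZZ; rw [h1]
  rw [h2]
  exact ZZ_normal (pCore_normal p G)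

theorem bau_sylow (h : PU p q K) (hE : centralizer (pCore p G : Set G) ≤ pCore p G) {S : Subgroup G}
    (hS : SylIn p S ⊤) (hZ : ¬ (ZC S).Normal) :
    SylIn p (S ⊓ centralizer (ZZ S : Set G)) (normalClosure ((S ⊓ centralizer (ZZ S : Set G) : Subgroup G) : Set G)) := by
  by_cases hJ : JJ S ≤ pCore p G
  · exact sylIn_nc hS (ZZ_normal_of_le hS hJ) rfl
  · obtain ⟨D, hD, hDZ, -, hdec, -⟩ := (bs_of h hE hS hZ hJ).baumann h hS
    apply sylIn_nc hS hD
    apply le_antisymm
    · exact inf_le_inf_left _ (centralizer_le hDZ)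
    · rintro x ⟨hx, hx2⟩
      refine ⟨hx, ?_⟩
      change x ∈ centralizer (ZZ S : Set G)
      rw [mem_centralizer_iff]
      intro w hw
      obtain ⟨v, hv, d, hd, rfl⟩ := hdec w hw
      have h1 : d * x = x * d := mem_centralizer_iff.1 hx2 d hd
      have h2 : x * v = v * x := mem_centralizer_iff.1 hv.2 x hx
      rw [mul_assoc, h1, ← mul_assoc, ← h2, mul_assoc]

/-- if `J(S) ≤ O_p(G)` then either `C_S(Z(J(S)))` is normal or `C_G(Z(J(S)))` and `S` generate `G` -/
theorem bau_dich (h : PU p q K) {S : Subgroup G} (hS : SylIn p S ⊤) (hJ : JJ S ≤ pCore p G) :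
    (S ⊓ centralizer (ZZ S : Set G)).Normal ∨ centralizer (ZZ S : Set G) ⊔ S = ⊤ := by
  haveI := ZZ_normal_of_le hS hJ
  have hN : (centralizer (ZZ S : Set G)).Normal := inferInstance
  rcases h.dich hS hN with h1 | h1
  · exact Or.inr h1
  · left
    have h2 : S ⊓ centralizer (ZZ S : Set G) = centralizer (ZZ S : Set G) ⊓ pCore p G := by
      apply le_antisymm
      · exact le_inf inf_le_right (by rw [inf_comm]; exact h1)
      · exact le_inf (inf_le_right.trans (pCore_le_sylIn hS)) inf_le_left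
    rw [h2]
    haveI := pCore_normal p G
    infer_instance

theorem comm_case (h : PU p q K) (hE : centralizer (pCore p G : Set G) ≤ pCore p G) {S : Subgroup G}
    (hS : SylIn p S ⊤) : (⁅ZZ S, S⁆ ⊓ ZC S).Normal ∨ (S ⊓ centralizer (ZZ S : Set G)).Normal := by
  by_cases hZ : (ZC S).Normal
  · exact Or.inl (normal_of_le_center (inf_le_right.trans (h.ZC_central hS hZ)))
  by_cases hJ : JJ S ≤ pCore p G
  · rcases bau_dich h hS hJ with h1 | h1
    · exact Or.inr h1
    · left
      exact normal_of_le_center (inf_le_right.trans (ZC_central_of_sup (center_le_ZZ S) h1))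
  · left
    obtain ⟨D, hD, hDZ, -, hdec, L, hL, hLT⟩ := (bs_of h hE hS hZ hJ).baumann h hS
    have h1 : ⁅ZZ S, S⁆ ≤ D := by
      rw [commutator_le]
      intro w hw s hs
      obtain ⟨v, hv, d, hd, rfl⟩ := hdec w hw
      have h2 : s * v * s⁻¹ = v := mem_centralizer_iff'.1 hv.2 s hs
      have h3 : ⁅v * d, s⁆ = v * (d * (s * d⁻¹ * s⁻¹)) * v⁻¹ := by
        rw [commutatorElement_def]
        calc v * d * s * (v * d)⁻¹ * s⁻¹ = v * (d * (s * d⁻¹ * s⁻¹)) * (s * v * s⁻¹)⁻¹ := by group
          _ = _ := by rw [h2]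
      rw [h3]
      apply hD.conj_mem
      exact mul_mem hd (hD.conj_mem _ (inv_mem hd) s)
    apply normal_of_le_center
    rintro x ⟨hx, hx2⟩
    have h2 : (⊤ : Subgroup G) ≤ centralizer ({x} : Set G) := by
      rw [← hLT]
      apply sup_le
      · exact hL.trans (centralizer_le (Set.singleton_subset_iff.2 (h1 hx)))
      · intro t ht
        rw [mem_centralizer_singleton_iff]
        exact mem_centralizer_iff.1 hx2.2 t (pCore_le_sylIn hS ht)
    rw [mem_center_iff]
    intro g
    exact mem_centralizer_singleton_iff.1 (h2 (mem_top g))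

theorem powerClosure_one_map {H : Subgroup G} (g : G) :
    (powerClosure p 1 H).map (MulAut.conj g).toMonoidHom = powerClosure p 1 (H.map (MulAut.conj g).toMonoidHom) := by
  unfold powerClosure
  rw [MonoidHom.map_closure]
  congr 1
  ext y
  constructor
  · rintro ⟨_, ⟨x, hx, rfl⟩, rfl⟩
    exact ⟨_, ⟨x, hx, rfl⟩, map_pow _ _ _⟩
  · rintro ⟨_, ⟨x, hx, rfl⟩, rfl⟩
    exact ⟨x ^ p ^ 1, ⟨x, hx, rfl⟩, map_pow _ _ _⟩

theorem powerClosure_normal {H : Subgroup G} (hH : H.Normal) : (powerClosure p 1 H).Normal := by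
  rw [← normalizer_eq_top_iff, eq_top_iff]
  intro g _
  rw [mem_normalizer_iff_map_conj, powerClosure_one_map]
  congr 1
  rw [← mem_normalizer_iff_map_conj, normalizer_eq_top]
  trivial

theorem powerClosure_mono {H L : Subgroup G} (h : H ≤ L) : powerClosure p 1 H ≤ powerClosure p 1 L := by
  unfold powerClosure
  apply Subgroup.closure_mono
  rintro y ⟨x, hx, rfl⟩
  exact ⟨x, h hx, rfl⟩

theorem powerClosure_le {H : Subgroup G} : powerClosure p 1 H ≤ H := by
  unfold powerClosure
  rw [closure_le]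
  rintro y ⟨x, hx, rfl⟩
  exact pow_mem hx _

/-- `℧¹(V)` is central for a natural module `V` -/
theorem NatV.pow_center {V : Subgroup G} (hN : NatV p q K V) (h : PU p q K) (hV : V.Normal)
    (hc : V ≤ centralizer (V : Set G)) (hT : pCore p G ≤ centralizer (V : Set G)) {v : G} (hv : v ∈ V) : v ^ p ∈ center G := by
  have key : ∀ S : Subgroup G, SylIn p S ⊤ → v ^ p ∈ centralizer (S : Set G) := by
    intro S hS
    rw [mem_centralizer_iff']
    intro x hx
    have h1 := hN.quad S hS v hv x hx
    set c := x * v * x⁻¹ * v⁻¹ with hcdef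
    have h2 : x * v * x⁻¹ = c * v := by rw [hcdef]; group
    have hcv : c * v = v * c := mem_centralizer_iff.1 (hc hv) c h1.1
    have h3 : ∀ n : ℕ, x ^ n * v * (x ^ n)⁻¹ = c ^ n * v := by
      intro n
      induction n with
      | zero => simp
      | succ n ih =>
        have h4 : x * c * x⁻¹ = c := mem_centralizer_iff'.1 h1.2 x hx
        have h5 : x * c ^ n * x⁻¹ = c ^ n := by rw [← conj_pow, h4]
        calc x ^ (n + 1) * v * (x ^ (n + 1))⁻¹ = x * (x ^ n * v * (x ^ n)⁻¹) * x⁻¹ := by
              rw [pow_succ']; group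
          _ = (x * c ^ n * x⁻¹) * (x * v * x⁻¹) := by rw [ih]; group
          _ = c ^ (n + 1) * v := by rw [h5, h2, pow_succ]; group
    have h4 : x ^ p * v * (x ^ p)⁻¹ = v := by
      have h5 : v * x ^ p = x ^ p * v := mem_centralizer_iff.1 (hT (h.pow_mem_core hS hx)) v hv
      rw [← h5, mul_inv_cancel_right]
    rw [h3 p] at h4
    have h5 : c ^ p = 1 := by
      rwa [mul_eq_right] at h4
    rw [← conj_pow, h2]
    have h6 : Commute c v := hcv
    rw [h6.mul_pow, h5, one_mul]
  obtain ⟨S, hS⟩ := SylIn.exists p (⊤ : Subgroup G)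
  obtain ⟨R, hR, hSR, hRS⟩ := h.exists_other hS
  exact hN.inf S R hS hR hSR _ (pow_mem hv _) (key S hS) (key R hR)

theorem agemo_case (h : PU p q K) (hE : centralizer (pCore p G : Set G) ≤ pCore p G) {S : Subgroup G}
    (hS : SylIn p S ⊤) : (powerClosure p 1 (ZC S)).Normal ∨ (S ⊓ centralizer (ZZ S : Set G)).Normal := by
  by_cases hZ : (ZC S).Normal
  · exact Or.inl (powerClosure_normal hZ)
  by_cases hJ : JJ S ≤ pCore p G
  · rcases bau_dich h hS hJ with h1 | h1
    · exact Or.inr h1
    · left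
      exact normal_of_le_center (powerClosure_le.trans (ZC_central_of_sup (center_le_ZZ S) h1))
  · left
    have hb := bs_of h hE hS hZ hJ
    apply normal_of_le_center
    unfold powerClosure
    rw [closure_le]
    rintro y ⟨x, hx, rfl⟩
    rw [pow_one]
    exact hb.nat.pow_center h hb.norm (hb.cen.trans (centralizer_le hb.le)) (pCore_le_centralizer_of hb.cen)
      (subset_normalClosure hx)

end Cfsg.Agent.H47
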