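import Cfsg.Agent.H20.HarDef
import Cfsg.Agent.H32.Syl

set_option autoImplicit false
set_option linter.unusedSectionVars false

/-! Harada's theorem, case `|V| = 16`, `|A ∩ V| = 4` (piece (D) of helper20's project; helper47). -/

namespace Cfsg.Agent.H47.HarD

open Subgroup Cfsg.Agent.H20.Har

variable {S : Type*} [Group S] [Finite S]

theorem four_elems {W : Subgroup S} (hc : Nat.card W = 4) {z w : S} (hz : z ∈ W) (hw : w ∈ W)
    (hz1 : z ≠ 1) (hw1 : w ≠ 1) (hzw : z ≠ w) (hzz : z * z = 1) :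
    ∀ x ∈ W, x = 1 ∨ x = z ∨ x = w ∨ x = z * w := by
  classical
  intro x hx
  have := Fintype.ofFinite W
  have h1 : z * w ≠ 1 := fun h => hzw (by
    rw [← inv_eq_of_mul_eq_one_right hzz]; exact inv_eq_of_mul_eq_one_right h)
  have h2 : z * w ≠ z := fun h => hw1 (mul_eq_left.1 h)
  have h3 : z * w ≠ w := fun h => hz1 (mul_eq_right.1 h)
  let s : Finset W := {1, ⟨z, hz⟩, ⟨w, hw⟩, ⟨z * w, W.mul_mem hz hw⟩}
  have hs : s.card = 4 := by
    rw [Finset.card_insert_of_notMem, Finset.card_insert_of_notMem, Finset.card_insert_of_notMem,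
      Finset.card_singleton]
    · simp only [Finset.mem_singleton]
      exact fun h => h3 (congrArg Subtype.val h).symm
    · simp only [Finset.mem_insert, Finset.mem_singleton, not_or]
      exact ⟨fun h => hzw (congrArg Subtype.val h), fun h => h2 (congrArg Subtype.val h).symm⟩
    · simp only [Finset.mem_insert, Finset.mem_singleton, not_or]
      exact ⟨fun h => hz1 (congrArg Subtype.val h).symm, fun h => hw1 (congrArg Subtype.val h).symm,
        fun h => h1 (congrArg Subtype.val h).symm⟩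
  have hsu : s = Finset.univ := by
    rw [← Finset.card_eq_iff_eq_univ, hs, ← Nat.card_eq_fintype_card, hc]
  have hxs : (⟨x, hx⟩ : W) ∈ s := by rw [hsu]; exact Finset.mem_univ _
  simp only [s, Finset.mem_insert, Finset.mem_singleton] at hxs
  rcases hxs with h | h | h | h
  · exact Or.inl (congrArg Subtype.val h)
  · exact Or.inr (Or.inl (congrArg Subtype.val h))
  · exact Or.inr (Or.inr (Or.inl (congrArg Subtype.val h)))
  · exact Or.inr (Or.inr (Or.inr (congrArg Subtype.val h)))

/-- if every element of `W` is `1` or `z` then `|W| ≤ 2`. -/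
theorem card_le_two_of {W : Subgroup S} {z : S} (h : ∀ x ∈ W, x = 1 ∨ x = z) : Nat.card W ≤ 2 := by
  classical
  have h4 : Function.Injective (fun b : W => if (b : S) = 1 then (0 : Fin 2) else 1) := by
    intro b b' hbb
    by_cases hb : (b : S) = 1
    · by_cases hb' : (b' : S) = 1
      · exact Subtype.ext (hb.trans hb'.symm)
      · simp only [hb, if_true, hb', if_false] at hbb
        exact absurd hbb (by decide)
    · by_cases hb' : (b' : S) = 1
      · simp only [hb', if_true, hb, if_false] at hbb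
        exact absurd hbb (by decide)
      · exact Subtype.ext (((h b b.2).resolve_left hb).trans ((h b' b'.2).resolve_left hb').symm)
  have h5 := Nat.card_le_card_of_injective _ h4
  rwa [Nat.card_eq_fintype_card (α := Fin 2), Fintype.card_fin] at h5

theorem mem_cen {a x : S} : x ∈ Subgroup.centralizer {a} ↔ x * a = a * x :=
  Subgroup.mem_centralizer_singleton_iff

theorem caseD_of {A V : Subgroup S} (h : HS A V) (V16 : Nat.card V = 16)
    (X4 : Nat.card ↥(A ⊓ V) = 4)
    (f16 : (∀ x : S, (∀ v ∈ V, x * v = v * x) → x ∈ V) → ∀ F : Subgroup S, V ≤ F →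
      (∀ f ∈ F, f ∉ V → Nat.card ↥(V ⊓ Subgroup.centralizer {f}) ≤ 4) → Nat.card S ≤ 128 →
      Nat.card S < 4 * Nat.card F →
      (Nat.card S = 128 → ∃ s : S, ∃ f ∈ F, s * f * s⁻¹ * f⁻¹ ∉ V) → R4 S)
    (g16 : (∀ x : S, (∀ v ∈ V, x * v = v * x) → x ∈ V) → ∀ (G : Subgroup S) (a t : S), a * a = 1 →
      (∀ s, s ∈ G ↔ s * a * s⁻¹ * a⁻¹ ∈ V) → Nat.card G = 64 →
      (∀ f ∈ G, f ∉ V → Nat.card ↥(V ⊓ Subgroup.centralizer {f}) ≤ 4) → t ∈ G → t ∉ V → t * t ∈ V →
      (∀ s : S, s * t * s⁻¹ * t⁻¹ ∈ V) → R4 S) : R4 S := by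
  have : Fact (Nat.Prime 2) := ⟨Nat.prime_two⟩
  have hVn : V.Normal := ⟨fun v hv g => h.Vn v hv g⟩
  have hVi : ∀ v ∈ V, v⁻¹ = v := fun v hv => inv_eq_of_mul_eq_one_right (h.Vsq v hv)
  -- `a`
  obtain ⟨a, haA, haV⟩ : ∃ a ∈ A, a ∉ V := by
    by_contra hcon
    push Not at hcon
    have h1 : A ⊓ V = A := inf_eq_left.2 hcon
    rw [h1, h.A8] at X4
    omega
  have haa : a * a = 1 := h.Asq a haA
  have hai : a⁻¹ = a := inv_eq_of_mul_eq_one_right haa
  have hidx : (V.subgroupOf A).index = 2 := by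
    have h1 := H32.card_mul_relIndex (H := A ⊓ V) (K := A) inf_le_left
    rw [X4, h.A8, Subgroup.inf_relIndex_left] at h1
    change V.relIndex A = 2
    omega
  have hAW : ∀ b ∈ A, b ∉ V → a * b ∈ V := by
    intro b hb hbV
    have h1 := (Subgroup.mul_mem_iff_of_index_two hidx (a := ⟨a, haA⟩) (b := ⟨b, hb⟩)).2
      ⟨fun h => absurd h haV, fun h => absurd h hbV⟩
    exact h1
  have hcomA : ∀ x : S, x * a = a * x → (∀ w ∈ A ⊓ V, x * w = w * x) → x ∈ A := by
    intro x hxa hxw
    apply h.cent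
    intro b hb
    by_cases hbV : b ∈ V
    · exact hxw b ⟨hb, hbV⟩
    · have h1 := hxw (a * b) ⟨A.mul_mem haA hb, hAW b hb hbV⟩
      calc x * b = a⁻¹ * (x * (a * b)) := by rw [← mul_assoc, ← mul_assoc, mul_assoc a⁻¹, hxa]; group
        _ = b * x := by rw [h1]; group
  have hCVa : ∀ v ∈ V, v * a = a * v → v ∈ A := fun v hv hva =>
    hcomA v hva (fun w hw => h.Vcomm v hv w hw.2)
  have hW : V ⊓ Subgroup.centralizer {a} = A ⊓ V := by
    ext v
    rw [Subgroup.mem_inf, Subgroup.mem_inf, mem_cen]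
    constructor
    · rintro ⟨hv, hva⟩; exact ⟨hCVa v hv hva, hv⟩
    · rintro ⟨hvA, hv⟩; exact ⟨hv, h.Acomm v hvA a haA⟩
  -- conjugation by `a`
  have haV' : ∀ v ∈ V, a * v * a ∈ V := fun v hv => by
    have := h.Vn v hv a; rwa [hai] at this
  -- `[V,a] = W`
  have hVa : ∀ w ∈ V, w * a = a * w → ∃ v ∈ V, v⁻¹ * (a * v * a) = w := by
    let ψ : ↥V →* S := MonoidHom.mk' (fun v => (v : S)⁻¹ * (a * v * a)) (by
      rintro ⟨u, hu⟩ ⟨v, hv⟩
      change (u * v)⁻¹ * (a * (u * v) * a) = (u⁻¹ * (a * u * a)) * (v⁻¹ * (a * v * a))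
      calc (u * v)⁻¹ * (a * (u * v) * a) = v⁻¹ * u⁻¹ * (a * u * 1 * v * a) := by group
        _ = v⁻¹ * u⁻¹ * (a * u * (a * a) * v * a) := by rw [haa]
        _ = v⁻¹ * (u⁻¹ * (a * u * a)) * (a * v * a) := by group
        _ = (u⁻¹ * (a * u * a)) * v⁻¹ * (a * v * a) := by
            rw [h.Vcomm _ (V.inv_mem hv) _ (V.mul_mem (V.inv_mem hu) (haV' u hu))]
        _ = _ := by group)
    have hker : Nat.card ψ.ker = 4 := by
      have h1 : ψ.ker.map V.subtype = A ⊓ V := by
        rw [← hW]
        ext v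
        rw [Subgroup.mem_inf, mem_cen]
        constructor
        · rintro ⟨⟨v, hv⟩, hk, rfl⟩
          have h2 : v⁻¹ * (a * v * a) = 1 := hk
          refine ⟨hv, ?_⟩
          change v * a = a * v
          have h3 : a * v * a = v := by rw [← inv_mul_eq_one.1 h2]
          calc v * a = (a * v * a) * a := by rw [h3]
            _ = a * v * (a * a) := by group
            _ = a * v := by rw [haa, mul_one]
        · rintro ⟨hv, hva⟩
          refine ⟨⟨v, hv⟩, ?_, rfl⟩
          change v⁻¹ * (a * v * a) = 1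
          rw [← hva, mul_assoc v, haa]; group
      rw [← X4, ← h1, Subgroup.card_map_of_injective V.subtype_injective]
    have hrange : Nat.card ψ.range = 4 := by
      have h1 := Subgroup.card_mul_index ψ.ker
      rw [Subgroup.index_ker, hker, V16] at h1
      omega
    have hle : ψ.range ≤ A ⊓ V := by
      rintro _ ⟨v, rfl⟩
      have h1 : (v : S)⁻¹ * (a * v * a) ∈ V := V.mul_mem (V.inv_mem v.2) (haV' v v.2)
      rw [← hW]
      refine ⟨h1, mem_cen.2 ?_⟩
      change (v : S)⁻¹ * (a * v * a) * a = a * ((v : S)⁻¹ * (a * v * a))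
      have h2 : a * ((v : S)⁻¹ * (a * v * a)) * a = (v : S)⁻¹ * (a * v * a) := by
        calc a * ((v : S)⁻¹ * (a * v * a)) * a = a * (v : S)⁻¹ * a * v * (a * a) := by group
          _ = ((v : S)⁻¹ * (a * v * a))⁻¹ := by rw [haa, mul_one]; simp only [mul_inv_rev, hai, inv_inv]; group
          _ = _ := hVi _ h1
      calc (v : S)⁻¹ * (a * v * a) * a = a * ((v : S)⁻¹ * (a * v * a)) * a * a := by rw [h2]
        _ = a * ((v : S)⁻¹ * (a * v * a)) * (a * a) := by group
        _ = _ := by rw [haa, mul_one]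
    have heq : ψ.range = A ⊓ V := Subgroup.eq_of_le_of_card_ge hle (by rw [hrange, X4])
    intro w hw hwa
    have h1 : w ∈ ψ.range := by rw [heq]; exact ⟨hCVa w hw hwa, hw⟩
    obtain ⟨v, hv⟩ := h1
    exact ⟨v, v.2, hv⟩
  -- (*)
  have star : ∀ y : S, y * a * y⁻¹ * a⁻¹ ∈ V → ∃ v ∈ V, ∃ c, c * a = a * c ∧ y = v * c := by
    intro y hy
    rw [hai] at hy
    have hf1 : a * (y * a * y⁻¹ * a) * a = y * a * y⁻¹ * a := by
      calc a * (y * a * y⁻¹ * a) * a = a * y * a * y⁻¹ * (a * a) := by group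
        _ = (y * a * y⁻¹ * a)⁻¹ := by rw [haa, mul_one]; simp only [mul_inv_rev, hai, inv_inv]; group
        _ = _ := hVi _ hy
    have hf2 : (y * a * y⁻¹ * a) * a = a * (y * a * y⁻¹ * a) := by
      calc (y * a * y⁻¹ * a) * a = a * (y * a * y⁻¹ * a) * a * a := by rw [hf1]
        _ = a * (y * a * y⁻¹ * a) * (a * a) := by group
        _ = _ := by rw [haa, mul_one]
    obtain ⟨v, hv, hve⟩ := hVa _ hy hf2
    refine ⟨v, hv, v⁻¹ * y, ?_, by group⟩
    -- v⁻¹ (a v a) = y a y⁻¹ a ; inverse: a v⁻¹ a v = a y a y⁻¹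
    have h1 : y * a * y⁻¹ * a = v * a * v⁻¹ * a := by
      calc y * a * y⁻¹ * a = (v⁻¹ * (a * v * a))⁻¹ := by rw [hve]; exact (hVi _ hy).symm
        _ = (a * v⁻¹ * a) * v := by simp only [mul_inv_rev, hai, inv_inv]; group
        _ = v * (a * v⁻¹ * a) := (h.Vcomm _ (haV' _ (V.inv_mem hv)) _ hv)
        _ = _ := by group
    have h2 : y * a * y⁻¹ = v * a * v⁻¹ := mul_right_cancel h1
    calc v⁻¹ * y * a = v⁻¹ * (y * a * y⁻¹) * y := by group
      _ = v⁻¹ * (v * a * v⁻¹) * y := by rw [h2]
      _ = a * (v⁻¹ * y) := by group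
  -- central `z`
  obtain ⟨z, hzV, hzo, hzc⟩ := H23.exists_central_orderOf (p := 2) h.two hVn (by
    intro hb
    rw [hb, Subgroup.card_bot] at V16
    omega)
  have hz1 : z ≠ 1 := fun h => by rw [h, orderOf_one] at hzo; omega
  have hzz : z * z = 1 := by rw [← sq, ← hzo, pow_orderOf_eq_one]
  have hzc' : ∀ g : S, g * z = z * g := fun g => Subgroup.mem_center_iff.1 hzc g
  have hzW : z ∈ A ⊓ V := ⟨hCVa z hzV (hzc' a).symm, hzV⟩
  obtain ⟨w, hwW, hw1, hwz⟩ : ∃ w ∈ A ⊓ V, w ≠ 1 ∧ w ≠ z := by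
    by_contra hcon
    push Not at hcon
    have := card_le_two_of (W := A ⊓ V) (z := z) (fun x hx => by
      by_cases h1 : x = 1
      · exact Or.inl h1
      · exact Or.inr (hcon x hx h1))
    omega
  have hW4 := four_elems X4 hzW hwW hz1 hw1 hwz.symm hzz
  have hWn : ∀ x : S, x * a = a * x → ∀ u ∈ A ⊓ V, x * u * x⁻¹ ∈ A ⊓ V := by
    intro x hx u hu
    have h1 : x * u * x⁻¹ ∈ V := h.Vn u hu.2 x
    refine ⟨hCVa _ h1 ?_, h1⟩
    have h2 := h.Acomm u hu.1 a haA
    have h3 : x⁻¹ * a = a * x⁻¹ := by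
      rw [inv_mul_eq_iff_eq_mul, ← mul_assoc, hx, mul_inv_cancel_right]
    calc x * u * x⁻¹ * a = x * u * (x⁻¹ * a) := by group
      _ = x * (u * a) * x⁻¹ := by rw [h3]; group
      _ = (x * a) * u * x⁻¹ := by rw [h2]; group
      _ = a * (x * u * x⁻¹) := by rw [hx]; group
  have hact : ∀ x : S, x * a = a * x → x ∉ A → x * w * x⁻¹ = z * w := by
    intro x hx hxA
    rcases hW4 _ (hWn x hx w hwW) with h1 | h1 | h1 | h1
    · exfalso; apply hw1
      have : w = x⁻¹ * (x * w * x⁻¹) * x := by group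
      rw [this, h1]; group
    · exfalso; apply hwz
      have : w = x⁻¹ * (x * w * x⁻¹) * x := by group
      rw [this, h1, hzc' x⁻¹]; group
    · exfalso; apply hxA
      apply hcomA x hx
      have h2 : x * w = w * x := mul_inv_eq_iff_eq_mul.1 h1
      intro u hu
      rcases hW4 u hu with rfl | rfl | rfl | rfl
      · group
      · exact hzc' x
      · exact h2
      · rw [← mul_assoc, hzc' x, mul_assoc, h2, mul_assoc]
    · exact h1
  have hfixW : ∀ x : S, x * a = a * x → x ∉ A → ∀ u ∈ A ⊓ V, x * u = u * x → u = 1 ∨ u = z := by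
    intro x hx hxA u hu hxu
    have h1 := hact x hx hxA
    have h2 : x * w ≠ w * x := by
      intro h3
      rw [← mul_inv_eq_iff_eq_mul, h1] at h3
      exact hz1 (mul_eq_right.1 h3)
    rcases hW4 u hu with rfl | rfl | rfl | rfl
    · exact Or.inl rfl
    · exact Or.inr rfl
    · exact absurd hxu h2
    · exfalso
      apply h2
      have h3 : z * (x * w) = z * (w * x) := by
        calc z * (x * w) = x * (z * w) := by rw [← mul_assoc, ← hzc' x, mul_assoc]
          _ = z * (w * x) := by rw [hxu, mul_assoc]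
      exact mul_left_cancel h3
  -- order of `C_S(a)`
  have hACa : A ≤ Subgroup.centralizer {a} := fun b hb => mem_cen.2 (h.Acomm b hb a haA)
  have hCa : Nat.card ↥(Subgroup.centralizer {a}) ≤ 16 := by
    have h1 := card_le_two (Subgroup.centralizer {a}) A (fun s hs s' hs' hsA hs'A => by
      rw [mem_cen] at hs hs'
      have e1 := hact s hs hsA
      have e2 := hact s' hs' hs'A
      have hc : (s⁻¹ * s') * a = a * (s⁻¹ * s') := by
        have h3 : s⁻¹ * a = a * s⁻¹ := by
          rw [inv_mul_eq_iff_eq_mul, ← mul_assoc, hs, mul_inv_cancel_right]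
        rw [mul_assoc, hs', ← mul_assoc, h3, mul_assoc]
      have hcw : (s⁻¹ * s') * w = w * (s⁻¹ * s') := by
        rw [← mul_inv_eq_iff_eq_mul]
        calc s⁻¹ * s' * w * (s⁻¹ * s')⁻¹ = s⁻¹ * (s' * w * s'⁻¹) * s := by group
          _ = s⁻¹ * (s * w * s⁻¹) * s := by rw [e2, e1]
          _ = w := by group
      apply hcomA _ hc
      intro u hu
      rcases hW4 u hu with rfl | rfl | rfl | rfl
      · group
      · exact hzc' _
      · exact hcw
      · rw [← mul_assoc, hzc' _, mul_assoc, hcw, mul_assoc])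
    rw [inf_eq_right.2 hACa, h.A8] at h1
    exact h1
  -- `C_S(V) = V`
  have hwV : w ∈ V := hwW.2
  have hnotC : ∀ b ∈ A, (∀ v ∈ V, b * v = v * b) → b ∈ V := by
    intro b hb hbc
    by_contra hbV
    have h1 := hAW b hb hbV
    have h2 : V ≤ A := fun v hv => hCVa v hv (by
      have e1 := hbc v hv
      have e2 := h.Vcomm _ h1 v hv
      have hbi : b * b = 1 := h.Asq b hb
      calc v * a = v * (a * b) * b := by rw [mul_assoc v, mul_assoc a, hbi, mul_one]
        _ = a * (b * v) * b := by rw [← e2]; group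
        _ = a * v * (b * b) := by rw [e1]; group
        _ = a * v := by rw [hbi, mul_one])
    have h3 := Subgroup.card_le_of_le h2
    rw [V16, h.A8] at h3
    omega
  have hCV : ∀ x : S, (∀ v ∈ V, x * v = v * x) → x ∈ V := by
    by_contra hcon
    push Not at hcon
    obtain ⟨x, hxc, hxV⟩ := hcon
    have hCn : (Subgroup.centralizer (V : Set S)).Normal := by infer_instance
    have hlt : V < Subgroup.centralizer (V : Set S) := by
      refine lt_of_le_of_ne ?_ ?_
      · intro v hv
        rw [Subgroup.mem_centralizer_iff]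
        intro u hu
        exact h.Vcomm u hu v hv
      · intro heq
        apply hxV
        rw [heq, Subgroup.mem_centralizer_iff]
        intro v hv
        exact (hxc v hv).symm
    obtain ⟨y, hyC, hyV, -, hyg, -, -⟩ := H23.exists_step (p := 2) h.two hVn hCn hlt
    obtain ⟨v, hv, c, hca, rfl⟩ := star y (hyg a)
    have hcC : ∀ u ∈ V, c * u = u * c := by
      intro u hu
      have h1 := Subgroup.mem_centralizer_iff.1 hyC u hu
      have h2 := h.Vcomm v hv u hu
      have h3 : v * (c * u) = v * (u * c) := by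
        rw [← mul_assoc, ← h1, ← mul_assoc, ← mul_assoc, h2]
      exact mul_left_cancel h3
    have hcA : c ∈ A := hcomA c hca (fun u hu => hcC u hu.2)
    exact hyV (V.mul_mem hv (hnotC c hcA hcC))
  -- the element `t`
  have hVtop : V < ⊤ := lt_top_iff_ne_top.2 (fun h1 => haV (h1 ▸ Subgroup.mem_top a))
  obtain ⟨t0, -, ht0V, ht02, ht0g, -, -⟩ := H23.exists_step (p := 2) h.two hVn
    (inferInstance : (⊤ : Subgroup S).Normal) hVtop
  obtain ⟨v0, hv0, t, hta, rfl⟩ := star t0 (ht0g a)
  have htV : t ∉ V := fun h1 => ht0V (V.mul_mem hv0 h1)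
  have htt : t * t ∈ V := by
    have h1 : t * t = v0⁻¹ * ((v0 * t) ^ 2) * (t⁻¹ * v0⁻¹ * t) := by rw [sq]; group
    rw [h1]
    have h2 := h.Vn _ (V.inv_mem hv0) t⁻¹
    rw [inv_inv] at h2
    exact V.mul_mem (V.mul_mem (V.inv_mem hv0) ht02) h2
  have htg : ∀ g : S, g * t * g⁻¹ * t⁻¹ ∈ V := by
    intro g
    have h1 : g * t * g⁻¹ * t⁻¹ = (v0⁻¹ * ((v0 * t) * g * (v0 * t)⁻¹ * g⁻¹) * (g * v0 * g⁻¹))⁻¹ := by group
    rw [h1]
    exact V.inv_mem (V.mul_mem (V.mul_mem (V.inv_mem hv0) (ht0g g)) (h.Vn v0 hv0 g))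
  -- the group `G`
  have hnor : Subgroup.centralizer {a} ≤ Subgroup.normalizer (V : Set S) := by
    rw [Subgroup.normalizer_eq_top]; exact le_top
  have hGmem : ∀ s, s ∈ V ⊔ Subgroup.centralizer {a} ↔ s * a * s⁻¹ * a⁻¹ ∈ V := by
    intro s
    rw [H32.mem_sup_of_le_normalizer hnor]
    constructor
    · rintro ⟨v, hv, c, hc, rfl⟩
      rw [mem_cen] at hc
      have h1 : v * c * a * (v * c)⁻¹ * a⁻¹ = v * (a * v⁻¹ * a⁻¹) := by
        calc v * c * a * (v * c)⁻¹ * a⁻¹ = v * (c * a) * c⁻¹ * v⁻¹ * a⁻¹ := by group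
          _ = _ := by rw [hc]; group
      rw [h1]
      exact V.mul_mem hv (h.Vn _ (V.inv_mem hv) a)
    · intro hs
      obtain ⟨v, hv, c, hc, rfl⟩ := star s hs
      exact ⟨v, hv, c, mem_cen.2 hc, rfl⟩
  have hcardG : Nat.card ↥(V ⊔ Subgroup.centralizer {a}) * 4 = 16 * Nat.card ↥(Subgroup.centralizer {a}) := by
    have h1 := H32.card_sup_mul_card_inf hnor
    rwa [hW, X4, V16] at h1
  have hfree : ∀ f ∈ V ⊔ Subgroup.centralizer {a}, f ∉ V → Nat.card ↥(V ⊓ Subgroup.centralizer {f}) ≤ 4 := by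
    intro f hf hfV
    rw [H32.mem_sup_of_le_normalizer hnor] at hf
    obtain ⟨v, hv, c, hc, rfl⟩ := hf
    rw [mem_cen] at hc
    have hcV : c ∉ V := fun h1 => hfV (V.mul_mem hv h1)
    have h1 : V ⊓ Subgroup.centralizer {v * c} = V ⊓ Subgroup.centralizer {c} := by
      ext u
      rw [Subgroup.mem_inf, Subgroup.mem_inf, mem_cen, mem_cen]
      refine and_congr_right (fun hu => ?_)
      have h2 := h.Vcomm v hv u hu
      constructor
      · intro h3
        have h4 : v * (u * c) = v * (c * u) := by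
          calc v * (u * c) = u * (v * c) := by rw [← mul_assoc, h2, mul_assoc]
            _ = v * (c * u) := by rw [h3, mul_assoc]
        exact mul_left_cancel h4
      · intro h3
        rw [← mul_assoc, ← h2, mul_assoc, h3, mul_assoc]
    rw [h1]
    by_cases hcA : c ∈ A
    · have h2 := hAW c hcA hcV
      have h3 : V ⊓ Subgroup.centralizer {c} = A ⊓ V := by
        rw [← hW]
        ext u
        rw [Subgroup.mem_inf, Subgroup.mem_inf, mem_cen, mem_cen]
        refine and_congr_right (fun hu => ?_)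
        have h4 := h.Vcomm _ h2 u hu
        constructor
        · intro h5
          have h6 : (u * a) * c = (a * u) * c := by
            calc (u * a) * c = u * (a * c) := by group
              _ = (a * c) * u := h4.symm
              _ = (a * u) * c := by rw [mul_assoc, ← h5, mul_assoc]
          exact mul_right_cancel h6
        · intro h5
          have h6 : a * (u * c) = a * (c * u) := by
            calc a * (u * c) = (u * a) * c := by rw [← mul_assoc, h5]
              _ = u * (a * c) := by group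
              _ = a * (c * u) := by rw [← h4]; group
          exact mul_left_cancel h6
      rw [h3, X4]
    · have h2 := card_le_two (V ⊓ Subgroup.centralizer {c}) (Subgroup.centralizer {a})
        (fun s hs s' hs' hsa hs'a => by
          rw [Subgroup.mem_inf, mem_cen] at hs hs'
          rw [mem_cen] at hsa hs'a ⊢
          -- `[s,a] = z`
          have key : ∀ s ∈ V, s * c = c * s → ¬ s * a = a * s → a * s * a = s * z := by
            intro s hs hsc hsa
            have e1 : s⁻¹ * (a * s * a) ∈ V := V.mul_mem (V.inv_mem hs) (haV' s hs)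
            have e2 : a * (s⁻¹ * (a * s * a)) * a = s⁻¹ * (a * s * a) := by
              calc a * (s⁻¹ * (a * s * a)) * a = a * s⁻¹ * a * s * (a * a) := by group
                _ = (s⁻¹ * (a * s * a))⁻¹ := by rw [haa, mul_one]; simp only [mul_inv_rev, hai, inv_inv]; group
                _ = _ := hVi _ e1
            have e3 : s⁻¹ * (a * s * a) * a = a * (s⁻¹ * (a * s * a)) := by
              calc s⁻¹ * (a * s * a) * a = a * (s⁻¹ * (a * s * a)) * a * a := by rw [e2]
                _ = a * (s⁻¹ * (a * s * a)) * (a * a) := by group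
                _ = _ := by rw [haa, mul_one]
            have e4 : c * (s⁻¹ * (a * s * a)) = (s⁻¹ * (a * s * a)) * c := by
              have f1 : Commute c s := hsc.symm
              have f2 : Commute c a := hc
              exact (f1.inv_right.mul_right ((f2.mul_right f1).mul_right f2)).eq
            rcases hfixW c hc hcA _ ⟨hCVa _ e1 e3, e1⟩ e4 with e5 | e5
            · exfalso; apply hsa
              have e6 : a * s * a = s := (inv_mul_eq_one.1 e5).symm
              calc s * a = (a * s * a) * a := by rw [e6]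
                _ = a * s * (a * a) := by group
                _ = a * s := by rw [haa, mul_one]
            · exact inv_mul_eq_iff_eq_mul.1 e5
          have k1 := key s hs.1 hs.2.symm.symm hsa
          have k2 := key s' hs'.1 hs'.2.symm.symm hs'a
          have k3 : a * (s⁻¹ * s') * a = s⁻¹ * s' := by
            calc a * (s⁻¹ * s') * a = a * s⁻¹ * 1 * s' * a := by group
              _ = a * s⁻¹ * (a * a) * s' * a := by rw [haa]
              _ = (a⁻¹ * s * a⁻¹)⁻¹ * (a * s' * a) := by group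
              _ = (s * z)⁻¹ * (s' * z) := by rw [hai, k1, k2]
              _ = z⁻¹ * ((s⁻¹ * s') * z) := by group
              _ = s⁻¹ * s' := by rw [hzc' (s⁻¹ * s'), inv_mul_cancel_left]
          calc s⁻¹ * s' * a = (a * (s⁻¹ * s') * a) * a := by rw [k3]
            _ = a * (s⁻¹ * s') * (a * a) := by group
            _ = _ := by rw [haa, mul_one])
      have h3 : Nat.card ↥(V ⊓ Subgroup.centralizer {c} ⊓ Subgroup.centralizer {a}) ≤ 2 := by
        apply card_le_two_of (z := z)
        intro u hu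
        rw [Subgroup.mem_inf, Subgroup.mem_inf, mem_cen, mem_cen] at hu
        exact hfixW c hc hcA u ⟨hCVa u hu.1.1 hu.2, hu.1.1⟩ hu.1.2.symm
      omega
  by_cases htA : t ∈ A
  · -- `a` is central mod `V`
    have h1 : ∀ s : S, s * a * s⁻¹ * a⁻¹ ∈ V := by
      intro s
      have h2 := hAW t htA htV
      -- a = (a t) t⁻¹ ; s a s⁻¹ = s (a t) s⁻¹ (s t s⁻¹)⁻¹
      have h3 := h.Vn _ h2 s
      have h4 := htg s
      have h5 : s * a * s⁻¹ * a⁻¹ = (s * (a * t) * s⁻¹) * (t⁻¹ * (s * t * s⁻¹ * t⁻¹)⁻¹ * t) * (t⁻¹ * a⁻¹) := by group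
      rw [h5]
      have h6 := h.Vn _ (V.inv_mem h4) t⁻¹
      rw [inv_inv] at h6
      have h7 : t⁻¹ * a⁻¹ ∈ V := by rw [← mul_inv_rev]; exact V.inv_mem h2
      exact V.mul_mem (V.mul_mem h3 h6) h7
    have htop : V ⊔ Subgroup.centralizer {a} = ⊤ := by
      rw [eq_top_iff]
      intro s _
      exact (hGmem s).2 (h1 s)
    have hcS : Nat.card S ≤ 64 := by
      rw [htop, Subgroup.card_top] at hcardG
      omega
    have hnorA : A ≤ Subgroup.normalizer (V : Set S) := by
      rw [Subgroup.normalizer_eq_top]; exact le_top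
    have hF : Nat.card ↥(V ⊔ A) * 4 = 16 * 8 := by
      have h2 := H32.card_sup_mul_card_inf hnorA
      rwa [inf_comm, X4, V16, h.A8] at h2
    refine f16 hCV (V ⊔ A) le_sup_left (fun f hf hfV => hfree f ((sup_le_sup_left hACa V) hf) hfV)
      (by omega) (by omega) (fun h2 => absurd h2 (by omega))
  · have hCa16 : Nat.card ↥(Subgroup.centralizer {a}) = 16 := by
      have h1 := Subgroup.card_dvd_of_le hACa
      rw [h.A8] at h1
      obtain ⟨k, hk⟩ := h1
      have h2 : k ≤ 2 := by omega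
      have h3 : k ≠ 0 := by
        rintro rfl
        have : 0 < Nat.card ↥(Subgroup.centralizer {a}) := Nat.card_pos
        omega
      have h4 : k ≠ 1 := by
        rintro rfl
        have h5 : A = Subgroup.centralizer {a} := Subgroup.eq_of_le_of_card_ge hACa (by rw [hk, h.A8])
        exact htA (h5 ▸ mem_cen.2 hta)
      have h5 : k = 2 := by omega
      rw [hk, h5]
    exact g16 hCV (V ⊔ Subgroup.centralizer {a}) a t haa hGmem (by omega) hfree
      ((le_sup_right : Subgroup.centralizer {a} ≤ _) (mem_cen.2 hta)) htV htt htg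

end Cfsg.Agent.H47.HarD
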