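import Cfsg.Agent.H47.Mod4
import Mathlib.FieldTheory.Finite.Basic

set_option autoImplicit false
set_option linter.unusedSectionVars false
set_option linter.style.haveILetI false
open Cfsg Subgroup
open scoped commutatorElement

namespace Cfsg.Agent.H47

/-- a transitive commuting additive group of endomorphisms is a field -/
theorem exists_field_iso {X F : Type*} [AddCommGroup X] [Finite X] [Nontrivial X] [Field F] [Fintype F]
    (hcard : Fintype.card F = Nat.card X) (𝒦 : AddSubgroup (AddMonoid.End X)) (h1 : 1 ∈ 𝒦)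
    (hc : ∀ a ∈ 𝒦, ∀ b ∈ 𝒦, a * b = b * a) (ht : ∀ x : X, x ≠ 0 → ∀ y : X, ∃ κ ∈ 𝒦, κ x = y) :
    ∃ θ : X ≃+ F, (∀ κ ∈ 𝒦, ∃ c : F, ∀ x, θ (κ x) = c * θ x) ∧
      (∀ c : F, ∃ κ ∈ 𝒦, ∀ x, θ (κ x) = c * θ x) := by
  -- a commuting endomorphism is determined by one value
  have key : ∀ φ : AddMonoid.End X, (∀ a ∈ 𝒦, φ * a = a * φ) → ∀ x : X, x ≠ 0 → φ x = 0 → φ = 0 := by
    intro φ hφ x hx h0
    apply AddMonoidHom.ext
    intro y
    obtain ⟨κ, hκ, rfl⟩ := ht x hx y
    have h2 := DFunLike.congr_fun (hφ κ hκ) x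
    change φ (κ x) = κ (φ x) at h2
    rw [h0, map_zero] at h2
    exact h2
  obtain ⟨x₀, hx₀⟩ := exists_ne (0 : X)
  have hmul : ∀ a ∈ 𝒦, ∀ b ∈ 𝒦, a * b ∈ 𝒦 := by
    intro a ha b hb
    obtain ⟨c, hcc, hc2⟩ := ht x₀ hx₀ (a (b x₀))
    have h2 : a * b - c = 0 := by
      apply key _ _ x₀ hx₀
      · change a (b x₀) - c x₀ = 0
        rw [hc2, sub_self]
      · intro d hd
        rw [sub_mul, mul_sub, mul_assoc, hc b hb d hd, ← mul_assoc, hc a ha d hd, hc c hcc d hd, mul_assoc]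
    rw [sub_eq_zero.1 h2]
    exact hcc
  let R : Subring (AddMonoid.End X) :=
    { carrier := 𝒦
      mul_mem' := fun {a b} ha hb => hmul a ha b hb
      one_mem' := h1
      add_mem' := fun {a b} ha hb => add_mem ha hb
      zero_mem' := zero_mem 𝒦
      neg_mem' := fun {a} ha => neg_mem ha }
  letI : CommRing R := { (inferInstance : Ring R) with
    mul_comm := fun a b => Subtype.ext (hc a a.2 b b.2) }
  haveI : Finite (AddMonoid.End X) := by
    apply Finite.of_injective (fun f : AddMonoid.End X => (f : X → X))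
    intro f g h
    exact DFunLike.coe_injective h
  haveI : Finite R := inferInstance
  haveI : Nontrivial R := by
    refine ⟨⟨1, 0, fun h => ?_⟩⟩
    have h2 := congrArg (fun a : R => (a : AddMonoid.End X) x₀) h
    exact hx₀ h2
  haveI : NoZeroDivisors R := by
    refine ⟨fun {a b} hab => ?_⟩
    by_cases hb : b = 0
    · exact Or.inr hb
    left
    have h2 : (b : AddMonoid.End X) x₀ ≠ 0 := by
      intro h3
      apply hb
      apply Subtype.ext
      exact key b (fun c hcc => hc b b.2 c hcc) x₀ hx₀ h3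
    apply Subtype.ext
    apply key a (fun c hcc => hc a a.2 c hcc) _ h2
    exact congrArg (fun a : R => (a : AddMonoid.End X) x₀) hab
  haveI : IsDomain R := NoZeroDivisors.to_isDomain R
  have hfield : IsField R := Finite.isField_of_domain R
  letI : Field R := hfield.toField
  letI : Fintype R := Fintype.ofFinite R
  have hev : Function.Bijective (fun a : R => (a : AddMonoid.End X) x₀) := by
    constructor
    · intro a b hab
      have h2 : ((a : AddMonoid.End X) - b) = 0 := by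
        apply key _ _ x₀ hx₀
        · change (a : AddMonoid.End X) x₀ - (b : AddMonoid.End X) x₀ = 0
          rw [sub_eq_zero]; exact hab
        · intro d hd
          rw [sub_mul, mul_sub, hc a a.2 d hd, hc b b.2 d hd]
      exact Subtype.ext (sub_eq_zero.1 h2)
    · intro y
      obtain ⟨κ, hκ, h2⟩ := ht x₀ hx₀ y
      exact ⟨⟨κ, hκ⟩, h2⟩
  have hcard2 : Fintype.card R = Fintype.card F := by
    rw [hcard, ← Nat.card_eq_fintype_card]
    exact Nat.card_congr (Equiv.ofBijective _ hev)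
  let ε : R ≃+* F := FiniteField.ringEquivOfCardEq hcard2
  let ev : R ≃+ X := AddEquiv.ofBijective
    ({ toFun := fun a : R => (a : AddMonoid.End X) x₀
       map_zero' := rfl
       map_add' := fun a b => rfl } : R →+ X) hev
  have hev2 : ∀ a : R, ev a = (a : AddMonoid.End X) x₀ := fun a => rfl
  let θ : X ≃+ F := ev.symm.trans ε.toAddEquiv
  have hθ : ∀ a : R, θ ((a : AddMonoid.End X) x₀) = ε a := by
    intro a
    rw [← hev2]
    change ε (ev.symm (ev a)) = ε a
    rw [AddEquiv.symm_apply_apply]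
  have hθ2 : ∀ (a : R) (x : X), θ ((a : AddMonoid.End X) x) = ε a * θ x := by
    intro a x
    obtain ⟨b, rfl⟩ := hev.2 x
    change θ ((a : AddMonoid.End X) ((b : AddMonoid.End X) x₀)) = ε a * θ ((b : AddMonoid.End X) x₀)
    rw [hθ b]
    have h2 : (a : AddMonoid.End X) ((b : AddMonoid.End X) x₀) = ((a * b : R) : AddMonoid.End X) x₀ := rfl
    rw [h2, hθ]
    exact map_mul ε a b
  refine ⟨θ, fun κ hκ => ⟨ε ⟨κ, hκ⟩, fun x => hθ2 ⟨κ, hκ⟩ x⟩, fun c => ⟨(ε.symm c : R), (ε.symm c).2, fun x => ?_⟩⟩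
  rw [hθ2, RingEquiv.apply_symm_apply]

/-- commutativity from the torus condition -/
theorem comm_of_torus {X : Type*} [AddCommGroup X] (𝒦 : AddSubgroup (AddMonoid.End X)) (h1 : 1 ∈ 𝒦)
    (ht : ∀ x : X, x ≠ 0 → ∀ y : X, ∃ κ ∈ 𝒦, κ x = y)
    (hinj : ∀ κ ∈ 𝒦, κ ≠ 0 → ∀ x, κ x = 0 → x = 0)
    (htor : ∀ κ ∈ 𝒦, ∀ l ∈ 𝒦, κ ≠ 0 → l ≠ 0 → ∃ c : AddMonoid.End X, (∀ μ ∈ 𝒦, c * μ = μ * c) ∧
      κ * l = c * (l * κ)) : ∀ a ∈ 𝒦, ∀ b ∈ 𝒦, a * b = b * a := by
  have key : ∀ φ : AddMonoid.End X, (∀ a ∈ 𝒦, φ * a = a * φ) → ∀ x : X, x ≠ 0 → φ x = 0 → φ = 0 := by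
    intro φ hφ x hx h0
    apply AddMonoidHom.ext
    intro y
    obtain ⟨κ, hκ, rfl⟩ := ht x hx y
    have h2 := DFunLike.congr_fun (hφ κ hκ) x
    change φ (κ x) = κ (φ x) at h2
    rw [h0, map_zero] at h2
    exact h2
  -- cancellation
  have canc : ∀ φ : AddMonoid.End X, (∀ x, φ x = 0 → x = 0) → ∀ a b : AddMonoid.End X, φ * a = φ * b → a = b := by
    intro φ hφ a b hab
    apply AddMonoidHom.ext
    intro x
    have h2 := DFunLike.congr_fun hab x
    change φ (a x) = φ (b x) at h2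
    rw [← sub_eq_zero]
    apply hφ
    rw [map_sub]
    exact sub_eq_zero.2 h2
  intro a ha b hb
  by_cases ha0 : a = 0
  · rw [ha0, zero_mul, mul_zero]
  by_cases hb0 : b = 0
  · rw [hb0, zero_mul, mul_zero]
  by_cases ha1 : a + 1 = 0
  · rw [eq_neg_of_add_eq_zero_left ha1]
    simp
  obtain ⟨c, hc, e1⟩ := htor a ha b hb ha0 hb0
  obtain ⟨c', hc', e2⟩ := htor (a + 1) (add_mem ha h1) b hb ha1 hb0
  have e3 : b * (c * a + 1) = b * (c' * a + c') := by
    have h2 : b * (c * a + 1) = a * b + b := by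
      rw [mul_add, mul_one, e1, ← mul_assoc, ← hc b hb, mul_assoc]
    have h3 : b * (c' * a + c') = (a + 1) * b := by
      rw [e2, mul_add, mul_add, ← mul_assoc, ← hc' b hb, mul_assoc, mul_one, mul_add]
    rw [h2, h3, add_mul, one_mul]
  have e4 := canc b (hinj b hb hb0) _ _ e3
  -- (c - c') a = c' - 1
  have e5 : (c - c') * a = c' - 1 := by
    rw [sub_mul, sub_eq_sub_iff_add_eq_add, e4, add_comm]
  by_cases hcc : c - c' = 0
  · rw [hcc, zero_mul] at e5
    have h2 : c' = 1 := (sub_eq_zero.1 e5.symm)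
    have h3 : c = 1 := by rw [sub_eq_zero.1 hcc, h2]
    rw [e1, h3, one_mul]
  · have hd : ∀ μ ∈ 𝒦, (c - c') * μ = μ * (c - c') := by
      intro μ hμ
      rw [sub_mul, mul_sub, hc μ hμ, hc' μ hμ]
    have hdinj : ∀ x, (c - c') x = 0 → x = 0 := by
      intro x hx
      by_contra hx0
      exact hcc (key _ hd x hx0 hx)
    apply canc _ hdinj
    rw [← mul_assoc, e5, ← mul_assoc, hd b hb, mul_assoc, e5, sub_mul, mul_sub, hc' b hb]
    simp

end Cfsg.Agent.H47
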