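import Cfsg.Agent.H47.Ident1

set_option autoImplicit false
set_option linter.unusedSectionVars false
set_option linter.style.haveILetI false
open Cfsg Subgroup
open scoped commutatorElement

namespace Cfsg.Agent.H47

section
variable {G : Type*} [Group G] [Finite G] {p q : ℕ} [Fact p.Prime] {K : Subgroup G} [K.Normal]

/-- `n` interchanges `S` and `R` modulo `K` -/
def Swap (K S R : Subgroup G) (n : G) : Prop :=
  R.map (MulAut.conj n).toMonoidHom ⊔ K = S ⊔ K ∧ S.map (MulAut.conj n).toMonoidHom ⊔ K = R ⊔ K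

theorem Swap.mul_mem {S R : Subgroup G} {n k : G} (h : Swap K S R n) (hk : k ∈ K) : Swap K S R (n * k) := by
  have e : ∀ A : Subgroup G, A.map (MulAut.conj (n * k)).toMonoidHom ⊔ K = A.map (MulAut.conj n).toMonoidHom ⊔ K := by
    intro A
    rw [map_conj_mul, ← map_conj_sup_normal, ← map_conj_sup_normal, ← map_conj_sup_normal]
    have : k ∈ normalizer ((A ⊔ K : Subgroup G) : Set G) := le_normalizer (mem_sup_right hk)
    rw [norm_map_conj this]
  exact ⟨by rw [e]; exact h.1, by rw [e]; exact h.2⟩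

/-- the torus is abelian modulo `K` -/
theorem PU.torus_comm (h : PU p q K) {S R : Subgroup G} (ho : Opp p ⊤ S R) {n₀ n₁ n₂ : G}
    (h0 : Swap K S R n₀) (h1 : Swap K S R n₁) (h2 : Swap K S R n₂) :
    (n₁ * n₀⁻¹) * (n₂ * n₀⁻¹) * ((n₂ * n₀⁻¹) * (n₁ * n₀⁻¹))⁻¹ ∈ K := by
  have hS := ho.1
  have hR := ho.2.1
  have hSR := (h.opp_iff.1 ho).2.2
  obtain ⟨P, hP⟩ := PU.exists_sylow S hS K
  obtain ⟨Q, hQ⟩ := PU.exists_sylow R hR K
  have hne : P ≠ Q := by
    intro h1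
    apply hSR
    rw [← map_mk_le_iff, ← hP, ← hQ, h1]
  -- elements normalizing both
  have key : ∀ n, Swap K S R n → (n * n₀⁻¹) ∈ normalizer ((S ⊔ K : Subgroup G) : Set G) ∧
      (n * n₀⁻¹) ∈ normalizer ((R ⊔ K : Subgroup G) : Set G) := by
    intro n hn
    have e1 : (S ⊔ K).map (MulAut.conj n₀⁻¹).toMonoidHom = R ⊔ K := by
      rw [← h0.1, ← map_conj_sup_normal, ← map_conj_mul, inv_mul_cancel, map_conj_one]
    have e2 : (R ⊔ K).map (MulAut.conj n₀⁻¹).toMonoidHom = S ⊔ K := by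
      rw [← h0.2, ← map_conj_sup_normal, ← map_conj_mul, inv_mul_cancel, map_conj_one]
    constructor
    · apply mem_normalizer_of_map_conj
      rw [map_conj_mul, e1, map_conj_sup_normal, hn.1]
    · apply mem_normalizer_of_map_conj
      rw [map_conj_mul, e2, map_conj_sup_normal, hn.2]
  have key2 : ∀ (A : Subgroup G) (g : G), g ∈ normalizer ((A ⊔ K : Subgroup G) : Set G) →
      (QuotientGroup.mk' K g) ∈ normalizer ((A.map (QuotientGroup.mk' K) : Subgroup (G ⧸ K)) : Set (G ⧸ K)) := by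
    intro A g hg
    have e1 : A.map (QuotientGroup.mk' K) = (A ⊔ K).map (QuotientGroup.mk' K) := by
      apply le_antisymm (map_mono le_sup_left)
      rw [map_mk_le_iff]
    rw [e1]
    apply mem_normalizer_of_map_conj_le
    rintro _ ⟨_, ⟨a, ha, rfl⟩, rfl⟩
    exact ⟨g * a * g⁻¹, (mem_normalizer_iff.1 hg a).1 ha, rfl⟩
  obtain ⟨a1, a2⟩ := key n₁ h1
  obtain ⟨b1, b2⟩ := key n₂ h2
  have h3 := h.rk.torus P Q hne (QuotientGroup.mk' K (n₁ * n₀⁻¹))
    ⟨by rw [hP]; exact key2 _ _ a1, by rw [hQ]; exact key2 _ _ a2⟩ (QuotientGroup.mk' K (n₂ * n₀⁻¹))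
    ⟨by rw [hP]; exact key2 _ _ b1, by rw [hQ]; exact key2 _ _ b2⟩
  generalize n₁ * n₀⁻¹ = g₁ at h3 ⊢
  generalize n₂ * n₀⁻¹ = g₂ at h3 ⊢
  rw [← QuotientGroup.eq_one_iff, ← QuotientGroup.mk'_apply, map_mul, map_inv, map_mul, map_mul, h3,
    mul_inv_cancel]

end

section
variable {G : Type*} [Group G] {M : Type*} [AddCommGroup M] [Finite G] {p q : ℕ} [Fact p.Prime] {K : Subgroup G}
  [K.Normal] {ρ : G →* AddMonoid.End M} {V : AddSubgroup M}

/-- `O_p(G)` acts trivially -/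
theorem Nt.core (h : Nt p q ρ V) (hpu : PU p q K) {t : G} (ht : t ∈ pCore p G) {m : M} (hm : m ∈ V) :
    ρ t m = m := by
  obtain ⟨S, hS⟩ := SylIn.exists p (⊤ : Subgroup G)
  obtain ⟨R, hR, hSR, -⟩ := hpu.exists_other hS
  have ho : Opp p ⊤ S R := hpu.opp_iff.2 ⟨hS, hR, hSR⟩
  obtain ⟨x, hx, y, hy, rfl⟩ := h.sup S R ho m hm
  rw [map_add, hx.2 t (pCore_le_sylIn hS ht), hy.2 t (pCore_le_sylIn hR ht)]

theorem Nt.pm (h : Nt p q ρ V) (hpu : PU p q K) {m : M} (hm : m ∈ V) : p • m = 0 := by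
  obtain ⟨S, hS⟩ := SylIn.exists p (⊤ : Subgroup G)
  have hfx : ∀ S, SylIn p S ⊤ → ∀ x ∈ Fx ρ V S, p • x = 0 := by
    intro S hS x hx
    obtain ⟨R, hR, hSR, -⟩ := hpu.exists_other hS
    have ho : Opp p ⊤ S R := hpu.opp_iff.2 ⟨hS, hR, hSR⟩
    obtain ⟨m, hm, hm0⟩ := h.ne_zero hpu
    obtain ⟨x', hx', y', hy', e⟩ := h.sup S R ho m hm
    obtain ⟨y, hy, hy0⟩ : ∃ y ∈ Fx ρ V R, y ≠ 0 := by
      by_cases hy0 : y' = 0
      · obtain ⟨g, -, hg⟩ := hS.conj hR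
        have hx0 : x' ≠ 0 := by
          rintro rfl
          apply hm0
          rw [e, hy0, add_zero]
        refine ⟨ρ g x', ?_, fun h1 => hx0 ?_⟩
        · rw [← hg]; exact h.mem_conj hx' g
        · rw [← rho_inv_mul ρ g x', h1, map_zero]
      · exact ⟨y', hy', hy0⟩
    have hyS : y ∉ Fx ρ V S := fun h1 => hy0 (h.inf S R ho y h1 hy)
    obtain ⟨s, hs, e2⟩ := h.cover S hS y hy.1 hyS x hx
    have e3 : ρ s y = y + x := by rw [e2]; abel
    have e4 := rho_pow_of_fixed e3 (hx.2 s hs) p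
    rw [h.core hpu (hpu.pow_mem_core hS hs) hy.1] at e4
    exact left_eq_add.1 e4
  obtain ⟨R, hR, hSR, -⟩ := hpu.exists_other hS
  have ho : Opp p ⊤ S R := hpu.opp_iff.2 ⟨hS, hR, hSR⟩
  obtain ⟨x, hx, y, hy, rfl⟩ := h.sup S R ho m hm
  rw [smul_add, hfx S hS x hx, hfx R hR y hy, add_zero]

/-- elements of `K` which centralize `X` and `V/X` are trivial on `V` -/
theorem Nt.K_unip (h : Nt p q ρ V) (hpu : PU p q K) {S : Subgroup G} {k : G} (hk : k ∈ K)
    (h1 : ∀ x ∈ Fx ρ V S, ρ k x = x) (h2 : ∀ v ∈ V, ρ k v - v ∈ Fx ρ V S) : ∀ v ∈ V, ρ k v = v := by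
  -- the subgroup of all such elements
  let D : Subgroup G :=
    { carrier := {g | g ∈ K ∧ (∀ x ∈ Fx ρ V S, ρ g x = x) ∧ ∀ v ∈ V, ρ g v - v ∈ Fx ρ V S}
      one_mem' := ⟨one_mem _, fun x _ => rho_one ρ x, fun v _ => by rw [rho_one, sub_self]; exact zero_mem _⟩
      mul_mem' := by
        rintro a b ⟨ha, ha1, ha2⟩ ⟨hb, hb1, hb2⟩
        refine ⟨mul_mem ha hb, fun x hx => by rw [rho_mul, hb1 x hx, ha1 x hx], fun v hv => ?_⟩
        rw [rho_mul]
        have : ρ a (ρ b v) - v = (ρ a (ρ b v) - ρ b v) + (ρ b v - v) := by abel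
        rw [this]
        exact add_mem (ha2 _ (h.inv b v hv)) (hb2 v hv)
      inv_mem' := by
        rintro a ⟨ha, ha1, ha2⟩
        have e : ∀ x ∈ Fx ρ V S, ρ a⁻¹ x = x := fun x hx => by
          conv_lhs => rw [← ha1 x hx]
          rw [rho_inv_mul]
        refine ⟨inv_mem ha, e, fun v hv => ?_⟩
        have h3 := ha2 _ (h.inv a⁻¹ v hv)
        rw [rho_mul_inv] at h3
        rw [← neg_sub]
        exact neg_mem h3 }
  have hker : ∀ x, x ∈ D → (∃ n : ℕ, x ^ p ^ n = 1) → ∀ v ∈ V, ρ x v = v := by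
    intro x hx hxp v hv
    -- `x` lies in a Sylow subgroup
    have h3 : IsPGroup p (zpowers x) := by
      obtain ⟨n, hn⟩ := hxp
      rintro ⟨y, hy⟩
      obtain ⟨k, rfl⟩ := mem_zpowers_iff.1 hy
      refine ⟨n, Subtype.ext ?_⟩
      change (x ^ k) ^ p ^ n = 1
      rw [← zpow_natCast, ← zpow_mul, mul_comm, zpow_mul, zpow_natCast, hn, one_zpow]
    obtain ⟨P, hP⟩ := h3.exists_le_sylow
    have hP2 : SylIn p (P : Subgroup G) ⊤ := sylIn_top P
    exact h.core hpu (hpu.mem_pCore hP2 (hP (mem_zpowers x)) hx.1) hv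
  have hD : k ∈ D := ⟨hk, h1, h2⟩
  intro v hv
  -- k^p acts trivially
  have hkp : ∀ u ∈ V, ρ (k ^ p) u = u := by
    intro u hu
    have e1 : ρ k u = u + (ρ k u - u) := by abel
    rw [rho_pow_of_fixed e1 (h1 _ (h2 u hu)) p, h.pm hpu (h2 u hu).1, add_zero]
  -- k = a power of k^p times a p-element
  obtain ⟨n, m, hm, hpos⟩ : ∃ n m : ℕ, orderOf k = p ^ n * m ∧ Nat.Coprime p m := by
    obtain ⟨n, m, hm, he⟩ := Nat.exists_eq_pow_mul_and_not_dvd (orderOf_pos k).ne' p (Fact.out : p.Prime).ne_one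
    exact ⟨n, m, he, ((Fact.out : p.Prime).coprime_iff_not_dvd).2 hm⟩
  have hxm : ρ (k ^ m) v = v := by
    apply hker (k ^ m) (pow_mem hD m) ⟨n, ?_⟩ v hv
    rw [← pow_mul, mul_comm, ← hm, pow_orderOf_eq_one]
  -- the stabilizer
  let St : Subgroup G :=
    { carrier := {g | ρ g v = v}
      one_mem' := rho_one ρ v
      mul_mem' := by
        intro a b (ha : ρ a v = v) (hb : ρ b v = v)
        change ρ (a * b) v = v
        rw [rho_mul, hb, ha]
      inv_mem' := by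
        intro a (ha : ρ a v = v)
        change ρ a⁻¹ v = v
        conv_lhs => rw [← ha]
        rw [rho_inv_mul] }
  have hst : k ∈ St := by
    have h3 : IsCoprime (p : ℤ) (m : ℤ) := Nat.isCoprime_iff_coprime.2 hpos
    obtain ⟨a, b, hab⟩ := h3
    have h4 : k = (k ^ p) ^ a * (k ^ m) ^ b := by
      rw [← zpow_natCast, ← zpow_natCast, ← zpow_mul, ← zpow_mul, ← zpow_add, mul_comm (p : ℤ), mul_comm (m : ℤ),
        hab, zpow_one]
    rw [h4]
    have m1 : k ^ p ∈ St := hkp v hv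
    have m2 : k ^ m ∈ St := hxm
    exact mul_mem (zpow_mem m1 a) (zpow_mem m2 b)
  exact hst

/-- `K` commutes with `S` on `V` -/
theorem Nt.K_comm (h : Nt p q ρ V) (hpu : PU p q K) {S : Subgroup G} (hS : SylIn p S ⊤) {k s : G} (hk : k ∈ K)
    (hs : s ∈ S) {v : M} (hv : v ∈ V) : ρ k (ρ s v) = ρ s (ρ k v) := by
  have hX : ∀ k ∈ K, ∀ x ∈ Fx ρ V S, ρ k x ∈ Fx ρ V S := by
    intro k hk x hx
    have h1 := h.mem_conj hx k
    rwa [h.K_eq hpu hS (hS.map_conj_top k) ?_] at h1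
    rw [← map_conj_sup_normal]
    exact norm_map_conj (le_normalizer (mem_sup_right hk))
  have h1 : k * s * k⁻¹ * s⁻¹ ∈ K := by
    have h2 : s * k⁻¹ * s⁻¹ ∈ K := (inferInstance : K.Normal).conj_mem _ (inv_mem hk) s
    have : k * s * k⁻¹ * s⁻¹ = k * (s * k⁻¹ * s⁻¹) := by group
    rw [this]
    exact mul_mem hk h2
  have h2 : ∀ v ∈ V, ρ (k * s * k⁻¹ * s⁻¹) v = v := by
    apply h.K_unip hpu h1 (S := S)
    · intro x hx
      have e1 : ρ s⁻¹ x = x := hx.2 _ (inv_mem hs)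
      rw [rho_mul, e1, rho_mul, rho_mul, (hX _ (inv_mem hk) x hx).2 s hs, rho_mul_inv]
    · intro v hv
      have e1 : ρ (k * s * k⁻¹ * s⁻¹) v = ρ k (ρ s (ρ k⁻¹ (ρ s⁻¹ v))) := by
        rw [rho_mul, rho_mul, rho_mul]
      have e2 := hX k hk _ (h.quad S hS _ (h.inv k⁻¹ _ (h.inv s⁻¹ v hv)) s hs)
      rw [map_sub, rho_mul_inv] at e2
      have e3 : ρ (k * s * k⁻¹ * s⁻¹) v - v = (ρ k (ρ s (ρ k⁻¹ (ρ s⁻¹ v))) - ρ s⁻¹ v) + (ρ s⁻¹ v - v) := by
        rw [e1]; abel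
      rw [e3]
      exact add_mem e2 (h.quad S hS v hv _ (inv_mem hs))
  have h3 := h2 _ (h.inv (s * k) v hv)
  rw [← rho_mul] at h3
  have e4 : k * s * k⁻¹ * s⁻¹ * (s * k) = k * s := by group
  rw [e4, rho_mul, rho_mul] at h3
  exact h3

/-- matched pairs -/
theorem Nt.exists_mt (h : Nt p q ρ V) (hpu : PU p q K) {S R : Subgroup G} (ho : Opp p ⊤ S R) {w : G}
    (hw : w ∈ S) (hwT : w ∉ pCore p G) : ∃ v ∈ R, v ∉ pCore p G ∧ Mt ρ V S R w v ∧ Swap K S R (v * w * v) := by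
  obtain ⟨v, hv, v₂, hv₂, e1, e2⟩ := hpu.exists_match ho hw hwT
  have m1 : Mt ρ V S R w v := h.mt hpu ho hw hv hv₂ e1 e2
  have hsw : Swap K S R (v * w * v₂) := ⟨e1, e2⟩
  obtain ⟨m, hm, hm0⟩ := h.ne_zero hpu
  have hRT : ∀ r ∈ R, r ∉ pCore p G → ∀ x ∈ Fx ρ V S, ρ r x = x → x = 0 := by
    intro r hr hrT x hx hrx
    exact h.inf S R ho x hx (h.fix R ho.2.1 r hr hrT x hx.1 hrx)
  obtain ⟨x, hx, hx0⟩ : ∃ x ∈ Fx ρ V S, x ≠ 0 := by
    by_contra hcon
    push Not at hcon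
    have h1 : Fx ρ V S = ⊥ := by
      rw [eq_bot_iff]; exact fun x hx => AddSubgroup.mem_bot.2 (hcon x hx)
    have h2 := h.card_fx S ho.1
    rw [h1, AddSubgroup.card_bot] at h2
    have := hpu.one_lt
    omega
  have hvT : v ∉ pCore p G := by
    intro h1
    apply hx0
    have h2 := m1.ba x hx
    rw [h.core hpu h1 hx.1, sub_self, map_zero, sub_self] at h2
    rw [← neg_neg x, ← h2, neg_zero]
  refine ⟨v, hv, hvT, m1, ?_⟩
  -- v₂ = v modulo the core
  have h3 : v⁻¹ * v₂ ∈ pCore p G := by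
    by_contra h4
    have e3 : ρ v₂ x - x = ρ v x - x := by
      -- use the swap: both sides are determined by `w`
      have hq : ∀ x ∈ Fx ρ V S, ρ w (ρ v₂ x - x) - (ρ v₂ x - x) = - x := by
        intro x hx
        have h3 := h.mem_conj hx (v * w * v₂)
        rw [h.K_eq hpu ho.2.1 (ho.1.map_conj_top _) e2, rho_mul, rho_mul] at h3
        have hq := h.quad R ho.2.1 x hx.1 v₂ hv₂
        set y := ρ v₂ x - x with hy
        have e1 : ρ v₂ x = x + y := by rw [hy]; abel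
        have hqw := h.quad S ho.1 y hq.1 w hw
        have e2 : ρ w (ρ v₂ x) = (x + (ρ w y - y)) + y := by
          rw [e1, map_add, hx.2 w hw]; abel
        have h4 : x + (ρ w y - y) ∈ Fx ρ V S := add_mem hx hqw
        have e3 : ρ v (ρ w (ρ v₂ x)) = (x + (ρ w y - y)) + ((ρ v (x + (ρ w y - y)) - (x + (ρ w y - y))) + y) := by
          rw [e2, map_add (ρ v), hq.2 v hv]; abel
        have h5 : x + (ρ w y - y) ∈ Fx ρ V R := by
          rw [e3] at h3
          have h6 : (ρ v (x + (ρ w y - y)) - (x + (ρ w y - y))) + y ∈ Fx ρ V R :=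
            add_mem (h.quad R ho.2.1 _ h4.1 v hv) hq
          have := sub_mem h3 h6
          rwa [add_sub_cancel_right] at this
        have h7 := h.inf _ _ ho _ h4 h5
        exact eq_neg_of_add_eq_zero_right h7
      have h6 := hq x hx
      have h7 := m1.ba x hx
      have h8 := h.quad R ho.2.1 x hx.1 v hv
      have h9 := h.quad R ho.2.1 x hx.1 v₂ hv₂
      have h10 : ρ w ((ρ v₂ x - x) - (ρ v x - x)) = (ρ v₂ x - x) - (ρ v x - x) := by
        rw [map_sub]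
        have e6 := sub_eq_iff_eq_add.1 h6
        have e7 := sub_eq_iff_eq_add.1 h7
        rw [e6, e7]; abel
      have h11 := h.fix S ho.1 w hw hwT _ (sub_mem h9 h8).1 h10
      exact sub_eq_zero.1 (h.inf S R ho _ h11 (sub_mem h9 h8))
    have e4 : ρ v₂ x = ρ v x := sub_left_injective e3
    apply hx0
    apply hRT _ (mul_mem (inv_mem hv) hv₂) h4 x hx
    rw [rho_mul, e4, rho_inv_mul]
  have h4 : v * w * v = v * w * v₂ * (v⁻¹ * v₂)⁻¹ := by group
  rw [h4]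
  exact hsw.mul_mem (inv_mem (hpu.pCore_le h3))

end

end Cfsg.Agent.H47
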