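import Cfsg.Agent.H47.Ident2

set_option autoImplicit false
set_option linter.unusedSectionVars false
set_option linter.style.haveILetI false
open Cfsg Subgroup
open scoped commutatorElement

namespace Cfsg.Agent.H47

section
variable {F : Type*} [Field F]

/-- lower unitriangular matrices -/
def xm (t : F) : Matrix.SpecialLinearGroup (Fin 2) F := ⟨!![1, 0; t, 1], by simp [Matrix.det_fin_two_of]⟩

theorem eq_xm {x : Matrix.SpecialLinearGroup (Fin 2) F} (hx : x ∈ H81.Tsl (![0, 1] : Fin 2 → F)) : x = xm (x.1 1 0) := by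
  rw [H81.mem_Tsl, mulVec_fin2] at hx
  have h0 : x.1 0 1 = 0 := by simpa using congrFun hx 0
  have h1 : x.1 1 1 = 1 := by simpa using congrFun hx 1
  have h2 : x.1 0 0 = 1 := by
    have := sl_det x
    rw [h0, h1] at this
    simpa using this
  apply Subtype.ext
  ext i j
  fin_cases i <;> fin_cases j
  · exact h2
  · exact h0
  · rfl
  · exact h1

theorem xp_mulVec (t : F) (f : Fin 2 → F) : (xp t).1.mulVec f = ![f 0 + t * f 1, f 1] := by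
  rw [mulVec_fin2]
  ext i
  fin_cases i <;> simp [xp]

theorem xm_mulVec (t : F) (f : Fin 2 → F) : (xm t).1.mulVec f = ![f 0, t * f 0 + f 1] := by
  rw [mulVec_fin2]
  ext i
  fin_cases i <;> simp [xm]

theorem sl_ext_mulVec {a b : Matrix.SpecialLinearGroup (Fin 2) F} (h : ∀ f : Fin 2 → F, a.1.mulVec f = b.1.mulVec f) :
    a = b := by
  apply Subtype.ext
  apply Matrix.mulVec_injective
  funext f
  exact h f

/-- representations by matrices -/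
theorem exists_rep_hom {G M : Type*} [Group G] [AddCommGroup M] (ρ : G →* AddMonoid.End M) (ψ : M ≃+ (Fin 2 → F))
    (h : ∀ g, ∃ m : Matrix.SpecialLinearGroup (Fin 2) F, ∀ v, ψ (ρ g v) = m.1.mulVec (ψ v)) :
    ∃ σ : G →* Matrix.SpecialLinearGroup (Fin 2) F, ∀ g v, ψ (ρ g v) = (σ g).1.mulVec (ψ v) := by
  choose σ hσ using h
  refine ⟨{ toFun := σ, map_one' := ?_, map_mul' := ?_ }, hσ⟩
  · apply sl_ext_mulVec
    intro f
    obtain ⟨v, rfl⟩ := ψ.surjective f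
    rw [← hσ, rho_one]
    exact (Matrix.one_mulVec _).symm
  · intro a b
    apply sl_ext_mulVec
    intro f
    obtain ⟨v, rfl⟩ := ψ.surjective f
    rw [← hσ, rho_mul, hσ, hσ, Matrix.mulVec_mulVec]
    rfl

end

section
variable {G : Type*} [Group G] {M : Type*} [AddCommGroup M] [Finite G] {p q : ℕ} [Fact p.Prime] {K : Subgroup G}
  [K.Normal] {ρ : G →* AddMonoid.End M} {V : AddSubgroup M}

theorem Mt.symm {S R : Subgroup G} {w v : G} (h : Mt ρ V S R w v) : Mt ρ V R S v w :=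
  ⟨h.hv, h.hw, fun m hm => by
    obtain ⟨x, hx, y, hy, e⟩ := h.span m hm
    exact ⟨y, hy, x, hx, by rw [e, add_comm]⟩, h.ax, h.by_, h.ba, h.ab⟩

/-- the endomorphism `κ_s` -/
def kap (h : Nt p q ρ V) {S : Subgroup G} (hS : SylIn p S ⊤) (v₀ : G) (s : S) : AddMonoid.End (Fx ρ V S) where
  toFun x := ⟨-(ρ s (ρ v₀ x - x) - (ρ v₀ x - x)),
    neg_mem (h.quad S hS _ (sub_mem (h.inv v₀ x x.2.1) x.2.1) s s.2)⟩
  map_zero' := by
    apply Subtype.ext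
    simp
  map_add' x y := by
    apply Subtype.ext
    change -(ρ s (ρ v₀ ((x : M) + y) - (x + y)) - (ρ v₀ ((x : M) + y) - (x + y))) =
      -(ρ s (ρ v₀ x - x) - (ρ v₀ x - x)) + -(ρ s (ρ v₀ y - y) - (ρ v₀ y - y))
    simp only [map_add, map_sub]
    abel

theorem kap_apply (h : Nt p q ρ V) {S : Subgroup G} (hS : SylIn p S ⊤) (v₀ : G) (s : S) (x : Fx ρ V S) :
    ((kap h hS v₀ s x : Fx ρ V S) : M) = -(ρ s (ρ v₀ x - x) - (ρ v₀ x - x)) := rfl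

theorem kap_mul (h : Nt p q ρ V) {S : Subgroup G} (hS : SylIn p S ⊤) (v₀ : G) (s t : S) :
    kap h hS v₀ (s * t) = kap h hS v₀ s + kap h hS v₀ t := by
  apply AddMonoidHom.ext
  intro x
  apply Subtype.ext
  have hy : ρ v₀ x - x ∈ V := sub_mem (h.inv v₀ x x.2.1) x.2.1
  change -(ρ ((s : G) * t) (ρ v₀ x - x) - (ρ v₀ x - x)) =
    -(ρ s (ρ v₀ x - x) - (ρ v₀ x - x)) + -(ρ t (ρ v₀ x - x) - (ρ v₀ x - x))
  generalize ρ v₀ (x : M) - x = y at hy ⊢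
  have h1 := (h.quad S hS y hy t t.2).2 s s.2
  have h2 : ρ ((s : G) * t) y = ρ s y + (ρ t y - y) := by
    rw [rho_mul]
    have : ρ t y = y + (ρ t y - y) := by abel
    rw [this, map_add, h1]
    abel
  rw [h2]; abel

theorem kap_one (h : Nt p q ρ V) {S : Subgroup G} (hS : SylIn p S ⊤) (v₀ : G) : kap h hS v₀ 1 = 0 := by
  apply AddMonoidHom.ext
  intro x
  apply Subtype.ext
  change -(ρ (1 : G) (ρ v₀ x - x) - (ρ v₀ x - x)) = 0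
  rw [rho_one, sub_self, neg_zero]

/-- all `κ_s` -/
def Kap (h : Nt p q ρ V) {S : Subgroup G} (hS : SylIn p S ⊤) (v₀ : G) : AddSubgroup (AddMonoid.End (Fx ρ V S)) where
  carrier := {κ | ∃ s : S, kap h hS v₀ s = κ}
  add_mem' := by
    rintro _ _ ⟨s, rfl⟩ ⟨t, rfl⟩
    exact ⟨s * t, kap_mul h hS v₀ s t⟩
  zero_mem' := ⟨1, kap_one h hS v₀⟩
  neg_mem' := by
    rintro _ ⟨s, rfl⟩
    refine ⟨s⁻¹, ?_⟩
    have h1 := kap_mul h hS v₀ s⁻¹ s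
    rw [inv_mul_cancel, kap_one] at h1
    exact eq_neg_of_add_eq_zero_left h1.symm

variable {S R : Subgroup G} {s₀ v₀ : G}

theorem Nt.A0_ne (_h : Nt p q ρ V) (m₀ : Mt ρ V S R s₀ v₀) {x : M} (hx : x ∈ Fx ρ V S) (h0 : ρ v₀ x - x = 0) : x = 0 := by
  have h1 := m₀.ba x hx
  rw [h0, map_zero, sub_zero] at h1
  rw [← neg_neg x, ← h1, neg_zero]

theorem Nt.kap_trans (h : Nt p q ρ V) (ho : Opp p ⊤ S R) (m₀ : Mt ρ V S R s₀ v₀) (x : Fx ρ V S)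
    (hx : x ≠ 0) (y : Fx ρ V S) : ∃ κ ∈ Kap h ho.1 v₀, κ x = y := by
  have h1 : ρ v₀ x - x ∈ Fx ρ V R := m₀.ax x x.2
  have h2 : ρ v₀ x - x ∉ Fx ρ V S := by
    intro h2
    apply hx
    apply Subtype.ext
    exact h.A0_ne m₀ x.2 (h.inf S R ho _ h2 h1)
  obtain ⟨s, hs, e⟩ := h.cover S ho.1 _ h1.1 h2 (-(y : M)) (neg_mem y.2)
  refine ⟨kap h ho.1 v₀ ⟨s, hs⟩, ⟨_, rfl⟩, ?_⟩
  apply Subtype.ext
  rw [kap_apply, ← e, neg_neg]

theorem Nt.kap_inj (h : Nt p q ρ V) (hpu : PU p q K) (ho : Opp p ⊤ S R) (m₀ : Mt ρ V S R s₀ v₀)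
    (κ : AddMonoid.End (Fx ρ V S)) (hκ : κ ∈ Kap h ho.1 v₀) (hκ0 : κ ≠ 0) (x : Fx ρ V S) (hx : κ x = 0) : x = 0 := by
  obtain ⟨s, rfl⟩ := hκ
  have hsT : (s : G) ∉ pCore p G := by
    intro hsT
    apply hκ0
    apply AddMonoidHom.ext
    intro x
    apply Subtype.ext
    change -(ρ s (ρ v₀ x - x) - (ρ v₀ x - x)) = 0
    rw [h.core hpu hsT (sub_mem (h.inv v₀ x x.2.1) x.2.1), sub_self, neg_zero]
  have h1 := congrArg Subtype.val hx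
  rw [kap_apply] at h1
  have h2 : ρ s (ρ v₀ x - x) = ρ v₀ x - x := by
    apply sub_eq_zero.1
    exact neg_eq_zero.1 h1
  have h3 : ρ v₀ x - x ∈ Fx ρ V R := m₀.ax x x.2
  have h4 := h.fix S ho.1 s s.2 hsT _ h3.1 h2
  apply Subtype.ext
  exact h.A0_ne m₀ x.2 (h.inf S R ho _ h4 h3)

theorem Nt.kap_one_mem (h : Nt p q ρ V) (ho : Opp p ⊤ S R) (m₀ : Mt ρ V S R s₀ v₀) : 1 ∈ Kap h ho.1 v₀ := by
  refine ⟨⟨s₀, m₀.hw⟩, ?_⟩
  apply AddMonoidHom.ext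
  intro x
  apply Subtype.ext
  change -(ρ s₀ (ρ v₀ x - x) - (ρ v₀ x - x)) = (x : M)
  rw [m₀.ba x x.2, neg_neg]

/-- the torus element belonging to `s` acts as `κ_s` -/
theorem Mt.torus_x {s v : G} (m₀ : Mt ρ V S R s₀ v₀) (m₁ : Mt ρ V S R s v) {x : M} (hx : x ∈ Fx ρ V S) :
    ρ ((v * s * v) * (v₀ * s₀ * v₀)⁻¹) x = -(ρ s (ρ v₀ x - x) - (ρ v₀ x - x)) := by
  rw [rho_mul, m₀.n1i_x hx, map_neg, m₁.n1_y (m₀.ax x hx)]

theorem Nt.kap_torus (h : Nt p q ρ V) (hpu : PU p q K) (ho : Opp p ⊤ S R) (m₀ : Mt ρ V S R s₀ v₀)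
    (hsw : Swap K S R (v₀ * s₀ * v₀))
    (κ : AddMonoid.End (Fx ρ V S)) (hκ : κ ∈ Kap h ho.1 v₀) (l : AddMonoid.End (Fx ρ V S)) (hl : l ∈ Kap h ho.1 v₀)
    (hκ0 : κ ≠ 0) (hl0 : l ≠ 0) : ∃ c : AddMonoid.End (Fx ρ V S), (∀ μ ∈ Kap h ho.1 v₀, c * μ = μ * c) ∧
      κ * l = c * (l * κ) := by
  have hT : ∀ s : S, kap h ho.1 v₀ s ≠ 0 → (s : G) ∉ pCore p G := by
    intro s hκ0 hsT
    apply hκ0
    apply AddMonoidHom.ext
    intro x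
    apply Subtype.ext
    change -(ρ s (ρ v₀ x - x) - (ρ v₀ x - x)) = 0
    rw [h.core hpu hsT (sub_mem (h.inv v₀ x x.2.1) x.2.1), sub_self, neg_zero]
  obtain ⟨s, rfl⟩ := hκ
  obtain ⟨u, rfl⟩ := hl
  obtain ⟨v₁, hv₁, -, m₁, sw₁⟩ := h.exists_mt hpu ho s.2 (hT s hκ0)
  obtain ⟨v₂, hv₂, -, m₂, sw₂⟩ := h.exists_mt hpu ho u.2 (hT u hl0)
  have hc := hpu.torus_comm ho hsw sw₁ sw₂
  have t₁ := fun x (hx : x ∈ Fx ρ V S) => m₀.torus_x m₁ hx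
  have t₂ := fun x (hx : x ∈ Fx ρ V S) => m₀.torus_x m₂ hx
  generalize v₁ * s * v₁ * (v₀ * s₀ * v₀)⁻¹ = g₁ at hc t₁
  generalize v₂ * u * v₂ * (v₀ * s₀ * v₀)⁻¹ = g₂ at hc t₂
  have hcX : ∀ x ∈ Fx ρ V S, ρ (g₁ * g₂ * (g₂ * g₁)⁻¹) x ∈ Fx ρ V S := by
    intro x hx
    generalize g₁ * g₂ * (g₂ * g₁)⁻¹ = c at hc
    have h1 := h.mem_conj hx c
    rwa [h.K_eq hpu ho.1 (ho.1.map_conj_top c) ?_] at h1
    rw [← map_conj_sup_normal]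
    exact norm_map_conj (le_normalizer (mem_sup_right hc))
  refine ⟨{ toFun := fun x => ⟨ρ (g₁ * g₂ * (g₂ * g₁)⁻¹) x, hcX x x.2⟩, map_zero' := ?_, map_add' := ?_ }, ?_, ?_⟩
  · apply Subtype.ext; exact map_zero _
  · intro x y; apply Subtype.ext; exact map_add _ _ _
  · rintro _ ⟨t, rfl⟩
    apply AddMonoidHom.ext
    intro x
    apply Subtype.ext
    change ρ (g₁ * g₂ * (g₂ * g₁)⁻¹) (-(ρ t (ρ v₀ x - x) - (ρ v₀ x - x))) =
      -(ρ t (ρ v₀ (ρ (g₁ * g₂ * (g₂ * g₁)⁻¹) x) - (ρ (g₁ * g₂ * (g₂ * g₁)⁻¹) x)) -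
        (ρ v₀ (ρ (g₁ * g₂ * (g₂ * g₁)⁻¹) x) - (ρ (g₁ * g₂ * (g₂ * g₁)⁻¹) x)))
    generalize g₁ * g₂ * (g₂ * g₁)⁻¹ = c at hc
    have hy : ρ v₀ x - x ∈ V := sub_mem (h.inv v₀ x x.2.1) x.2.1
    rw [map_neg, map_sub, h.K_comm hpu ho.1 hc t.2 hy, map_sub, h.K_comm hpu ho.2.1 hc m₀.hv x.2.1]
  · apply AddMonoidHom.ext
    intro x
    apply Subtype.ext
    have e1 : ∀ x : Fx ρ V S, ((kap h ho.1 v₀ s x : Fx ρ V S) : M) = ρ g₁ x := fun x => by rw [kap_apply, t₁ x x.2]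
    have e2 : ∀ x : Fx ρ V S, ((kap h ho.1 v₀ u x : Fx ρ V S) : M) = ρ g₂ x := fun x => by rw [kap_apply, t₂ x x.2]
    change ((kap h ho.1 v₀ s (kap h ho.1 v₀ u x) : Fx ρ V S) : M) =
      ρ (g₁ * g₂ * (g₂ * g₁)⁻¹) ((kap h ho.1 v₀ u (kap h ho.1 v₀ s x) : Fx ρ V S) : M)
    rw [e1, e2, e2, e1, ← rho_mul, ← rho_mul, ← rho_mul]
    congr 2
    group

end

end Cfsg.Agent.H47
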