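import Cfsg.Agent.H47.Ident3

set_option autoImplicit false
set_option linter.unusedSectionVars false
set_option linter.style.haveILetI false
open Cfsg Subgroup
open scoped commutatorElement

namespace Cfsg.Agent.H47

section
variable {G : Type*} [Group G] {M : Type*} [AddCommGroup M] [Finite G] [Finite M] {p q : ℕ} [Fact p.Prime]
  {K : Subgroup G} [K.Normal] {ρ : G →* AddMonoid.End M}

/-- identification of natural modules -/
theorem Nt.ident (h : Nt p q ρ ⊤) (hpu : PU p q K) {F : Type*} [Field F] [Fintype F] (hF : Fintype.card F = q) :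
    ∃ (σ : G →* Matrix.SpecialLinearGroup (Fin 2) F) (ψ : M ≃+ (Fin 2 → F)), Function.Surjective σ ∧
      ∀ g m, ψ (ρ g m) = (σ g).1.mulVec (ψ m) := by
  obtain ⟨S, hS⟩ := SylIn.exists p (⊤ : Subgroup G)
  obtain ⟨R, hR, hSR, -⟩ := hpu.exists_other hS
  have ho : Opp p ⊤ S R := hpu.opp_iff.2 ⟨hS, hR, hSR⟩
  obtain ⟨s₀, hs₀, hs₀T⟩ := hpu.exists_not_mem hS
  obtain ⟨v₀, hv₀, hv₀T, m₀, hsw⟩ := h.exists_mt hpu ho hs₀ hs₀T
  have hcard := h.card_fx S ho.1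
  haveI : Nontrivial (Fx ρ ⊤ S) := by
    have h1 := hpu.one_lt
    rw [← hcard] at h1
    exact Finite.one_lt_card_iff_nontrivial.1 h1
  obtain ⟨θ, hθ1, hθ2⟩ := exists_field_iso (F := F) (X := Fx ρ ⊤ S) (by rw [hF, hcard]) (Kap h ho.1 v₀)
    (h.kap_one_mem ho m₀)
    (comm_of_torus _ (h.kap_one_mem ho m₀) (h.kap_trans ho m₀) (h.kap_inj hpu ho m₀)
      (fun κ hκ l hl hκ0 hl0 => h.kap_torus hpu ho m₀ hsw κ hκ l hl hκ0 hl0)) (h.kap_trans ho m₀)
  -- the inverse coordinate map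
  let χ : (Fin 2 → F) →+ M :=
    { toFun := fun f => (θ.symm (f 0) : M) - (ρ v₀ (θ.symm (f 1)) - θ.symm (f 1))
      map_zero' := by simp
      map_add' := fun f g => by
        simp only [Pi.add_apply, map_add, AddSubgroup.coe_add]
        abel }
  have hχ : ∀ f, χ f = (θ.symm (f 0) : M) - (ρ v₀ (θ.symm (f 1)) - θ.symm (f 1)) := fun f => rfl
  have hχinj : Function.Injective χ := by
    rw [injective_iff_map_eq_zero]
    intro f hf
    rw [hχ] at hf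
    have h1 := m₀.ax _ (θ.symm (f 1)).2
    have h2 := (θ.symm (f 0)).2
    have h3 : (θ.symm (f 0) : M) = 0 := h.inf S R ho _ h2 (by rw [sub_eq_zero.1 hf]; exact h1)
    have h4 : (θ.symm (f 1) : M) = 0 := by
      apply h.A0_ne m₀ (θ.symm (f 1)).2
      rw [← sub_eq_zero.1 hf, h3]
    have h5 : f 0 = 0 := by
      have : θ.symm (f 0) = 0 := Subtype.ext h3
      exact (map_eq_zero_iff θ.symm θ.symm.injective).1 this
    have h6 : f 1 = 0 := by
      have : θ.symm (f 1) = 0 := Subtype.ext h4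
      exact (map_eq_zero_iff θ.symm θ.symm.injective).1 this
    funext i
    fin_cases i
    · exact h5
    · exact h6
  have hχsurj : Function.Surjective χ := by
    intro m
    obtain ⟨x, hx, y, hy, rfl⟩ := m₀.span m (AddSubgroup.mem_top m)
    refine ⟨![θ ⟨x, hx⟩, θ ⟨ρ s₀ y - y, m₀.by_ y hy⟩], ?_⟩
    rw [hχ]
    simp only [Matrix.cons_val_zero, Matrix.cons_val_one, AddEquiv.symm_apply_apply]
    rw [m₀.ab y hy, sub_neg_eq_add]
  -- action of S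
  have hSact : ∀ (s : G) (hs : s ∈ S) (c : F), (∀ x, θ (kap h ho.1 v₀ ⟨s, hs⟩ x) = c * θ x) →
      ∀ f, ρ s (χ f) = χ ![f 0 + c * f 1, f 1] := by
    intro s hs c hc f
    rw [hχ, hχ]
    simp only [Matrix.cons_val_zero, Matrix.cons_val_one]
    have e1 : θ.symm (f 0 + c * f 1) = θ.symm (f 0) + kap h ho.1 v₀ ⟨s, hs⟩ (θ.symm (f 1)) := by
      rw [θ.symm_apply_eq, map_add, hc, AddEquiv.apply_symm_apply, AddEquiv.apply_symm_apply]
    rw [e1, AddSubgroup.coe_add, kap_apply, map_sub (ρ s), (θ.symm (f 0)).2.2 s hs]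
    abel
  -- action of matched elements of R
  have hRact : ∀ (s : G) (hs : s ∈ S) (r : G) (c : F), Mt ρ ⊤ S R s r →
      (∀ x, θ (kap h ho.1 v₀ ⟨s, hs⟩ x) = c * θ x) → c ≠ 0 ∧ ∀ f, ρ r (χ f) = χ ![f 0, -c⁻¹ * f 0 + f 1] := by
    intro s hs r c m₁ hc
    have hc0 : c ≠ 0 := by
      rintro rfl
      obtain ⟨x, hx⟩ := exists_ne (0 : Fx ρ ⊤ S)
      apply hx
      have h1 : kap h ho.1 v₀ ⟨s, hs⟩ x = 0 := by
        apply θ.injective
        rw [hc, zero_mul, map_zero]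
      have h2 := congrArg Subtype.val h1
      rw [kap_apply] at h2
      have h3 : ρ s (ρ v₀ x - x) - (ρ v₀ x - x) = 0 := neg_eq_zero.1 h2
      have h4 := m₁.ab _ (m₀.ax x x.2)
      rw [h3, map_zero, sub_zero] at h4
      apply Subtype.ext
      exact h.A0_ne m₀ x.2 (neg_eq_zero.1 h4.symm)
    refine ⟨hc0, fun f => ?_⟩
    rw [hχ, hχ]
    simp only [Matrix.cons_val_zero, Matrix.cons_val_one]
    have e0 : θ.symm (-c⁻¹ * f 0 + f 1) = -θ.symm (c⁻¹ * f 0) + θ.symm (f 1) := by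
      rw [neg_mul, map_add, map_neg]
    have e1 : kap h ho.1 v₀ ⟨s, hs⟩ (θ.symm (c⁻¹ * f 0)) = θ.symm (f 0) := by
      apply θ.injective
      rw [hc, AddEquiv.apply_symm_apply, AddEquiv.apply_symm_apply, mul_inv_cancel_left₀ hc0]
    have e2 := congrArg Subtype.val e1
    rw [kap_apply] at e2
    have e3 := m₁.ab _ (m₀.ax _ (θ.symm (c⁻¹ * f 0)).2)
    have e4 : ρ s (ρ v₀ (θ.symm (c⁻¹ * f 0)) - (θ.symm (c⁻¹ * f 0))) - (ρ v₀ (θ.symm (c⁻¹ * f 0)) - (θ.symm (c⁻¹ * f 0)))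
        = -(θ.symm (f 0) : M) := by
      rw [← e2, neg_neg]
    have e5 : ρ r (θ.symm (f 0)) = θ.symm (f 0) + (ρ v₀ (θ.symm (c⁻¹ * f 0)) - (θ.symm (c⁻¹ * f 0))) := by
      rw [e4, map_neg, sub_neg_eq_add] at e3
      have : (ρ v₀ (θ.symm (c⁻¹ * f 0)) - (θ.symm (c⁻¹ * f 0)) : M) = ρ r (θ.symm (f 0)) - θ.symm (f 0) := by
        rw [← neg_neg (ρ v₀ (θ.symm (c⁻¹ * f 0)) - (θ.symm (c⁻¹ * f 0)) : M), ← e3]; abel
      rw [this]; abel
    have e6 := (m₀.ax _ (θ.symm (f 1)).2).2 r m₁.hv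
    rw [map_sub (ρ r), e6, e5, e0]
    simp only [map_add, map_neg, AddSubgroup.coe_add, AddSubgroup.coe_neg]
    abel
  let ψ : M ≃+ (Fin 2 → F) := (AddEquiv.ofBijective χ ⟨hχinj, hχsurj⟩).symm
  have hψχ : ∀ f, ψ (χ f) = f := fun f => (AddEquiv.ofBijective χ ⟨hχinj, hχsurj⟩).symm_apply_apply f
  -- the group of matrices
  let 𝒢 : Subgroup G :=
    { carrier := {g | ∃ m : Matrix.SpecialLinearGroup (Fin 2) F, ∀ f, ρ g (χ f) = χ (m.1.mulVec f)}
      one_mem' := ⟨1, fun f => by rw [rho_one]; congr 1; exact (Matrix.one_mulVec _).symm⟩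
      mul_mem' := by
        rintro a b ⟨m, hm⟩ ⟨n, hn⟩
        refine ⟨m * n, fun f => ?_⟩
        rw [rho_mul, hn, hm, Matrix.mulVec_mulVec]
        rfl
      inv_mem' := by
        rintro a ⟨m, hm⟩
        refine ⟨m⁻¹, fun f => ?_⟩
        have h1 := hm (m⁻¹.1.mulVec f)
        have h2 : m.1.mulVec (m⁻¹.1.mulVec f) = f := by
          rw [Matrix.mulVec_mulVec]
          have h3 : m * m⁻¹ = 1 := mul_inv_cancel m
          have h4 : m.1 * m⁻¹.1 = 1 := congrArg Subtype.val h3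
          rw [h4, Matrix.one_mulVec]
        rw [h2] at h1
        rw [← h1, rho_inv_mul] }
  have hS𝒢 : S ≤ 𝒢 := by
    intro s hs
    obtain ⟨c, hc⟩ := hθ1 (kap h ho.1 v₀ ⟨s, hs⟩) ⟨_, rfl⟩
    exact ⟨xp c, fun f => by rw [hSact s hs c hc, xp_mulVec]⟩
  have hR𝒢 : R ≤ 𝒢 := by
    intro r hr
    by_cases hrT : r ∈ pCore p G
    · refine ⟨1, fun f => ?_⟩
      rw [h.core hpu hrT (AddSubgroup.mem_top _)]
      congr 1
      exact (Matrix.one_mulVec _).symm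
    · obtain ⟨s, hs, -, m₁, -⟩ := h.exists_mt hpu (S := R) (R := S) ⟨ho.2.1, ho.1, ho.2.2.2, ho.2.2.1⟩ hr hrT
      obtain ⟨c, hc⟩ := hθ1 (kap h ho.1 v₀ ⟨s, hs⟩) ⟨_, rfl⟩
      obtain ⟨hc0, h1⟩ := hRact s hs r c m₁.symm hc
      exact ⟨xm (-c⁻¹), fun f => by rw [h1, xm_mulVec]⟩
  have h𝒢 : 𝒢 = ⊤ := by
    have h1 := ho.2.2.1 s₀ hs₀ (by rwa [pCoreOf_top])
    rw [eq_top_iff, ← h1]
    exact sup_le (by rw [zpowers_le]; exact hS𝒢 hs₀) hR𝒢
  obtain ⟨σ, hσ⟩ := exists_rep_hom ρ ψ (fun g => by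
    have hg : g ∈ 𝒢 := by rw [h𝒢]; trivial
    obtain ⟨m, hm⟩ := hg
    refine ⟨m, fun v => ?_⟩
    obtain ⟨f, rfl⟩ := hχsurj v
    rw [hm, hψχ, hψχ])
  refine ⟨σ, ψ, ?_, hσ⟩
  rw [← MonoidHom.range_eq_top, eq_top_iff, ← H81.Tsl_sup_e]
  have hval : ∀ (g : G) (m : Matrix.SpecialLinearGroup (Fin 2) F), (∀ f, ρ g (χ f) = χ (m.1.mulVec f)) → σ g = m := by
    intro g m hm
    apply sl_ext_mulVec
    intro f
    have h1 := hσ g (χ f)
    rw [hm, hψχ, hψχ] at h1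
    exact h1.symm
  apply sup_le
  · intro x hx
    obtain ⟨κ, ⟨⟨s, hs⟩, rfl⟩, hc⟩ := hθ2 (x.1 0 1)
    refine ⟨s, ?_⟩
    rw [eq_xp hx]
    exact hval _ _ fun f => by rw [hSact s hs _ hc, xp_mulVec]
  · intro x hx
    rw [eq_xm hx]
    by_cases hd : x.1 1 0 = 0
    · refine ⟨1, hval _ _ fun f => ?_⟩
      rw [rho_one, xm_mulVec, hd, zero_mul, zero_add]
      congr 1
      funext i
      fin_cases i <;> rfl
    · obtain ⟨κ, ⟨⟨s, hs⟩, rfl⟩, hc⟩ := hθ2 (-(x.1 1 0)⁻¹)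
      have hsT : s ∉ pCore p G := by
        intro hsT
        obtain ⟨y, hy⟩ := exists_ne (0 : Fx ρ ⊤ S)
        have h1 := hc y
        have h2 : kap h ho.1 v₀ ⟨s, hs⟩ y = 0 := by
          apply Subtype.ext
          rw [kap_apply]
          change -(ρ s (ρ v₀ y - y) - (ρ v₀ y - y)) = 0
          rw [h.core hpu hsT (AddSubgroup.mem_top _), sub_self, neg_zero]
        rw [h2, map_zero] at h1
        rcases mul_eq_zero.1 h1.symm with h3 | h3
        · rw [neg_eq_zero, inv_eq_zero] at h3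
          exact hd h3
        · exact hy ((map_eq_zero_iff θ θ.injective).1 h3)
      obtain ⟨r, hr, -, m₁, -⟩ := h.exists_mt hpu ho hs hsT
      obtain ⟨hc0, h1⟩ := hRact s hs r _ m₁ hc
      refine ⟨r, hval _ _ fun f => ?_⟩
      rw [h1, xm_mulVec]
      congr 2
      rw [inv_neg, inv_inv, neg_neg]

end

end Cfsg.Agent.H47
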