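import Cfsg.Agent.H47.Amal9
import Cfsg.Agent.H47.NearC

set_option autoImplicit false
set_option linter.unusedSectionVars false
set_option linter.style.haveILetI false
open Cfsg Subgroup
open scoped commutatorElement

namespace Cfsg.Agent.H47

section
variable {X H : Type*} [Group X] [Group H] {p q : ℕ} {ι : X →* H} [Finite X] [Finite H] [Fact p.Prime]

theorem Case2.of_map (hι : Function.Injective ι) {G Z C V : Subgroup X}
    (h : Case2 p q (G.map ι) (Z.map ι) (C.map ι) (V.map ι)) : Case2 p q G Z C V := by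
  refine ⟨h.p3, ?_, ?_, ?_, ?_, ?_, ?_, ?_, ?_, ?_, ?_, ?_, ?_, ?_, ?_, ?_⟩
  · exact (map_le_map_iff_of_injective hι).1 h.ZC
  · exact (map_le_map_iff_of_injective hι).1 h.CV
  · have := h.VT
    rwa [pCoreOf_map_of_injective hι, map_le_map_iff_of_injective hι] at this
  · intro g hg
    exact (mem_normalizer_map_inj hι).1 (h.nZ ⟨g, hg, rfl⟩)
  · intro g hg
    exact (mem_normalizer_map_inj hι).1 (h.nV ⟨g, hg, rfl⟩)
  · intro z hz
    rw [mem_centralizer_iff]
    intro t ht
    apply hι
    rw [map_mul, map_mul]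
    refine mem_centralizer_iff.1 (h.cent ⟨z, hz, rfl⟩) (ι t) ?_
    rw [pCoreOf_map_of_injective hι]
    exact ⟨t, ht, rfl⟩
  · intro z hz
    apply hι
    rw [map_pow, map_one]
    exact h.pow _ ⟨z, hz, rfl⟩
  · apply NatS.of_map hι
    rw [Subgroup.map_bot]
    exact h.nat1
  · exact NatS.of_map hι h.nat2
  · have := h.eC
    rw [cz_map hι] at this
    exact map_injective hι this
  · have := h.res
    rwa [pCoreOf_map_of_injective hι, pRes_map_inj hι, ← map_commutator,
      map_le_map_iff_of_injective hι] at this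
  · intro P hP
    have := h.cls3 _ (sylIn_map_of_injective hι hP)
    rw [← map_commutator, ← map_commutator, ← map_commutator] at this
    exact (map_eq_bot_iff_of_injective _ hι).1 this
  · intro P hP h1
    apply h.cls2 _ (sylIn_map_of_injective hι hP)
    rw [← map_commutator, ← map_commutator, h1, Subgroup.map_bot]
  · intro P hP x hx
    apply hι
    rw [map_pow, map_one]
    exact h.exp9 _ (sylIn_map_of_injective hι hP) _ ⟨x, hx, rfl⟩
  · intro P hP
    obtain ⟨_, ⟨x, hx, rfl⟩, hx2⟩ := h.exp3 _ (sylIn_map_of_injective hι hP)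
    refine ⟨x, hx, fun h1 => hx2 ?_⟩
    rw [← map_pow, h1, map_one]

end

section
variable {X : Type*} [Group X] [Finite X] {p q : ℕ} [Fact p.Prime]

/-- the two cases of rank one pushing up -/
theorem exists_case {K : Subgroup X} [K.Normal] (hpu : PU p q K)
    (hchar : centralizer (pCore p X : Set X) ≤ pCore p X) {S : Subgroup X} (hS : SylIn p S ⊤)
    (hd : ∀ C : Subgroup S, C.Characteristic → C ≠ ⊥ → ¬ (C.map S.subtype).Normal) :
    (∃ Z : Subgroup X, Case1 p q ⊤ Z) ∨ ∃ Z C V : Subgroup X, Case2 p q ⊤ Z C V := by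
  have ha := amb_amal hpu hchar hS hd
  have hG : (reg X).range ∈ {Y : Subgroup (Equiv.Perm X) | ∃ h : Equiv.Perm X, Y = (reg X).range.map (MulAut.conj h).toMonoidHom} :=
    ⟨1, by rw [map_conj_one]⟩
  obtain ⟨c, hc⟩ := ha.exists_crt
  have hc0 := hc.pos
  obtain ⟨d, rfl⟩ : ∃ d, c = d + 1 := ⟨c - 1, by omega⟩
  have hd2 := hc.lt_three
  have e0 : ∀ Y : Subgroup (Equiv.Perm X), Y ≤ (reg X).range → (Y.comap (reg X)).map (reg X) = Y := fun Y hY =>
    map_comap_eq_self hY
  rcases Nat.eq_zero_or_pos d with h0 | h0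
  · subst h0
    left
    have h1 := Crt.case1 hc hG
    refine ⟨(ZV p (reg X).range).comap (reg X), ?_⟩
    apply Case1.of_map (reg_injective (X := X))
    rw [e0 _ (h1.le.trans (pCoreOf_le p _)), ← MonoidHom.range_eq_map]
    exact h1
  · have : d = 1 := by omega
    subst this
    right
    have h1 := Crt.case2 hc hG
    have hV := h1.VT.trans (pCoreOf_le p _)
    generalize CS p {Y : Subgroup (Equiv.Perm X) | ∃ h : Equiv.Perm X,
      Y = (reg X).range.map (MulAut.conj h).toMonoidHom} (reg X).range = C' at h1 hV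
    generalize VG p {Y : Subgroup (Equiv.Perm X) | ∃ h : Equiv.Perm X,
      Y = (reg X).range.map (MulAut.conj h).toMonoidHom} (reg X).range = V' at h1 hV
    refine ⟨(ZV p (reg X).range).comap (reg X), C'.comap (reg X), V'.comap (reg X), ?_⟩
    apply Case2.of_map (reg_injective (X := X))
    rw [e0 _ hV, e0 _ (h1.CV.trans hV), e0 _ ((h1.ZC.trans h1.CV).trans hV), ← MonoidHom.range_eq_map]
    exact h1

/-- `G` acts nilpotently modulo `U` -/
theorem iter_le {N U S : Subgroup X} (hS : SylIn p S ⊤) (hN : N.Normal) (hU : U.Normal) (hNS : N ≤ S)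
    (h : ⁅N, pRes p (⊤ : Subgroup X)⁆ ≤ U) (k : ℕ) :
    iterCommutator N ⊤ k ≤ N ∧ iterCommutator N ⊤ k ≤ S.lowerCentralSeries k ⊔ U := by
  induction k with
  | zero => exact ⟨le_rfl, hNS.trans le_sup_left⟩
  | succ k ih =>
    obtain ⟨ih1, ih2⟩ := ih
    refine ⟨?_, ?_⟩
    · change ⁅iterCommutator N ⊤ k, ⊤⁆ ≤ N
      exact (commutator_mono ih1 le_rfl).trans (commutator_le_left _ _)
    · change ⁅iterCommutator N ⊤ k, ⊤⁆ ≤ S.lowerCentralSeries (k + 1) ⊔ U
      rw [commutator_le]
      intro x hx g _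
      have hg : g ∈ pRes p (⊤ : Subgroup X) ⊔ S := by rw [hS.pRes_sup]; trivial
      have hn : pRes p (⊤ : Subgroup X) ≤ normalizer (S : Set X) ∨ True := Or.inr trivial
      have hpn : (pRes p (⊤ : Subgroup X)).Normal := by
        rw [← normalizer_eq_top_iff, eq_top_iff]; exact le_normalizer_pRes p ⊤
      haveI := hpn
      haveI := hU
      haveI := hN
      rw [mem_sup_of_normal_left] at hg
      obtain ⟨r, hr, s, hs, rfl⟩ := hg
      have hxN := ih1 hx
      have hx2 := ih2 hx
      rw [mem_sup_of_normal_right] at hx2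
      obtain ⟨l, hl, u, hu, hlu⟩ := hx2
      have e1 : ⁅x, r⁆ ∈ U := h (commutator_mem_commutator hxN hr)
      have e2 : ⁅x, s⁆ ∈ S.lowerCentralSeries (k + 1) ⊔ U := by
        rw [← hlu]
        have : ⁅l * u, s⁆ = l * ⁅u, s⁆ * l⁻¹ * ⁅l, s⁆ := by
          simp only [commutatorElement_def]; group
        rw [this]
        refine mul_mem (mem_sup_right ?_) (mem_sup_left ?_)
        · apply hU.conj_mem
          exact (commutator_le_left U ⊤) (commutator_mem_commutator hu (mem_top s))
        · exact commutator_mem_commutator hl hs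
      have e3 : ⁅x, s⁆ ∈ N := (commutator_le_left N ⊤) (commutator_mem_commutator hxN (mem_top s))
      have e4 : ⁅r, ⁅x, s⁆⁆ ∈ U := by
        rw [commutator_comm] at h
        exact h (commutator_mem_commutator hr e3)
      have e5 : ⁅x, r * s⁆ = ⁅x, r⁆ * (⁅r, ⁅x, s⁆⁆ * ⁅x, s⁆) := by
        simp only [commutatorElement_def]; group
      rw [e5]
      exact mul_mem (mem_sup_right e1) (mul_mem (mem_sup_right e4) e2)

theorem normal_of_top_le {N : Subgroup X} (h : (⊤ : Subgroup X) ≤ normalizer (N : Set X)) : N.Normal :=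
  normalizer_eq_top_iff.1 (top_le_iff.1 h)

theorem cz_norm {G V Z S : Subgroup X} (hV : G ≤ normalizer (V : Set X)) (hZ : G ≤ normalizer (Z : Set X))
    (hS : G ≤ normalizer (S : Set X)) : G ≤ normalizer ((cz V Z S : Subgroup X) : Set X) := by
  intro g hg
  apply mem_normalizer_of_map_conj
  rw [← cz_conj, norm_map_conj (hV hg), norm_map_conj (hZ hg), norm_map_conj (hS hg)]

/-- natural sections are noncentral chief factors -/
theorem NatS.chief {V Z : Subgroup X} (h : NatS p q ⊤ V Z) (hv : Vtx p q (⊤ : Subgroup X)) (hV : V.Normal)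
    (hZ : Z.Normal) : IsChiefFactor V (cz V Z ⊤) ∧ ¬ ⁅V, (⊤ : Subgroup X)⁆ ≤ cz V Z ⊤ := by
  have hVt : (⊤ : Subgroup X) ≤ normalizer (V : Set X) := by rw [normalizer_eq_top]
  have hZt : (⊤ : Subgroup X) ≤ normalizer (Z : Set X) := by rw [normalizer_eq_top]
  obtain ⟨S, hS⟩ := SylIn.exists p (⊤ : Subgroup X)
  obtain ⟨x, hx, hxT⟩ := hv.exists_not_mem hS
  obtain ⟨u, hu, hun⟩ := SetLike.not_le_iff_exists.1 (h.ne S hS)
  refine ⟨⟨?_, hV, normal_of_top_le (cz_norm hVt hZt le_normalizer), fun N hN hCN hNV => ?_⟩, fun h1 => ?_⟩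
  · refine lt_of_le_of_ne cz_le (fun h1 => ?_)
    apply hun
    apply cz_anti (le_top : S ≤ ⊤)
    rw [h1]; exact hu
  · rcases h.irr hv hVt hZt hNV (by rw [normalizer_eq_top]) with h1 | h1
    · left; exact le_antisymm h1 hCN
    · right; rw [sup_eq_left.2 hCN] at h1; exact h1.symm
  · exact h.comm S hS x hx hxT u hu hun (h1 (commutator_mem_commutator hu (mem_top x)))

theorem vtx_top {K : Subgroup X} [K.Normal] (hpu : PU p q K)
    (hchar : centralizer (pCore p X : Set X) ≤ pCore p X) : Vtx p q (⊤ : Subgroup X) := by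
  have := equiv_range_pu (ι := MonoidHom.id X) (fun _ _ h => h) hpu hchar
  rwa [MonoidHom.range_eq_top_of_surjective _ (fun x => ⟨x, rfl⟩)] at this

end

end Cfsg.Agent.H47
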