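import Cfsg.Agent.H47.Ident4
import Cfsg.Agent.H47.Trans2

set_option autoImplicit false
set_option linter.unusedSectionVars false
set_option linter.style.haveILetI false
open Cfsg Subgroup
open scoped commutatorElement

namespace Cfsg.Agent.H47

universe u

section
variable {H : Type u} [Group H] {p q : ℕ}

/-- `V/C` is a natural `SL₂(F)`-module for `G` -/
def NM (F : Type*) [Field F] (G V C : Subgroup H) (σ : ↥G →* Matrix.SpecialLinearGroup (Fin 2) F)
    (f : ↥V → (Fin 2 → F)) : Prop :=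
  Function.Surjective σ ∧ Function.Surjective f ∧ (∀ a b, f (a * b) = f a + f b) ∧
    (∀ v, f v = 0 ↔ (v : H) ∈ C) ∧
    ∀ (g : G) (v : V), ∃ w : V, (w : H) = g * v * (g : H)⁻¹ ∧ f w = (σ g).1.mulVec (f v)

theorem NM.one {F : Type*} [Field F] {G V C : Subgroup H} {σ : ↥G →* Matrix.SpecialLinearGroup (Fin 2) F}
    {f : ↥V → (Fin 2 → F)} (h : NM F G V C σ f) : f 1 = 0 := (h.2.2.2.1 1).2 (one_mem _)

theorem NM.inv {F : Type*} [Field F] {G V C : Subgroup H} {σ : ↥G →* Matrix.SpecialLinearGroup (Fin 2) F}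
    {f : ↥V → (Fin 2 → F)} (h : NM F G V C σ f) (a : V) : f a⁻¹ = - f a := by
  have h1 := h.2.2.1 a⁻¹ a
  rw [inv_mul_cancel, h.one] at h1
  exact (neg_eq_of_add_eq_zero_left h1.symm).symm

theorem NM.act {F : Type*} [Field F] {G V C : Subgroup H} {σ : ↥G →* Matrix.SpecialLinearGroup (Fin 2) F}
    {f : ↥V → (Fin 2 → F)} (h : NM F G V C σ f) (g : G) (v w : V) (hw : (w : H) = g * v * (g : H)⁻¹) :
    f w = (σ g).1.mulVec (f v) := by
  obtain ⟨w', hw', e⟩ := h.2.2.2.2 g v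
  have : w = w' := Subtype.ext (hw.trans hw'.symm)
  rw [this, e]

theorem NM.ker_iff {F : Type*} [Field F] {G V C : Subgroup H} {σ : ↥G →* Matrix.SpecialLinearGroup (Fin 2) F}
    {f : ↥V → (Fin 2 → F)} (h : NM F G V C σ f) (g : G) : σ g = 1 ↔ ∀ v ∈ V, ⁅(v : H), (g : H)⁆ ∈ C := by
  have key : ∀ v : V, (σ g).1.mulVec (f v) = f v ↔ ⁅(v : H), (g : H)⁆ ∈ C := by
    intro v
    obtain ⟨w, hw, e⟩ := h.2.2.2.2 g v
    rw [← e]
    have h1 : ((v * w⁻¹ : V) : H) = ⁅(v : H), (g : H)⁆ := by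
      rw [Subgroup.coe_mul, Subgroup.coe_inv, hw, commutatorElement_def]; group
    rw [← h1, ← h.2.2.2.1, h.2.2.1, h.inv, ← sub_eq_add_neg, sub_eq_zero, eq_comm]
  constructor
  · intro h1 v hv
    rw [← key ⟨v, hv⟩, h1]
    exact Matrix.one_mulVec _
  · intro h1
    apply sl_ext_mulVec
    intro v
    obtain ⟨v, rfl⟩ := h.2.1 v
    rw [(key v).2 (h1 v v.2)]
    exact (Matrix.one_mulVec _).symm

variable [Finite H] [Fact p.Prime]

theorem NatS.nm {G V Z : Subgroup H} (hn : NatS p q G V Z) (hv : Vtx p q G) (hVG : V ≤ G)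
    (hZV : Z ≤ V) (hGV : G ≤ normalizer (V : Set H)) (hGZ : G ≤ normalizer (Z : Set H))
    (hVV : ⁅V, V⁆ ≤ cz V Z G) {F : Type*} [Field F] [Fintype F] (hF : Fintype.card F = q) :
    ∃ (σ : ↥G →* Matrix.SpecialLinearGroup (Fin 2) F) (f : ↥V → (Fin 2 → F)), NM F G V (cz V Z G) σ f := by
  have hC : G ≤ normalizer ((cz V Z G : Subgroup H) : Set H) := cz_norm hGV hGZ le_normalizer
  obtain ⟨M, _, _, ρ, π, hπ, hadd, hker, heq⟩ := exists_sec hVG hGV hC hVV
  obtain ⟨hnt, -⟩ := nt_of_natS hn hv hVG hZV hGV hGZ ρ π hadd hker heq ⊤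
    (fun m => ⟨fun _ => hπ m, fun _ => AddSubgroup.mem_top _⟩)
  obtain ⟨K, hK, hpu⟩ := hv.ex
  obtain ⟨σ, ψ, hσ, hψ⟩ := Nt.ident (K := K) hnt hpu hF
  refine ⟨σ, fun v => ψ (π v), hσ, ψ.surjective.comp hπ, fun a b => ?_, fun v => ?_, fun g v => ?_⟩
  · change ψ (π (a * b)) = ψ (π a) + ψ (π b)
    rw [hadd, map_add]
  · rw [map_eq_zero_iff ψ ψ.injective, hker]
  · obtain ⟨w, hw, hw2⟩ := heq g v
    refine ⟨w, hw, ?_⟩
    change ψ (π w) = (σ g).1.mulVec (ψ (π v))
    rw [hw2, hψ]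

end

section
variable {X : Type u} [Group X] [Finite X] {p q : ℕ} [Fact p.Prime]

/-- a chief factor on which `O^p(G)` acts trivially is central -/
theorem chief_central {U W : Subgroup X} (hc : IsChiefFactor U W) (hUW : W.Normal) (hU : U ≤ pCore p X)
    (h : ⁅U, pRes p (⊤ : Subgroup X)⁆ ≤ W) : ⁅U, (⊤ : Subgroup X)⁆ ≤ W := by
  by_contra hcon
  obtain ⟨hlt, hUn, -, hmin⟩ := hc
  obtain ⟨S, hS⟩ := SylIn.exists p (⊤ : Subgroup X)
  haveI := hUn
  haveI := hUW
  have h1 : ⁅U, (⊤ : Subgroup X)⁆ ⊔ W = U := by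
    rcases hmin (⁅U, (⊤ : Subgroup X)⁆ ⊔ W) inferInstance le_sup_right
      (sup_le (commutator_le_left _ _) hlt.le) with h2 | h2
    · exfalso
      apply hcon
      rw [← h2]; exact le_sup_left
    · exact h2
  have h2 : ∀ k, U ≤ iterCommutator U ⊤ k ⊔ W := by
    intro k
    induction k with
    | zero => exact le_sup_left
    | succ k ih =>
      change U ≤ ⁅iterCommutator U ⊤ k, ⊤⁆ ⊔ W
      have hn : (iterCommutator U (⊤ : Subgroup X) k).Normal := by
        clear ih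
        induction k with
        | zero => exact hUn
        | succ k ih => haveI := ih; exact (inferInstance : (⁅iterCommutator U ⊤ k, (⊤ : Subgroup X)⁆).Normal)
      calc U = ⁅U, (⊤ : Subgroup X)⁆ ⊔ W := h1.symm
        _ ≤ ⁅iterCommutator U ⊤ k ⊔ W, (⊤ : Subgroup X)⁆ ⊔ W := sup_le_sup_right (commutator_mono ih le_rfl) _
        _ ≤ ⁅iterCommutator U ⊤ k, ⊤⁆ ⊔ W := by
          refine sup_le ?_ le_sup_right
          rw [commutator_le]
          intro x hx g _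
          rw [mem_sup_of_normal_right] at hx
          obtain ⟨a, ha, w, hw, rfl⟩ := hx
          have e : ⁅a * w, g⁆ = a * ⁅w, g⁆ * a⁻¹ * ⁅a, g⁆ := by
            simp only [commutatorElement_def]; group
          rw [e]
          refine mul_mem (mem_sup_right ?_) (mem_sup_left (commutator_mem_commutator ha (mem_top g)))
          apply hUW.conj_mem
          exact (commutator_le_left W ⊤) (commutator_mem_commutator hw (mem_top g))
  have hSp : IsPGroup p S := hS.isPGroup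
  haveI : Group.IsNilpotent S := hSp.isNilpotent
  obtain ⟨k, hk⟩ : ∃ k, S.lowerCentralSeries k = ⊥ := by
    obtain ⟨k, hk⟩ := Subgroup.nilpotent_iff_lowerCentralSeries.1 (inferInstance : Group.IsNilpotent S)
    refine ⟨k, ?_⟩
    rw [← top_subtype_lowerCentralSeries, hk, Subgroup.map_bot]
  have h3 := (iter_le hS hUn hUW (hU.trans (pCore_le_sylIn hS)) h k).2
  rw [hk, bot_sup_eq] at h3
  exact hlt.not_ge ((h2 k).trans (sup_le h3 le_rfl))

/-- dichotomy -/
theorem chief_dich {U W A : Subgroup X} (hc : IsChiefFactor U W) (hUW : W.Normal) (hA : A.Normal) :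
    U ⊓ A ≤ W ∨ U ≤ (U ⊓ A) ⊔ W := by
  obtain ⟨hlt, hUn, -, hmin⟩ := hc
  haveI := hUn
  haveI := hUW
  rcases hmin ((U ⊓ A) ⊔ W) inferInstance le_sup_right (sup_le inf_le_left hlt.le) with h1 | h1
  · left; rw [← h1]; exact le_sup_left
  · right; exact h1.ge

theorem jh_central {U W A B : Subgroup X} (hc : IsChiefFactor U W) (hUW : W.Normal) (hU : U ≤ pCore p X)
    (hA : A.Normal) (hAB : ⁅A, pRes p (⊤ : Subgroup X)⁆ ≤ B) (hB : U ⊓ B ≤ W)
    (hnc : ¬ ⁅U, (⊤ : Subgroup X)⁆ ≤ W) : U ⊓ A ≤ W := by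
  rcases chief_dich hc hUW hA with h1 | h1
  · exact h1
  · exfalso
    apply hnc
    apply chief_central hc hUW hU
    haveI := hUW
    haveI := hc.2.1
    rw [commutator_le]
    intro x hx g hg
    have hx2 := h1 hx
    rw [mem_sup_of_normal_right] at hx2
    obtain ⟨a, ha, w, hw, rfl⟩ := hx2
    have e : ⁅a * w, g⁆ = a * ⁅w, g⁆ * a⁻¹ * ⁅a, g⁆ := by
      simp only [commutatorElement_def]; group
    rw [e]
    refine mul_mem (hUW.conj_mem _ ((commutator_le_left W ⊤) (commutator_mem_commutator hw (mem_top g))) a)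
      (hB ⟨?_, hAB (commutator_mem_commutator ha.2 hg)⟩)
    exact (commutator_le_left U ⊤) (commutator_mem_commutator ha.1 (mem_top g))

/-- factorization of additive maps -/
theorem exists_factor' {V M W : Type*} [Group V] [AddGroup M] [AddCommGroup W] (π : V → M) (π₂ : V → W)
    (hs : Function.Surjective π) (h1 : ∀ a b, π (a * b) = π a + π b) (h2 : ∀ a b, π₂ (a * b) = π₂ a + π₂ b)
    (hk : ∀ v, π v = 0 → π₂ v = 0) : ∃ j : M →+ W, ∀ v, j (π v) = π₂ v := by
  have h0 : π 1 = 0 := by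
    have := h1 1 1
    rw [mul_one] at this
    exact left_eq_add.1 this
  have h0' : π₂ 1 = 0 := hk 1 h0
  have hinv : ∀ a, π a⁻¹ = - π a := by
    intro a
    have h3 := h1 a⁻¹ a
    rw [inv_mul_cancel, h0] at h3
    exact eq_neg_of_add_eq_zero_left h3.symm
  have hinv' : ∀ a, π₂ a⁻¹ = - π₂ a := by
    intro a
    have h3 := h2 a⁻¹ a
    rw [inv_mul_cancel, h0'] at h3
    exact eq_neg_of_add_eq_zero_left h3.symm
  have key : ∀ a b, π a = π b → π₂ a = π₂ b := by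
    intro a b hab
    have h3 := hk (a * b⁻¹) (by rw [h1, hinv, hab, add_neg_cancel])
    rw [h2, hinv'] at h3
    exact eq_of_sub_eq_zero (by rw [sub_eq_add_neg]; exact h3)
  choose r hr using hs
  refine ⟨{ toFun := fun m => π₂ (r m), map_zero' := ?_, map_add' := ?_ }, ?_⟩
  · rw [← h0']
    exact key _ _ (by rw [hr, h0])
  · intro a b
    rw [← h2]
    exact key _ _ (by rw [hr, h1, hr, hr])
  · intro v
    exact key _ _ (hr _)

theorem jh_nat {U W A B : Subgroup X} [W.Normal] (hc : IsChiefFactor U W)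
    (hA : IsChiefFactor A B) (hB : U ⊓ B ≤ W) (hUA : ¬ U ⊓ A ≤ W) {F : Type*} [Field F]
    {σ : ↥(⊤ : Subgroup X) →* Matrix.SpecialLinearGroup (Fin 2) F} {f : ↥A → (Fin 2 → F)} (h : NM F ⊤ A B σ f) :
    IsNaturalSL2Module F (U.map (QuotientGroup.mk' W)) (⊤ : Subgroup (X ⧸ W)) := by
  haveI hUn := hc.2.1
  haveI hAn := hA.2.1
  haveI hBn := hA.2.2.1
  have hU : U ≤ (U ⊓ A) ⊔ W := (chief_dich hc inferInstance hAn).resolve_left hUA
  have hBA : B ≤ A := hA.1.le
  have hWU : W ≤ U := hc.1.le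
  have e1 : (U ⊓ A) ⊔ B = A := by
    rcases hA.2.2.2 ((U ⊓ A) ⊔ B) inferInstance le_sup_right (sup_le inf_le_right hBA) with h1 | h1
    · exfalso
      apply hUA
      exact (le_inf inf_le_left (le_sup_left.trans h1.le)).trans hB
    · exact h1
  have e2 : W ⊓ A ≤ B := by
    rcases hA.2.2.2 ((W ⊓ A) ⊔ B) inferInstance le_sup_right (sup_le inf_le_right hBA) with h1 | h1
    · exact le_sup_left.trans h1.le
    · exfalso
      apply hUA
      intro x hx
      have hx2 : x ∈ (W ⊓ A) ⊔ B := by rw [h1]; exact hx.2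
      rw [mem_sup_of_normal_right] at hx2
      obtain ⟨w, hw, b, hb, rfl⟩ := hx2
      have hbU : b ∈ U := by
        have : b = w⁻¹ * (w * b) := by group
        rw [this]
        exact mul_mem (inv_mem (hWU hw.1)) hx.1
      exact mul_mem hw.1 (hB ⟨hbU, hb⟩)
  let mk := QuotientGroup.mk' W
  let Ub : Subgroup (X ⧸ W) := U.map mk
  -- the map of `U ∩ A`
  let π : ↥(U ⊓ A) → Additive Ub := fun a => Additive.ofMul ⟨mk a, ⟨a, a.2.1, rfl⟩⟩
  let π₂ : ↥(U ⊓ A) → (Fin 2 → F) := fun a => f ⟨a, a.2.2⟩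
  have hπs : Function.Surjective π := by
    intro m
    obtain ⟨u, hu, hum⟩ := (Additive.toMul m).2
    have hu2 := hU hu
    rw [mem_sup_of_normal_right] at hu2
    obtain ⟨a, ha, w, hw, rfl⟩ := hu2
    refine ⟨⟨a, ha⟩, ?_⟩
    apply Additive.toMul.injective
    apply Subtype.ext
    rw [← hum]
    change mk a = mk (a * w)
    change (QuotientGroup.mk a : X ⧸ W) = QuotientGroup.mk (a * w)
    rw [QuotientGroup.eq]
    simpa using hw
  have hπker : ∀ a : ↥(U ⊓ A), π a = 0 ↔ (a : X) ∈ W := by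
    intro a
    rw [← QuotientGroup.eq_one_iff]
    constructor
    · intro h1
      exact congrArg (fun m : Additive Ub => ((Additive.toMul m : Ub) : X ⧸ W)) h1
    · intro h1
      apply Additive.toMul.injective
      apply Subtype.ext
      exact h1
  have hπadd : ∀ a b, π (a * b) = π a + π b := by
    intro a b
    apply Additive.toMul.injective
    apply Subtype.ext
    exact map_mul mk (a : X) b
  obtain ⟨j, hj⟩ := exists_factor' π π₂ hπs hπadd (fun a b => h.2.2.1 ⟨a, a.2.2⟩ ⟨b, b.2.2⟩) (fun a ha => by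
    have h1 := (hπker a).1 ha
    exact (h.2.2.2.1 _).2 (e2 ⟨h1, a.2.2⟩))
  have hjinj : Function.Injective j := by
    rw [injective_iff_map_eq_zero]
    intro m hm
    obtain ⟨a, rfl⟩ := hπs m
    rw [hj] at hm
    rw [hπker]
    exact hB ⟨a.2.1, (h.2.2.2.1 _).1 hm⟩
  have hjsurj : Function.Surjective j := by
    intro v
    obtain ⟨a, rfl⟩ := h.2.1 v
    have ha : (a : X) ∈ (U ⊓ A) ⊔ B := by rw [e1]; exact a.2
    rw [mem_sup_of_normal_right] at ha
    obtain ⟨u, hu, b, hb, hub⟩ := ha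
    refine ⟨π ⟨u, hu⟩, ?_⟩
    rw [hj]
    have h1 : a = ⟨u, hu.2⟩ * ⟨b, hBA hb⟩ := Subtype.ext hub.symm
    rw [h1, h.2.2.1, (h.2.2.2.1 ⟨b, hBA hb⟩).2 hb, add_zero]
  let σ' : X →* Matrix.SpecialLinearGroup (Fin 2) F := σ.comp (Subgroup.topEquiv (G := X)).symm.toMonoidHom
  have hσ' : ∀ x : X, σ' x = σ ⟨x, mem_top x⟩ := fun x => rfl
  have hW : W ≤ σ'.ker := by
    intro w hw
    rw [MonoidHom.mem_ker, hσ', h.ker_iff]
    intro v hv
    have m1 : ⁅v, w⁆ ∈ W := (commutator_le_right A W) (commutator_mem_commutator hv hw)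
    have m2 : ⁅v, w⁆ ∈ A := (commutator_le_left A W) (commutator_mem_commutator hv hw)
    exact e2 ⟨m1, m2⟩
  let τ : ↥(⊤ : Subgroup (X ⧸ W)) →* Matrix.SpecialLinearGroup (Fin 2) F :=
    (QuotientGroup.lift W σ' hW).comp (Subgroup.subtype ⊤)
  have hτ : ∀ x : X, ∀ h1, τ ⟨mk x, h1⟩ = σ ⟨x, mem_top x⟩ := fun x _ => rfl
  have hact : ∀ (l : ↥(⊤ : Subgroup (X ⧸ W))) (v : Ub), ∃ w : Ub, (w : X ⧸ W) = (l : X ⧸ W) * v * (l : X ⧸ W)⁻¹ ∧
      j (Additive.ofMul w) = (τ l).1.mulVec (j (Additive.ofMul v)) := by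
    rintro ⟨l, hl⟩ v
    obtain ⟨x, rfl⟩ := QuotientGroup.mk'_surjective W l
    obtain ⟨a, ha⟩ := hπs (Additive.ofMul v)
    have hxU : x * a * x⁻¹ ∈ U := hUn.conj_mem _ a.2.1 x
    have hxA : x * a * x⁻¹ ∈ A := hAn.conj_mem _ a.2.2 x
    have h2 : v = ⟨mk a, ⟨a, a.2.1, rfl⟩⟩ := by
      have := congrArg Additive.toMul ha
      exact this.symm
    refine ⟨⟨mk (x * a * x⁻¹), ⟨_, hxU, rfl⟩⟩, ?_, ?_⟩
    · rw [h2]
      change mk (x * a * x⁻¹) = mk x * mk a * (mk x)⁻¹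
      rw [map_mul, map_mul, map_inv]
    · have h3 : j (π ⟨x * a * x⁻¹, ⟨hxU, hxA⟩⟩) = (τ ⟨mk x, hl⟩).1.mulVec (j (π a)) := by
        rw [hj, hj, hτ]
        exact h.act ⟨x, mem_top x⟩ ⟨a, a.2.2⟩ ⟨x * a * x⁻¹, hxA⟩ rfl
      rw [← ha]
      exact h3
  refine ⟨?_, τ, AddEquiv.ofBijective j ⟨hjinj, hjsurj⟩, ?_, ?_, hact⟩
  · haveI : (U.map mk).Normal := Normal.map hUn _ (QuotientGroup.mk'_surjective _)
    rw [normalizer_eq_top]
  · intro m
    obtain ⟨g, rfl⟩ := h.1 m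
    refine ⟨⟨mk g, mem_top _⟩, ?_⟩
    exact hτ g _
  · ext ⟨l, hl⟩
    rw [MonoidHom.mem_ker, mem_subgroupOf, mem_centralizer_iff]
    constructor
    · intro h1 v hv
      obtain ⟨w, hw, e⟩ := hact ⟨l, hl⟩ ⟨v, hv⟩
      rw [h1] at e
      have e3 : j (Additive.ofMul w) = j (Additive.ofMul ⟨v, hv⟩) := by
        rw [e]; exact Matrix.one_mulVec _
      have e4 : w = ⟨v, hv⟩ := Additive.ofMul.injective (hjinj e3)
      rw [e4] at hw
      change v = l * v * l⁻¹ at hw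
      change v * l = l * v
      nth_rewrite 1 [hw]
      group
    · intro h1
      apply sl_ext_mulVec
      intro v
      obtain ⟨m, rfl⟩ := hjsurj v
      obtain ⟨w, hw, e⟩ := hact ⟨l, hl⟩ (Additive.toMul m)
      have e4 : w = Additive.toMul m := by
        apply Subtype.ext
        rw [hw]
        have := h1 _ (Additive.toMul m).2
        change l * _ * l⁻¹ = _
        rw [← this]; group
      rw [e4] at e
      exact e.symm.trans (Matrix.one_mulVec _).symm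

end

end Cfsg.Agent.H47
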