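import Cfsg.Agent.H47.CLin
import Cfsg.Agent.H47.JH

set_option autoImplicit false
set_option linter.unusedSectionVars false
set_option linter.style.haveILetI false
open Cfsg Subgroup
open scoped commutatorElement

namespace Cfsg.Agent.H47

universe u

section
variable {H : Type u} [Group H]

/-- the centralizer in `P` -/
def cn (P R : Subgroup H) : Subgroup H := P ⊓ centralizer (R : Set H)

theorem mem_cn {P R : Subgroup H} {x : H} : x ∈ cn P R ↔ x ∈ P ∧ x ∈ centralizer (R : Set H) := Iff.rfl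

theorem cn_le {P R : Subgroup H} : cn P R ≤ P := inf_le_left

theorem cn_anti {P R T : Subgroup H} (h : R ≤ T) : cn P T ≤ cn P R := inf_le_inf_left _ (centralizer_le h)

theorem le_cn_cn {P R : Subgroup H} (h : R ≤ P) : R ≤ cn P (cn P R) := by
  refine le_inf h ?_
  rw [le_centralizer_iff]
  exact inf_le_right

theorem cn_sup {P R T : Subgroup H} : cn P (R ⊔ T) = cn P R ⊓ cn P T := by
  apply le_antisymm
  · exact le_inf (cn_anti le_sup_left) (cn_anti le_sup_right)
  · refine le_inf (inf_le_left.trans cn_le) ?_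
    rw [le_centralizer_iff]
    apply sup_le
    · rw [le_centralizer_iff]; exact inf_le_left.trans inf_le_right
    · rw [le_centralizer_iff]; exact inf_le_right.trans inf_le_right

theorem cn_conj {P R : Subgroup H} (g : H) :
    cn (P.map (MulAut.conj g).toMonoidHom) (R.map (MulAut.conj g).toMonoidHom) =
      (cn P R).map (MulAut.conj g).toMonoidHom := by
  unfold cn
  rw [map_inf _ _ _ (MulAut.conj g).injective, centralizer_map_conj]

variable [Finite H]

theorem card_mul_le (R T : Subgroup H) :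
    Nat.card R * Nat.card T ≤ Nat.card (R ⊔ T : Subgroup H) * Nat.card (R ⊓ T : Subgroup H) := by
  have h1 : T.relIndex R ≤ T.relIndex (R ⊔ T) :=
    relIndex_le_of_le_right le_sup_left (by
      have : 0 < T.relIndex (R ⊔ T) := Nat.pos_of_ne_zero (by
        unfold relIndex; exact index_ne_zero_of_finite)
      omega)
  have h2 : Nat.card (R ⊓ T : Subgroup H) * T.relIndex R = Nat.card R := by
    have := card_mul_index ((R ⊓ T).subgroupOf R)
    rw [Nat.card_congr (subgroupOfEquivOfLe (inf_le_left : R ⊓ T ≤ R)).toEquiv] at this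
    rw [← this]
    congr 1
    change T.relIndex R = (R ⊓ T).relIndex R
    rw [inf_relIndex_left]
  have h3 : Nat.card T * T.relIndex (R ⊔ T) = Nat.card (R ⊔ T : Subgroup H) := by
    have := card_mul_index (T.subgroupOf (R ⊔ T))
    rwa [Nat.card_congr (subgroupOfEquivOfLe (le_sup_right : T ≤ R ⊔ T)).toEquiv] at this
  calc Nat.card R * Nat.card T = Nat.card (R ⊓ T : Subgroup H) * T.relIndex R * Nat.card T := by rw [h2]
    _ ≤ Nat.card (R ⊓ T : Subgroup H) * T.relIndex (R ⊔ T) * Nat.card T :=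
      Nat.mul_le_mul_right _ (Nat.mul_le_mul_left _ h1)
    _ = Nat.card (R ⊓ T : Subgroup H) * (Nat.card T * T.relIndex (R ⊔ T)) := by ring
    _ = _ := by rw [h3, mul_comm]

/-- `P` is maximal for the Chermak-Delgado measure -/
def CM (P : Subgroup H) : Prop := ∀ R ≤ P, Nat.card R * Nat.card (cn P R) ≤ mz P

theorem CLin.cm {P : Subgroup H} (h : CLin P P) : CM P := by
  intro R hR
  have hn : R ≤ normalizer (cn P R : Set H) :=
    le_normalizer_inf (hR.trans le_normalizer) (le_normalizer.trans (normalizer_le_normalizer_centralizer R))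
  have h1 := card_sup_mul_card_inf hn
  have h2 : R ⊓ cn P R = R ⊓ centralizer (R : Set H) := by
    apply le_antisymm
    · exact le_inf inf_le_left (inf_le_right.trans inf_le_right)
    · exact le_inf inf_le_left (le_inf (inf_le_left.trans hR) inf_le_right)
  rw [h2] at h1
  rw [← h1]
  have h3 := h.2 (R ⊔ cn P R) (sup_le hR cn_le)
  refine le_trans ?_ h3
  unfold mz
  apply Nat.mul_le_mul_left
  apply Subgroup.card_le_of_le
  refine le_inf (inf_le_left.trans le_sup_left) ?_
  rw [le_centralizer_iff]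
  apply sup_le
  · rw [le_centralizer_iff]; exact inf_le_right
  · rw [le_centralizer_iff]
    refine inf_le_left.trans ?_
    rw [le_centralizer_iff]; exact inf_le_right

/-- members of the Chermak-Delgado lattice of `P` -/
def CD (P R : Subgroup H) : Prop := R ≤ P ∧ Nat.card R * Nat.card (cn P R) = mz P

theorem CM.cd_of_le {P R : Subgroup H} (hP : CM P) (hR : R ≤ P) (h : mz P ≤ Nat.card R * Nat.card (cn P R)) :
    CD P R := ⟨hR, le_antisymm (hP R hR) h⟩

theorem mz_pos (P : Subgroup H) : 0 < mz P := Nat.mul_pos Nat.card_pos Nat.card_pos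

theorem CM.cd_self {P : Subgroup H} (hP : CM P) : CD P P := ⟨le_rfl, rfl⟩

theorem CD.cn_cn {P R : Subgroup H} (hP : CM P) (h : CD P R) : cn P (cn P R) = R := by
  symm
  apply eq_of_le_of_card_ge (le_cn_cn h.1)
  have h1 := hP _ (cn_le (P := P) (R := R))
  rw [← h.2, mul_comm] at h1
  exact Nat.le_of_mul_le_mul_right h1 Nat.card_pos

theorem CD.cn {P R : Subgroup H} (hP : CM P) (h : CD P R) : CD P (cn P R) := by
  refine ⟨cn_le, ?_⟩
  rw [h.cn_cn hP, mul_comm]; exact h.2

theorem CD.sup_inf {P R T : Subgroup H} (hP : CM P) (hR : CD P R) (hT : CD P T) :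
    CD P (R ⊔ T) ∧ CD P (R ⊓ T) := by
  have h1 := card_mul_le R T
  have h2 := card_mul_le (Cfsg.Agent.H47.cn P R) (Cfsg.Agent.H47.cn P T)
  have h3 : Cfsg.Agent.H47.cn P R ⊔ Cfsg.Agent.H47.cn P T ≤ Cfsg.Agent.H47.cn P (R ⊓ T) :=
    sup_le (cn_anti inf_le_left) (cn_anti inf_le_right)
  have h4 := Subgroup.card_le_of_le h3
  rw [← cn_sup] at h2
  have h5 := hP (R ⊔ T) (sup_le hR.1 hT.1)
  have h6 := hP (R ⊓ T) (inf_le_left.trans hR.1)
  have e1 := hR.2
  have e2 := hT.2
  have hp := mz_pos P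
  set a := Nat.card (R ⊔ T : Subgroup H)
  set b := Nat.card (R ⊓ T : Subgroup H)
  set c := Nat.card (Cfsg.Agent.H47.cn P (R ⊔ T))
  set d := Nat.card (Cfsg.Agent.H47.cn P (R ⊓ T))
  have h7 : mz P * mz P ≤ (a * c) * (b * d) := by
    calc mz P * mz P = (Nat.card R * Nat.card T) * (Nat.card (Cfsg.Agent.H47.cn P R) * Nat.card (Cfsg.Agent.H47.cn P T)) := by
          rw [← e1]
          nth_rewrite 2 [e1]
          rw [← e2]; ring
      _ ≤ (a * b) * (Nat.card (Cfsg.Agent.H47.cn P R ⊔ Cfsg.Agent.H47.cn P T : Subgroup H) * c) := Nat.mul_le_mul h1 h2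
      _ ≤ (a * b) * (d * c) := Nat.mul_le_mul_left _ (Nat.mul_le_mul_right _ h4)
      _ = _ := by ring
  constructor
  · refine ⟨sup_le hR.1 hT.1, le_antisymm h5 ?_⟩
    by_contra hc
    push Not at hc
    have : (a * c) * (b * d) < mz P * mz P := by
      calc (a * c) * (b * d) ≤ (a * c) * mz P := Nat.mul_le_mul_left _ h6
        _ < mz P * mz P := Nat.mul_lt_mul_of_pos_right hc hp
    omega
  · refine ⟨inf_le_left.trans hR.1, le_antisymm h6 ?_⟩
    by_contra hc
    push Not at hc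
    have : (a * c) * (b * d) < mz P * mz P := by
      calc (a * c) * (b * d) ≤ mz P * (b * d) := Nat.mul_le_mul_right _ h5
        _ < mz P * mz P := Nat.mul_lt_mul_of_pos_left hc hp
    omega

theorem CD.sup {P R T : Subgroup H} (hP : CM P) (hR : CD P R) (hT : CD P T) : CD P (R ⊔ T) := (hR.sup_inf hP hT).1

theorem CD.sSup {P : Subgroup H} (hP : CM P) {𝒮 : Set (Subgroup H)} (hne : 𝒮.Nonempty) (h : ∀ R ∈ 𝒮, CD P R) :
    CD P (sSup 𝒮) := by
  obtain ⟨M, hM, hmax⟩ : ∃ M, Maximal (fun M => CD P M ∧ M ≤ SupSet.sSup 𝒮) M := by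
    obtain ⟨R, hR⟩ := hne
    obtain ⟨M, -, hM⟩ := (Set.toFinite {M | CD P M ∧ M ≤ SupSet.sSup 𝒮}).exists_le_maximal
      (show R ∈ {M | CD P M ∧ M ≤ SupSet.sSup 𝒮} from ⟨h R hR, le_sSup hR⟩)
    exact ⟨M, hM⟩
  have h1 : SupSet.sSup 𝒮 ≤ M := by
    apply sSup_le
    intro R hR
    exact le_sup_right.trans (hmax ⟨hM.1.sup hP (h R hR), sup_le hM.2 (le_sSup hR)⟩ le_sup_left)
  rw [le_antisymm h1 hM.2]
  exact hM.1

theorem CLin.cm' {P Q : Subgroup H} (hP : CM P) (hQ : Q ≤ P) (h : mz P ≤ mz Q) : CM Q := by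
  intro R hR
  refine le_trans ?_ ((hP R (hR.trans hQ)).trans h)
  exact Nat.mul_le_mul_left _ (Subgroup.card_le_of_le (inf_le_inf_right _ hQ))

theorem CD.conj {P R : Subgroup H} (h : CD P R) (g : H) :
    CD (P.map (MulAut.conj g).toMonoidHom) (R.map (MulAut.conj g).toMonoidHom) := by
  refine ⟨map_conj_mono h.1, ?_⟩
  rw [cn_conj, card_map_conj, card_map_conj, mz_map_conj]
  exact h.2

/-- index inequality: an abelian subgroup `A` with `|A|² = mz Q` covers much -/
theorem card_inf_ge {Q A W : Subgroup H} (hQ : CM Q) (hA : A ≤ Q) (hAc : A ≤ centralizer (A : Set H))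
    (hA2 : mz Q ≤ Nat.card A * Nat.card A) (hW : W ≤ Q) {n : ℕ}
    (hn : Nat.card A ≤ n * Nat.card (A ⊓ centralizer (W : Set H) : Subgroup H)) :
    Nat.card W ≤ n * Nat.card (A ⊓ W : Subgroup H) := by
  have h1 : A ⊓ centralizer (W : Set H) ≤ cn Q (A ⊔ W) := by
    refine le_inf (inf_le_left.trans hA) ?_
    rw [le_centralizer_iff]
    apply sup_le
    · rw [le_centralizer_iff]; exact inf_le_left.trans hAc
    · rw [le_centralizer_iff]; exact inf_le_right
  have h2 := Subgroup.card_le_of_le h1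
  have h3 := hQ (A ⊔ W) (sup_le hA hW)
  have h4 := card_mul_le A W
  have hA0 : 0 < Nat.card A := Nat.card_pos
  -- |A| * |W| * |A| ≤ |A⊔W| |A⊓W| * n * |A ⊓ C(W)| ≤ n |A⊓W| mz Q ≤ n |A ⊓ W| |A|²
  have h5 : (Nat.card A * Nat.card A) * Nat.card W ≤ (Nat.card A * Nat.card A) * (n * Nat.card (A ⊓ W : Subgroup H)) := by
    calc (Nat.card A * Nat.card A) * Nat.card W = (Nat.card A * Nat.card W) * Nat.card A := by ring
      _ ≤ (Nat.card (A ⊔ W : Subgroup H) * Nat.card (A ⊓ W : Subgroup H)) *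
          (n * Nat.card (A ⊓ centralizer (W : Set H) : Subgroup H)) := Nat.mul_le_mul h4 hn
      _ ≤ (Nat.card (A ⊔ W : Subgroup H) * Nat.card (A ⊓ W : Subgroup H)) *
          (n * Nat.card (cn Q (A ⊔ W))) := Nat.mul_le_mul_left _ (Nat.mul_le_mul_left _ h2)
      _ = (Nat.card (A ⊔ W : Subgroup H) * Nat.card (cn Q (A ⊔ W))) * (n * Nat.card (A ⊓ W : Subgroup H)) := by ring
      _ ≤ mz Q * (n * Nat.card (A ⊓ W : Subgroup H)) := Nat.mul_le_mul_right _ h3
      _ ≤ _ := Nat.mul_le_mul_right _ hA2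
  exact Nat.le_of_mul_le_mul_left h5 (Nat.mul_pos hA0 hA0)

end

end Cfsg.Agent.H47
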