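import Cfsg.Agent.H47.MO9
import Cfsg.Agent.H47.Amal6

set_option autoImplicit false
set_option linter.unusedSectionVars false
set_option linter.style.haveILetI false
open Cfsg Subgroup
open scoped commutatorElement

namespace Cfsg.Agent.H47

universe u

variable {H : Type u} [Group H] [Finite H] {p q : ℕ} [Fact p.Prime] {𝒱 : Set (Subgroup H)}
  {X : Subgroup H → Subgroup H} {G G' P P' : Subgroup H}

namespace MAx

theorem nVG (hx : MAx p 𝒱 X) (G : Subgroup H) : G ≤ normalizer (VG p 𝒱 G : Set H) :=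
  le_normalizer.trans (le_normalizer_of_equivariant (VG_conj hx.conj) G)

theorem VG_le (hx : MAx p 𝒱 X) : VG p 𝒱 G ≤ G := by
  rw [VG_le_iff]
  intro P hP
  exact hx.V_le.trans hP.le

theorem VG_le_core (hx : MAx p 𝒱 X) (hG : G ∈ 𝒱) : VG p 𝒱 G ≤ pCoreOf p G := by
  rw [VG_le_iff]
  intro P hP
  exact hx.V_le_D.trans (hx.D_le_core hG hP)

theorem ZV_le_VG (_hx : MAx p 𝒱 X) (hG : G ∈ 𝒱) : ZV p G ≤ VG p 𝒱 G := by
  obtain ⟨P, hP⟩ := SylIn.exists p G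
  exact (le_VV hG hP).trans (VV_le_VG hP)

theorem comm_VG (hx : MAx p 𝒱 X) (hG : G ∈ 𝒱) : ⁅VG p 𝒱 G, pCoreOf p G⁆ ≤ ZV p G := by
  rw [commutator_comm]
  apply commutator_le_of_le_cmod
  rw [VG_le_iff]
  intro P hP x hx'
  have hxP : x ∈ P := hx.V_le hx'
  refine ⟨(hP.le.trans (le_normalizer_ZV G)) hxP, fun t ht => ?_⟩
  exact hx.omega_le hG hP (hx.V_comm_le (commutator_mem_commutator hx' (pCoreOf_le_sylIn hP ht)))

theorem VG_comm (hx : MAx p 𝒱 X) (hG : G ∈ 𝒱) : ⁅VG p 𝒱 G, VG p 𝒱 G⁆ ≤ ZV p G :=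
  (commutator_mono le_rfl (hx.VG_le_core hG)).trans (hx.comm_VG hG)

theorem hker_VG (hx : MAx p 𝒱 X) (hG : G ∈ 𝒱) (hA : ¬ TB p 𝒱 G) (hP : SylIn p P G) :
    (G ⊓ cmod (VG p 𝒱 G) (ZV p G)) ⊔ P ≠ G := by
  intro h1
  apply hA
  apply TB.of hx.toMAm hP
  conv_lhs => rw [← h1]
  apply sup_le
  · rw [le_normalizer_iff_commutator_le_left]
    calc ⁅VV p 𝒱 P, G ⊓ cmod (VG p 𝒱 G) (ZV p G)⁆ ≤ ⁅VG p 𝒱 G, cmod (VG p 𝒱 G) (ZV p G)⁆ :=
          commutator_mono (VV_le_VG hP) inf_le_right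
      _ ≤ ZV p G := commutator_le_of_le_cmod le_rfl
      _ ≤ VV p 𝒱 P := le_VV hG hP
  · exact le_normalizer.trans (hx.nV P)

/-- `V_P` is in the centralizer of `P` in `V_G/Z_G` -/
theorem VV_le_F (hx : MAx p 𝒱 X) (hG : G ∈ 𝒱) (hP : SylIn p P G) :
    VV p 𝒱 P ≤ cz (VG p 𝒱 G) (ZV p G) P := by
  intro x hx'
  exact ⟨VV_le_VG hP hx', (hP.le.trans (le_normalizer_ZV G)) (hx.V_le hx'), fun s hs =>
    hx.omega_le hG hP (hx.V_comm_le (commutator_mem_commutator hx' hs))⟩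

theorem ZV_le_CS (hx : MAx p 𝒱 X) (hG : G ∈ 𝒱) : ZV p G ≤ CS p 𝒱 G := by
  intro z hz
  have h1 : ⁅ZV p G, G⁆ ≤ ZV p G := by
    rw [← le_normalizer_iff_commutator_le_left]; exact le_normalizer_ZV G
  exact ⟨hx.ZV_le_VG hG hz, le_normalizer hz, fun s hs => h1 (commutator_mem_commutator hz hs)⟩

theorem nCS (hx : MAx p 𝒱 X) (hG : G ∈ 𝒱) : G ≤ normalizer (CS p 𝒱 G : Set H) := by
  rw [le_normalizer_iff_commutator_le_left]
  exact Crt.comm_CS.trans (hx.ZV_le_CS hG)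

theorem nCP (hx : MAx p 𝒱 X) (hG : G ∈ 𝒱) (hP : SylIn p P G) :
    G ≤ normalizer ((VV p 𝒱 P ⊓ CS p 𝒱 G : Subgroup H) : Set H) := by
  rw [le_normalizer_iff_commutator_le_left]
  exact ((commutator_mono inf_le_right le_rfl).trans Crt.comm_CS).trans (le_inf (le_VV hG hP) (hx.ZV_le_CS hG))

theorem CP_T (hx : MAx p 𝒱 X) (hG : G ∈ 𝒱) (hP : SylIn p P G) :
    ⁅VV p 𝒱 P ⊓ CS p 𝒱 G, pCoreOf p G⁆ ≤ cz (ZV p G) ⊥ G := by
  obtain ⟨q, hv⟩ := hx.vtx G hG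
  have h1 : ⁅VV p 𝒱 P ⊓ CS p 𝒱 G, pCoreOf p G⁆ ≤ omegaOneCenter p P :=
    (commutator_mono inf_le_left (pCoreOf_le_sylIn hP)).trans hx.V_comm_le
  have h2 : G ≤ normalizer ((⁅VV p 𝒱 P ⊓ CS p 𝒱 G, pCoreOf p G⁆ : Subgroup H) : Set H) :=
    le_normalizer_commutator (hx.nCP hG hP) pCoreOf_normal_mem
  have h3 := hv.le_cent_of hP h2 (by rw [le_centralizer_iff]; exact h1.trans MAm.omega_le_cent)
  rw [cz_bot_self]
  exact le_inf (h1.trans (hx.omega_le hG hP)) (by rw [le_centralizer_iff]; exact h3)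

theorem Z_cent_TS (hx : MAx p 𝒱 X) (hG : G ∈ 𝒱) : ⁅ZV p G, pCoreOf p G⁆ = ⊥ := by
  rw [commutator_eq_bot_iff_le_centralizer, le_centralizer_iff]; exact hx.core_cent hG

theorem CP_TS (hx : MAx p 𝒱 X) (hG : G ∈ 𝒱) (hP : SylIn p P G) :
    ⁅TS p G, VV p 𝒱 P ⊓ CS p 𝒱 G⁆ = ⊥ := by
  unfold TS
  apply commutator_commutator_eq_bot_of_rotate
  · rw [eq_bot_iff, ← hx.Z_cent_TS hG]
    refine commutator_mono ?_ le_rfl
    rw [commutator_comm]
    exact (commutator_mono inf_le_right le_rfl).trans Crt.comm_CS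
  · rw [commutator_eq_bot_iff_le_centralizer]
    refine (hx.CP_T hG hP).trans ?_
    rw [cz_bot_self]; exact inf_le_right

theorem inf_CS (hx : MAx p 𝒱 X) (hG : G ∈ 𝒱) (hP : SylIn p P G) {ε : Subgroup H} (hε : ε ∈ 𝒱)
    (hPε : SylIn p P ε) (hT : ¬ TS p G ≤ pCoreOf p ε) : ZV p ε ⊓ CS p 𝒱 G = omegaOneCenter p P := by
  obtain ⟨qε, hvε⟩ := hx.vtx ε hε
  apply le_antisymm
  · rintro u ⟨hu, hu2⟩
    obtain ⟨x, hx', hxT⟩ := SetLike.not_le_iff_exists.1 hT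
    rw [← hvε.cz_omega hPε]
    refine (hx.natZ hε hvε).fix P hPε x (pCoreOf_le_sylIn hP (TS_le G hx')) hxT u hu ?_
    have h1 := hx.CP_TS hG hP
    rw [commutator_comm] at h1
    have h2 : ⁅u, x⁆ ∈ ⁅VV p 𝒱 P ⊓ CS p 𝒱 G, TS p G⁆ :=
      commutator_mem_commutator ⟨le_VV hε hPε hu, hu2⟩ hx'
    rwa [h1] at h2
  · exact le_inf (hx.omega_le hε hPε) ((hx.omega_le hG hP).trans (hx.ZV_le_CS hG))

theorem F_eq (hx : MAx p 𝒱 X) (hG : G ∈ 𝒱) (hP : SylIn p P G) (hn : NatS p q G (VG p 𝒱 G) (ZV p G))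
    {ε : Subgroup H} (hε : ε ∈ 𝒱) (hvε : Vtx p q ε)
    (hPε : SylIn p P ε) (hT : ¬ TS p G ≤ pCoreOf p ε) : ZV p ε ⊔ CS p 𝒱 G = cz (VG p 𝒱 G) (ZV p G) P := by
  apply eq_of_le_of_card_ge
  · exact sup_le ((le_VV hε hPε).trans (hx.VV_le_F hG hP)) (cz_anti hP.le)
  · have hn' : ZV p ε ≤ normalizer (CS p 𝒱 G : Set H) :=
      (((le_VV hε hPε).trans hx.V_le).trans hP.le).trans (hx.nCS hG)
    have k1 := card_sup_mul_card_inf hn'
    rw [hx.inf_CS hG hP hε hPε hT] at k1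
    have k2 := (hx.natZ hε hvε).card_U P hPε
    rw [hvε.cz_omega hPε] at k2
    have k3 := hn.card_fx P hP
    have k4 : 0 < Nat.card (omegaOneCenter p P) := Nat.card_pos
    apply Nat.le_of_mul_le_mul_right _ k4
    rw [k1, k2, k3]
    apply le_of_eq
    change q * Nat.card (CS p 𝒱 G) * Nat.card (omegaOneCenter p P) = _
    ring

/-- decomposition of elements of `F` -/
theorem mem_F (hx : MAx p 𝒱 X) (hG : G ∈ 𝒱) (hP : SylIn p P G) (hn : NatS p q G (VG p 𝒱 G) (ZV p G))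
    {ε : Subgroup H} (hε : ε ∈ 𝒱) (hvε : Vtx p q ε)
    (hPε : SylIn p P ε) (hT : ¬ TS p G ≤ pCoreOf p ε) {x : H} (hx' : x ∈ cz (VG p 𝒱 G) (ZV p G) P) :
    ∃ v ∈ ZV p ε, ∃ d ∈ CS p 𝒱 G, v * d = x := by
  have hn' : ZV p ε ≤ normalizer (CS p 𝒱 G : Set H) :=
    (((le_VV hε hPε).trans hx.V_le).trans hP.le).trans (hx.nCS hG)
  rw [← hx.F_eq hG hP hn hε hvε hPε hT, mem_sup_of_le_normalizer hn'] at hx'
  exact hx'

end MAx

namespace MPt
variable {k M : ℕ} {δ P : ℕ → Subgroup H}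

theorem mx (h : MPt p 𝒱 X k M δ P) : MAx p 𝒱 X := h.mK.toMAx
theorem ma (h : MPt p 𝒱 X k M δ P) : MAm p 𝒱 X := h.mK.toMAm

theorem rev (h : MPt p 𝒱 X k M δ P) : MPt p 𝒱 X k M (fun i => δ (M - i)) (fun i => P (M - 1 - i)) := by
  refine ⟨h.mK, ⟨fun i _ => h.wk.mem _ (by omega), fun i hi => ?_, fun i hi => ?_⟩, fun i hi => ?_, fun i hi => ?_,
    fun i _ => h.tA _ (by omega)⟩
  · have := h.wk.syl' (M - 1 - i) (by omega)
    rwa [show M - 1 - i + 1 = M - i by omega] at this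
  · have := h.wk.syl (M - 1 - i) (by omega)
    rwa [show M - 1 - i = M - (i + 1) by omega] at this ⊢
  · have := h.opp (M - 1 - (i + 1)) (by omega)
    rw [show M - 1 - (i + 1) + 1 = M - 1 - i by omega] at this
    have h2 := this.symm
    rwa [show M - 1 - i = M - (i + 1) by omega] at h2 ⊢
  · have := h.nle (M - (i + (k + 1))) (by omega)
    rw [show M - (i + (k + 1)) + (k + 1) = M - i by omega] at this
    intro h2
    exact this (by rw [le_centralizer_iff]; exact h2)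

theorem shift (h : MPt p 𝒱 X k M δ P) (s : ℕ) (hs : s ≤ M) :
    MPt p 𝒱 X k (M - s) (fun i => δ (i + s)) (fun i => P (i + s)) := by
  refine ⟨h.mK, ⟨fun i _ => h.wk.mem _ (by omega), fun i hi => h.wk.syl _ (by omega), fun i hi => ?_⟩,
    fun i hi => ?_, fun i hi => ?_, fun i _ => h.tA _ (by omega)⟩
  · have := h.wk.syl' (i + s) (by omega)
    change SylIn p (P (i + s)) (δ (i + 1 + s))
    rwa [show i + 1 + s = i + s + 1 by omega]
  · have := h.opp (i + s) (by omega)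
    change Opp p (δ (i + 1 + s)) (P (i + s)) (P (i + 1 + s))
    rwa [show i + 1 + s = i + s + 1 by omega]
  · have := h.nle (i + s) (by omega)
    change ¬ ZV p (δ (i + s)) ≤ centralizer (ZV p (δ (i + (k + 1) + s)) : Set H)
    rwa [show i + (k + 1) + s = i + s + (k + 1) by omega]

section
variable {k : ℕ}

/-- `V_{P_i} ≤ P_j` for `|i - j| ≤ k` -/
theorem Z_le_P_right (h : MPt p 𝒱 X (k + 1) M δ P) (i : ℕ) (hi : i + (k + 2) ≤ M) :
    ZV p (δ i) ≤ P (i + (k + 1)) := by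
  have h1 := (h.V_le_right i k (by omega) (by omega)).1
  exact ((le_VV (h.wk.mem i (by omega)) (h.wk.syl i (by omega))).trans h1).trans
    (pCoreOf_le_sylIn (h.wk.syl (i + k + 1) (by omega)))

theorem Z_le_P_left (h : MPt p 𝒱 X (k + 1) M δ P) (i : ℕ) (hi : i + (k + 2) ≤ M) :
    ZV p (δ (i + (k + 2))) ≤ P i := by
  have h1 := (h.V_le_left (i + 1) k (by omega) (by omega)).2
  have h2 : ZV p (δ (i + (k + 2))) ≤ VV p 𝒱 (P (i + 1 + k)) := by
    apply le_VV (h.wk.mem _ (by omega))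
    have := h.wk.syl' (i + 1 + k) (by omega)
    rwa [show i + 1 + k + 1 = i + (k + 2) by omega] at this
  exact (h2.trans h1).trans (pCoreOf_le_sylIn (h.wk.syl' i (by omega)))

theorem nle' (h : MPt p 𝒱 X k M δ P) (i : ℕ) (hi : i + (k + 1) ≤ M) :
    ¬ ZV p (δ (i + (k + 1))) ≤ centralizer (ZV p (δ i) : Set H) := fun h1 => h.nle i hi (by rw [le_centralizer_iff]; exact h1)

theorem q_eq (h : MPt p 𝒱 X (k + 1) M δ P) (i : ℕ) (hi : i + (k + 2) ≤ M) {q q' : ℕ} (hv : Vtx p q (δ i))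
    (hv' : Vtx p q' (δ (i + (k + 2)))) : q = q' :=
  h.ma.mutual_q (h.wk.mem i (by omega)) (h.wk.syl i (by omega)) (h.wk.mem _ hi) (by
      have := h.wk.syl' (i + (k + 1)) (by omega)
      rwa [show i + (k + 1) + 1 = i + (k + 2) by omega] at this)
    (h.Z_le_P_right i hi) (h.Z_le_P_left i hi) (h.nle i hi) hv hv'

theorem syl_end (h : MPt p 𝒱 X (k + 1) M δ P) (i : ℕ) (hi : i + (k + 2) ≤ M) :
    SylIn p (P (i + (k + 1))) (δ (i + (k + 2))) := by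
  have := h.wk.syl' (i + (k + 1)) (by omega)
  rwa [show i + (k + 1) + 1 = i + (k + 2) by omega] at this

theorem sup_left (h : MPt p 𝒱 X (k + 1) M δ P) (i : ℕ) (hi : i + (k + 2) ≤ M) :
    ZV p (δ (i + (k + 2))) ⊔ pCoreOf p (δ i) = P i :=
  h.ma.mutual_sup (h.wk.mem i (by omega)) (h.wk.syl i (by omega)) (h.wk.mem _ hi) (h.syl_end i hi)
    (h.Z_le_P_right i hi) (h.Z_le_P_left i hi) (h.nle i hi)

theorem sup_right (h : MPt p 𝒱 X (k + 1) M δ P) (i : ℕ) (hi : i + (k + 2) ≤ M) :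
    ZV p (δ i) ⊔ pCoreOf p (δ (i + (k + 2))) = P (i + (k + 1)) :=
  h.ma.mutual_sup (h.wk.mem _ hi) (h.syl_end i hi) (h.wk.mem i (by omega)) (h.wk.syl i (by omega))
    (h.Z_le_P_left i hi) (h.Z_le_P_right i hi) (h.nle' i hi)

theorem comm_left (h : MPt p 𝒱 X (k + 1) M δ P) (i : ℕ) (hi : i + (k + 2) ≤ M) :
    ⁅ZV p (δ i), P i⁆ = ⁅ZV p (δ i), ZV p (δ (i + (k + 2)))⁆ :=
  h.ma.mutual_comm (h.wk.mem i (by omega)) (h.wk.syl i (by omega)) (h.wk.mem _ hi) (h.syl_end i hi)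
    (h.Z_le_P_right i hi) (h.Z_le_P_left i hi) (h.nle i hi)

/-- `V_{δ_i} ≤ P_{i+k}` -/
theorem VG_le_P (h : MPt p 𝒱 X (k + 1) M δ P) (i : ℕ) (hi : i + k < M) : VG p 𝒱 (δ i) ≤ P (i + k) := by
  rcases Nat.eq_zero_or_pos k with hk | hk
  · subst hk
    exact (h.mx.VG_le_core (h.wk.mem i (by omega))).trans (pCoreOf_le_sylIn (h.wk.syl i (by omega)))
  · obtain ⟨j, rfl⟩ : ∃ j, k = j + 1 := ⟨k - 1, by omega⟩
    rw [VG_le_iff]
    intro Q hQ
    have hQc : Ch p 𝒱 Q := ⟨_, h.wk.mem i (by omega), hQ⟩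
    have m1 : mp p 𝒱 (j + 1) Q (P (i + j)) :=
      mp.cons Beq.refl ⟨_, h.wk.mem i (by omega), hQ, h.wk.syl i (by omega)⟩ (h.mpw i j (by omega))
    have h1 := h.mK.V_le_D (by omega) hQc m1
    exact (h1.trans (h.ma.D_le_core (h.wk.mem (i + j + 1) (by omega)) (h.wk.syl' (i + j) (by omega)))).trans
      (pCoreOf_le_sylIn (h.wk.syl (i + j + 1) (by omega)))

/-- the elements of `V_{δ_i}` in `Q_{i+k+1}` -/
theorem VG_inf_le (h : MPt p 𝒱 X (k + 1) M δ P) (i : ℕ) (hi : i + (k + 2) ≤ M) :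
    VG p 𝒱 (δ i) ⊓ pCoreOf p (δ (i + (k + 1))) ≤ cz (VG p 𝒱 (δ i)) (ZV p (δ i)) (ZV p (δ (i + (k + 2)))) := by
  rintro v ⟨hv, hv2⟩
  refine ⟨hv, (h.mx.VG_le.trans (le_normalizer_ZV _)) hv, fun a ha' => ?_⟩
  have h3 : v ∈ P (i + (k + 1)) := pCoreOf_le_sylIn (h.wk.syl (i + (k + 1)) (by omega)) hv2
  have hn : ZV p (δ i) ≤ normalizer ((pCoreOf p (δ (i + (k + 2))) : Subgroup H) : Set H) :=
    ((h.Z_le_P_right i hi).trans (h.syl_end i hi).le).trans pCoreOf_normal_mem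
  rw [← h.sup_right i hi, mem_sup_of_le_normalizer hn] at h3
  obtain ⟨z, hz, t, ht, rfl⟩ := h3
  have h4 : ⁅t, a⁆ = 1 := by
    rw [commutatorElement_eq_one_iff_mul_comm]
    exact (mem_centralizer_iff.1 (h.ma.core_cent (h.wk.mem _ hi) ht) a ha').symm
  have h5 : ⁅z * t, a⁆ = z * ⁅t, a⁆ * z⁻¹ * ⁅z, a⁆ := by
    simp only [commutatorElement_def]; group
  rw [h5, h4, mul_one, mul_inv_cancel, one_mul]
  have h6 : ⁅ZV p (δ i), ZV p (δ (i + (k + 2)))⁆ ≤ ZV p (δ i) := by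
    rw [← le_normalizer_iff_commutator_le_left]
    exact ((h.Z_le_P_left i hi).trans (h.wk.syl i (by omega)).le).trans (le_normalizer_ZV _)
  exact h6 (commutator_mem_commutator hz ha')

theorem card_VG_le (h : MPt p 𝒱 X (k + 1) M δ P) (i : ℕ) (hi : i + (k + 2) ≤ M) {q' : ℕ}
    (hv' : Vtx p q' (δ (i + (k + 1)))) :
    Nat.card (VG p 𝒱 (δ i)) ≤ q' * Nat.card (cz (VG p 𝒱 (δ i)) (ZV p (δ i)) (ZV p (δ (i + (k + 2))))) := by
  set V := VG p 𝒱 (δ i) with hV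
  have hVP : V ≤ P (i + k) := h.VG_le_P i (by omega)
  have hs : SylIn p (P (i + k)) (δ (i + (k + 1))) := h.wk.syl' (i + k) (by omega)
  have hn1 : V ≤ normalizer ((pCoreOf p (δ (i + (k + 1))) : Subgroup H) : Set H) :=
    (hVP.trans hs.le).trans pCoreOf_normal_mem
  have k1 := card_sup_mul_card_inf hn1
  have k2 : Nat.card (V ⊔ pCoreOf p (δ (i + (k + 1))) : Subgroup H) ≤ Nat.card (P (i + k)) :=
    Subgroup.card_le_of_le (sup_le hVP (pCoreOf_le_sylIn hs))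
  have k3 := hv'.card hs
  have k4 : 0 < Nat.card (pCoreOf p (δ (i + (k + 1)))) := Nat.card_pos
  have k5 : Nat.card V ≤ q' * Nat.card (V ⊓ pCoreOf p (δ (i + (k + 1))) : Subgroup H) := by
    apply Nat.le_of_mul_le_mul_right _ k4
    rw [← k1]
    calc _ ≤ Nat.card (P (i + k)) * Nat.card (V ⊓ pCoreOf p (δ (i + (k + 1))) : Subgroup H) := Nat.mul_le_mul_right _ k2
      _ = _ := by rw [k3]; ring
  exact k5.trans (Nat.mul_le_mul_left _ (Subgroup.card_le_of_le (h.VG_inf_le i hi)))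

/-- natural modules in `V_{δ_i}/Z_{δ_i}` -/
theorem natV (h : MPt p 𝒱 X (k + 1) M δ P) (i : ℕ) (hi : i + (k + 2) ≤ M) {q q' : ℕ} (hv : Vtx p q (δ i))
    (hv' : Vtx p q' (δ (i + (k + 1)))) (hle : q' ≤ q) : NatS p q (δ i) (VG p 𝒱 (δ i)) (ZV p (δ i)) := by
  have hm := h.wk.mem i (by omega)
  have hs := h.wk.syl i (by omega)
  have hx := h.mx
  have hA : ¬ ZV p (δ (i + (k + 2))) ≤ pCoreOf p (δ i) := fun h1 => h.nle' i hi (h1.trans (h.ma.core_cent hm))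
  refine natS_of hv hs hx.VG_le (hx.ZV_le_VG hm) (hx.nVG _) (le_normalizer_ZV _)
    (hs.isPGroup.to_le ((hx.VG_le_core hm).trans (pCoreOf_le_sylIn hs))) (hx.VG_comm hm) (hx.comm_VG hm)
    (hx.hker_VG hm (h.tA i (by omega)) hs) (h.Z_le_P_left i hi) hA ?_
  have hn2 : ZV p (δ (i + (k + 2))) ≤ normalizer ((pCoreOf p (δ i) : Subgroup H) : Set H) :=
    ((h.Z_le_P_left i hi).trans hs.le).trans pCoreOf_normal_mem
  have k7 := card_sup_mul_card_inf hn2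
  rw [h.sup_left i hi, hv.card hs] at k7
  have k8 : 0 < Nat.card (pCoreOf p (δ i)) := Nat.card_pos
  have k9 : q * Nat.card (ZV p (δ (i + (k + 2))) ⊓ pCoreOf p (δ i) : Subgroup H) = Nat.card (ZV p (δ (i + (k + 2)))) := by
    apply Nat.eq_of_mul_eq_mul_right k8
    rw [← k7]; ring
  have k10 := h.card_VG_le i hi hv'
  calc _ ≤ (q' * Nat.card (cz (VG p 𝒱 (δ i)) (ZV p (δ i)) (ZV p (δ (i + (k + 2)))))) *
        Nat.card (ZV p (δ (i + (k + 2))) ⊓ pCoreOf p (δ i) : Subgroup H) := Nat.mul_le_mul_right _ k10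
    _ ≤ (q * Nat.card (cz (VG p 𝒱 (δ i)) (ZV p (δ i)) (ZV p (δ (i + (k + 2)))))) *
        Nat.card (ZV p (δ (i + (k + 2))) ⊓ pCoreOf p (δ i) : Subgroup H) :=
          Nat.mul_le_mul_right _ (Nat.mul_le_mul_right _ hle)
    _ = (q * Nat.card (ZV p (δ (i + (k + 2))) ⊓ pCoreOf p (δ i) : Subgroup H)) *
        Nat.card (cz (VG p 𝒱 (δ i)) (ZV p (δ i)) (ZV p (δ (i + (k + 2))))) := by ring
    _ = _ := by rw [k9]

theorem q_le (h : MPt p 𝒱 X (k + 1) M δ P) (i : ℕ) (hi : i + (k + 2) ≤ M) {q q' : ℕ}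
    (hn : NatS p q (δ i) (VG p 𝒱 (δ i)) (ZV p (δ i))) (hv' : Vtx p q' (δ (i + (k + 1)))) : q ≤ q' := by
  have hm := h.wk.mem i (by omega)
  have hs := h.wk.syl i (by omega)
  have hA : ¬ ZV p (δ (i + (k + 2))) ≤ pCoreOf p (δ i) := fun h1 => h.nle' i hi (h1.trans (h.ma.core_cent hm))
  have k10 := h.card_VG_le i hi hv'
  rw [hn.cz_eq hs (h.Z_le_P_left i hi) hA, hn.card_U _ hs] at k10
  exact Nat.le_of_mul_le_mul_right k10 Nat.card_pos

end

end MPt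

/-- walks with one `q` and natural modules -/
structure QPt (p q : ℕ) (𝒱 : Set (Subgroup H)) (X : Subgroup H → Subgroup H) (k M : ℕ) (δ P : ℕ → Subgroup H) :
    Prop extends MPt p 𝒱 X k M δ P where
  vtx : ∀ i ≤ M, Vtx p q (δ i)
  nat : ∀ i ≤ M, NatS p q (δ i) (VG p 𝒱 (δ i)) (ZV p (δ i))

theorem MK.exists_qpt {k : ℕ} (h : MK p 𝒱 X (k + 1)) (N : ℕ) : ∃ (q : ℕ) (δ P : ℕ → Subgroup H),
    QPt p q 𝒱 X (k + 1) N δ P := by
  set K := k + 2 with hK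
  obtain ⟨δ, P, hp⟩ := h.exists_pt (N + 5 * K)
  have hex : ∀ i, ∃ q, i ≤ N + 5 * K → Vtx p q (δ i) := by
    intro i
    by_cases hi : i ≤ N + 5 * K
    · obtain ⟨q, hq⟩ := hp.ma.vtx _ (hp.wk.mem i hi)
      exact ⟨q, fun _ => hq⟩
    · exact ⟨0, fun h => absurd h hi⟩
  choose f hf using hex
  have hper : ∀ i, i + K ≤ N + 5 * K → f (i + K) = f i := fun i hi =>
    (hp.q_eq i hi (hf i (by omega)) (hf (i + K) hi)).symm
  obtain ⟨i₁, hi₁, hmax⟩ := Set.exists_max_image (Set.Icc K (2 * K)) f (Set.toFinite _) ⟨K, by simp; omega⟩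
  rw [Set.mem_Icc] at hi₁
  have hle : ∀ j, j ≤ N + 5 * K → f j ≤ f i₁ := by
    intro j
    induction j using Nat.strong_induction_on with
    | _ j ih =>
      intro hj
      rcases Nat.lt_or_ge j K with h1 | h1
      · rw [← hper j (by omega)]
        exact hmax _ (Set.mem_Icc.2 ⟨by omega, by omega⟩)
      · rcases Nat.lt_or_ge (2 * K) j with h2 | h2
        · have h3 := ih (j - K) (by omega) (by omega)
          have h4 := hper (j - K) (by omega)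
          rw [show j - K + K = j by omega] at h4
          rw [h4]; exact h3
        · exact hmax _ (Set.mem_Icc.2 ⟨h1, h2⟩)
  -- natural modules at the indices with maximal q
  have hnat : ∀ i, i + K ≤ N + 5 * K → f i = f i₁ → NatS p (f i₁) (δ i) (VG p 𝒱 (δ i)) (ZV p (δ i)) := by
    intro i hi hfi
    refine hp.natV i hi (by rw [← hfi]; exact hf i (by omega)) (hf (i + (k + 1)) (by omega)) (hle _ (by omega))
  have hup : ∀ i, K ≤ i → i ≤ N + 4 * K → f i = f i₁ → f (i + 1) = f i₁ := by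
    intro i h1 h2 h3
    have hn := hnat i (by omega) h3
    have hr := hp.rev
    have h4 := hr.q_le (N + 5 * K - i) (by omega) (q := f i₁) (q' := f (i - (k + 1))) (by
      change NatS p (f i₁) (δ (N + 5 * K - (N + 5 * K - i))) (VG p 𝒱 (δ (N + 5 * K - (N + 5 * K - i)))) (ZV p (δ (N + 5 * K - (N + 5 * K - i))))
      rw [show N + 5 * K - (N + 5 * K - i) = i by omega]; exact hn) (by
      change Vtx p (f (i - (k + 1))) (δ (N + 5 * K - (N + 5 * K - i + (k + 1))))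
      rw [show N + 5 * K - (N + 5 * K - i + (k + 1)) = i - (k + 1) by omega]
      exact hf _ (by omega))
    have h5 := hper (i - (k + 1)) (by omega)
    rw [show i - (k + 1) + K = i + 1 by omega] at h5
    exact le_antisymm (hle _ (by omega)) (by rw [h5]; exact h4)
  have hall : ∀ n, i₁ + n ≤ N + 4 * K + 1 → f (i₁ + n) = f i₁ := by
    intro n
    induction n with
    | zero => intro _; rfl
    | succ n ih =>
      intro hn
      exact hup (i₁ + n) (by omega) (by omega) (ih (by omega))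
  have hall' : ∀ i, 2 * K ≤ i → i ≤ N + 4 * K → f i = f i₁ := by
    intro i h1 h2
    have := hall (i - i₁) (by omega)
    rwa [show i₁ + (i - i₁) = i by omega] at this
  refine ⟨f i₁, fun i => δ (i + 2 * K), fun i => P (i + 2 * K), ?_⟩
  have hs := (hp.shift (2 * K) (by omega)).mono (M' := N) (by omega)
  refine { hs with vtx := fun i hi => ?_, nat := fun i hi => ?_ }
  · have := hf (i + 2 * K) (by omega)
    rwa [hall' (i + 2 * K) (by omega) (by omega)] at this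
  · exact hnat _ (by omega) (hall' _ (by omega) (by omega))

end Cfsg.Agent.H47
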