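import Cfsg.Agent.H47.MO10

set_option autoImplicit false
set_option linter.unusedSectionVars false
set_option linter.style.haveILetI false
open Cfsg Subgroup
open scoped commutatorElement

namespace Cfsg.Agent.H47

universe u

variable {H : Type u} [Group H] [Finite H] {p q : ℕ} [Fact p.Prime] {𝒱 : Set (Subgroup H)}
  {X : Subgroup H → Subgroup H} {G G' : Subgroup H}

theorem MAx.adj_le (hx : MAx p 𝒱 X) {P : Subgroup H} (hG : G ∈ 𝒱) (hG' : G' ∈ 𝒱) (hP : SylIn p P G)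
    (hP' : SylIn p P G') : ZV p G' ≤ pCoreOf p G :=
  ((le_VV hG' hP').trans hx.V_le_D).trans (hx.D_le_core hG hP)

namespace MPt
variable {k M : ℕ} {δ P : ℕ → Subgroup H}

theorem TS1 (h : MPt p 𝒱 X (k + 1) M δ P) (i : ℕ) (hi : i + (k + 2) ≤ M) :
    ¬ TS p (δ (i + 1)) ≤ pCoreOf p (δ i) := by
  have hm := h.wk.mem i (by omega)
  have hm1 := h.wk.mem (i + 1) (by omega)
  have hA : ¬ ZV p (δ (i + (k + 2))) ≤ pCoreOf p (δ i) := fun h1 => h.nle' i hi (h1.trans (h.ma.core_cent hm))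
  obtain ⟨x, hx, hxT⟩ := SetLike.not_le_iff_exists.1 hA
  have hs1 := h.wk.syl' i (by omega)
  have hs2 := h.wk.syl (i + 1) (by omega)
  obtain ⟨g, hg, hgP⟩ := hs1.conj hs2
  have hxV : x ∈ VV p 𝒱 (P (i + 1 + k)) := by
    apply le_VV (h.wk.mem _ hi) _ hx
    have := h.wk.syl' (i + 1 + k) (by omega)
    rwa [show i + 1 + k + 1 = i + (k + 2) by omega] at this
  have hxD := h.mK.V_le_D (by omega) (h.ch (i + 1 + k) (by omega)) (h.mpw (i + 1) k (by omega)).symm hxV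
  have hxT1 : x ∈ pCoreOf p (δ (i + 1)) := h.ma.D_le_core hm1 hs2 hxD
  have hsg : SylIn p (P (i + 1)) ((δ i).map (MulAut.conj g).toMonoidHom) := by
    have := (h.wk.syl i (by omega)).map_conj g
    rwa [hgP] at this
  exact TS_gen (g := g) hxT1 hxT hg (h.ma.D_le_core (h.ma.conj _ hm g) hsg hxD)

theorem TS2 (h : MPt p 𝒱 X (k + 1) M δ P) (i : ℕ) (hi : i + (k + 2) ≤ M) :
    ¬ TS p (δ (i + (k + 1))) ≤ pCoreOf p (δ (i + (k + 2))) := by
  have h1 := h.rev.TS1 (M - (i + (k + 2))) (by omega)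
  have e1 : M - (M - (i + (k + 2)) + 1) = i + (k + 1) := by omega
  have e2 : M - (M - (i + (k + 2))) = i + (k + 2) := by omega
  simp only [e1, e2] at h1
  exact h1

theorem R1 (h : MPt p 𝒱 X (k + 1) M δ P) (i : ℕ) (hi : i + 1 + (k + 2) ≤ M) :
    δ (i + 1) ≤ centralizer ((⁅ZV p (δ i), P i⁆ : Subgroup H) : Set H) := by
  have hm0 := h.wk.mem i (by omega)
  have hm1 := h.wk.mem (i + 1) (by omega)
  obtain ⟨q1, hv1⟩ := h.ma.vtx _ hm1
  have hR1 : ⁅ZV p (δ i), P i⁆ ≤ omegaOneCenter p (P i) := h.ma.comm_le hm0 (h.wk.syl i (by omega))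
  have hR2 : ⁅ZV p (δ i), P i⁆ ≤ ZV p (δ (i + (k + 2))) := by
    rw [h.comm_left i (by omega), ← le_normalizer_iff_commutator_le_right]
    exact ((h.Z_le_P_right i (by omega)).trans (h.syl_end i (by omega)).le).trans (le_normalizer_ZV _)
  have hs1 := h.wk.syl' i (by omega)
  rw [← (h.opp i (by omega)).sup_eq hv1]
  apply sup_le
  · rw [le_centralizer_iff]; exact hR1.trans MAm.omega_le_cent
  · rw [← h.sup_left (i + 1) hi]
    apply sup_le
    · rw [le_centralizer_iff]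
      refine hR2.trans ?_
      refine h.mx.Z_comm_of (P := P (i + (k + 2))) (h.wk.mem _ (by omega)) (h.wk.syl _ (by omega)) (h.wk.mem _ hi) ?_
      have := h.wk.syl' (i + (k + 2)) (by omega)
      rwa [show i + (k + 2) + 1 = i + 1 + (k + 2) by omega] at this
    · rw [le_centralizer_iff]
      refine (hR1.trans (h.ma.omega_le hm1 hs1)).trans ?_
      rw [le_centralizer_iff]; exact h.ma.core_cent hm1

theorem R2 (h : MPt p 𝒱 X (k + 2) M δ P) (i : ℕ) (hi : i + 2 + (k + 3) ≤ M) :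
    δ (i + 2) ≤ centralizer ((⁅ZV p (δ i), P i⁆ : Subgroup H) : Set H) := by
  have hR := MPt.R1 (k := k + 1) h i (by omega)
  have hm0 := h.wk.mem i (by omega)
  have hm1 := h.wk.mem (i + 1) (by omega)
  have hm2 := h.wk.mem (i + 2) (by omega)
  obtain ⟨q1, hv1⟩ := h.ma.vtx _ hm1
  obtain ⟨q2, hv2⟩ := h.ma.vtx _ hm2
  have hR1 : ⁅ZV p (δ i), P i⁆ ≤ omegaOneCenter p (P i) := h.ma.comm_le hm0 (h.wk.syl i (by omega))
  have hR2 : ⁅ZV p (δ i), P i⁆ ≤ ZV p (δ (i + (k + 3))) := by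
    have e := MPt.comm_left (k := k + 1) h i (by omega)
    rw [e, ← le_normalizer_iff_commutator_le_right]
    exact ((MPt.Z_le_P_right (k := k + 1) h i (by omega)).trans (MPt.syl_end (k := k + 1) h i (by omega)).le).trans
      (le_normalizer_ZV _)
  have hs1 := h.wk.syl (i + 1) (by omega)
  have hs1' := h.wk.syl' i (by omega)
  have hs2 : SylIn p (P (i + 1)) (δ (i + 2)) := h.wk.syl' (i + 1) (by omega)
  have hP1 : P (i + 1) ≤ centralizer ((⁅ZV p (δ i), P i⁆ : Subgroup H) : Set H) := hs1.le.trans hR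
  have hR3 : ⁅ZV p (δ i), P i⁆ ≤ omegaOneCenter p (P (i + 1)) := by
    rw [← hv1.ZV_inf hs1]
    refine le_inf (hR1.trans (h.ma.omega_le hm1 hs1')) ?_
    rw [le_centralizer_iff]; exact hP1
  have ho : Opp p (δ (i + 2)) (P (i + 1)) (P (i + 2)) := h.opp (i + 1) (by omega)
  rw [← ho.sup_eq hv2]
  apply sup_le hP1
  rw [← MPt.sup_left (k := k + 1) h (i + 2) (by omega)]
  apply sup_le
  · rw [le_centralizer_iff]
    refine hR2.trans ?_
    have hV : VV p 𝒱 (P (i + (k + 3))) ≤ centralizer (VV p 𝒱 (P (i + (k + 3) + 1)) : Set H) :=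
      h.mK.low 1 (by omega) _ _ (h.ch _ (by omega)) (h.mpw _ 1 (by omega))
    refine ((le_VV (h.wk.mem _ (by omega)) (h.wk.syl _ (by omega))).trans hV).trans (centralizer_le ?_)
    apply le_VV (h.wk.mem _ (by omega))
    have := h.wk.syl' (i + (k + 3) + 1) (by omega)
    rwa [show i + (k + 3) + 1 + 1 = i + 2 + (k + 1 + 2) by omega] at this
  · rw [le_centralizer_iff]
    refine (hR3.trans (h.ma.omega_le hm2 hs2)).trans ?_
    rw [le_centralizer_iff]; exact h.ma.core_cent hm2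

end MPt

/-- `k ≥ 2` is impossible -/
theorem MK.absurd_two {k : ℕ} (h : MK p 𝒱 X (k + 2)) : False := by
  obtain ⟨q, δ, P, hp⟩ := MK.exists_qpt (k := k + 1) h (2 * (k + 2) + 2)
  have hM := hp.toMPt
  have hR1 := MPt.R1 (k := k + 1) hM (k + 1) (by omega)
  have hR2 := MPt.R2 (k := k) hM (k + 1) (by omega)
  have hT1 := MPt.TS1 (k := k + 1) hM (k + 1) (by omega)
  have hT2 := MPt.TS2 (k := k + 1) hM 0 (by omega)
  simp only [Nat.zero_add] at hT2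
  have hx := hM.mx
  have hm0 := hM.wk.mem (k + 1) (by omega)
  have hm1 := hM.wk.mem (k + 1 + 1) (by omega)
  have hm2 := hM.wk.mem (k + 1 + 2) (by omega)
  have hs0 := hM.wk.syl (k + 1) (by omega)
  have hs0' := hM.wk.syl' (k + 1) (by omega)
  have hs1 := hM.wk.syl (k + 1 + 1) (by omega)
  have hs1' : SylIn p (P (k + 1 + 1)) (δ (k + 1 + 2)) := hM.wk.syl' (k + 1 + 1) (by omega)
  obtain ⟨g, hg, hgP⟩ := hs0'.conj hs1
  have hε : (δ (k + 1)).map (MulAut.conj g).toMonoidHom ∈ 𝒱 := hx.conj _ hm0 g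
  have hvε : Vtx p q ((δ (k + 1)).map (MulAut.conj g).toMonoidHom) := (hp.vtx (k + 1) (by omega)).conj g
  have hPε : SylIn p (P (k + 1 + 1)) ((δ (k + 1)).map (MulAut.conj g).toMonoidHom) := by
    have := hs0.map_conj g
    rwa [hgP] at this
  have hTε : ¬ TS p (δ (k + 1 + 1)) ≤ pCoreOf p ((δ (k + 1)).map (MulAut.conj g).toMonoidHom) := by
    intro h1
    apply hT1
    have h2 : (TS p (δ (k + 1 + 1))).map (MulAut.conj g).toMonoidHom = TS p (δ (k + 1 + 1)) := by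
      rw [← TS_conj, norm_map_conj (le_normalizer hg)]
    rw [← h2, pCoreOf_map_conj] at h1
    exact (map_le_map_iff_of_injective (MulAut.conj g).injective).1 h1
  have hRε : ⁅ZV p ((δ (k + 1)).map (MulAut.conj g).toMonoidHom), P (k + 1 + 1)⁆ = ⁅ZV p (δ (k + 1)), P (k + 1)⁆ := by
    rw [ZV_conj, ← hgP, ← map_commutator]
    apply norm_map_conj
    exact centralizer_le_normalizer _ (hR1 hg)
  have hv2 := hp.vtx (k + 1 + 2) (by omega)
  have hn2 := hx.natZ hm2 hv2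
  have hne := hn2.ne _ hs1'
  obtain ⟨v, hv, hvn⟩ := SetLike.not_le_iff_exists.1 hne
  have hvV := le_VV hm2 hs1' hv
  obtain ⟨v', hv', d, hd, hvd⟩ := hx.mem_F hm1 hs1 (hp.nat _ (by omega)) hε hvε hPε hTε (hx.VV_le_F hm1 hs1 hvV)
  obtain ⟨x, hx', hxT⟩ := SetLike.not_le_iff_exists.1 hT2
  have hxP : x ∈ P (k + 1 + 1) := pCoreOf_le_sylIn hs1 (TS_le _ hx')
  have hdV : d ∈ VV p 𝒱 (P (k + 1 + 1)) := by
    have : d = v'⁻¹ * v := by rw [← hvd]; group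
    rw [this]
    exact mul_mem (inv_mem (le_VV hε hPε hv')) hvV
  have hdx : ⁅d, x⁆ = 1 := by
    have h1 := hx.CP_TS hm1 hs1
    rw [commutator_comm] at h1
    have h2 : ⁅d, x⁆ ∈ ⁅VV p 𝒱 (P (k + 1 + 1)) ⊓ CS p 𝒱 (δ (k + 1 + 1)), TS p (δ (k + 1 + 1))⁆ :=
      commutator_mem_commutator ⟨hdV, hd⟩ hx'
    rwa [h1, mem_bot] at h2
  have hvx : ⁅v, x⁆ = ⁅v', x⁆ := by rw [← hvd, comm_mul_left_of_comm hdx]
  apply hn2.comm _ hs1' x hxP hxT v hv hvn
  rw [cz_bot_self]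
  refine ⟨?_, ?_⟩
  · exact (hx.comm_le hm2 hs1').trans (hx.omega_le hm2 hs1') (commutator_mem_commutator hv hxP)
  · have h3 : ⁅v', x⁆ ∈ ⁅ZV p (δ (k + 1)), P (k + 1)⁆ := by
      rw [← hRε]; exact commutator_mem_commutator hv' hxP
    rw [hvx]
    have h4 := hR2
    rw [le_centralizer_iff] at h4
    exact h4 h3

namespace QPt
variable {k M : ℕ} {δ P : ℕ → Subgroup H}

theorem VG_T (h : QPt p q 𝒱 X (k + 1) M δ P) (i : ℕ) (hi : i + 1 + (k + 2) ≤ M) :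
    ⁅VG p 𝒱 (δ (i + 1)), pCoreOf p (δ (i + 1))⁆ ≤ cz (ZV p (δ (i + 1))) ⊥ (δ (i + 1)) := by
  have hM := h.toMPt
  have hx := hM.mx
  have hm1 := hM.wk.mem (i + 1) (by omega)
  have hm0 := hM.wk.mem i (by omega)
  have hs0 : SylIn p (P i) (δ i) := hM.wk.syl i (by omega)
  have hs0' : SylIn p (P i) (δ (i + 1)) := hM.wk.syl' i (by omega)
  have hv1 := h.vtx (i + 1) (by omega)
  have hR := hM.R1 i hi
  have hT1 := hM.TS1 i (by omega)
  have hD : ⁅ZV p (δ i), pCoreOf p (δ (i + 1))⁆ ≤ cz (ZV p (δ (i + 1))) ⊥ (δ (i + 1)) := by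
    have h1 : ⁅ZV p (δ i), pCoreOf p (δ (i + 1))⁆ ≤ ⁅ZV p (δ i), P i⁆ := commutator_mono le_rfl (pCoreOf_le_sylIn hs0')
    rw [cz_bot_self]
    refine le_inf ((h1.trans (hx.comm_le hm0 hs0)).trans (hx.omega_le hm1 hs0')) (h1.trans ?_)
    rw [le_centralizer_iff]; exact hR
  have hVV : VV p 𝒱 (P i) ≤ cmod (pCoreOf p (δ (i + 1))) (cz (ZV p (δ (i + 1))) ⊥ (δ (i + 1))) := by
    intro x hx'
    obtain ⟨v, hv, d, hd, rfl⟩ := hx.mem_F hm1 hs0' (h.nat _ (by omega)) hm0 (h.vtx i (by omega)) hs0 hT1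
      (hx.VV_le_F hm1 hs0' hx')
    have hvV := le_VV hm0 hs0 hv
    have hdV : d ∈ VV p 𝒱 (P i) := by
      have : d = v⁻¹ * (v * d) := by group
      rw [this]
      exact mul_mem (inv_mem hvV) hx'
    have hN : ∀ y ∈ VV p 𝒱 (P i), y ∈ normalizer ((cz (ZV p (δ (i + 1))) ⊥ (δ (i + 1)) : Subgroup H) : Set H) := fun y hy =>
      Crt.le_normalizer_D ((hx.V_le.trans hs0'.le) hy)
    refine mul_mem ⟨hN v hvV, fun t ht => hD (commutator_mem_commutator hv ht)⟩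
      ⟨hN d hdV, fun t ht => hx.CP_T hm1 hs0' (commutator_mem_commutator ⟨hdV, hd⟩ ht)⟩
  rw [commutator_comm]
  apply commutator_le_of_le_cmod
  rw [VG_le_iff]
  intro Q hQ
  obtain ⟨g, hg, rfl⟩ := hs0'.conj hQ
  rw [VV_conj hx.conj]
  rintro _ ⟨x, hx', rfl⟩
  have h1 := hVV hx'
  have h2 : x ∈ δ (i + 1) := (hx.V_le.trans hs0'.le) hx'
  have h3 : g * x * g⁻¹ ∈ δ (i + 1) := mul_mem (mul_mem hg h2) (inv_mem hg)
  refine ⟨Crt.le_normalizer_D h3, fun t ht => ?_⟩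
  have ht' : g⁻¹ * t * g ∈ pCoreOf p (δ (i + 1)) := by
    have := (mem_normalizer_iff.1 (pCoreOf_normal_mem (inv_mem hg)) t).1 ht
    rwa [inv_inv] at this
  have h4 := h1.2 _ ht'
  have h5 := (mem_normalizer_iff.1 (Crt.le_normalizer_D hg) _).1 h4
  have h6 : g * ⁅x, g⁻¹ * t * g⁆ * g⁻¹ = ⁅g * x * g⁻¹, t⁆ := by
    simp only [commutatorElement_def]; group
  rw [h6] at h5
  exact h5

theorem VG_VG (h : QPt p q 𝒱 X (k + 1) M δ P) (i : ℕ) (hi : i + 1 + (k + 2) ≤ M) :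
    ⁅VG p 𝒱 (δ (i + 1)), VG p 𝒱 (δ (i + 1))⁆ ≤ cz (ZV p (δ (i + 1))) ⊥ (δ (i + 1)) :=
  (commutator_mono le_rfl (h.toMPt.mx.VG_le_core (h.toMPt.wk.mem _ (by omega)))).trans (h.VG_T i hi)

theorem VG_pow (h : QPt p q 𝒱 X (k + 1) M δ P) (i : ℕ) (hi : i + 1 + (k + 2) ≤ M) {x : H}
    (hx : x ∈ VG p 𝒱 (δ (i + 1))) : x ^ p ∈ cz (ZV p (δ (i + 1))) ⊥ (δ (i + 1)) := by
  have hVD : VG p 𝒱 (δ (i + 1)) ≤ normalizer ((cz (ZV p (δ (i + 1))) ⊥ (δ (i + 1)) : Subgroup H) : Set H) :=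
    h.toMPt.mx.VG_le.trans Crt.le_normalizer_D
  have h1 : VG p 𝒱 (δ (i + 1)) ≤ powSub (VG p 𝒱 (δ (i + 1))) (cz (ZV p (δ (i + 1))) ⊥ (δ (i + 1))) hVD (h.VG_VG i hi) p := by
    rw [VG_le_iff]
    intro P hP
    rw [VV_le_iff]
    intro ε hε hPε y hy
    refine ⟨VV_le_VG hP (le_VV hε hPε hy), ?_⟩
    rw [h.toMPt.ma.Z_pow hε hy]
    exact one_mem _
  exact (h1 hx).2

/-- `[T*, C*] = 1` -/
theorem TS_CS (h : QPt p q 𝒱 X (k + 1) M δ P) (i : ℕ) (hi : i + 1 + (k + 2) ≤ M) :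
    ⁅TS p (δ (i + 1)), CS p 𝒱 (δ (i + 1))⁆ = ⊥ := by
  unfold TS
  apply commutator_commutator_eq_bot_of_rotate
  · rw [eq_bot_iff, ← h.toMPt.mx.Z_cent_TS (h.toMPt.wk.mem (i + 1) (by omega))]
    refine commutator_mono ?_ le_rfl
    rw [commutator_comm]
    exact Crt.comm_CS
  · rw [commutator_eq_bot_iff_le_centralizer]
    exact ((commutator_mono Crt.CS_le le_rfl).trans (h.VG_T i hi)).trans Crt.D_cent

end QPt

end Cfsg.Agent.H47
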