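import Cfsg.Agent.H47.Mod4

set_option autoImplicit false
set_option linter.unusedSectionVars false
set_option linter.style.haveILetI false
open Cfsg Subgroup
open scoped commutatorElement

namespace Cfsg.Agent.H47

universe u

section
variable {H : Type u} [Group H] {p q : ℕ} {𝒱 : Set (Subgroup H)}

/-- the module `VG/D` of a vertex, critical distance `≥ 2` -/
structure VMod (p q : ℕ) (𝒱 : Set (Subgroup H)) (G : Subgroup H) {M W : Type u} [AddCommGroup M] [AddCommGroup W]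
    (ρ : ↥G →* AddMonoid.End M) (ρ₂ : ↥G →* AddMonoid.End W) (Zb : AddSubgroup M) (j : M →+ W)
    (π : ↥(VG p 𝒱 G) → M) : Prop where
  ext : Ext2 p q ρ ρ₂ Zb j
  surj : Function.Surjective π
  add : ∀ a b, π (a * b) = π a + π b
  ker : ∀ v, π v = 0 ↔ (v : H) ∈ cz (ZV p G) ⊥ G
  eqv : ∀ (g : G) (v : VG p 𝒱 G), ∃ w : VG p 𝒱 G, (w : H) = g * v * (g : H)⁻¹ ∧ π w = ρ g (π v)
  zb : ∀ v, π v ∈ Zb ↔ (v : H) ∈ ZV p G
  jk : ∀ v, j (π v) = 0 ↔ (v : H) ∈ CS p 𝒱 G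
  fx1 : ∀ S : Subgroup G, SylIn p S ⊤ → ∀ v, π v ∈ Fx ρ Zb S ↔ (v : H) ∈ cz (ZV p G) ⊥ (S.map G.subtype)
  fx2 : ∀ S : Subgroup G, SylIn p S ⊤ → ∀ v, j (π v) ∈ Fx ρ₂ ⊤ S ↔ (v : H) ∈ cz (VG p 𝒱 G) (ZV p G) (S.map G.subtype)

variable [Finite H] [Fact p.Prime] {G : Subgroup H}

theorem Crt.exists_vmod {c : ℕ} (h : Crt p q 𝒱 (c + 1)) (hc : 1 ≤ c) (hG : G ∈ 𝒱) :
    ∃ (M W : Type u) (_ : AddCommGroup M) (_ : AddCommGroup W) (_ : Finite M) (_ : Finite W)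
      (ρ : ↥G →* AddMonoid.End M) (ρ₂ : ↥G →* AddMonoid.End W) (Zb : AddSubgroup M) (j : M →+ W)
      (π : ↥(VG p 𝒱 G) → M), VMod p q 𝒱 G ρ ρ₂ Zb j π := by
  have hv := h.am.vtx G hG
  have hVG : VG p 𝒱 G ≤ G := h.VG_le
  have hGV := h.am.le_normalizer_VG G
  have hGZ : G ≤ normalizer (ZV p G : Set H) := le_normalizer_ZV G
  have hZV := h.ZV_le_VG hG
  obtain ⟨M, _, _, ρ, π, hπ, hadd, hker, heq⟩ := exists_sec hVG hGV Crt.le_normalizer_D (h.VG_VG hc hG)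
  have hCSn := h.le_normalizer_CS hG
  have hVCS : ⁅VG p 𝒱 G, VG p 𝒱 G⁆ ≤ CS p 𝒱 G := (h.VG_comm hc hG).trans (h.ZV_le_CS hG)
  obtain ⟨W, _, _, ρ₂, π₂, hπ₂, hadd₂, hker₂, heq₂⟩ := exists_sec hVG hGV hCSn hVCS
  have hDCS : cz (ZV p G) ⊥ G ≤ CS p 𝒱 G := cz_le.trans (h.ZV_le_CS hG)
  obtain ⟨j, hj⟩ := exists_factor π π₂ hπ hadd hadd₂ (fun v hv => (hker₂ v).2 (hDCS ((hker v).1 hv)))
  have h0 : π 1 = 0 := (hker 1).2 (one_mem _)
  have hinv : ∀ a, π a⁻¹ = - π a := by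
    intro a
    have h3 := hadd a⁻¹ a
    rw [inv_mul_cancel, h0] at h3
    exact (neg_eq_of_add_eq_zero_left h3.symm).symm
  let Zb : AddSubgroup M :=
    { carrier := {m | ∃ v : VG p 𝒱 G, (v : H) ∈ ZV p G ∧ π v = m}
      add_mem' := by
        rintro _ _ ⟨a, ha, rfl⟩ ⟨b, hb, rfl⟩
        exact ⟨a * b, mul_mem ha hb, hadd a b⟩
      zero_mem' := ⟨1, one_mem _, h0⟩
      neg_mem' := by
        rintro _ ⟨a, ha, rfl⟩
        exact ⟨a⁻¹, inv_mem ha, hinv a⟩ }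
  have hZb : ∀ v, π v ∈ Zb ↔ (v : H) ∈ ZV p G := by
    intro v
    constructor
    · rintro ⟨a, ha, e⟩
      have h1 : (v * a⁻¹ : VG p 𝒱 G) = v * a⁻¹ := rfl
      have h2 : ((v * a⁻¹ : VG p 𝒱 G) : H) ∈ cz (ZV p G) ⊥ G := by
        rw [← hker, hadd, hinv, e, add_neg_cancel]
      have h3 : (v : H) = ((v * a⁻¹ : VG p 𝒱 G) : H) * a := by
        rw [Subgroup.coe_mul, Subgroup.coe_inv, inv_mul_cancel_right]
      rw [h3]
      exact mul_mem (cz_le h2) ha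
    · intro h1
      exact ⟨v, h1, rfl⟩
  -- first factor
  have hincl : ∀ z : ZV p G, (z : H) ∈ VG p 𝒱 G := fun z => hZV z.2
  obtain ⟨n1, fx1⟩ := nt_of_natS (h.natZ hG) hv (hZV.trans hVG) bot_le hGZ (fun x _ => mem_normalizer_bot x) ρ
    (fun z : ZV p G => π ⟨z, hincl z⟩) (fun a b => hadd ⟨a, hincl a⟩ ⟨b, hincl b⟩) (fun v => hker _)
    (fun g v => by
      obtain ⟨w, hw, hw2⟩ := heq g ⟨v, hincl v⟩
      have hwZ : (w : H) ∈ ZV p G := by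
        rw [hw]; exact (mem_normalizer_iff.1 (hGZ g.2) _).1 v.2
      exact ⟨⟨w, hwZ⟩, hw, hw2⟩) Zb (fun m => by
      constructor
      · rintro ⟨v, hv, e⟩
        exact ⟨⟨v, hv⟩, e⟩
      · rintro ⟨v, e⟩
        exact ⟨⟨v, hincl v⟩, v.2, e⟩)
  obtain ⟨n2, fx2⟩ := nt_of_natS (h.natV hc hG) hv hVG hZV hGV hGZ ρ₂ π₂ hadd₂ hker₂ heq₂ ⊤ (fun m =>
    ⟨fun _ => hπ₂ m, fun _ => AddSubgroup.mem_top m⟩)
  have heqj : ∀ g m, j (ρ g m) = ρ₂ g (j m) := by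
    intro g m
    obtain ⟨v, rfl⟩ := hπ m
    obtain ⟨w, hw, hw2⟩ := heq g v
    obtain ⟨w', hw', hw2'⟩ := heq₂ g v
    have : w = w' := Subtype.ext (hw.trans hw'.symm)
    rw [← hw2, hj, hj, this, hw2']
  -- commutators
  have hco : ∀ (g : G) (v : VG p 𝒱 G), ∃ c : VG p 𝒱 G, (c : H) = ⁅(v : H), (g : H)⁆ ∧ π c = - (ρ g (π v) - π v) := by
    intro g v
    obtain ⟨w, hw, hw2⟩ := heq g v
    refine ⟨v * w⁻¹, ?_, ?_⟩
    · rw [Subgroup.coe_mul, Subgroup.coe_inv, hw, commutatorElement_def]; group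
    · rw [hadd, hinv, hw2]; abel
  have hjk : ∀ v, j (π v) = 0 ↔ (v : H) ∈ CS p 𝒱 G := fun v => by rw [hj, hker₂]
  have hE : Ext2 p q ρ ρ₂ Zb j := by
    refine ⟨n1, n2, fun u => ?_, heqj, ?_, ?_, ?_, ?_⟩
    · obtain ⟨v, rfl⟩ := hπ₂ u
      exact ⟨π v, hj v⟩
    · rintro _ ⟨v, hv, rfl⟩
      rw [hjk]; exact h.ZV_le_CS hG hv
    · intro m hm g
      obtain ⟨v, rfl⟩ := hπ m
      rw [hjk] at hm
      obtain ⟨c, hc, hc2⟩ := hco g v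
      have h1 : π c ∈ Zb := by
        rw [hZb, hc]; exact hm.2.2 g g.2
      rw [hc2] at h1
      exact neg_mem_iff.1 h1
    · intro m
      obtain ⟨v, rfl⟩ := hπ m
      have h1 : ∀ n : ℕ, π (v ^ n) = n • π v := by
        intro n
        induction n with
        | zero => rw [pow_zero, h0, zero_smul]
        | succ n ih => rw [pow_succ, hadd, ih, succ_nsmul]
      rw [← h1, hker]
      exact h.VG_pow hc hG v.2
    · intro t ht m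
      obtain ⟨v, rfl⟩ := hπ m
      obtain ⟨c, hc', hc2⟩ := hco t v
      have h1 : π c = 0 := by
        rw [hker, hc']
        exact h.VG_T hc hG (commutator_mem_commutator v.2 (mem_pCoreOf_iff.2 ht))
      rw [hc2, neg_eq_zero, sub_eq_zero] at h1
      exact h1
  refine ⟨M, W, inferInstance, inferInstance, inferInstance, inferInstance, ρ, ρ₂, Zb, j, π, hE, hπ, hadd, hker,
    heq, hZb, hjk, ?_, ?_⟩
  · intro S hS v
    constructor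
    · intro h1
      have h2 : (v : H) ∈ ZV p G := (hZb v).1 h1.1
      exact (fx1 S hS ⟨v, h2⟩).1 h1
    · intro h1
      exact (fx1 S hS ⟨v, h1.1⟩).2 h1
  · intro S hS v
    rw [hj]
    exact fx2 S hS v

theorem VMod.comm {G : Subgroup H} {M W : Type u} [AddCommGroup M] [AddCommGroup W]
    {ρ : ↥G →* AddMonoid.End M} {ρ₂ : ↥G →* AddMonoid.End W} {Zb : AddSubgroup M} {j : M →+ W}
    {π : ↥(VG p 𝒱 G) → M} (h : VMod p q 𝒱 G ρ ρ₂ Zb j π) (g : G) (v : VG p 𝒱 G) :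
    ∃ c : VG p 𝒱 G, (c : H) = ⁅(g : H), (v : H)⁆ ∧ π c = ρ g (π v) - π v := by
  obtain ⟨w, hw, hw2⟩ := h.eqv g v
  refine ⟨w * v⁻¹, ?_, ?_⟩
  · rw [Subgroup.coe_mul, Subgroup.coe_inv, hw, commutatorElement_def]
  · have h0 : π 1 = 0 := (h.ker 1).2 (one_mem _)
    have h3 := h.add v⁻¹ v
    rw [inv_mul_cancel, h0] at h3
    have h4 : π v⁻¹ = - π v := (neg_eq_of_add_eq_zero_left h3.symm).symm
    rw [h.add, h4, hw2]; abel

/-- in `VG/D` the element `a` is not quadratic -/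
theorem Pt.key5 {M₀ : ℕ} {δ P : ℕ → Subgroup H} (h : Pt p q 𝒱 1 0 M₀ δ P) (hM : 3 ≤ M₀)
    {M W : Type u} [AddCommGroup M] [AddCommGroup W]
    {ρ : ↥(δ 2) →* AddMonoid.End M} {ρ₂ : ↥(δ 2) →* AddMonoid.End W} {Zb : AddSubgroup M} {j : M →+ W}
    {π : ↥(VG p 𝒱 (δ 2)) → M} (hm : VMod p q 𝒱 (δ 2) ρ ρ₂ Zb j π) :
    ∃ (S R : Subgroup ↥(δ 2)) (w : ↥(δ 2)) (a : M), Opp p ⊤ S R ∧ w ∈ S ∧ w ∉ pCore p ↥(δ 2) ∧
      j a ∈ Fx ρ₂ ⊤ R ∧ ρ w (ρ w a - a) - (ρ w a - a) ∈ Fx ρ Zb S ∧ ρ w (ρ w a - a) - (ρ w a - a) ≠ 0 := by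
  have h0 := h.cpt 0 (by omega)
  have h1 := h.cpt 1 (by omega)
  have hm3 := h.wk.mem 3 (by omega)
  have hm2 := h.wk.mem 2 (by omega)
  have hs1' : SylIn p (P 1) (δ 2) := h.wk.syl' 1 (by omega)
  have hs2 : SylIn p (P 2) (δ 2) := h.wk.syl 2 (by omega)
  have hs2' : SylIn p (P 2) (δ 3) := h.wk.syl' 2 (by omega)
  obtain ⟨w, hw, hwT⟩ := SetLike.not_le_iff_exists.1 h0.nle
  obtain ⟨a, ha, haT⟩ := SetLike.not_le_iff_exists.1 h1.nle'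
  have hwP : w ∈ P 1 := h0.le_P' hw
  obtain ⟨k1, k2⟩ := h.key4 hM hw hwT ha haT
  have hopp : Opp p (δ 2) (P 1) (P 2) := h.opp 1 (by omega) (by omega)
  have hopp' : Opp p ⊤ ((P 1).subgroupOf (δ 2)) ((P 2).subgroupOf (δ 2)) := by
    refine ⟨sylIn_subgroupOf_top hs1', sylIn_subgroupOf_top hs2, ?_, ?_⟩
    · rintro x hx hxT
      rw [pCoreOf_top] at hxT
      have h2 := hopp.2.2.1 x hx (fun h3 => hxT (mem_pCoreOf_iff.1 h3))
      apply map_injective (δ 2).subtype_injective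
      rw [Subgroup.map_sup, MonoidHom.map_zpowers, map_subgroupOf_of_le hs2.le, ← MonoidHom.range_eq_map, range_subtype]
      exact h2
    · rintro x hx hxT
      rw [pCoreOf_top] at hxT
      have h2 := hopp.2.2.2 x hx (fun h3 => hxT (mem_pCoreOf_iff.1 h3))
      apply map_injective (δ 2).subtype_injective
      rw [Subgroup.map_sup, MonoidHom.map_zpowers, map_subgroupOf_of_le hs1'.le, ← MonoidHom.range_eq_map, range_subtype]
      exact h2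
  have haV : a ∈ VG p 𝒱 (δ 2) := VV_le_VG hs2 (le_VV hm3 hs2' ha)
  have e1 := map_subgroupOf_of_le hs1'.le
  have e2 := map_subgroupOf_of_le hs2.le
  obtain ⟨u, hu, hu2⟩ := hm.comm ⟨w, hs1'.le hwP⟩ ⟨a, haV⟩
  obtain ⟨f, hf, hf2⟩ := hm.comm ⟨w, hs1'.le hwP⟩ u
  have hfH : (f : H) = (⁅⁅w, a⁆, w⁆)⁻¹ := by
    rw [hf, hu, commutatorElement_inv]
  refine ⟨(P 1).subgroupOf (δ 2), (P 2).subgroupOf (δ 2), ⟨w, hs1'.le hwP⟩, π ⟨a, haV⟩, hopp', hwP,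
    fun h3 => hwT (mem_pCoreOf_iff.2 h3), ?_, ?_, ?_⟩
  · rw [hm.fx2 _ (sylIn_subgroupOf_top hs2), e2]
    exact h.crt.VV_le_F hm2 hs2 (le_VV hm3 hs2' ha)
  · rw [← hu2, ← hf2, hm.fx1 _ (sylIn_subgroupOf_top hs1'), e1, hfH]
    exact inv_mem k2
  · rw [← hu2, ← hf2]
    intro h3
    rw [hm.ker, hfH] at h3
    exact k1 (inv_mem_iff.1 h3)

/-- critical distance `2` implies `p = 3` -/
theorem Crt.three (h : Crt p q 𝒱 2) : p = 3 := by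
  obtain ⟨δ, P, hp⟩ := Crt.exists_pt (c := 1) h 3
  have hm2 := hp.wk.mem 2 (by omega)
  obtain ⟨M, W, _, _, _, _, ρ, ρ₂, Zb, j, π, hm⟩ := Crt.exists_vmod (c := 1) h le_rfl hm2
  obtain ⟨S, R, w, a, ho, hw, hwT, ha, hf, hf0⟩ := hp.key5 le_rfl hm
  obtain ⟨K, hK, hpu⟩ := (h.am.vtx _ hm2).ex
  by_contra h3
  have h2 : p ≠ 2 := by
    rintro rfl
    exact h.two
  have h5 : 5 ≤ p := by
    have h4 : p ≠ 4 := by
      rintro rfl
      exact absurd (Fact.out : Nat.Prime 4) (by norm_num)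
    have := (Fact.out : p.Prime).two_le
    omega
  exact hf0 (hm.ext.five_le hpu h5 ho hw hwT ha hf)

end

end Cfsg.Agent.H47
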