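import Cfsg.Agent.H47.MO11
import Cfsg.Agent.H47.Mod5

set_option autoImplicit false
set_option linter.unusedSectionVars false
set_option linter.style.haveILetI false
open Cfsg Subgroup
open scoped commutatorElement

namespace Cfsg.Agent.H47

universe u

variable {H : Type u} [Group H] [Finite H] {p q : ℕ} [Fact p.Prime] {𝒱 : Set (Subgroup H)}
  {X : Subgroup H → Subgroup H} {G G' : Subgroup H}


theorem MPt.nleT {k M : ℕ} {δ P : ℕ → Subgroup H} (h : MPt p 𝒱 X (k + 1) M δ P) (i : ℕ) (hi : i + (k + 2) ≤ M) :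
    ¬ ZV p (δ i) ≤ pCoreOf p (δ (i + (k + 2))) := fun h1 =>
  h.nle i hi (h1.trans (h.ma.core_cent (h.wk.mem _ hi)))

theorem MPt.nleT' {k M : ℕ} {δ P : ℕ → Subgroup H} (h : MPt p 𝒱 X (k + 1) M δ P) (i : ℕ) (hi : i + (k + 2) ≤ M) :
    ¬ ZV p (δ (i + (k + 2))) ≤ pCoreOf p (δ i) := fun h1 =>
  h.nle' i hi (h1.trans (h.ma.core_cent (h.wk.mem _ (by omega))))

/-- the key fact for critical distance `2` -/
theorem QPt.key4 {M : ℕ} {δ P : ℕ → Subgroup H} (h : QPt p q 𝒱 X (0 + 1) M δ P) (hM : 4 ≤ M) {w a : H}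
    (hw : w ∈ ZV p (δ 0)) (hwT : w ∉ pCoreOf p (δ 2)) (ha : a ∈ ZV p (δ 3)) (haT : a ∉ pCoreOf p (δ 1)) :
    ⁅⁅w, a⁆, w⁆ ∉ cz (ZV p (δ 2)) ⊥ (δ 2) ∧ ⁅⁅w, a⁆, w⁆ ∈ cz (ZV p (δ 2)) ⊥ (P 1) := by
  have hx := h.toMPt.mx
  have hm0 := h.wk.mem 0 (by omega)
  have hm1 := h.wk.mem 1 (by omega)
  have hm2 := h.wk.mem 2 (by omega)
  have hm3 := h.wk.mem 3 (by omega)
  have hs0 : SylIn p (P 0) (δ 0) := h.wk.syl 0 (by omega)
  have hs0' : SylIn p (P 0) (δ 1) := h.wk.syl' 0 (by omega)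
  have hs1 : SylIn p (P 1) (δ 1) := h.wk.syl 1 (by omega)
  have hs1' : SylIn p (P 1) (δ 2) := h.wk.syl' 1 (by omega)
  have hs2 : SylIn p (P 2) (δ 2) := h.wk.syl 2 (by omega)
  have hs2' : SylIn p (P 2) (δ 3) := h.wk.syl' 2 (by omega)
  have hv1 := h.vtx 1 (by omega)
  have hv2 := h.vtx 2 (by omega)
  have hT1 : ¬ TS p (δ 1) ≤ pCoreOf p (δ 0) := h.toMPt.TS1 0 (by omega)
  have hT2 : ¬ TS p (δ 1) ≤ pCoreOf p (δ 2) := h.toMPt.TS2 0 (by omega)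
  have hopp : Opp p (δ 1) (P 0) (P 1) := h.opp 0 (by omega)
  have hwP : w ∈ P 1 := h.toMPt.Z_le_P_right 0 (by omega) hw
  have haP : a ∈ P 1 := h.toMPt.Z_le_P_left 1 (by omega) ha
  have hwV : w ∈ VG p 𝒱 (δ 1) := VV_le_VG hs0' (le_VV hm0 hs0 hw)
  have hN1 := h.nat 1 (by omega)
  have hN2 := hx.natZ hm2 hv2
  have hwCS : w ∉ CS p 𝒱 (δ 1) := by
    intro h2
    have h3 : w ∈ ZV p (δ 0) ⊓ CS p 𝒱 (δ 1) := ⟨hw, h2⟩
    rw [hx.inf_CS hm1 hs0' hm0 hs0 hT1] at h3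
    exact hwT (hx.adj_le hm2 hm1 hs1' hs1 (hx.omega_le hm1 hs0' h3))
  have hwF : w ∉ cz (VG p 𝒱 (δ 1)) (ZV p (δ 1)) (P 1) := by
    intro h2
    apply hwCS
    change w ∈ cz (VG p 𝒱 (δ 1)) (ZV p (δ 1)) (δ 1)
    rw [← hN1.inf _ _ hopp]
    exact ⟨hx.VV_le_F hm1 hs0' (le_VV hm0 hs0 hw), h2⟩
  have hu1 : ⁅w, a⁆ ∉ CS p 𝒱 (δ 1) := hN1.comm _ hs1 a haP haT w hwV hwF
  have hu2 : ⁅w, a⁆ ∈ cz (VG p 𝒱 (δ 1)) (ZV p (δ 1)) (P 1) := hN1.quad _ hs1 w hwV a haP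
  obtain ⟨v, hv, d, hd, hvd⟩ := hx.mem_F hm1 hs1 hN1 hm2 hv2 hs1' hT2 hu2
  have hvn : v ∉ cz (ZV p (δ 2)) ⊥ (P 1) := by
    rw [hv2.cz_omega hs1']
    intro h2
    apply hu1
    rw [← hvd]
    exact mul_mem (hx.ZV_le_CS hm1 (hx.omega_le hm1 hs1 h2)) hd
  have haV : a ∈ VG p 𝒱 (δ 2) := VV_le_VG hs2 (le_VV hm3 hs2' ha)
  have huV : ⁅w, a⁆ ∈ VG p 𝒱 (δ 2) := by
    have h3 : ⁅δ 2, VG p 𝒱 (δ 2)⁆ ≤ VG p 𝒱 (δ 2) := by
      rw [← le_normalizer_iff_commutator_le_right]; exact hx.nVG _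
    exact h3 (commutator_mem_commutator (hs1'.le hwP) haV)
  have hdV : d ∈ VG p 𝒱 (δ 2) := by
    have : d = v⁻¹ * ⁅w, a⁆ := by rw [← hvd]; group
    rw [this]
    exact mul_mem (inv_mem (hx.ZV_le_VG hm2 hv)) huV
  -- [d, w] ∈ D₂
  have hwT1 : w ∈ pCoreOf p (δ 1) := hx.adj_le hm1 hm0 hs0' hs0 hw
  have hdw : ⁅d, w⁆ ∈ cz (ZV p (δ 2)) ⊥ (δ 2) := by
    obtain ⟨g, hg, hgP⟩ := hs0'.conj hs1
    have hε : (δ 0).map (MulAut.conj g).toMonoidHom ∈ 𝒱 := hx.conj _ hm0 g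
    have hPε : SylIn p (P 1) ((δ 0).map (MulAut.conj g).toMonoidHom) := by
      have := hs0.map_conj g
      rwa [hgP] at this
    have hw' : g * w * g⁻¹ ∈ pCoreOf p (δ 2) := by
      apply hx.adj_le hm2 hε hs1' hPε
      rw [ZV_conj]
      exact ⟨w, hw, rfl⟩
    have e1 : g * w * g⁻¹ = ⁅g, w⁆ * w := by rw [commutatorElement_def]; group
    have hgw : ⁅g, w⁆ ∈ TS p (δ 1) := by
      unfold TS
      rw [commutator_comm]
      exact commutator_mem_commutator hg hwT1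
    have e2 : ⁅d, ⁅g, w⁆⁆ = 1 := by
      have h2 := h.TS_CS 0 (by omega)
      rw [commutator_comm] at h2
      have h3 : ⁅d, ⁅g, w⁆⁆ ∈ ⁅CS p 𝒱 (δ 1), TS p (δ 1)⁆ := commutator_mem_commutator hd hgw
      rwa [h2, mem_bot] at h3
    have e3 : ⁅d, w⁆ ∈ cz (ZV p (δ 1)) ⊥ (δ 1) :=
      h.VG_T 0 (by omega) (commutator_mem_commutator (Crt.CS_le hd) hwT1)
    have e4 : ⁅d, g * w * g⁻¹⁆ = ⁅d, w⁆ := by
      rw [e1]
      have e5 : ⁅d, ⁅g, w⁆ * w⁆ = ⁅d, ⁅g, w⁆⁆ * (⁅g, w⁆ * ⁅d, w⁆ * ⁅g, w⁆⁻¹) := by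
        simp only [commutatorElement_def]; group
      have e6 : ⁅g, w⁆ * ⁅d, w⁆ * ⁅g, w⁆⁻¹ = ⁅d, w⁆ := by
        have h3 : ⁅g, w⁆ ∈ δ 1 := (pCoreOf_le p _) (TS_le _ hgw)
        have h4 := mem_centralizer_iff.1 (Crt.D_cent e3) _ h3
        rw [h4, mul_inv_cancel_right]
      rw [e5, e2, one_mul, e6]
    rw [← e4]
    exact h.VG_T 1 (by omega) (commutator_mem_commutator hdV hw')
  have e7 : ⁅⁅w, a⁆, w⁆ = v * ⁅d, w⁆ * v⁻¹ * ⁅v, w⁆ := by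
    rw [← hvd]; simp only [commutatorElement_def]; group
  have e8 : v * ⁅d, w⁆ * v⁻¹ = ⁅d, w⁆ := by
    have h3 : v ∈ δ 2 := (pCoreOf_le p _) (hv2.ZV_le hv)
    rw [mem_centralizer_iff.1 (Crt.D_cent hdw) _ h3, mul_inv_cancel_right]
  rw [e7, e8]
  refine ⟨fun hcon => ?_, mul_mem (cz_anti hs1'.le hdw) (hN2.quad _ hs1' v hv w hwP)⟩
  exact hN2.comm _ hs1' w hwP hwT v hv hvn ((mul_mem_cancel_left hdw).1 hcon)

/-- critical distance `2` is impossible for `p = 2` -/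
theorem QPt.two [Fact (Nat.Prime 2)] {M : ℕ} {δ P : ℕ → Subgroup H} (hp : QPt 2 q 𝒱 X (0 + 1) M δ P) (hM : 4 ≤ M) : False := by
  have hx := hp.toMPt.mx
  have hm0 := hp.wk.mem 0 (by omega)
  have hm1 := hp.wk.mem 1 (by omega)
  have hm2 := hp.wk.mem 2 (by omega)
  have hm3 := hp.wk.mem 3 (by omega)
  have hs1' : SylIn 2 (P 1) (δ 2) := hp.wk.syl' 1 (by omega)
  have hs2 : SylIn 2 (P 2) (δ 2) := hp.wk.syl 2 (by omega)
  have hs2' : SylIn 2 (P 2) (δ 3) := hp.wk.syl' 2 (by omega)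
  obtain ⟨w, hw, hwT⟩ := SetLike.not_le_iff_exists.1 (hp.toMPt.nleT 0 (by omega))
  obtain ⟨a, ha, haT⟩ := SetLike.not_le_iff_exists.1 (hp.toMPt.nleT' 1 (by omega))
  have hwP : w ∈ P 1 := hp.toMPt.Z_le_P_right 0 (by omega) hw
  apply (hp.key4 hM hw hwT ha haT).1
  have haV : a ∈ VG 2 𝒱 (δ 2) := VV_le_VG hs2 (le_VV hm3 hs2' ha)
  have huV : ⁅w, a⁆ ∈ VG 2 𝒱 (δ 2) := by
    have h3 : ⁅δ 2, VG 2 𝒱 (δ 2)⁆ ≤ VG 2 𝒱 (δ 2) := by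
      rw [← le_normalizer_iff_commutator_le_right]; exact hx.nVG _
    exact h3 (commutator_mem_commutator (hs1'.le hwP) haV)
  have hw2 : w ^ 2 = 1 := (hp.vtx 0 (by omega)).ZV_pow hw
  have e1 : ⁅⁅w, a⁆, w⁆ = ⁅w, a⁆ ^ 2 := by
    have e2 : w⁻¹ = w := by
      rw [inv_eq_iff_mul_eq_one, ← sq]; exact hw2
    have e3 : w * w = 1 := by rw [← sq]; exact hw2
    simp only [commutatorElement_def, e2, mul_inv_rev, inv_inv, sq]
    have e4 : w * a * w * a⁻¹ * w * (a * (w * (a⁻¹ * w))) * w = w * a * w * a⁻¹ * w * a * w * a⁻¹ * (w * w) := by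
      group
    rw [e4, e3, mul_one]
    group
  rw [e1]
  exact hp.VG_pow 1 (by omega) huV

theorem QPt.exists_vmod {k M₀ : ℕ} {δ P : ℕ → Subgroup H} (h : QPt p q 𝒱 X (k + 1) M₀ δ P) (i : ℕ)
    (hi : i + 1 + (k + 2) ≤ M₀) :
    ∃ (M W : Type u) (_ : AddCommGroup M) (_ : AddCommGroup W) (_ : Finite M) (_ : Finite W)
      (ρ : ↥(δ (i + 1)) →* AddMonoid.End M) (ρ₂ : ↥(δ (i + 1)) →* AddMonoid.End W) (Zb : AddSubgroup M) (j : M →+ W)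
      (π : ↥(VG p 𝒱 (δ (i + 1))) → M), VMod p q 𝒱 (δ (i + 1)) ρ ρ₂ Zb j π := by
  have hG := h.toMPt.wk.mem (i + 1) (by omega)
  have hv := h.vtx (i + 1) (by omega)
  have hx := h.toMPt.mx
  have hVT := h.VG_T i hi
  have hVV := h.VG_VG i hi
  have hVp : ∀ {x : H}, x ∈ VG p 𝒱 (δ (i + 1)) → x ^ p ∈ cz (ZV p (δ (i + 1))) ⊥ (δ (i + 1)) := fun hx => h.VG_pow i hi hx
  have hnV := h.nat (i + 1) (by omega)
  generalize δ (i + 1) = G at *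
  have hVG : VG p 𝒱 G ≤ G := hx.VG_le
  have hGV := hx.nVG G
  have hGZ : G ≤ normalizer (ZV p G : Set H) := le_normalizer_ZV G
  have hZV := hx.ZV_le_VG hG
  obtain ⟨M, _, _, ρ, π, hπ, hadd, hker, heq⟩ := exists_sec hVG hGV Crt.le_normalizer_D hVV
  have hCSn := hx.nCS hG
  have hVCS : ⁅VG p 𝒱 G, VG p 𝒱 G⁆ ≤ CS p 𝒱 G := (hx.VG_comm hG).trans (hx.ZV_le_CS hG)
  obtain ⟨W, _, _, ρ₂, π₂, hπ₂, hadd₂, hker₂, heq₂⟩ := exists_sec hVG hGV hCSn hVCS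
  have hDCS : cz (ZV p G) ⊥ G ≤ CS p 𝒱 G := cz_le.trans (hx.ZV_le_CS hG)
  obtain ⟨j, hj⟩ := exists_factor π π₂ hπ hadd hadd₂ (fun v hv => (hker₂ v).2 (hDCS ((hker v).1 hv)))
  have h0 : π 1 = 0 := (hker 1).2 (one_mem _)
  have hinv : ∀ a, π a⁻¹ = - π a := by
    intro a
    have h3 := hadd a⁻¹ a
    rw [inv_mul_cancel, h0] at h3
    exact (neg_eq_of_add_eq_zero_left h3.symm).symm
  let Zb : AddSubgroup M :=
    { carrier := {m | ∃ v : VG p 𝒱 G, (v : H) ∈ ZV p G ∧ π v = m}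
      add_mem' := by
        rintro _ _ ⟨a, ha, rfl⟩ ⟨b, hb, rfl⟩
        exact ⟨a * b, mul_mem ha hb, hadd a b⟩
      zero_mem' := ⟨1, one_mem _, h0⟩
      neg_mem' := by
        rintro _ ⟨a, ha, rfl⟩
        exact ⟨a⁻¹, inv_mem ha, hinv a⟩ }
  have hZb : ∀ v, π v ∈ Zb ↔ (v : H) ∈ ZV p G := by
    intro v
    constructor
    · rintro ⟨a, ha, e⟩
      have h1 : (v * a⁻¹ : VG p 𝒱 G) = v * a⁻¹ := rfl
      have h2 : ((v * a⁻¹ : VG p 𝒱 G) : H) ∈ cz (ZV p G) ⊥ G := by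
        rw [← hker, hadd, hinv, e, add_neg_cancel]
      have h3 : (v : H) = ((v * a⁻¹ : VG p 𝒱 G) : H) * a := by
        rw [Subgroup.coe_mul, Subgroup.coe_inv, inv_mul_cancel_right]
      rw [h3]
      exact mul_mem (cz_le h2) ha
    · intro h1
      exact ⟨v, h1, rfl⟩
  -- first factor
  have hincl : ∀ z : ZV p G, (z : H) ∈ VG p 𝒱 G := fun z => hZV z.2
  obtain ⟨n1, fx1⟩ := nt_of_natS (hx.natZ hG hv) hv (hZV.trans hVG) bot_le hGZ (fun x _ => mem_normalizer_bot x) ρ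
    (fun z : ZV p G => π ⟨z, hincl z⟩) (fun a b => hadd ⟨a, hincl a⟩ ⟨b, hincl b⟩) (fun v => hker _)
    (fun g v => by
      obtain ⟨w, hw, hw2⟩ := heq g ⟨v, hincl v⟩
      have hwZ : (w : H) ∈ ZV p G := by
        rw [hw]; exact (mem_normalizer_iff.1 (hGZ g.2) _).1 v.2
      exact ⟨⟨w, hwZ⟩, hw, hw2⟩) Zb (fun m => by
      constructor
      · rintro ⟨v, hv, e⟩
        exact ⟨⟨v, hv⟩, e⟩
      · rintro ⟨v, e⟩
        exact ⟨⟨v, hincl v⟩, v.2, e⟩)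
  obtain ⟨n2, fx2⟩ := nt_of_natS hnV hv hVG hZV hGV hGZ ρ₂ π₂ hadd₂ hker₂ heq₂ ⊤ (fun m =>
    ⟨fun _ => hπ₂ m, fun _ => AddSubgroup.mem_top m⟩)
  have heqj : ∀ g m, j (ρ g m) = ρ₂ g (j m) := by
    intro g m
    obtain ⟨v, rfl⟩ := hπ m
    obtain ⟨w, hw, hw2⟩ := heq g v
    obtain ⟨w', hw', hw2'⟩ := heq₂ g v
    have : w = w' := Subtype.ext (hw.trans hw'.symm)
    rw [← hw2, hj, hj, this, hw2']
  -- commutators
  have hco : ∀ (g : G) (v : VG p 𝒱 G), ∃ c : VG p 𝒱 G, (c : H) = ⁅(v : H), (g : H)⁆ ∧ π c = - (ρ g (π v) - π v) := by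
    intro g v
    obtain ⟨w, hw, hw2⟩ := heq g v
    refine ⟨v * w⁻¹, ?_, ?_⟩
    · rw [Subgroup.coe_mul, Subgroup.coe_inv, hw, commutatorElement_def]; group
    · rw [hadd, hinv, hw2]; abel
  have hjk : ∀ v, j (π v) = 0 ↔ (v : H) ∈ CS p 𝒱 G := fun v => by rw [hj, hker₂]
  have hE : Ext2 p q ρ ρ₂ Zb j := by
    refine ⟨n1, n2, fun u => ?_, heqj, ?_, ?_, ?_, ?_⟩
    · obtain ⟨v, rfl⟩ := hπ₂ u
      exact ⟨π v, hj v⟩
    · rintro _ ⟨v, hv, rfl⟩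
      rw [hjk]; exact hx.ZV_le_CS hG hv
    · intro m hm g
      obtain ⟨v, rfl⟩ := hπ m
      rw [hjk] at hm
      obtain ⟨c, hc, hc2⟩ := hco g v
      have h1 : π c ∈ Zb := by
        rw [hZb, hc]; exact hm.2.2 g g.2
      rw [hc2] at h1
      exact neg_mem_iff.1 h1
    · intro m
      obtain ⟨v, rfl⟩ := hπ m
      have h1 : ∀ n : ℕ, π (v ^ n) = n • π v := by
        intro n
        induction n with
        | zero => rw [pow_zero, h0, zero_smul]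
        | succ n ih => rw [pow_succ, hadd, ih, succ_nsmul]
      rw [← h1, hker]
      exact hVp v.2
    · intro t ht m
      obtain ⟨v, rfl⟩ := hπ m
      obtain ⟨c, hc', hc2⟩ := hco t v
      have h1 : π c = 0 := by
        rw [hker, hc']
        exact hVT (commutator_mem_commutator v.2 (mem_pCoreOf_iff.2 ht))
      rw [hc2, neg_eq_zero, sub_eq_zero] at h1
      exact h1
  refine ⟨M, W, inferInstance, inferInstance, inferInstance, inferInstance, ρ, ρ₂, Zb, j, π, hE, hπ, hadd, hker,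
    heq, hZb, hjk, ?_, ?_⟩
  · intro S hS v
    constructor
    · intro h1
      have h2 : (v : H) ∈ ZV p G := (hZb v).1 h1.1
      exact (fx1 S hS ⟨v, h2⟩).1 h1
    · intro h1
      exact (fx1 S hS ⟨v, h1.1⟩).2 h1
  · intro S hS v
    rw [hj]
    exact fx2 S hS v

/-- in `VG/D` the element `a` is not quadratic -/
theorem QPt.key5 {M₀ : ℕ} {δ P : ℕ → Subgroup H} (h : QPt p q 𝒱 X (0 + 1) M₀ δ P) (hM : 4 ≤ M₀)
    {M W : Type u} [AddCommGroup M] [AddCommGroup W]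
    {ρ : ↥(δ 2) →* AddMonoid.End M} {ρ₂ : ↥(δ 2) →* AddMonoid.End W} {Zb : AddSubgroup M} {j : M →+ W}
    {π : ↥(VG p 𝒱 (δ 2)) → M} (hm : VMod p q 𝒱 (δ 2) ρ ρ₂ Zb j π) :
    ∃ (S R : Subgroup ↥(δ 2)) (w : ↥(δ 2)) (a : M), Opp p ⊤ S R ∧ w ∈ S ∧ w ∉ pCore p ↥(δ 2) ∧
      j a ∈ Fx ρ₂ ⊤ R ∧ ρ w (ρ w a - a) - (ρ w a - a) ∈ Fx ρ Zb S ∧ ρ w (ρ w a - a) - (ρ w a - a) ≠ 0 := by
  have hx := h.toMPt.mx
  have hm3 := h.wk.mem 3 (by omega)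
  have hm2 := h.wk.mem 2 (by omega)
  have hs1' : SylIn p (P 1) (δ 2) := h.wk.syl' 1 (by omega)
  have hs2 : SylIn p (P 2) (δ 2) := h.wk.syl 2 (by omega)
  have hs2' : SylIn p (P 2) (δ 3) := h.wk.syl' 2 (by omega)
  obtain ⟨w, hw, hwT⟩ := SetLike.not_le_iff_exists.1 (h.toMPt.nleT 0 (by omega))
  obtain ⟨a, ha, haT⟩ := SetLike.not_le_iff_exists.1 (h.toMPt.nleT' 1 (by omega))
  have hwP : w ∈ P 1 := h.toMPt.Z_le_P_right 0 (by omega) hw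
  obtain ⟨k1, k2⟩ := h.key4 hM hw hwT ha haT
  have hopp : Opp p (δ 2) (P 1) (P 2) := h.opp 1 (by omega)
  have hopp' : Opp p ⊤ ((P 1).subgroupOf (δ 2)) ((P 2).subgroupOf (δ 2)) := by
    refine ⟨sylIn_subgroupOf_top hs1', sylIn_subgroupOf_top hs2, ?_, ?_⟩
    · rintro x hx hxT
      rw [pCoreOf_top] at hxT
      have h2 := hopp.2.2.1 x hx (fun h3 => hxT (mem_pCoreOf_iff.1 h3))
      apply map_injective (δ 2).subtype_injective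
      rw [Subgroup.map_sup, MonoidHom.map_zpowers, map_subgroupOf_of_le hs2.le, ← MonoidHom.range_eq_map, range_subtype]
      exact h2
    · rintro x hx hxT
      rw [pCoreOf_top] at hxT
      have h2 := hopp.2.2.2 x hx (fun h3 => hxT (mem_pCoreOf_iff.1 h3))
      apply map_injective (δ 2).subtype_injective
      rw [Subgroup.map_sup, MonoidHom.map_zpowers, map_subgroupOf_of_le hs1'.le, ← MonoidHom.range_eq_map, range_subtype]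
      exact h2
  have haV : a ∈ VG p 𝒱 (δ 2) := VV_le_VG hs2 (le_VV hm3 hs2' ha)
  have e1 := map_subgroupOf_of_le hs1'.le
  have e2 := map_subgroupOf_of_le hs2.le
  obtain ⟨u, hu, hu2⟩ := hm.comm ⟨w, hs1'.le hwP⟩ ⟨a, haV⟩
  obtain ⟨f, hf, hf2⟩ := hm.comm ⟨w, hs1'.le hwP⟩ u
  have hfH : (f : H) = (⁅⁅w, a⁆, w⁆)⁻¹ := by
    rw [hf, hu, commutatorElement_inv]
  refine ⟨(P 1).subgroupOf (δ 2), (P 2).subgroupOf (δ 2), ⟨w, hs1'.le hwP⟩, π ⟨a, haV⟩, hopp', hwP,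
    fun h3 => hwT (mem_pCoreOf_iff.2 h3), ?_, ?_, ?_⟩
  · rw [hm.fx2 _ (sylIn_subgroupOf_top hs2), e2]
    exact hx.VV_le_F hm2 hs2 (le_VV hm3 hs2' ha)
  · rw [← hu2, ← hf2, hm.fx1 _ (sylIn_subgroupOf_top hs1'), e1, hfH]
    exact inv_mem k2
  · rw [← hu2, ← hf2]
    intro h3
    rw [hm.ker, hfH] at h3
    exact k1 (inv_mem_iff.1 h3)


/-- `k = 1` implies `p = 3` -/
theorem QPt.three {M₀ : ℕ} {δ P : ℕ → Subgroup H} (h : QPt p q 𝒱 X (0 + 1) M₀ δ P) (hM : 4 ≤ M₀) : p = 3 := by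
  obtain ⟨M, W, _, _, _, _, ρ, ρ₂, Zb, j, π, hm⟩ := h.exists_vmod 1 (by omega)
  obtain ⟨S, R, w, a, ho, hw, hwT, ha, hf, hf0⟩ := h.key5 hM hm
  obtain ⟨K, hK, hpu⟩ := (h.vtx 2 (by omega)).ex
  by_contra h3
  have h2 : p ≠ 2 := by
    rintro rfl
    exact h.two hM
  have h5 : 5 ≤ p := by
    have h4 : p ≠ 4 := by
      rintro rfl
      exact absurd (Fact.out : Nat.Prime 4) (by norm_num)
    have := (Fact.out : p.Prime).two_le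
    omega
  exact hf0 (hm.ext.five_le hpu h5 ho hw hwT ha hf)

end Cfsg.Agent.H47
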