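import Cfsg.Agent.H47.MO12
import Cfsg.Agent.H47.Amal9

set_option autoImplicit false
set_option linter.unusedSectionVars false
set_option linter.style.haveILetI false
open Cfsg Subgroup
open scoped commutatorElement

namespace Cfsg.Agent.H47

universe u

variable {H : Type u} [Group H] [Finite H] {p q : ℕ} [Fact p.Prime] {𝒱 : Set (Subgroup H)}
  {X : Subgroup H → Subgroup H} {G G' : Subgroup H}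

theorem s0_three [Fact (Nat.Prime 3)] {E U : Subgroup H} (hU : U ≤ centralizer (U : Set H))
    (hU3 : ∀ x ∈ U, x ^ 3 = 1) (hn : E ≤ normalizer (U : Set H)) (hc : ⁅E, E⁆ ≤ U) (h3 : ∀ x ∈ E, x ^ 3 ∈ U)
    (hcc : ⁅⁅U, E⁆, E⁆ = ⊥) : s0 3 E = ⊥ := by
  have h1 : Fr E ≤ U := Fr_le_of (p := 3) hn hc h3
  have h2 : Fr (Fr E) = ⊥ := Fr_eq_bot (p := 3) ((h1.trans hU).trans (centralizer_le h1)) (fun x hx => hU3 x (h1 hx))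
  unfold s0
  rw [if_neg (by norm_num), if_pos rfl, h2, sup_bot_eq, eq_bot_iff, ← hcc]
  exact commutator_mono (commutator_mono h1 le_rfl) le_rfl

/-- the data of a path of length three with `k = 1` -/
structure M3 (p q : ℕ) (𝒱 : Set (Subgroup H)) (X : Subgroup H → Subgroup H)
    (G₀ G₁ G₂ G₃ P₀ P₁ P₂ : Subgroup H) : Prop where
  mx : MAx p 𝒱 X
  m0 : G₀ ∈ 𝒱
  m1 : G₁ ∈ 𝒱
  m2 : G₂ ∈ 𝒱
  m3 : G₃ ∈ 𝒱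
  v0 : Vtx p q G₀
  v1 : Vtx p q G₁
  v2 : Vtx p q G₂
  v3 : Vtx p q G₃
  y0 : SylIn p P₀ G₀
  y0' : SylIn p P₀ G₁
  y1 : SylIn p P₁ G₁
  y1' : SylIn p P₁ G₂
  y2 : SylIn p P₂ G₂
  y2' : SylIn p P₂ G₃
  e0 : ZV p G₂ ⊔ pCoreOf p G₀ = P₀
  e1 : ZV p G₀ ⊔ pCoreOf p G₂ = P₁
  e1' : ZV p G₃ ⊔ pCoreOf p G₁ = P₁
  e2 : ZV p G₁ ⊔ pCoreOf p G₃ = P₂
  nle : ¬ ZV p G₃ ≤ pCoreOf p G₁
  vt1 : ⁅VG p 𝒱 G₁, pCoreOf p G₁⁆ ≤ cz (ZV p G₁) ⊥ G₁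
  vt2 : ⁅VG p 𝒱 G₂, pCoreOf p G₂⁆ ≤ cz (ZV p G₂) ⊥ G₂
  nt1 : NatS p q G₁ (VG p 𝒱 G₁) (ZV p G₁)
  tc : ⁅TS p G₁, CS p 𝒱 G₁⁆ = ⊥
  T2 : ¬ TS p G₁ ≤ pCoreOf p G₂

theorem QPt.m3 {M : ℕ} {δ P : ℕ → Subgroup H} (h : QPt p q 𝒱 X (0 + 1) M δ P) (hM : 4 ≤ M) :
    M3 p q 𝒱 X (δ 0) (δ 1) (δ 2) (δ 3) (P 0) (P 1) (P 2) :=
  ⟨h.toMPt.mx, h.wk.mem 0 (by omega), h.wk.mem 1 (by omega), h.wk.mem 2 (by omega), h.wk.mem 3 (by omega),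
    h.vtx 0 (by omega), h.vtx 1 (by omega), h.vtx 2 (by omega), h.vtx 3 (by omega),
    h.wk.syl 0 (by omega), h.wk.syl' 0 (by omega), h.wk.syl 1 (by omega), h.wk.syl' 1 (by omega),
    h.wk.syl 2 (by omega), h.wk.syl' 2 (by omega), h.toMPt.sup_left 0 (by omega), h.toMPt.sup_right 0 (by omega),
    h.toMPt.sup_left 1 (by omega), h.toMPt.sup_right 1 (by omega), h.toMPt.nleT' 1 (by omega),
    h.VG_T 0 (by omega), h.VG_T 1 (by omega), h.nat 1 (by omega), h.TS_CS 0 (by omega), h.toMPt.TS2 0 (by omega)⟩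

namespace M3
variable {G₀ G₁ G₂ G₃ P₀ P₁ P₂ : Subgroup H}

theorem z01 (h : M3 p q 𝒱 X G₀ G₁ G₂ G₃ P₀ P₁ P₂) : ZV p G₀ ≤ pCoreOf p G₁ :=
  h.mx.adj_le h.m1 h.m0 h.y0' h.y0
theorem z10 (h : M3 p q 𝒱 X G₀ G₁ G₂ G₃ P₀ P₁ P₂) : ZV p G₁ ≤ pCoreOf p G₀ :=
  h.mx.adj_le h.m0 h.m1 h.y0 h.y0'
theorem z12 (h : M3 p q 𝒱 X G₀ G₁ G₂ G₃ P₀ P₁ P₂) : ZV p G₁ ≤ pCoreOf p G₂ :=
  h.mx.adj_le h.m2 h.m1 h.y1' h.y1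
theorem z21 (h : M3 p q 𝒱 X G₀ G₁ G₂ G₃ P₀ P₁ P₂) : ZV p G₂ ≤ pCoreOf p G₁ :=
  h.mx.adj_le h.m1 h.m2 h.y1 h.y1'
theorem z32 (h : M3 p q 𝒱 X G₀ G₁ G₂ G₃ P₀ P₁ P₂) : ZV p G₃ ≤ pCoreOf p G₂ :=
  h.mx.adj_le h.m2 h.m3 h.y2 h.y2'
theorem z23 (h : M3 p q 𝒱 X G₀ G₁ G₂ G₃ P₀ P₁ P₂) : ZV p G₂ ≤ pCoreOf p G₃ :=
  h.mx.adj_le h.m3 h.m2 h.y2' h.y2
theorem z0P (h : M3 p q 𝒱 X G₀ G₁ G₂ G₃ P₀ P₁ P₂) : ZV p G₀ ≤ P₁ := by rw [← h.e1]; exact le_sup_left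
theorem z3P (h : M3 p q 𝒱 X G₀ G₁ G₂ G₃ P₀ P₁ P₂) : ZV p G₃ ≤ P₁ := by rw [← h.e1']; exact le_sup_left
theorem z1P (h : M3 p q 𝒱 X G₀ G₁ G₂ G₃ P₀ P₁ P₂) : ZV p G₁ ≤ P₁ := h.z12.trans (pCoreOf_le_sylIn h.y1')
theorem z2P (h : M3 p q 𝒱 X G₀ G₁ G₂ G₃ P₀ P₁ P₂) : ZV p G₂ ≤ P₁ := h.z21.trans (pCoreOf_le_sylIn h.y1)
theorem t1P (h : M3 p q 𝒱 X G₀ G₁ G₂ G₃ P₀ P₁ P₂) : pCoreOf p G₁ ≤ P₁ := pCoreOf_le_sylIn h.y1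
theorem t2P (h : M3 p q 𝒱 X G₀ G₁ G₂ G₃ P₀ P₁ P₂) : pCoreOf p G₂ ≤ P₁ := pCoreOf_le_sylIn h.y1'
theorem nT1 (h : M3 p q 𝒱 X G₀ G₁ G₂ G₃ P₀ P₁ P₂) : P₁ ≤ normalizer ((pCoreOf p G₁ : Subgroup H) : Set H) :=
  h.y1.le.trans pCoreOf_normal_mem
theorem nT2 (h : M3 p q 𝒱 X G₀ G₁ G₂ G₃ P₀ P₁ P₂) : P₁ ≤ normalizer ((pCoreOf p G₂ : Subgroup H) : Set H) :=
  h.y1'.le.trans pCoreOf_normal_mem

/-- `T₁ = Z₀ (T₁ ∩ T₂)` -/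
theorem f1 (h : M3 p q 𝒱 X G₀ G₁ G₂ G₃ P₀ P₁ P₂) : pCoreOf p G₁ = ZV p G₀ ⊔ (pCoreOf p G₁ ⊓ pCoreOf p G₂) :=
  dedekind_of (h.z0P.trans h.nT2) h.z01 (by rw [h.e1]; exact h.t1P)

theorem f2 (h : M3 p q 𝒱 X G₀ G₁ G₂ G₃ P₀ P₁ P₂) : pCoreOf p G₁ = ZV p G₂ ⊔ (pCoreOf p G₁ ⊓ pCoreOf p G₀) := by
  refine dedekind_of ?_ h.z21 (by rw [h.e0]; exact pCoreOf_le_sylIn h.y0')
  have : ZV p G₂ ≤ P₀ := by rw [← h.e0]; exact le_sup_left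
  exact this.trans (h.y0.le.trans pCoreOf_normal_mem)

theorem f3 (h : M3 p q 𝒱 X G₀ G₁ G₂ G₃ P₀ P₁ P₂) : pCoreOf p G₂ = ZV p G₃ ⊔ (pCoreOf p G₂ ⊓ pCoreOf p G₁) :=
  dedekind_of (h.z3P.trans h.nT1) h.z32 (by rw [h.e1']; exact h.t2P)

theorem f4 (h : M3 p q 𝒱 X G₀ G₁ G₂ G₃ P₀ P₁ P₂) : pCoreOf p G₂ = ZV p G₁ ⊔ (pCoreOf p G₂ ⊓ pCoreOf p G₃) := by
  refine dedekind_of ?_ h.z12 (by rw [h.e2]; exact pCoreOf_le_sylIn h.y2)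
  have : ZV p G₁ ≤ P₂ := by rw [← h.e2]; exact le_sup_left
  exact this.trans (h.y2'.le.trans pCoreOf_normal_mem)

/-- `T₁ ∩ T₂ = Z₂ (T₀ ∩ T₁ ∩ T₂)` -/
theorem f5 (h : M3 p q 𝒱 X G₀ G₁ G₂ G₃ P₀ P₁ P₂) : pCoreOf p G₁ ⊓ pCoreOf p G₂ =
    ZV p G₂ ⊔ (pCoreOf p G₁ ⊓ pCoreOf p G₂ ⊓ (pCoreOf p G₁ ⊓ pCoreOf p G₀)) := by
  refine dedekind_of ?_ (le_inf h.z21 h.v2.ZV_le) (by rw [← h.f2]; exact inf_le_left)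
  have : ZV p G₂ ≤ P₀ := by rw [← h.e0]; exact le_sup_left
  exact le_normalizer_inf (this.trans (h.y0'.le.trans pCoreOf_normal_mem))
    (this.trans (h.y0.le.trans pCoreOf_normal_mem))

theorem f6 (h : M3 p q 𝒱 X G₀ G₁ G₂ G₃ P₀ P₁ P₂) :
    pCoreOf p G₁ ⊓ pCoreOf p G₂ ⊓ (pCoreOf p G₁ ⊓ pCoreOf p G₀) = ZV p G₁ ⊔ P3.F p G₀ G₁ G₂ G₃ := by
  have h1 : pCoreOf p G₁ ⊓ pCoreOf p G₂ ⊓ (pCoreOf p G₁ ⊓ pCoreOf p G₀) =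
      ZV p G₁ ⊔ (pCoreOf p G₁ ⊓ pCoreOf p G₂ ⊓ (pCoreOf p G₁ ⊓ pCoreOf p G₀) ⊓ (pCoreOf p G₂ ⊓ pCoreOf p G₃)) := by
    refine dedekind_of ?_ (le_inf (le_inf h.v1.ZV_le h.z12) (le_inf h.v1.ZV_le h.z10))
      (by rw [← h.f4]; exact inf_le_left.trans inf_le_right)
    have : ZV p G₁ ≤ P₂ := by rw [← h.e2]; exact le_sup_left
    exact le_normalizer_inf (this.trans (h.y2.le.trans pCoreOf_normal_mem))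
      (this.trans (h.y2'.le.trans pCoreOf_normal_mem))
  rw [h1]
  congr 1
  unfold P3.F
  apply le_antisymm
  · exact le_inf (le_inf (inf_le_left.trans (inf_le_right.trans inf_le_right))
      (inf_le_left.trans (inf_le_left.trans inf_le_left))) inf_le_right
  · exact le_inf (le_inf (le_inf (inf_le_left.trans inf_le_right) (inf_le_right.trans inf_le_left))
      (le_inf (inf_le_left.trans inf_le_right) (inf_le_left.trans inf_le_left))) inf_le_right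

/-- `T₁ = Z₀ Z₂ Z₁ F` -/
theorem f7 (h : M3 p q 𝒱 X G₀ G₁ G₂ G₃ P₀ P₁ P₂) :
    pCoreOf p G₁ = ZV p G₀ ⊔ (ZV p G₂ ⊔ (ZV p G₁ ⊔ P3.F p G₀ G₁ G₂ G₃)) := by
  conv_lhs => rw [h.f1, h.f5, h.f6]

/-- `P₁ = Z₃ Z₀ Z₂ Z₁ F` -/
theorem f8 (h : M3 p q 𝒱 X G₀ G₁ G₂ G₃ P₀ P₁ P₂) :
    P₁ = ZV p G₃ ⊔ (ZV p G₀ ⊔ (ZV p G₂ ⊔ (ZV p G₁ ⊔ P3.F p G₀ G₁ G₂ G₃))) := by
  rw [← h.f7, h.e1']

theorem F_le_P (h : M3 p q 𝒱 X G₀ G₁ G₂ G₃ P₀ P₁ P₂) : P3.F p G₀ G₁ G₂ G₃ ≤ P₁ :=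
  (inf_le_left.trans inf_le_right).trans h.t1P

theorem F_le_T (_h : M3 p q 𝒱 X G₀ G₁ G₂ G₃ P₀ P₁ P₂) : P3.F p G₀ G₁ G₂ G₃ ≤ pCoreOf p G₁ :=
  inf_le_left.trans inf_le_right

theorem zF (h : M3 p q 𝒱 X G₀ G₁ G₂ G₃ P₀ P₁ P₂) : ZV p G₀ ≤ centralizer (P3.F p G₀ G₁ G₂ G₃ : Set H) ∧
    ZV p G₁ ≤ centralizer (P3.F p G₀ G₁ G₂ G₃ : Set H) ∧ ZV p G₂ ≤ centralizer (P3.F p G₀ G₁ G₂ G₃ : Set H) ∧
    ZV p G₃ ≤ centralizer (P3.F p G₀ G₁ G₂ G₃ : Set H) :=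
  ⟨h.v0.ZV_cent.trans (centralizer_le (inf_le_left.trans inf_le_left)),
   h.v1.ZV_cent.trans (centralizer_le (inf_le_left.trans inf_le_right)),
   h.v2.ZV_cent.trans (centralizer_le (inf_le_right.trans inf_le_left)),
   h.v3.ZV_cent.trans (centralizer_le (inf_le_right.trans inf_le_right))⟩

/-- commutators with `P₁` -/
theorem comm5 (h : M3 p q 𝒱 X G₀ G₁ G₂ G₃ P₀ P₁ P₂) {N C : Subgroup H} (hN : P₁ ≤ normalizer (N : Set H))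
    (c3 : ⁅ZV p G₃, C⁆ ≤ N) (c0 : ⁅ZV p G₀, C⁆ ≤ N) (c2 : ⁅ZV p G₂, C⁆ ≤ N) (c1 : ⁅ZV p G₁, C⁆ ≤ N)
    (cF : ⁅P3.F p G₀ G₁ G₂ G₃, C⁆ ≤ N) : ⁅P₁, C⁆ ≤ N := by
  have n3 := h.z3P.trans hN
  have n0 := h.z0P.trans hN
  have n2 := h.z2P.trans hN
  have n1 := h.z1P.trans hN
  have nF := h.F_le_P.trans hN
  rw [h.f8]
  exact comm_sup_le n3 (sup_le n0 (sup_le n2 (sup_le n1 nF))) c3 (comm_sup_le n0 (sup_le n2 (sup_le n1 nF)) c0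
    (comm_sup_le n2 (sup_le n1 nF) c2 (comm_sup_le n1 nF c1 cF)))

theorem cZ0 (h : M3 p q 𝒱 X G₀ G₁ G₂ G₃ P₀ P₁ P₂) : ZV p G₀ ≤ VG p 𝒱 G₁ := (le_VV h.m0 h.y0).trans (VV_le_VG h.y0')
theorem cZ2 (h : M3 p q 𝒱 X G₀ G₁ G₂ G₃ P₀ P₁ P₂) : ZV p G₂ ≤ VG p 𝒱 G₁ := (le_VV h.m2 h.y1').trans (VV_le_VG h.y1)
theorem cZ1 (h : M3 p q 𝒱 X G₀ G₁ G₂ G₃ P₀ P₁ P₂) : ZV p G₁ ≤ VG p 𝒱 G₁ := h.mx.ZV_le_VG h.m1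
theorem dZ1 (h : M3 p q 𝒱 X G₀ G₁ G₂ G₃ P₀ P₁ P₂) : ZV p G₁ ≤ VG p 𝒱 G₂ := (le_VV h.m1 h.y1).trans (VV_le_VG h.y1')
theorem dZ3 (h : M3 p q 𝒱 X G₀ G₁ G₂ G₃ P₀ P₁ P₂) : ZV p G₃ ≤ VG p 𝒱 G₂ := (le_VV h.m3 h.y2').trans (VV_le_VG h.y2)
theorem dZ2 (h : M3 p q 𝒱 X G₀ G₁ G₂ G₃ P₀ P₁ P₂) : ZV p G₂ ≤ VG p 𝒱 G₂ := h.mx.ZV_le_VG h.m2

theorem nV1 (h : M3 p q 𝒱 X G₀ G₁ G₂ G₃ P₀ P₁ P₂) : P₁ ≤ normalizer (VG p 𝒱 G₁ : Set H) :=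
  h.y1.le.trans (h.mx.nVG _)
theorem nV2 (h : M3 p q 𝒱 X G₀ G₁ G₂ G₃ P₀ P₁ P₂) : P₁ ≤ normalizer (VG p 𝒱 G₂ : Set H) :=
  h.y1'.le.trans (h.mx.nVG _)

theorem D_le_omega (h : M3 p q 𝒱 X G₀ G₁ G₂ G₃ P₀ P₁ P₂) {G : Subgroup H} (hG : G ∈ 𝒱) (hs : SylIn p P₁ G) :
    cz (ZV p G) ⊥ G ≤ omegaOneCenter p P₁ := by
  obtain ⟨q', hv⟩ := h.mx.vtx G hG
  rw [← hv.cz_omega hs]
  exact cz_anti hs.le

/-- `A = V₁ ∩ V₂` -/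
theorem comm_A (h : M3 p q 𝒱 X G₀ G₁ G₂ G₃ P₀ P₁ P₂) : ⁅VG p 𝒱 G₁ ⊓ VG p 𝒱 G₂, P₁⁆ ≤ omegaOneCenter p P₁ := by
  have n1 : P₁ ≤ normalizer (omegaOneCenter p P₁ : Set H) := le_normalizer.trans (normalizer_le_normalizer_omega P₁)
  have d1 := (h.vt1).trans (h.D_le_omega h.m1 h.y1)
  have d2 := (h.vt2).trans (h.D_le_omega h.m2 h.y1')
  rw [commutator_comm]
  apply h.comm5 n1
  · rw [commutator_comm]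
    exact (commutator_mono inf_le_right h.z32).trans d2
  · rw [commutator_comm]
    exact (commutator_mono inf_le_left h.z01).trans d1
  · rw [commutator_comm]
    exact (commutator_mono inf_le_left h.z21).trans d1
  · rw [commutator_comm]
    exact (commutator_mono inf_le_right h.z12).trans d2
  · rw [commutator_comm]
    exact (commutator_mono inf_le_left h.F_le_T).trans d1

theorem f9 (h : M3 p q 𝒱 X G₀ G₁ G₂ G₃ P₀ P₁ P₂) : P₁ = P3.Q4 p G₀ G₁ G₂ G₃ ⊔ P3.F p G₀ G₁ G₂ G₃ := by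
  unfold P3.Q4
  rw [sup_assoc, sup_assoc, sup_assoc]
  exact h.f8

theorem Q4_cent (h : M3 p q 𝒱 X G₀ G₁ G₂ G₃ P₀ P₁ P₂) : P3.Q4 p G₀ G₁ G₂ G₃ ≤ centralizer (P3.F p G₀ G₁ G₂ G₃ : Set H) := by
  obtain ⟨a0, a1, a2, a3⟩ := h.zF
  exact sup_le a3 (sup_le a0 (sup_le a2 a1))

theorem Q4_le (h : M3 p q 𝒱 X G₀ G₁ G₂ G₃ P₀ P₁ P₂) : P3.Q4 p G₀ G₁ G₂ G₃ ≤ P₁ := by
  rw [h.f9]; exact le_sup_left

theorem comm4 (h : M3 p q 𝒱 X G₀ G₁ G₂ G₃ P₀ P₁ P₂) {N C : Subgroup H} (hN : P₁ ≤ normalizer (N : Set H))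
    (c3 : ⁅ZV p G₃, C⁆ ≤ N) (c0 : ⁅ZV p G₀, C⁆ ≤ N) (c2 : ⁅ZV p G₂, C⁆ ≤ N) (c1 : ⁅ZV p G₁, C⁆ ≤ N) :
    ⁅P3.Q4 p G₀ G₁ G₂ G₃, C⁆ ≤ N := by
  have n3 := h.z3P.trans hN
  have n0 := h.z0P.trans hN
  have n2 := h.z2P.trans hN
  have n1 := h.z1P.trans hN
  exact comm_sup_le n3 (sup_le n0 (sup_le n2 n1)) c3 (comm_sup_le n0 (sup_le n2 n1) c0 (comm_sup_le n2 n1 c2 c1))


/-- the elementary abelian group `U` -/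
def U (p : ℕ) (G₀ G₃ P₁ : Subgroup H) : Subgroup H := ⁅ZV p G₀, ZV p G₃⁆ ⊔ omegaOneCenter p P₁

theorem c03 (h : M3 p q 𝒱 X G₀ G₁ G₂ G₃ P₀ P₁ P₂) : ⁅ZV p G₀, ZV p G₃⁆ ≤ VG p 𝒱 G₁ ⊓ VG p 𝒱 G₂ := by
  refine le_inf ?_ ?_
  · refine (commutator_mono h.cZ0 le_rfl).trans ?_
    rw [← le_normalizer_iff_commutator_le_left]; exact h.z3P.trans h.nV1
  · refine (commutator_mono le_rfl h.dZ3).trans ?_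
    rw [← le_normalizer_iff_commutator_le_right]; exact h.z0P.trans h.nV2

theorem V1P (h : M3 p q 𝒱 X G₀ G₁ G₂ G₃ P₀ P₁ P₂) : VG p 𝒱 G₁ ≤ P₁ :=
  (h.mx.VG_le_core h.m1).trans h.t1P

theorem U_comm (h : M3 p q 𝒱 X G₀ G₁ G₂ G₃ P₀ P₁ P₂) : ⁅U p G₀ G₃ P₁, P₁⁆ ≤ omegaOneCenter p P₁ := by
  have n1 : P₁ ≤ normalizer (omegaOneCenter p P₁ : Set H) := le_normalizer.trans (normalizer_le_normalizer_omega P₁)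
  refine comm_sup_le ?_ ?_ ?_ ?_
  · exact ((h.c03.trans inf_le_left).trans h.V1P).trans n1
  · exact Crt.omega_le_self.trans n1
  · exact (commutator_mono h.c03 le_rfl).trans h.comm_A
  · rw [commutator_eq_bot_iff_le_centralizer.2 Crt.omega_le_cent]; exact bot_le

theorem nU (h : M3 p q 𝒱 X G₀ G₁ G₂ G₃ P₀ P₁ P₂) : P₁ ≤ normalizer (U p G₀ G₃ P₁ : Set H) := by
  rw [le_normalizer_iff_commutator_le_left]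
  exact h.U_comm.trans le_sup_right

theorem U_comm_comm (h : M3 p q 𝒱 X G₀ G₁ G₂ G₃ P₀ P₁ P₂) : ⁅⁅U p G₀ G₃ P₁, P₁⁆, P₁⁆ = ⊥ := by
  rw [eq_bot_iff]
  refine (commutator_mono h.U_comm le_rfl).trans ?_
  rw [commutator_eq_bot_iff_le_centralizer.2 Crt.omega_le_cent]

theorem c03_TS (h : M3 p q 𝒱 X G₀ G₁ G₂ G₃ P₀ P₁ P₂) : ⁅ZV p G₀, ZV p G₃⁆ ≤ TS p G₁ := by
  unfold TS
  exact commutator_mono h.z01 (h.z3P.trans h.y1.le)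

theorem c03_cz (h : M3 p q 𝒱 X G₀ G₁ G₂ G₃ P₀ P₁ P₂) :
    ⁅ZV p G₀, ZV p G₃⁆ ≤ cz (VG p 𝒱 G₁) (ZV p G₁) P₁ := by
  rw [commutator_le]
  intro w hw a ha
  exact h.nt1.quad _ h.y1 w (h.cZ0 hw) a (h.z3P ha)

theorem c03_cent (h : M3 p q 𝒱 X G₀ G₁ G₂ G₃ P₀ P₁ P₂) :
    ⁅ZV p G₀, ZV p G₃⁆ ≤ centralizer ((cz (VG p 𝒱 G₁) (ZV p G₁) P₁ : Subgroup H) : Set H) := by
  rw [← h.mx.F_eq h.m1 h.y1 h.nt1 h.m2 h.v2 h.y1' h.T2, le_centralizer_iff]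
  apply sup_le
  · exact h.v2.ZV_cent.trans (centralizer_le ((h.c03.trans inf_le_right).trans (h.mx.VG_le_core h.m2)))
  · rw [le_centralizer_iff]
    refine h.c03_TS.trans ?_
    rw [← commutator_eq_bot_iff_le_centralizer]
    exact h.tc

theorem U_le (h : M3 p q 𝒱 X G₀ G₁ G₂ G₃ P₀ P₁ P₂) : U p G₀ G₃ P₁ ≤ P₁ :=
  sup_le ((h.c03.trans inf_le_left).trans h.V1P) Crt.omega_le_self

theorem U_ab (h : M3 p q 𝒱 X G₀ G₁ G₂ G₃ P₀ P₁ P₂) : U p G₀ G₃ P₁ ≤ centralizer (U p G₀ G₃ P₁ : Set H) := by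
  have h1 : omegaOneCenter p P₁ ≤ centralizer (U p G₀ G₃ P₁ : Set H) := Crt.omega_le_cent.trans (centralizer_le h.U_le)
  refine sup_le ?_ h1
  rw [le_centralizer_iff]
  refine sup_le ?_ ?_
  · exact h.c03_cent.trans (centralizer_le h.c03_cz)
  · rw [le_centralizer_iff]
    exact ((h.c03.trans inf_le_left).trans h.V1P).trans (by rw [le_centralizer_iff]; exact Crt.omega_le_cent)

theorem U_pow (h : M3 p q 𝒱 X G₀ G₁ G₂ G₃ P₀ P₁ P₂) (hp2 : p ≠ 2) {x : H} (hx : x ∈ U p G₀ G₃ P₁) : x ^ p = 1 := by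
  have hab := h.U_ab
  let Y : Subgroup H :=
    { carrier := {x | x ∈ U p G₀ G₃ P₁ ∧ x ^ p = 1}
      one_mem' := ⟨one_mem _, by rw [one_pow]⟩
      inv_mem' := by
        rintro x ⟨hx, hx2⟩
        exact ⟨inv_mem hx, by rw [inv_pow, hx2, inv_one]⟩
      mul_mem' := by
        rintro x y ⟨hx, hx2⟩ ⟨hy, hy2⟩
        have hc : Commute x y := (mem_centralizer_iff.1 (hab hx) y hy).symm
        exact ⟨mul_mem hx hy, by rw [hc.mul_pow, hx2, hy2, one_mul]⟩ }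
  have hle : U p G₀ G₃ P₁ ≤ Y := by
    apply sup_le
    · rw [commutator_le]
      intro w hw a ha
      refine ⟨mem_sup_left (commutator_mem_commutator hw ha), ?_⟩
      have hwV := h.cZ0 hw
      have haw : a * w⁻¹ * a⁻¹ ∈ VG p 𝒱 G₁ :=
        (mem_normalizer_iff.1 (h.nV1 (h.z3P ha)) _).1 (inv_mem hwV)
      have e1 : ⁅w, a⁆ = w * (a * w⁻¹ * a⁻¹) := by rw [commutatorElement_def]; group
      have h2 : ⁅(a * w⁻¹ * a⁻¹)⁻¹, w⁻¹⁆ ∈ cz (ZV p G₁) ⊥ G₁ :=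
        h.vt1 (commutator_mem_commutator (inv_mem haw) (h.mx.VG_le_core h.m1 (inv_mem hwV)))
      have hcc : ∀ y ∈ G₁, Commute ⁅(a * w⁻¹ * a⁻¹)⁻¹, w⁻¹⁆ y := fun y hy =>
        (mem_centralizer_iff.1 (Crt.D_cent h2) y hy).symm
      rw [e1, mul_pow_comm_central (c := ⁅(a * w⁻¹ * a⁻¹)⁻¹, w⁻¹⁆)
        (by rw [commutatorElement_def]; group) (hcc _ (h.mx.VG_le hwV)) (hcc _ (h.mx.VG_le haw))]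
      have hp := Fact.out (p := p.Prime)
      obtain ⟨k, hk⟩ : p ∣ p.choose 2 := hp.dvd_choose_self (by norm_num) (by have := hp.two_le; omega)
      rw [hk, pow_mul, h.v1.ZV_pow (cz_le h2), one_pow, h.v0.ZV_pow hw, mul_one, one_mul]
      have e3 : (a * w⁻¹ * a⁻¹) ^ p = a * (w⁻¹) ^ p * a⁻¹ := conj_pow
      rw [e3, inv_pow, h.v0.ZV_pow hw]
      group
    · intro z hz
      exact ⟨mem_sup_right hz, (mem_omegaOneCenter.1 hz).2.2⟩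
  exact (hle hx).2

theorem Q4_comm (h : M3 p q 𝒱 X G₀ G₁ G₂ G₃ P₀ P₁ P₂) :
    ⁅P3.Q4 p G₀ G₁ G₂ G₃, P3.Q4 p G₀ G₁ G₂ G₃⁆ ≤ U p G₀ G₃ P₁ := by
  have nN := h.nU
  have hz : ∀ {X Y : Subgroup H}, X ≤ centralizer (Y : Set H) → ⁅X, Y⁆ ≤ U p G₀ G₃ P₁ := fun hX => by
    rw [commutator_eq_bot_iff_le_centralizer.2 hX]; exact bot_le
  have hsw : ∀ {X Y : Subgroup H}, ⁅X, Y⁆ ≤ U p G₀ G₃ P₁ → ⁅Y, X⁆ ≤ U p G₀ G₃ P₁ := fun h1 => by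
    rw [commutator_comm]; exact h1
  have d1 := h.vt1.trans (h.D_le_omega h.m1 h.y1)
  have d2 := h.vt2.trans (h.D_le_omega h.m2 h.y1')
  have w1 := h.mx.VG_le_core h.m1
  have w2 := h.mx.VG_le_core h.m2
  have k30 : ⁅ZV p G₃, ZV p G₀⁆ ≤ U p G₀ G₃ P₁ := hsw le_sup_left
  have k02 : ⁅ZV p G₀, ZV p G₂⁆ ≤ U p G₀ G₃ P₁ := (commutator_mono h.cZ0 (h.cZ2.trans w1)).trans (d1.trans le_sup_right)
  have k01 : ⁅ZV p G₀, ZV p G₁⁆ ≤ U p G₀ G₃ P₁ := (commutator_mono h.cZ0 (h.cZ1.trans w1)).trans (d1.trans le_sup_right)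
  have k21 : ⁅ZV p G₂, ZV p G₁⁆ ≤ U p G₀ G₃ P₁ := (commutator_mono h.cZ2 (h.cZ1.trans w1)).trans (d1.trans le_sup_right)
  have k32 : ⁅ZV p G₃, ZV p G₂⁆ ≤ U p G₀ G₃ P₁ := (commutator_mono h.dZ3 (h.dZ2.trans w2)).trans (d2.trans le_sup_right)
  have k31 : ⁅ZV p G₃, ZV p G₁⁆ ≤ U p G₀ G₃ P₁ := (commutator_mono h.dZ3 (h.dZ1.trans w2)).trans (d2.trans le_sup_right)
  have k3 : ⁅P3.Q4 p G₀ G₁ G₂ G₃, ZV p G₃⁆ ≤ U p G₀ G₃ P₁ := h.comm4 nN (hz h.v3.ZV_comm) (hsw k30) (hsw k32) (hsw k31)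
  have k0 : ⁅P3.Q4 p G₀ G₁ G₂ G₃, ZV p G₀⁆ ≤ U p G₀ G₃ P₁ := h.comm4 nN k30 (hz h.v0.ZV_comm) (hsw k02) (hsw k01)
  have k2 : ⁅P3.Q4 p G₀ G₁ G₂ G₃, ZV p G₂⁆ ≤ U p G₀ G₃ P₁ := h.comm4 nN k32 k02 (hz h.v2.ZV_comm) (hsw k21)
  have k1 : ⁅P3.Q4 p G₀ G₁ G₂ G₃, ZV p G₁⁆ ≤ U p G₀ G₃ P₁ := h.comm4 nN k31 k01 k21 (hz h.v1.ZV_comm)
  exact h.comm4 nN (hsw k3) (hsw k0) (hsw k2) (hsw k1)

end M3

section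
variable {𝒱 : Set (Subgroup H)} {G₀ G₁ G₂ G₃ P₀ P₁ P₂ : Subgroup H} [Fact (Nat.Prime 3)]

/-- cubes of the elements of `Q4` (`p = 3`) -/
theorem M3.Q4_cube (h : M3 3 q 𝒱 X G₀ G₁ G₂ G₃ P₀ P₁ P₂) {x : H}
    (hx : x ∈ P3.Q4 3 G₀ G₁ G₂ G₃) : x ^ 3 ∈ omegaOneCenter 3 P₁ := by
  have hE : P₁ ≤ centralizer ((omegaOneCenter 3 P₁ : Subgroup H) : Set H) := by
    rw [le_centralizer_iff]; exact Crt.omega_le_cent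
  have hQQ := h.Q4_comm
  have hA := h.U_comm
  let Y : Subgroup H :=
    { carrier := {x | x ∈ P3.Q4 3 G₀ G₁ G₂ G₃ ∧ x ^ 3 ∈ omegaOneCenter 3 P₁}
      one_mem' := ⟨one_mem _, by rw [one_pow]; exact one_mem _⟩
      inv_mem' := by
        rintro x ⟨hx, hx2⟩
        exact ⟨inv_mem hx, by rw [inv_pow]; exact inv_mem hx2⟩
      mul_mem' := by
        rintro x y ⟨hx, hx2⟩ ⟨hy, hy2⟩
        refine ⟨mul_mem hx hy, ?_⟩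
        have h1 : ⁅y, x⁆ ∈ M3.U 3 G₀ G₃ P₁ := hQQ (commutator_mem_commutator hy hx)
        exact cube_mul Crt.omega_le_self hE (h.Q4_le hx) (h.Q4_le hy)
          (hA (commutator_mem_commutator h1 (h.Q4_le hx))) (hA (commutator_mem_commutator h1 (h.Q4_le hy))) hx2 hy2 }
  have hle : P3.Q4 3 G₀ G₁ G₂ G₃ ≤ Y := by
    have key : ∀ G, Vtx 3 q G → ZV 3 G ≤ P3.Q4 3 G₀ G₁ G₂ G₃ → ZV 3 G ≤ Y := by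
      intro G hG hle x hx
      refine ⟨hle hx, ?_⟩
      rw [hG.ZV_pow hx]; exact one_mem _
    refine sup_le (key _ h.v3 le_sup_left) (sup_le (key _ h.v0 (le_sup_left.trans le_sup_right))
      (sup_le (key _ h.v2 ?_) (key _ h.v1 ?_)))
    · exact le_sup_left.trans (le_sup_right.trans le_sup_right)
    · exact le_sup_right.trans (le_sup_right.trans le_sup_right)
  exact (hle hx).2

theorem M3.s0_sub (h : M3 3 q 𝒱 X G₀ G₁ G₂ G₃ P₀ P₁ P₂) {E : Subgroup H} (hE : E ≤ P3.Q4 3 G₀ G₁ G₂ G₃) :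
    s0 3 E = ⊥ := by
  have hEP := hE.trans h.Q4_le
  refine s0_three (U := M3.U 3 G₀ G₃ P₁) h.U_ab (fun x hx => h.U_pow (by norm_num) hx) (hEP.trans h.nU)
    ((commutator_mono hE hE).trans h.Q4_comm) (fun x hx => ?_) ?_
  · exact mem_sup_right (h.Q4_cube (hE hx))
  · rw [eq_bot_iff, ← h.U_comm_comm]
    exact commutator_mono (commutator_mono le_rfl hEP) hEP

theorem M3.absurd (h : M3 3 q 𝒱 X G₀ G₁ G₂ G₃ P₀ P₁ P₂) : False := by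
  have hQc := h.Q4_cent
  have hP := h.f9
  have hpP : IsPGroup 3 P₁ := h.y1.isPGroup
  have e1 : s0 3 P₁ = s0 3 (P3.F 3 G₀ G₁ G₂ G₃) := by
    conv_lhs => rw [hP]
    rw [s0_sup (by rw [← hP]; exact hpP) hQc, h.s0_sub le_rfl, bot_sup_eq]
  have hT : pCoreOf 3 G₁ = (ZV 3 G₀ ⊔ (ZV 3 G₂ ⊔ ZV 3 G₁)) ⊔ P3.F 3 G₀ G₁ G₂ G₃ := by
    rw [sup_assoc, sup_assoc]; exact h.f7
  have hE1 : ZV 3 G₀ ⊔ (ZV 3 G₂ ⊔ ZV 3 G₁) ≤ P3.Q4 3 G₀ G₁ G₂ G₃ := le_sup_right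
  have e2 : s0 3 (pCoreOf 3 G₁) = s0 3 (P3.F 3 G₀ G₁ G₂ G₃) := by
    conv_lhs => rw [hT]
    rw [s0_sup (by rw [← hT]; exact hpP.to_le h.t1P) (hE1.trans hQc), h.s0_sub hE1, bot_sup_eq]
  refine h.mx.absurd_of h.m1 h.y1 (T := s0 3 (pCoreOf 3 G₁)) (A := ZV 3 G₃) ?_ ?_ ?_ h.z3P h.nle
  · rw [e2, ← e1]; exact h.mx.Xs P₁ ⟨G₁, h.m1, h.y1⟩
  · exact pCoreOf_normal_mem.trans (le_normalizer_of_equivariant s0_conj _)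
  · rw [e2]
    exact h.zF.2.2.2.trans (centralizer_le (s0_le _))

end

/-- `k = 1` is impossible -/
theorem MK.absurd_one (h : MK p 𝒱 X (0 + 1)) : False := by
  obtain ⟨q, δ, P, hp⟩ := h.exists_qpt 4
  have h3 := hp.three le_rfl
  subst h3
  exact (hp.m3 le_rfl).absurd

/-- the multi-orbit theorem -/
theorem MAx.absurd (h : MAx p 𝒱 X) : False := by
  obtain ⟨k, hk⟩ := h.exists_MK
  rcases k with _ | k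
  · exact Nat.lt_irrefl _ hk.pos
  rcases k with _ | k
  · exact MK.absurd_one hk
  · exact hk.absurd_two

end Cfsg.Agent.H47
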