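import Cfsg.Agent.H47.MO13
import Cfsg.Agent.H47.Amb
import Cfsg.Agent.H47.FrP

set_option autoImplicit false
set_option linter.unusedSectionVars false
set_option linter.style.haveILetI false
open Cfsg Subgroup
open scoped commutatorElement

namespace Cfsg.Agent.H47

universe u

section
variable {A B : Type*} [Group A] [Group B] {f : A →* B} {p : ℕ}

theorem inf_cent_map_inj (hf : Function.Injective f) (R : Subgroup A) :
    R.map f ⊓ centralizer ((R.map f : Subgroup B) : Set B) = (R ⊓ centralizer (R : Set A)).map f := by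
  apply le_antisymm
  · rintro _ ⟨⟨x, hx, rfl⟩, hx2⟩
    refine ⟨x, ⟨hx, ?_⟩, rfl⟩
    change x ∈ centralizer (R : Set A)
    rw [mem_centralizer_iff]
    intro y hy
    apply hf
    rw [map_mul, map_mul]
    exact mem_centralizer_iff.1 hx2 (f y) ⟨y, hy, rfl⟩
  · rintro _ ⟨x, ⟨hx, hx2⟩, rfl⟩
    refine ⟨⟨x, hx, rfl⟩, ?_⟩
    change f x ∈ centralizer ((R.map f : Subgroup B) : Set B)
    rw [mem_centralizer_iff]
    rintro _ ⟨y, hy, rfl⟩
    rw [← map_mul, ← map_mul, mem_centralizer_iff.1 hx2 y hy]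

theorem mz_map_inj (hf : Function.Injective f) (R : Subgroup A) : mz (R.map f) = mz R := by
  unfold mz
  rw [inf_cent_map_inj hf, card_map_inj hf, card_map_inj hf]

theorem map_comap_le_range {S : Subgroup A} {R : Subgroup B} (h : R ≤ S.map f) : (R.comap f).map f = R :=
  map_comap_eq_self (h.trans (map_le_range _ _))

theorem clin_map_inj (hf : Function.Injective f) {S R : Subgroup A} : CLin (S.map f) (R.map f) ↔ CLin S R := by
  constructor
  · rintro ⟨h1, h2⟩
    refine ⟨(map_le_map_iff_of_injective hf).1 h1, fun R' hR' => ?_⟩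
    have := h2 (R'.map f) (map_mono hR')
    rwa [mz_map_inj hf, mz_map_inj hf] at this
  · rintro ⟨h1, h2⟩
    refine ⟨map_mono h1, fun R' hR' => ?_⟩
    have h3 := map_comap_le_range hR'
    rw [← h3, mz_map_inj hf, mz_map_inj hf]
    apply h2
    rw [← map_le_map_iff_of_injective hf, h3]; exact hR'

theorem powerClosure_map_hom (f : A →* B) (R : Subgroup A) :
    (powerClosure p 1 R).map f = powerClosure p 1 (R.map f) := by
  unfold powerClosure
  rw [MonoidHom.map_closure]
  congr 1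
  ext y
  constructor
  · rintro ⟨_, ⟨x, hx, rfl⟩, rfl⟩
    exact ⟨f x, ⟨x, hx, rfl⟩, map_pow _ _ _⟩
  · rintro ⟨_, ⟨x, hx, rfl⟩, rfl⟩
    exact ⟨_, ⟨x, hx, rfl⟩, map_pow _ _ _⟩

theorem s0_map_inj (hf : Function.Injective f) (R : Subgroup A) : s0 p (R.map f) = (s0 p R).map f := by
  unfold s0
  split_ifs
  · rw [Subgroup.map_sup, map_commutator, Fr_map_injective f hf, Fr_map_injective f hf, Fr_map_injective f hf]
  · rw [Subgroup.map_sup, map_commutator, map_commutator, Fr_map_injective f hf, Fr_map_injective f hf,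
      Fr_map_injective f hf]
  · rw [Subgroup.map_sup, map_commutator, Fr_map_injective f hf, powerClosure_map_hom]

theorem map_conj_map (f : A →* B) (C : Subgroup A) (a : A) : (C.map (MulAut.conj a).toMonoidHom).map f =
    (C.map f).map (MulAut.conj (f a)).toMonoidHom := by
  rw [map_map, map_map]
  congr 1
  ext x
  change f (a * x * a⁻¹) = f a * f x * (f a)⁻¹
  rw [map_mul, map_mul, map_inv]

theorem range_le_normalizer_map_iff (hf : Function.Injective f) {C : Subgroup A} :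
    f.range ≤ normalizer ((C.map f : Subgroup B) : Set B) ↔ C.Normal := by
  rw [← normalizer_eq_top_iff, eq_top_iff]
  constructor
  · intro h a _
    rw [mem_normalizer_iff_map_conj]
    apply map_injective hf
    rw [map_conj_map]
    exact norm_map_conj (h ⟨a, rfl⟩)
  · rintro h _ ⟨a, rfl⟩
    rw [mem_normalizer_iff_map_conj, ← map_conj_map]
    congr 1
    exact norm_map_conj (h (mem_top a))

end

section
variable {S H : Type u} [Group S] [Group H] [Finite H] {f : S →* H}

theorem norm_of_char (hf : Function.Injective f) {C : Subgroup S} (hC : C.Characteristic) :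
    normalizer (f.range : Set H) ≤ normalizer ((C.map f : Subgroup H) : Set H) := by
  intro h hh
  let e : S ≃* f.range := MonoidHom.ofInjective hf
  let α : S ≃* S := e.trans (((MulAut.conj h).subgroupMap f.range).trans
    ((MulEquiv.subgroupCongr (norm_map_conj hh)).trans e.symm))
  have hα : ∀ s, f (α s) = h * f s * h⁻¹ := by
    intro s
    have h1 : ∀ y : f.range, f (e.symm y) = y := fun y => MonoidHom.apply_ofInjective_symm hf y
    change f (e.symm _) = _
    rw [h1]
    rfl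
  have h1 := (characteristic_iff_map_eq.1 hC) α
  apply mem_normalizer_of_map_conj_le
  rintro _ ⟨_, ⟨s, hs, rfl⟩, rfl⟩
  have h2 : α s ∈ C.map α.toMonoidHom := ⟨s, hs, rfl⟩
  rw [h1] at h2
  exact ⟨α s, h2, hα s⟩

theorem char_of_norm (hf : Function.Injective f)
    (haut : ∀ α : MulAut S, ∃ σ : H, ∀ s, σ * f s * σ⁻¹ = f (α s)) {C : Subgroup S}
    (hN : normalizer (f.range : Set H) ≤ normalizer ((C.map f : Subgroup H) : Set H)) : C.Characteristic := by
  rw [characteristic_iff_map_le]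
  intro α
  obtain ⟨σ, hσ⟩ := haut α
  have hσN : σ ∈ normalizer (f.range : Set H) := by
    apply mem_normalizer_of_map_conj_le
    rintro _ ⟨_, ⟨s, rfl⟩, rfl⟩
    exact ⟨α s, (hσ s).symm⟩
  rintro _ ⟨s, hs, rfl⟩
  have h1 := (mem_normalizer_iff.1 (hN hσN) (f s)).1 ⟨s, hs, rfl⟩
  rw [hσ] at h1
  obtain ⟨t, ht, e⟩ := h1
  change α s ∈ C
  rw [← hf e]; exact ht

end

/-- a pushing up embedding of `S` -/
structure Emb (p : ℕ) (S : Type u) [Group S] where
  G : Type u
  [grp : Group G]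
  [fin : Finite G]
  ι : S →* G
  inj : Function.Injective ι
  syl : SylIn p ι.range ⊤
  q : ℕ
  K : Subgroup G
  [nK : K.Normal]
  pu : PU p q K
  char : centralizer (pCore p G : Set G) ≤ pCore p G

attribute [instance] Emb.grp Emb.fin Emb.nK

section
variable {S H : Type u} [Group S] [Finite S] [Group H] [Finite H] {p : ℕ} [Fact p.Prime] {I : Type u}
  {E : I → Emb p S} {l₀ : S →* H} {l : ∀ i, (E i).G →* H}

/-- the vertices -/
def VVs (l : ∀ i, (E i).G →* H) : Set (Subgroup H) :=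
  {Y | ∃ i, ∃ h : H, Y = (l i).range.map (MulAut.conj h).toMonoidHom}

/-- the function `X` -/
def Xf (l₀ : S →* H) (X₀ : Subgroup S) (P : Subgroup H) : Subgroup H :=
  ⨆ h ∈ {h : H | l₀.range.map (MulAut.conj h).toMonoidHom = P}, (X₀.map l₀).map (MulAut.conj h).toMonoidHom

theorem Xf_conj (X₀ : Subgroup S) (P : Subgroup H) (g : H) :
    Xf l₀ X₀ (P.map (MulAut.conj g).toMonoidHom) = (Xf l₀ X₀ P).map (MulAut.conj g).toMonoidHom := by
  apply equivariant_of_le
  intro P g
  rw [map_le_iff_le_comap]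
  unfold Xf
  apply iSup₂_le
  intro h hh
  rw [← map_le_iff_le_comap, ← map_conj_mul]
  refine le_iSup₂_of_le (g * h) ?_ le_rfl
  change l₀.range.map (MulAut.conj (g * h)).toMonoidHom = _
  rw [map_conj_mul]
  congr 1

theorem Xf_eq (hl₀ : Function.Injective l₀) {X₀ : Subgroup S} (hX : X₀.Characteristic) (h : H) :
    Xf l₀ X₀ (l₀.range.map (MulAut.conj h).toMonoidHom) = (X₀.map l₀).map (MulAut.conj h).toMonoidHom := by
  apply le_antisymm
  · unfold Xf
    apply iSup₂_le
    intro g hg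
    change l₀.range.map (MulAut.conj g).toMonoidHom = l₀.range.map (MulAut.conj h).toMonoidHom at hg
    have h1 : h⁻¹ * g ∈ normalizer (l₀.range : Set H) := by
      rw [mem_normalizer_iff_map_conj, map_conj_mul, hg, map_conj_symm']
    have h2 := norm_map_conj (norm_of_char hl₀ hX h1)
    have h3 : g = h * (h⁻¹ * g) := by group
    rw [h3, map_conj_mul, h2]
  · exact le_iSup₂_of_le h rfl le_rfl

theorem mo_amb [Nonempty I] (hl₀ : Function.Injective l₀)
    (hl : ∀ i, Function.Injective (l i)) (hll : ∀ i s, l i ((E i).ι s) = l₀ s)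
    (haut : ∀ α : MulAut S, ∃ σ : H, ∀ s, σ * l₀ s * σ⁻¹ = l₀ (α s))
    (hz : ∀ x ∈ center S, x ^ p = 1) (hcl : CLin (⊤ : Subgroup S) ⊤)
    (hbig : ∀ T : Subgroup S, (∀ A : Subgroup S, A ≤ centralizer (A : Set S) →
      mz (⊤ : Subgroup S) ≤ Nat.card A * Nat.card A → A ≤ T) → T = ⊤)
    {X₀ : Subgroup S} (hXc : X₀.Characteristic) (hXz : X₀ ≤ center S) (hXs : X₀ ≤ s0 p (⊤ : Subgroup S))
    (hXm : ∀ Y ≤ X₀, Y.Characteristic → Y ≠ ⊥ → Y = X₀)
    (hX : ∀ i, ¬ (X₀.map (E i).ι).Normal)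
    (hC : ∀ C : Subgroup S, C.Characteristic → CLin ⊤ C → ∃ i, ¬ (C.map (E i).ι).Normal) : False := by
  have hfi : ∀ h : H, Function.Injective ((MulAut.conj h).toMonoidHom.comp l₀) := fun h =>
    (MulAut.conj h).injective.comp hl₀
  have hfr : ∀ h : H, ((MulAut.conj h).toMonoidHom.comp l₀).range = l₀.range.map (MulAut.conj h).toMonoidHom :=
    fun h => MonoidHom.range_comp _ _
  have hft : ∀ h : H, l₀.range.map (MulAut.conj h).toMonoidHom =
      (⊤ : Subgroup S).map ((MulAut.conj h).toMonoidHom.comp l₀) := fun h => by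
    rw [← hfr h, MonoidHom.range_eq_map]
  have hfC : ∀ (h : H) (C : Subgroup S), C.map ((MulAut.conj h).toMonoidHom.comp l₀) =
      (C.map l₀).map (MulAut.conj h).toMonoidHom := fun h C => (map_map _ _ _).symm
  have hfaut : ∀ h : H, ∀ α : MulAut S, ∃ σ : H, ∀ s, σ * ((MulAut.conj h).toMonoidHom.comp l₀) s * σ⁻¹ =
      ((MulAut.conj h).toMonoidHom.comp l₀) (α s) := by
    intro h α
    obtain ⟨σ, hσ⟩ := haut α
    refine ⟨h * σ * h⁻¹, fun s => ?_⟩
    change h * σ * h⁻¹ * (h * l₀ s * h⁻¹) * (h * σ * h⁻¹)⁻¹ = h * l₀ (α s) * h⁻¹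
    rw [← hσ s]; group
  have hll' : ∀ i, (l i).comp (E i).ι = l₀ := fun i => MonoidHom.ext (hll i)
  have hR : ∀ i, SylIn p l₀.range (l i).range := by
    intro i
    have h1 := sylIn_map_of_injective (hl i) (E i).syl
    rwa [← MonoidHom.range_comp, hll', ← MonoidHom.range_eq_map] at h1
  have hnorm : ∀ i (C : Subgroup S), (l i).range ≤ normalizer ((C.map l₀ : Subgroup H) : Set H) ↔
      (C.map (E i).ι).Normal := by
    intro i C
    have h1 : C.map l₀ = (C.map (E i).ι).map (l i) := by rw [map_map, hll']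
    rw [h1]
    exact range_le_normalizer_map_iff (hl i)
  have hnorm' : ∀ i (C : Subgroup S) (h : H), (l i).range.map (MulAut.conj h).toMonoidHom ≤
      normalizer (((C.map l₀).map (MulAut.conj h).toMonoidHom : Subgroup H) : Set H) ↔
      (C.map (E i).ι).Normal := by
    intro i C h
    rw [normalizer_map_conj, map_le_map_iff_of_injective (MulAut.conj h).injective, hnorm]
  have hcham : ∀ G ∈ VVs l, ∀ P, SylIn p P G → ∃ (i : I) (h : H),
      G = (l i).range.map (MulAut.conj h).toMonoidHom ∧ P = l₀.range.map (MulAut.conj h).toMonoidHom := by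
    rintro _ ⟨i, h, rfl⟩ P hP
    obtain ⟨k, hk, e⟩ := ((hR i).map_conj h).conj hP
    refine ⟨i, k * h, ?_, ?_⟩
    · rw [map_conj_mul, norm_map_conj (le_normalizer hk)]
    · rw [map_conj_mul, e]
  have hCC : ∀ (h : H) (C : Subgroup H), C ≤ l₀.range.map (MulAut.conj h).toMonoidHom →
      normalizer ((l₀.range.map (MulAut.conj h).toMonoidHom : Subgroup H) : Set H) ≤ normalizer (C : Set H) →
      ∃ C' : Subgroup S, C'.Characteristic ∧ C = C'.map ((MulAut.conj h).toMonoidHom.comp l₀) := by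
    intro h C hC hN
    rw [hft] at hC
    have h1 := map_comap_le_range hC
    refine ⟨C.comap ((MulAut.conj h).toMonoidHom.comp l₀), char_of_norm (hfi h) (hfaut h) ?_, h1.symm⟩
    rw [h1, hfr]; exact hN
  have hcent : (⊤ : Subgroup S) ⊓ centralizer ((⊤ : Subgroup S) : Set S) = center S := by
    rw [coe_top, centralizer_univ, top_inf_eq]
  refine MAx.absurd (p := p) (𝒱 := VVs l) (X := Xf l₀ X₀)
    { ne := ?_, vtx := ?_, conj := ?_, tr := ?_, zp := ?_, cl := ?_, big := ?_, core := ?_, Xc := ?_, Xz := ?_,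
      Xn := ?_, Xs := ?_, Xm := ?_ }
  · obtain ⟨i⟩ := ‹Nonempty I›
    exact ⟨_, i, 1, rfl⟩
  · rintro _ ⟨i, h, rfl⟩
    exact ⟨(E i).q, (equiv_range_pu (hl i) (E i).pu (E i).char).conj h⟩
  · rintro _ ⟨i, h, rfl⟩ g
    exact ⟨i, g * h, by rw [map_conj_mul]⟩
  · rintro P P' ⟨G, hG, hP⟩ ⟨G', hG', hP'⟩
    obtain ⟨i, h, -, rfl⟩ := hcham G hG P hP
    obtain ⟨j, g, -, rfl⟩ := hcham G' hG' P' hP'
    exact ⟨g * h⁻¹, by rw [map_conj_mul, map_conj_symm']⟩
  · rintro P ⟨G, hG, hP⟩ x hx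
    obtain ⟨i, h, -, rfl⟩ := hcham G hG P hP
    rw [hft, inf_cent_map_inj (hfi h), hcent] at hx
    obtain ⟨y, hy, rfl⟩ := hx
    rw [← map_pow, hz y hy, map_one]
  · rintro P ⟨G, hG, hP⟩
    obtain ⟨i, h, -, rfl⟩ := hcham G hG P hP
    rw [hft, clin_map_inj (hfi h)]
    exact hcl
  · intro G hG P hP
    obtain ⟨i, h, hGe, hPe⟩ := hcham G hG P hP
    by_contra hcon
    push Not at hcon
    have hPf : P = (⊤ : Subgroup S).map ((MulAut.conj h).toMonoidHom.comp l₀) := by rw [hPe, hft]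
    have h1 := hbig ((pCoreOf p G).comap ((MulAut.conj h).toMonoidHom.comp l₀)) (by
      intro A hA hA2
      rw [← map_le_iff_le_comap]
      apply hcon
      · rw [hPf]; exact map_mono le_top
      · have h2 := inf_cent_map_inj (hfi h) A
        rw [inf_eq_left.2 hA] at h2
        exact inf_eq_left.1 h2
      · rw [hPf, mz_map_inj (hfi h), card_map_inj (hfi h)]; exact hA2)
    have h2 : P ≤ pCoreOf p G := by
      rw [hPf, map_le_iff_le_comap, h1]
    have hv : Vtx p (E i).q G := by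
      rw [hGe]
      exact (equiv_range_pu (hl i) (E i).pu (E i).char).conj h
    have h3 := hv.card hP
    have h4 := Subgroup.card_le_of_le h2
    have h5 := hv.one_lt
    have h6 : 0 < Nat.card (pCoreOf p G) := Nat.card_pos
    rw [h3] at h4
    nlinarith
  · rintro P ⟨G, hG, hP⟩ C hCP hN
    obtain ⟨i, h, -, rfl⟩ := hcham G hG P hP
    obtain ⟨C', hC', rfl⟩ := hCC h C hCP.1 hN
    rw [hft, clin_map_inj (hfi h)] at hCP
    obtain ⟨j, hj⟩ := hC C' hC' hCP
    refine ⟨(l j).range.map (MulAut.conj h).toMonoidHom, ⟨j, h, rfl⟩, (hR j).map_conj h, ?_⟩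
    rw [hfC, hnorm']
    exact hj
  · intro P h
    exact Xf_conj X₀ P h
  · rintro P ⟨G, hG, hP⟩
    obtain ⟨i, h, -, rfl⟩ := hcham G hG P hP
    rw [Xf_eq hl₀ hXc, ← hfC, hft, inf_cent_map_inj (hfi h), hcent]
    exact map_mono hXz
  · intro G hG P hP
    obtain ⟨i, h, rfl, rfl⟩ := hcham G hG P hP
    rw [Xf_eq hl₀ hXc, hnorm']
    exact hX i
  · rintro P ⟨G, hG, hP⟩
    obtain ⟨i, h, -, rfl⟩ := hcham G hG P hP
    rw [Xf_eq hl₀ hXc, ← hfC, hft, s0_map_inj (hfi h)]
    exact map_mono hXs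
  · rintro P ⟨G, hG, hP⟩ Y hY hY1 hN
    obtain ⟨i, h, -, rfl⟩ := hcham G hG P hP
    rw [Xf_eq hl₀ hXc, ← hfC] at hY ⊢
    obtain ⟨Y', hY', rfl⟩ := hCC h Y (hY.trans (by rw [hft]; exact map_mono le_top)) hN
    congr 1
    apply hXm Y' ((map_le_map_iff_of_injective (hfi h)).1 hY) hY'
    rintro rfl
    exact hY1 (Subgroup.map_bot _)

end

section
variable {S Γ : Type*} [Group S] [Group Γ] [Finite Γ]

/-- two free actions of `S` on `Γ` are equivalent -/
theorem exists_perm_two (i j : S →* Γ) (hi : Function.Injective i) (hj : Function.Injective j) :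
    ∃ σ : Equiv.Perm Γ, ∀ s : S, σ * reg Γ (i s) * σ⁻¹ = reg Γ (j s) := by
  haveI : Finite S := Finite.of_injective i hi
  obtain ⟨T, hT, -⟩ := i.range.exists_isComplement_right 1
  obtain ⟨T', hT', -⟩ := j.range.exists_isComplement_right 1
  let ei : S ≃* i.range := MonoidHom.ofInjective hi
  let ej : S ≃* j.range := MonoidHom.ofInjective hj
  have hc : Nat.card T = Nat.card T' := by
    have h1 := Nat.card_congr hT.equiv
    have h2 := Nat.card_congr hT'.equiv
    rw [Nat.card_prod] at h1 h2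
    have h3 : Nat.card (i.range : Set Γ) = Nat.card (j.range : Set Γ) :=
      Nat.card_congr (ei.symm.trans ej).toEquiv
    rw [h1, h3] at h2
    have h4 : 0 < Nat.card (j.range : Set Γ) := Nat.card_pos
    exact Nat.eq_of_mul_eq_mul_left h4 h2
  haveI : Finite T := Finite.of_injective _ Subtype.val_injective
  haveI : Finite T' := Finite.of_injective _ Subtype.val_injective
  let eT : T ≃ T' := (Finite.equivFinOfCardEq hc).trans (Finite.equivFin T').symm
  let σ : Equiv.Perm Γ := hT.equiv.trans ((Equiv.prodCongr (ei.symm.trans ej).toEquiv eT).trans hT'.equiv.symm)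
  have key : ∀ (s : S) (x : Γ), σ (i s * x) = j s * σ x := by
    intro s x
    have e1 : i s = ((ei s : i.range) : Γ) := rfl
    change hT'.equiv.symm ((ei.symm.trans ej) (hT.equiv (i s * x)).1, eT (hT.equiv (i s * x)).2) =
      j s * hT'.equiv.symm ((ei.symm.trans ej) (hT.equiv x).1, eT (hT.equiv x).2)
    rw [e1, hT.equiv_mul_left, hT'.equiv_symm_apply, hT'.equiv_symm_apply]
    have e2 : (((ei.symm.trans ej) (ei s) : j.range) : Γ) = j s := by
      change ((ej (ei.symm (ei s)) : j.range) : Γ) = j s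
      rw [MulEquiv.symm_apply_apply]
      rfl
    have e3 : (((ei.symm.trans ej) (ei s * (hT.equiv x).1) : j.range) : Γ) =
        j s * (((ei.symm.trans ej) (hT.equiv x).1 : j.range) : Γ) := by
      rw [map_mul, Subgroup.coe_mul, e2]
    calc _ = (((ei.symm.trans ej) (ei s * (hT.equiv x).1) : j.range) : Γ) * (eT (hT.equiv x).2 : Γ) := rfl
      _ = j s * (((ei.symm.trans ej) (hT.equiv x).1 : j.range) : Γ) * (eT (hT.equiv x).2 : Γ) := by rw [e3]
      _ = _ := mul_assoc _ _ _
  refine ⟨σ, fun s => ?_⟩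
  rw [mul_inv_eq_iff_eq_mul]
  ext x
  exact key s x

end

/-- the multi-orbit theorem for `S` -/
theorem mo_main {p : ℕ} [Fact p.Prime] {S : Type u} [Group S] [Finite S]
    (hz : ∀ x ∈ center S, x ^ p = 1) (hcl : CLin (⊤ : Subgroup S) ⊤)
    (hbig : ∀ T : Subgroup S, (∀ A : Subgroup S, A ≤ centralizer (A : Set S) →
      mz (⊤ : Subgroup S) ≤ Nat.card A * Nat.card A → A ≤ T) → T = ⊤)
    {X₀ : Subgroup S} (hXc : X₀.Characteristic) (hXz : X₀ ≤ center S) (hXs : X₀ ≤ s0 p (⊤ : Subgroup S))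
    (hXm : ∀ Y ≤ X₀, Y.Characteristic → Y ≠ ⊥ → Y = X₀) :
    ∃ C : Subgroup S, C.Characteristic ∧ CLin ⊤ C ∧
      ∀ E : Emb p S, (X₀.map E.ι).Normal ∨ (C.map E.ι).Normal := by
  classical
  by_contra hcon
  push Not at hcon
  let I : Type u := {C : Subgroup S // C.Characteristic ∧ CLin ⊤ C}
  have hex : ∀ C : I, ∃ E : Emb p S, ¬ (X₀.map E.ι).Normal ∧ ¬ (C.1.map E.ι).Normal :=
    fun C => hcon C.1 C.2.1 C.2.2
  choose E hE1 hE2 using hex
  let C₀ : I := ⟨⊤, inferInstance, hcl⟩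
  haveI : Nonempty I := ⟨C₀⟩
  let Γ : Type u := ∀ C : I, (E C).G
  let i : ∀ C : I, S →* Γ := fun C => (MonoidHom.mulSingle (fun C => (E C).G) C).comp (E C).ι
  have hinj : ∀ C : I, Function.Injective (MonoidHom.mulSingle (fun C => (E C).G) C) := by
    intro C x y h
    rw [MonoidHom.mulSingle_apply, MonoidHom.mulSingle_apply] at h
    exact Pi.mulSingle_injective (M := fun C => (E C).G) C h
  have hi : ∀ C, Function.Injective (i C) := fun C => (hinj C).comp (E C).inj
  have hσ : ∀ C, ∃ σ : Equiv.Perm Γ, ∀ s : S, σ * reg Γ (i C s) * σ⁻¹ = reg Γ (i C₀ s) := fun C =>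
    exists_perm_two (i C) (i C₀) (hi C) (hi C₀)
  choose σ hσ using hσ
  refine mo_amb (S := S) (H := Equiv.Perm Γ) (I := I) (E := E) (l₀ := (reg Γ).comp (i C₀))
    (l := fun C => (MulAut.conj (σ C)).toMonoidHom.comp ((reg Γ).comp (MonoidHom.mulSingle (fun C => (E C).G) C)))
    (reg_injective.comp (hi C₀)) (fun C => (MulAut.conj (σ C)).injective.comp (reg_injective.comp (hinj C)))
    (fun C s => hσ C s) ?_ hz hcl hbig hXc hXz hXs hXm hE1 (fun C h1 h2 => ⟨⟨C, h1, h2⟩, hE2 _⟩)
  intro α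
  obtain ⟨τ, hτ⟩ := exists_perm_two (i C₀) ((i C₀).comp α.toMonoidHom) (hi C₀) ((hi C₀).comp α.injective)
  exact ⟨τ, hτ⟩

end Cfsg.Agent.H47
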