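import Cfsg.Agent.H47.PUCL
import Cfsg.Agent.H47.FrP

set_option autoImplicit false
set_option linter.unusedSectionVars false
set_option linter.style.haveILetI false
open Cfsg Subgroup
open scoped commutatorElement

namespace Cfsg.Agent.H47

variable {G : Type*} [Group G] [Finite G] {p q : ℕ} [Fact p.Prime] {K : Subgroup G} [K.Normal]

theorem fm_key (h : PU p q K) (hE : centralizer (pCore p G : Set G) ≤ pCore p G) {S : Subgroup G}
    (hS : SylIn p S ⊤) (hZ : ¬ (ZC S).Normal) {R : Subgroup G} (hR : FM p S R) :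
    ∃ X, FM p S X ∧ X ≤ pCore p G ∧ Fr X = Fr R := by
  haveI := pCore_normal p G
  by_cases hRT : R ≤ pCore p G
  · exact ⟨R, hR, hRT, rfl⟩
  have hTS := pCore_le_sylIn hS
  set V := normalClosure (ZC S : Set G) with hV
  have hZV : ZC S ≤ V := subset_normalClosure
  have h1 : V ≤ pCore p G ⊓ centralizer (pCore p G : Set G) := by
    rw [hV]
    exact normalClosure_le_normal (ZC_le hE hS)
  have hVT := h1.trans inf_le_left
  have hVc := h1.trans inf_le_right
  have hVV : V ≤ centralizer (V : Set G) := hVc.trans (centralizer_le hVT)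
  have hVp : IsPGroup p V := hS.isPGroup.to_le (hVT.trans hTS)
  set U := omegaOne p V with hU
  have hUV : U ≤ V := omegaOne_le p V
  haveI hUn : U.Normal := by
    rw [← normalizer_eq_top_iff, eq_top_iff]
    exact le_normalizer_omegaOne (by rw [normalizer_eq_top])
  have hker : centralizer (U : Set G) ⊔ S ≠ ⊤ := by
    intro h3
    exact hZ (normal_of_le_center (ZC_central_of_sup hZV (centralizer_omegaOne_sup hS hVp hVV h3)))
  obtain ⟨hN, hsup, hZrT, hX, hXc, hUR, hRc, hZrc⟩ :=
    mcl_key h hS (hUV.trans hVT) (hUV.trans hVc) hker hR.1 hRT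
  set X := U ⊔ (R ⊓ pCore p G) with hXdef
  have hUT := hUV.trans hVT
  have hXT : X ≤ pCore p G := sup_le hUT inf_le_right
  have hXM : MCLin S X := by
    obtain ⟨Q₀, hQ₀X, hQ₀⟩ := hX.exists_min
    have h2 : Q₀ = X := eq_of_le_of_card_ge hQ₀X (by rw [hXc, hQ₀.card_eq hR.1])
    rwa [h2] at hQ₀
  set Z := omegaOneCenter p R with hZdef
  have hZR : Z ≤ R := fun x hx => (mem_omegaOneCenter.1 hx).1
  have hZC : Z ≤ centralizer (R : Set G) := fun x hx => (mem_omegaOneCenter.1 hx).2.1
  have hUp : ∀ u ∈ U, u ^ p = 1 := fun u hu => ((mem_omegaOne_iff hVV).1 hu).2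
  have hUc : U ≤ centralizer (pCore p G : Set G) := hUV.trans hVc
  -- the intersection
  have hint : U ⊓ (Z ⊓ pCore p G) = U ⊓ centralizer (S : Set G) := by
    apply le_antisymm
    · rw [← hUR]
      exact inf_le_inf_left _ (inf_le_left.trans hZR)
    · intro u hu
      have hu1 : u ∈ U ⊓ R := by rw [hUR]; exact hu
      exact ⟨hu.1, mem_omegaOneCenter.2 ⟨hu1.2, centralizer_le hR.1.1.1 hu.2, hUp u hu.1⟩, hUT hu.1⟩
  have hn : U ≤ normalizer ((Z ⊓ pCore p G : Subgroup G) : Set G) := by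
    have hn1 : centralizer (pCore p G : Set G) ≤ centralizer ((Z ⊓ pCore p G : Subgroup G) : Set G) :=
      centralizer_le inf_le_right
    exact (hUc.trans hn1).trans (centralizer_le_normalizer _)
  have e1 := card_sup_mul_card_inf hn
  rw [hint, hN.card_U S hS] at e1
  have pc : 0 < Nat.card (U ⊓ centralizer (S : Set G) : Subgroup G) := Nat.card_pos
  have e2 : Nat.card (U ⊔ (Z ⊓ pCore p G) : Subgroup G) = q * Nat.card (Z ⊓ pCore p G : Subgroup G) := by
    apply Nat.eq_of_mul_eq_mul_right pc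
    rw [e1]; ring
  have hle : U ⊔ (Z ⊓ pCore p G) ≤ omegaOneCenter p X := by
    have hUX : U ≤ centralizer (X : Set G) := hUc.trans (centralizer_le hXT)
    have hZX : Z ⊓ pCore p G ≤ centralizer (X : Set G) := by
      rw [le_centralizer_iff]
      apply sup_le
      · exact hUc.trans (centralizer_le inf_le_right)
      · rw [le_centralizer_iff]
        exact (inf_le_left.trans hZC).trans (centralizer_le inf_le_left)
    apply sup_le
    · intro u hu
      exact mem_omegaOneCenter.2 ⟨(le_sup_left : U ≤ X) hu, hUX hu, hUp u hu⟩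
    · intro z hz
      exact mem_omegaOneCenter.2 ⟨(le_sup_right : R ⊓ pCore p G ≤ X) ⟨hZR hz.1, hz.2⟩, hZX hz,
        (mem_omegaOneCenter.1 hz.1).2.2⟩
  have hle2 := Subgroup.card_le_of_le hle
  rw [e2] at hle2
  have hle3 := hR.2 X hXM
  have hle4 := h.card_le hS (hZR.trans hR.1.1.1)
  have hZcard : Nat.card Z = q * Nat.card (Z ⊓ pCore p G : Subgroup G) :=
    le_antisymm hle4 (hle2.trans hle3)
  refine ⟨X, ⟨hXM, fun R' hR' => (hR.2 R' hR').trans ?_⟩, hXT, ?_⟩
  · rw [← hZdef, hZcard]; exact hle2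
  · -- Frattini
    have hsup2 : (R ⊓ pCore p G) ⊔ Z = R := by
      have hn2 : Z ≤ normalizer ((R ⊓ pCore p G : Subgroup G) : Set G) := by
        have hn1 : centralizer (R : Set G) ≤ centralizer ((R ⊓ pCore p G : Subgroup G) : Set G) :=
          centralizer_le inf_le_left
        exact (hZC.trans hn1).trans (centralizer_le_normalizer _)
      have e3 := card_sup_mul_card_inf hn2
      have h4 : Z ⊓ (R ⊓ pCore p G) = Z ⊓ pCore p G := by
        rw [← inf_assoc, inf_eq_left.2 hZR]
      rw [h4, hZcard] at e3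
      rw [sup_comm]
      apply eq_of_le_of_card_ge (sup_le hZR inf_le_left)
      have pz : 0 < Nat.card (Z ⊓ pCore p G : Subgroup G) := Nat.card_pos
      apply Nat.le_of_mul_le_mul_right _ pz
      rw [e3, hRc]
      exact le_of_eq (by ring)
    have hRp : IsPGroup p R := hS.isPGroup.to_le hR.1.1.1
    rw [Fr_eq_sup hRp hsup2 hZC (fun e he => (mem_omegaOneCenter.1 he).2.2)]
    apply Fr_eq_sup (hS.isPGroup.to_le hX.1) (E := U)
    · rw [hXdef, sup_comm]
    · exact hUc.trans (centralizer_le hXT)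
    · exact hUp

theorem frattini_case (h : PU p q K) (hE : centralizer (pCore p G : Set G) ≤ pCore p G) {S : Subgroup G}
    (hS : SylIn p S ⊤) : (ZC S).Normal ∨ (SF p S).Normal := by
  by_cases hZ : (ZC S).Normal
  · exact Or.inl hZ
  right
  have hTS := pCore_le_sylIn hS
  obtain ⟨R₀, hR₀⟩ := exists_FM (p := p) S
  obtain ⟨X₀, hX₀, hX₀T, -⟩ := fm_key h hE hS hZ hR₀
  have h1 : SF p S = SF p (pCore p G) := by
    apply le_antisymm
    · rw [SF_le_iff]
      intro R hR
      obtain ⟨X, hX, hXT, hXR⟩ := fm_key h hE hS hZ hR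
      rw [← hXR]
      apply FM.le_SF
      refine ⟨hX.1.of_le hXT hTS, fun R' hR' => hX.2 R' (MCLin.up hX.1.1 hXT hTS hR')⟩
    · rw [SF_le_iff]
      intro R hR
      apply FM.le_SF
      refine ⟨MCLin.up hX₀.1.1 hX₀T hTS hR.1, fun R' hR' => (hX₀.2 R' hR').trans ?_⟩
      exact hR.2 X₀ (hX₀.1.of_le hX₀T hTS)
  rw [h1]
  exact SF_normal (pCore_normal p G)

end Cfsg.Agent.H47
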