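import Cfsg.Agent.H47.MO14
import Cfsg.Agent.H47.PUFr
import Cfsg.Agent.H47.BauApp
import Cfsg.Agent.Solv.MinNormal

set_option autoImplicit false
set_option linter.unusedSectionVars false
set_option linter.style.haveILetI false
open Cfsg Subgroup
open scoped commutatorElement

namespace Cfsg.Agent.H47

universe u

section
variable {A B : Type*} [Group A] [Group B] {f : A →* B} {p : ℕ}

theorem inf_cent_map_inj' (hf : Function.Injective f) (S R : Subgroup A) :
    S.map f ⊓ centralizer ((R.map f : Subgroup B) : Set B) = (S ⊓ centralizer (R : Set A)).map f := by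
  apply le_antisymm
  · rintro _ ⟨⟨x, hx, rfl⟩, hx2⟩
    refine ⟨x, ⟨hx, ?_⟩, rfl⟩
    change x ∈ centralizer (R : Set A)
    rw [mem_centralizer_iff]
    intro y hy
    apply hf
    rw [map_mul, map_mul]
    exact mem_centralizer_iff.1 hx2 (f y) ⟨y, hy, rfl⟩
  · rintro _ ⟨x, ⟨hx, hx2⟩, rfl⟩
    refine ⟨⟨x, hx, rfl⟩, ?_⟩
    change f x ∈ centralizer ((R.map f : Subgroup B) : Set B)
    rw [mem_centralizer_iff]
    rintro _ ⟨y, hy, rfl⟩
    rw [← map_mul, ← map_mul, mem_centralizer_iff.1 hx2 y hy]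

theorem comm_map_inj (hf : Function.Injective f) {R : Subgroup A} :
    R.map f ≤ centralizer ((R.map f : Subgroup B) : Set B) ↔ R ≤ centralizer (R : Set A) := by
  have h1 := inf_cent_map_inj hf R
  constructor
  · intro h
    rw [inf_eq_left.2 h] at h1
    exact inf_eq_left.1 (map_injective hf h1.symm)
  · intro h
    rw [inf_eq_left.2 h] at h1
    exact inf_eq_left.1 h1

theorem isMA_map_inj (hf : Function.Injective f) {S R : Subgroup A} : IsMA (S.map f) (R.map f) ↔ IsMA S R := by
  constructor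
  · rintro ⟨h1, h2, h3⟩
    refine ⟨(map_le_map_iff_of_injective hf).1 h1, (comm_map_inj hf).1 h2, fun B hB hB2 => ?_⟩
    have := h3 (B.map f) (map_mono hB) ((comm_map_inj hf).2 hB2)
    rwa [card_map_inj hf, card_map_inj hf] at this
  · rintro ⟨h1, h2, h3⟩
    refine ⟨map_mono h1, (comm_map_inj hf).2 h2, fun B hB hB2 => ?_⟩
    have e := map_comap_le_range hB
    rw [← e] at hB hB2 ⊢
    rw [card_map_inj hf, card_map_inj hf]
    exact h3 _ ((map_le_map_iff_of_injective hf).1 hB) ((comm_map_inj hf).1 hB2)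

theorem JJ_map_inj (hf : Function.Injective f) (S : Subgroup A) : JJ (S.map f) = (JJ S).map f := by
  apply le_antisymm
  · rw [JJ_le_iff]
    intro R hR
    have e := map_comap_le_range hR.1
    rw [← e] at hR ⊢
    exact map_mono ((isMA_map_inj hf).1 hR).le_JJ
  · rw [map_le_iff_le_comap, JJ_le_iff]
    intro R hR
    rw [← map_le_iff_le_comap]
    exact ((isMA_map_inj hf).2 hR).le_JJ

theorem ZZ_map_inj (hf : Function.Injective f) (S : Subgroup A) : ZZ (S.map f) = (ZZ S).map f := by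
  unfold ZZ
  rw [JJ_map_inj hf, inf_cent_map_inj hf]

theorem mclin_map_inj (hf : Function.Injective f) {S R : Subgroup A} : MCLin (S.map f) (R.map f) ↔ MCLin S R := by
  constructor
  · rintro ⟨h1, h2⟩
    exact ⟨(clin_map_inj hf).1 h1, fun R' hR' hR'2 =>
      map_injective hf (h2 _ (map_mono hR') ((clin_map_inj hf).2 hR'2))⟩
  · rintro ⟨h1, h2⟩
    refine ⟨(clin_map_inj hf).2 h1, fun R' hR' hR'2 => ?_⟩
    have e := map_comap_le_range hR'2.1
    rw [← e] at hR' hR'2 ⊢
    rw [h2 _ ((map_le_map_iff_of_injective hf).1 hR') ((clin_map_inj hf).1 hR'2)]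

theorem SM_map_inj (hf : Function.Injective f) (S : Subgroup A) : SM (S.map f) = (SM S).map f := by
  apply le_antisymm
  · rw [SM_le_iff]
    intro R hR
    have e := map_comap_le_range hR.1.1
    rw [← e] at hR ⊢
    exact map_mono ((mclin_map_inj hf).1 hR).le_SM
  · rw [map_le_iff_le_comap, SM_le_iff]
    intro R hR
    rw [← map_le_iff_le_comap]
    exact ((mclin_map_inj hf).2 hR).le_SM

theorem omegaOneCenter_map_inj (hf : Function.Injective f) (Q : Subgroup A) :
    omegaOneCenter p (Q.map f) = (omegaOneCenter p Q).map f := by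
  unfold omegaOneCenter
  rw [inf_cent_map_inj hf, omegaOne_map_injective f hf]

theorem fm_map_inj (hf : Function.Injective f) {S R : Subgroup A} : FM p (S.map f) (R.map f) ↔ FM p S R := by
  constructor
  · rintro ⟨h1, h2⟩
    refine ⟨(mclin_map_inj hf).1 h1, fun R' hR' => ?_⟩
    have := h2 _ ((mclin_map_inj hf).2 hR')
    rwa [omegaOneCenter_map_inj hf, omegaOneCenter_map_inj hf, card_map_inj hf, card_map_inj hf] at this
  · rintro ⟨h1, h2⟩
    refine ⟨(mclin_map_inj hf).2 h1, fun R' hR' => ?_⟩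
    have e := map_comap_le_range hR'.1.1
    rw [← e] at hR' ⊢
    rw [omegaOneCenter_map_inj hf, omegaOneCenter_map_inj hf, card_map_inj hf, card_map_inj hf]
    exact h2 _ ((mclin_map_inj hf).1 hR')

theorem SF_map_inj (hf : Function.Injective f) (S : Subgroup A) : SF p (S.map f) = (SF p S).map f := by
  apply le_antisymm
  · rw [SF_le_iff]
    intro R hR
    have e := map_comap_le_range hR.1.1.1
    rw [← e] at hR ⊢
    rw [← Fr_map_injective f hf]
    exact map_mono ((fm_map_inj hf).1 hR).le_SF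
  · rw [map_le_iff_le_comap, SF_le_iff]
    intro R hR
    rw [← map_le_iff_le_comap, Fr_map_injective f hf]
    exact ((fm_map_inj hf).2 hR).le_SF

end

section
variable {S : Type u} [Group S] {p : ℕ}

theorem top_map_equiv (α : S ≃* S) : (⊤ : Subgroup S).map α.toMonoidHom = ⊤ := by
  rw [← MonoidHom.range_eq_map]; exact MonoidHom.range_eq_top.2 α.surjective

/-- `C_S(Z(J(S)))` -/
abbrev Jt (S : Type u) [Group S] : Subgroup S := centralizer (ZZ (⊤ : Subgroup S) : Set S)

theorem JJ_top : JJ (⊤ : Subgroup S) = thompsonSubgroupA S := by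
  unfold JJ thompsonSubgroupA
  congr 1
  ext A
  constructor
  · rintro ⟨-, h1, h2⟩
    exact ⟨isMulCommutative_iff_le.2 h1, fun B hB => h2 B le_top (isMulCommutative_iff_le.1 hB)⟩
  · rintro ⟨h1, h2⟩
    exact ⟨le_top, isMulCommutative_iff_le.1 h1, fun B _ hB => h2 B (isMulCommutative_iff_le.2 hB)⟩

theorem Jt_eq : Jt S = centralizer ((thompsonSubgroupA S ⊓ centralizer (thompsonSubgroupA S : Set S) :
    Subgroup S) : Set S) := by
  unfold Jt ZZ
  rw [JJ_top]

theorem ZZ_char : (ZZ (⊤ : Subgroup S)).Characteristic := by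
  rw [characteristic_iff_map_eq]
  intro α
  conv_rhs => rw [← top_map_equiv α]
  exact (ZZ_map_inj α.injective _).symm

theorem centralizer_char {N : Subgroup S} (h : N.Characteristic) : (centralizer (N : Set S)).Characteristic := by
  rw [characteristic_iff_map_eq]
  intro α
  have h1 := inf_cent_map_inj' (f := α.toMonoidHom) α.injective ⊤ N
  rw [characteristic_iff_map_eq.1 h α, top_map_equiv] at h1
  simp only [top_inf_eq] at h1
  exact h1.symm

theorem Jt_char : (Jt S).Characteristic := centralizer_char ZZ_char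

theorem SM_char : (SM (⊤ : Subgroup S)).Characteristic := by
  rw [characteristic_iff_map_eq]
  intro α
  conv_rhs => rw [← top_map_equiv α]
  exact (SM_map_inj α.injective _).symm

theorem SF_char : (SF p (⊤ : Subgroup S)).Characteristic := by
  rw [characteristic_iff_map_eq]
  intro α
  conv_rhs => rw [← top_map_equiv α]
  exact (SF_map_inj α.injective _).symm

theorem s0_char : (s0 p (⊤ : Subgroup S)).Characteristic := by
  rw [characteristic_iff_map_eq]
  intro α
  conv_rhs => rw [← top_map_equiv α]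
  exact (s0_map_inj α.injective _).symm

theorem powerClosure_char {N : Subgroup S} (h : N.Characteristic) : (powerClosure p 1 N).Characteristic := by
  rw [characteristic_iff_map_eq]
  intro α
  rw [powerClosure_map_hom, characteristic_iff_map_eq.1 h α]

theorem commutator_char {N M : Subgroup S} (h : N.Characteristic) (h' : M.Characteristic) :
    (⁅N, M⁆ : Subgroup S).Characteristic := by
  rw [characteristic_iff_map_eq]
  intro α
  rw [map_commutator, characteristic_iff_map_eq.1 h α, characteristic_iff_map_eq.1 h' α]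

theorem inf_char {N M : Subgroup S} (h : N.Characteristic) (h' : M.Characteristic) :
    (N ⊓ M).Characteristic := by
  rw [characteristic_iff_map_eq]
  intro α
  rw [map_inf _ _ _ α.injective, characteristic_iff_map_eq.1 h α, characteristic_iff_map_eq.1 h' α]

theorem subgroupOf_top_char {N T : Subgroup S} (h : N.Characteristic) (hT : T = ⊤) :
    (N.subgroupOf T).Characteristic := by
  subst hT
  rw [characteristic_iff_map_le]
  intro α
  let β : S ≃* S := (topEquiv.symm.trans (α.trans topEquiv))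
  have h1 := characteristic_iff_map_le.1 h β
  rintro _ ⟨x, hx, rfl⟩
  exact h1 ⟨x, hx, rfl⟩

theorem subgroupOf_self_char {N : Subgroup S} : (N.subgroupOf N).Characteristic := by
  rw [subgroupOf_self]; infer_instance

variable [Finite S]

theorem clin_top_iff {R : Subgroup S} : CLin ⊤ R ↔ IsCentrallyLarge R := by
  rw [H50.CD.isCentrallyLarge_iff]
  exact ⟨fun h R' => h.2 R' le_top, fun h => ⟨le_top, fun R' _ => h R'⟩⟩

theorem mclin_top_iff {R : Subgroup S} : MCLin ⊤ R ↔ IsMinimalCentrallyLarge R := by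
  constructor
  · rintro ⟨h1, h2⟩
    exact ⟨clin_top_iff.1 h1, fun R' h3 h4 => h2 R' h3 (clin_top_iff.2 h4)⟩
  · rintro ⟨h1, h2⟩
    exact ⟨clin_top_iff.2 h1, fun R' h3 h4 => h2 R' h3 (clin_top_iff.1 h4)⟩

theorem maxCentralProduct_eq {T C : Subgroup S} (h : CLin T C) : maxCentralProduct ↥T = mz C := by
  have h1 := h.isCL
  unfold IsCentrallyLarge at h1
  rw [← h1, H50.CD.card_center_eq]
  change mz (C.subgroupOf T) = mz C
  rw [← mz_map, map_subgroupOf_eq h.1]

/-- a good pair -/
structure Pair (p : ℕ) (S : Type u) [Group S] (S₁ S₂ : Subgroup S) : Prop where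
  n1 : S₁ ≠ ⊥
  n2 : S₂ ≠ ⊥
  c1 : S₁.Characteristic
  c2 : S₂.Characteristic
  z : S₁ ≤ center S
  j : S₂ ≤ Jt S
  c3 : (S₂.subgroupOf (Jt S)).Characteristic
  nor : ∀ E : Emb p S, (S₁.map E.ι).Normal ∨ (S₂.map E.ι).Normal

theorem ZC_top : ZC (⊤ : Subgroup S) = center S := by
  unfold ZC
  rw [coe_top, centralizer_univ, top_inf_eq]

theorem center_le_Jt : center S ≤ Jt S := Subgroup.center_le_centralizer _

variable [Fact p.Prime]

theorem center_top_ne [Nontrivial S] (hS : IsPGroup p S) : center S ≠ ⊥ := by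
  have := hS.center_nontrivial
  exact (Subgroup.nontrivial_iff_ne_bot _).1 this

theorem inf_center_ne (hS : IsPGroup p S) {N : Subgroup S} (hN : N.Characteristic) (h : N ≠ ⊥) :
    N ⊓ center S ≠ ⊥ := by
  haveI := hS.isNilpotent
  haveI : N.Normal := by haveI := hN; infer_instance
  exact Solv.inf_center_ne_bot_of_nilpotent N h

/-- abelian groups have no pushing up embeddings -/
theorem Emb.not_comm (E : Emb p S) (h : IsMulCommutative S) : False := by
  obtain ⟨x, hx, hxT⟩ := E.pu.exists_not_mem E.syl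
  apply hxT
  apply E.char
  rw [mem_centralizer_iff]
  intro y hy
  obtain ⟨a, rfl⟩ := hx
  obtain ⟨b, rfl⟩ := pCore_le_sylIn E.syl hy
  rw [← map_mul, ← map_mul, h.is_comm.comm]

theorem pair_comm [Nontrivial S] (h : IsMulCommutative S) : Pair p S ⊤ ⊤ := by
  have hc : center S = ⊤ := by
    rw [eq_top_iff]
    intro x _
    rw [mem_center_iff]
    intro y
    exact h.is_comm.comm y x
  have hJ : Jt S = ⊤ := by
    rw [eq_top_iff, ← hc]
    exact center_le_Jt
  exact ⟨top_ne_bot, top_ne_bot, inferInstance, inferInstance, by rw [hc], by rw [hJ],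
    subgroupOf_top_char inferInstance hJ, fun E => (E.not_comm h).elim⟩

theorem pair_ZJ [Nontrivial S] (hS : IsPGroup p S) (h : ⁅ZZ (⊤ : Subgroup S), (⊤ : Subgroup S)⁆ ≠ ⊥) :
    Pair p S (⁅ZZ (⊤ : Subgroup S), (⊤ : Subgroup S)⁆ ⊓ center S) (Jt S) := by
  have h1 : (⁅ZZ (⊤ : Subgroup S), (⊤ : Subgroup S)⁆).Characteristic := commutator_char ZZ_char inferInstance
  refine ⟨inf_center_ne hS h1 h, fun h2 => center_top_ne hS ?_, inf_char h1 inferInstance, Jt_char,
    inf_le_right, le_rfl, subgroupOf_self_char, fun E => ?_⟩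
  · rw [eq_bot_iff, ← h2]; exact center_le_Jt
  · have h3 := comm_case E.pu E.char E.syl
    have e1 : E.ι.range = (⊤ : Subgroup S).map E.ι := MonoidHom.range_eq_map _
    have e2 : ZC ((⊤ : Subgroup S).map E.ι) = (center S).map E.ι := by
      rw [← ZC_top]; exact inf_cent_map_inj E.inj _
    rw [e1, e2, ZZ_map_inj E.inj, ← map_commutator, ← map_inf _ _ _ E.inj, inf_cent_map_inj' E.inj,
      top_inf_eq] at h3
    exact h3

theorem Jt_top (h : ⁅ZZ (⊤ : Subgroup S), (⊤ : Subgroup S)⁆ = ⊥) : Jt S = ⊤ := by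
  rw [eq_top_iff, Jt, le_centralizer_iff]
  exact commutator_eq_bot_iff_le_centralizer.1 h

theorem pair_agemo [Nontrivial S] (hZ : ⁅ZZ (⊤ : Subgroup S), (⊤ : Subgroup S)⁆ = ⊥)
    (h : ∃ x ∈ center S, x ^ p ≠ 1) : Pair p S (powerClosure p 1 (center S)) ⊤ := by
  have hJ := Jt_top hZ
  refine ⟨?_, top_ne_bot, powerClosure_char inferInstance, inferInstance, powerClosure_le, by rw [hJ],
    subgroupOf_top_char inferInstance hJ, fun E => ?_⟩
  · intro h2
    obtain ⟨x, hx, hx2⟩ := h
    apply hx2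
    have h3 : x ^ p ∈ powerClosure p 1 (center S) := Subgroup.subset_closure ⟨x, hx, by rw [pow_one]⟩
    rwa [h2, mem_bot] at h3
  · have h3 := agemo_case E.pu E.char E.syl
    have e1 : E.ι.range = (⊤ : Subgroup S).map E.ι := MonoidHom.range_eq_map _
    have e2 : ZC ((⊤ : Subgroup S).map E.ι) = (center S).map E.ι := by
      rw [← ZC_top]; exact inf_cent_map_inj E.inj _
    rw [e1, e2, ZZ_map_inj E.inj, inf_cent_map_inj' E.inj, top_inf_eq, ← powerClosure_map_hom] at h3
    change _ ∨ ((Jt S).map E.ι).Normal at h3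
    rwa [hJ] at h3

theorem pair_frattini [Nontrivial S] (hS : IsPGroup p S) (hZ : ⁅ZZ (⊤ : Subgroup S), (⊤ : Subgroup S)⁆ = ⊥)
    (h : SF p (⊤ : Subgroup S) ≠ ⊥) : Pair p S (center S) (SF p (⊤ : Subgroup S)) := by
  have hJ := Jt_top hZ
  refine ⟨center_top_ne hS, h, inferInstance, SF_char, le_rfl, by rw [hJ]; exact le_top,
    subgroupOf_top_char SF_char hJ, fun E => ?_⟩
  have h3 := frattini_case E.pu E.char E.syl
  have e1 : E.ι.range = (⊤ : Subgroup S).map E.ι := MonoidHom.range_eq_map _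
  have e2 : ZC ((⊤ : Subgroup S).map E.ι) = (center S).map E.ι := by
    rw [← ZC_top]; exact inf_cent_map_inj E.inj _
  rw [e1, e2, SF_map_inj E.inj] at h3
  exact h3

theorem pair_mcl [Nontrivial S] (hS : IsPGroup p S) (hZ : ⁅ZZ (⊤ : Subgroup S), (⊤ : Subgroup S)⁆ = ⊥)
    {Q : Subgroup S} (hQ : MCLin ⊤ Q) (h : ⁅Q, Q⁆ ≠ ⊥) : Pair p S (⁅Q, Q⁆ ⊓ center S) (SM (⊤ : Subgroup S)) := by
  have hJ := Jt_top hZ
  have hQc : (⁅Q, Q⁆).Characteristic := by
    rw [characteristic_iff_map_eq]
    intro α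
    rw [map_commutator]
    have h1 : MCLin ((⊤ : Subgroup S).map α.toMonoidHom) (Q.map α.toMonoidHom) := (mclin_map_inj α.injective).2 hQ
    rw [top_map_equiv] at h1
    exact h1.commutator_eq hQ
  refine ⟨inf_center_ne hS hQc h, fun h2 => h ?_, inf_char hQc inferInstance, SM_char, inf_le_right,
    by rw [hJ]; exact le_top, subgroupOf_top_char SM_char hJ, fun E => ?_⟩
  · have h3 := hQ.le_SM
    rw [h2, le_bot_iff] at h3
    rw [h3, commutator_bot_left]
  · have h3 := mcl_case E.pu E.char E.syl (Q := Q.map E.ι) (by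
      rw [MonoidHom.range_eq_map, mclin_map_inj E.inj]; exact hQ)
    have e1 : E.ι.range = (⊤ : Subgroup S).map E.ι := MonoidHom.range_eq_map _
    have e2 : ZC ((⊤ : Subgroup S).map E.ι) = (center S).map E.ι := by
      rw [← ZC_top]; exact inf_cent_map_inj E.inj _
    rw [e1, e2, SM_map_inj E.inj, ← map_commutator, ← map_inf _ _ _ E.inj, inf_comm] at h3
    exact h3

/-- the case where the minimal centrally large subgroups are abelian -/
theorem exists_pair_mo [Nontrivial S] (hS : IsPGroup p S) (hZ : ⁅ZZ (⊤ : Subgroup S), (⊤ : Subgroup S)⁆ = ⊥)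
    (hz : ∀ x ∈ center S, x ^ p = 1) {Q : Subgroup S} (hQ : IsMinimalCentrallyLarge Q)
    (hQa : IsMulCommutative Q) (h : s0 p (⊤ : Subgroup S) ≠ ⊥) :
    ∃ S₁ S₂, Pair p S S₁ S₂ ∧ CLin ⊤ S₂ := by
  have hJ := Jt_top hZ
  have hmax := H50.CD.mcl_abelian_iff hQ hQa
  have hJJ : thompsonSubgroupA S = ⊤ := by
    rw [← H50.CD.centralizer_center_J_eq (fun X hX => ((hmax X).1 hX).1), ← Jt_eq, hJ]
  have hcl : CLin (⊤ : Subgroup S) ⊤ := by
    rw [clin_top_iff]
    have h1 := H50.CD.cl_sup_J hQ.1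
    rwa [hJJ, sup_top_eq] at h1
  have hbig : ∀ T : Subgroup S, (∀ A : Subgroup S, A ≤ centralizer (A : Set S) →
      mz (⊤ : Subgroup S) ≤ Nat.card A * Nat.card A → A ≤ T) → T = ⊤ := by
    intro T hT
    rw [eq_top_iff, ← hJJ]
    apply sSup_le
    intro A hA
    have hAc := (H50.CD.isMulCommutative_iff A).1 hA.1
    apply hT A hAc
    have h1 := (H50.CD.isCentrallyLarge_iff A).1 ((hmax A).2 hA).1 ⊤
    rw [inf_eq_left.2 hAc] at h1
    exact h1
  have hs0c : (s0 p (⊤ : Subgroup S) ⊓ center S).Characteristic := inf_char s0_char inferInstance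
  obtain ⟨X₀, ⟨hX1, hX2, hX3⟩, hmin⟩ := Set.exists_min_image
    {X : Subgroup S | X ≤ s0 p (⊤ : Subgroup S) ⊓ center S ∧ X.Characteristic ∧ X ≠ ⊥}
    (fun X => Nat.card X) (Set.toFinite _) ⟨_, le_rfl, hs0c, inf_center_ne hS s0_char h⟩
  obtain ⟨C, hC1, hC2, hC3⟩ := mo_main (p := p) hz hcl hbig hX2 (hX1.trans inf_le_right) (hX1.trans inf_le_left)
    (fun Y hY hYc hY0 => eq_of_le_of_card_ge hY (hmin Y ⟨hY.trans hX1, hYc, hY0⟩))
  refine ⟨X₀, C, ⟨hX3, fun h0 => center_top_ne hS ?_, hX2, hC1, hX1.trans inf_le_right, by rw [hJ]; exact le_top,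
    subgroupOf_top_char hC1 hJ, hC3⟩, hC2⟩
  have h1 := hC2.centralizer_le
  rw [top_inf_eq] at h1
  rw [eq_bot_iff, ← h0]
  exact (Subgroup.center_le_centralizer _).trans h1

end

end Cfsg.Agent.H47
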