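import Cfsg.Agent.H47.MO15

set_option autoImplicit false
set_option linter.unusedSectionVars false
set_option linter.style.haveILetI false
open Cfsg Subgroup
open scoped commutatorElement Pointwise

namespace Cfsg.Agent.H47

universe u

section
variable {S : Type u} [Group S] [Finite S] {p : ℕ} [Fact p.Prime]

theorem le_center_of {N : Subgroup S} (h : ⁅N, (⊤ : Subgroup S)⁆ = ⊥) : N ≤ center S := by
  have h1 := commutator_eq_bot_iff_le_centralizer.1 h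
  rwa [coe_top, centralizer_univ] at h1

theorem exc_bits [Nontrivial S] (hS : IsPGroup p S) (h : s0 p (⊤ : Subgroup S) = ⊥) :
    IsElementaryAbelian p (frattini S) ∧ (p = 2 → frattini S ≤ center S) ∧
      (p = 3 → frattini S ≤ Subgroup.upperCentralSeries S 2) ∧
      (3 < p → frattini S ≤ center S ∧ Monoid.exponent S = p) := by
  have hF : Fr (⊤ : Subgroup S) = frattini S := Fr_top
  have hpF : IsPGroup p (frattini S) := hS.to_subgroup _
  have k2 : p = 2 → ⁅frattini S, (⊤ : Subgroup S)⁆ = ⊥ ∧ Fr (frattini S) = ⊥ := by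
    intro hp
    have h1 := h
    unfold s0 at h1
    rw [if_pos hp, hF] at h1
    exact sup_eq_bot_iff.1 h1
  have k3 : p = 3 → ⁅⁅frattini S, (⊤ : Subgroup S)⁆, (⊤ : Subgroup S)⁆ = ⊥ ∧ Fr (frattini S) = ⊥ := by
    intro hp
    have h1 := h
    unfold s0 at h1
    rw [if_neg (by omega), if_pos hp, hF] at h1
    exact sup_eq_bot_iff.1 h1
  have k5 : p ≠ 2 → p ≠ 3 → ⁅frattini S, (⊤ : Subgroup S)⁆ = ⊥ ∧ powerClosure p 1 (⊤ : Subgroup S) = ⊥ := by
    intro h2 h3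
    have h1 := h
    unfold s0 at h1
    rw [if_neg h2, if_neg h3, hF] at h1
    exact sup_eq_bot_iff.1 h1
  have hel : Fr (frattini S) = ⊥ → IsElementaryAbelian p (frattini S) := by
    intro h1
    refine ⟨?_, fun x hx => ?_⟩
    · rw [H50.CD.isMulCommutative_iff, ← commutator_eq_bot_iff_le_centralizer, eq_bot_iff, ← h1]
      exact Fr_comm hpF
    · have h2 := Fr_pow hpF hx
      rwa [h1, mem_bot] at h2
  have hpow : powerClosure p 1 (⊤ : Subgroup S) = ⊥ → ∀ x : S, x ^ p = 1 := by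
    intro h1 x
    have h3 : x ^ p ∈ powerClosure p 1 (⊤ : Subgroup S) := Subgroup.subset_closure ⟨x, mem_top x, by rw [pow_one]⟩
    rwa [h1, mem_bot] at h3
  refine ⟨?_, fun hp => le_center_of (k2 hp).1, ?_, ?_⟩
  · by_cases h2 : p = 2
    · exact hel (k2 h2).2
    by_cases h3 : p = 3
    · exact hel (k3 h3).2
    obtain ⟨h4, h5⟩ := k5 h2 h3
    refine ⟨?_, fun x _ => hpow h5 x⟩
    rw [H50.CD.isMulCommutative_iff]
    exact (le_center_of h4).trans (Subgroup.center_le_centralizer _)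
  · intro hp x hx
    rw [Subgroup.mem_upperCentralSeries_succ_iff]
    intro y
    rw [Subgroup.upperCentralSeries_one]
    exact le_center_of (k3 hp).1 (commutator_mem_commutator hx (mem_top y))
  · intro hp
    obtain ⟨h4, h5⟩ := k5 (by omega) (by omega)
    refine ⟨le_center_of h4, ?_⟩
    have h6 : Monoid.exponent S ∣ p := Monoid.exponent_dvd_of_forall_pow_eq_one (hpow h5)
    rcases (Nat.dvd_prime Fact.out).1 h6 with h7 | h7
    · exfalso
      have h8 := Monoid.exp_eq_one_iff.1 h7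
      exact not_subsingleton S h8
    · exact h7

theorem exc_large (hZ : ⁅ZZ (⊤ : Subgroup S), (⊤ : Subgroup S)⁆ = ⊥) {Q : Subgroup S}
    (hQ : IsMinimalCentrallyLarge Q) (hQa : IsMulCommutative Q) :
    thompsonSubgroupA S = ⊤ ∧ ∀ A ∈ maxAbelianSubgroups S, ∀ B ∈ maxAbelianSubgroups S, ∀ Q : Subgroup S,
      Nat.card ↥A ^ 2 = Nat.card S * Nat.card ↥(center S) ∧
      Nat.card ↥Q * Nat.card ↥(center ↥Q) ≤ Nat.card S * Nat.card ↥(center S) ∧
      ((A ⊔ B : Subgroup S) : Set S) = (A : Set S) * (B : Set S) ∧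
      A ⊔ B = centralizer ((A ⊓ B : Subgroup S) : Set S) := by
  have hJ := Jt_top hZ
  have hmax := H50.CD.mcl_abelian_iff hQ hQa
  have hJJ : thompsonSubgroupA S = ⊤ := by
    rw [← H50.CD.centralizer_center_J_eq (fun X hX => ((hmax X).1 hX).1), ← Jt_eq, hJ]
  have hcl : IsCentrallyLarge (⊤ : Subgroup S) := by
    have h1 := H50.CD.cl_sup_J hQ.1
    rwa [hJJ, sup_top_eq] at h1
  have hc : (⊤ : Subgroup S) ⊓ centralizer ((⊤ : Subgroup S) : Set S) = center S := by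
    rw [coe_top, centralizer_univ, top_inf_eq]
  have hcl' := (H50.CD.isCentrallyLarge_iff _).1 hcl
  rw [hc, card_top] at hcl'
  refine ⟨hJJ, fun A hA B hB Q => ⟨?_, ?_, ?_, ?_⟩⟩
  · have hAcl := (H50.CD.isCentrallyLarge_iff A).1 ((hmax A).2 hA).1
    have hAA : A ⊓ centralizer (A : Set S) = A := inf_eq_left.2 ((H50.CD.isMulCommutative_iff A).1 hA.1)
    have h1 := hAcl ⊤
    have h2 := hcl' A
    rw [hc, card_top, hAA] at h1
    rw [hAA] at h2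
    rw [sq]
    exact le_antisymm h2 h1
  · have h2 := hcl' Q
    rwa [← H50.CD.card_center_eq] at h2
  · have hAcl := (H50.CD.cl_iff A).1 ((hmax A).2 hA).1
    have hBcl := (H50.CD.cl_iff B).1 ((hmax B).2 hB).1
    exact (H50.CD.cd hAcl.1 hBcl.1).1
  · have hAcl := (H50.CD.cl_iff A).1 ((hmax A).2 hA).1
    have hBcl := (H50.CD.cl_iff B).1 ((hmax B).2 hB).1
    rw [(H50.CD.cd hAcl.1 hBcl.1).2.2.2.2, H50.CD.centralizer_maxAb hA, H50.CD.centralizer_maxAb hB]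

/-- the chain of reductions -/
theorem chain88 [Nontrivial S] (hS : IsPGroup p S) : (∃ S₁ S₂, Pair p S S₁ S₂) ∨
    (¬ IsMulCommutative S ∧ ⁅ZZ (⊤ : Subgroup S), (⊤ : Subgroup S)⁆ = ⊥ ∧ (∀ x ∈ center S, x ^ p = 1) ∧
      ∃ R : Subgroup S, IsMinimalCentrallyLarge R ∧ IsElementaryAbelian p R) := by
  by_cases hc : IsMulCommutative S
  · exact Or.inl ⟨_, _, pair_comm hc⟩
  by_cases hZ : ⁅ZZ (⊤ : Subgroup S), (⊤ : Subgroup S)⁆ = ⊥
  swap
  · exact Or.inl ⟨_, _, pair_ZJ hS hZ⟩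
  by_cases hz : ∃ x ∈ center S, x ^ p ≠ 1
  · exact Or.inl ⟨_, _, pair_agemo hZ hz⟩
  push Not at hz
  by_cases hF : SF p (⊤ : Subgroup S) = ⊥
  swap
  · exact Or.inl ⟨_, _, pair_frattini hS hZ hF⟩
  right
  obtain ⟨R, hR⟩ := exists_FM (p := p) (⊤ : Subgroup S)
  have h3 : Fr R = ⊥ := by rw [eq_bot_iff, ← hF]; exact hR.le_SF
  have h4 : IsPGroup p R := hS.to_subgroup _
  refine ⟨hc, hZ, hz, R, mclin_top_iff.1 hR.1, ?_, fun x hx => ?_⟩
  · rw [H50.CD.isMulCommutative_iff, ← commutator_eq_bot_iff_le_centralizer, eq_bot_iff, ← h3]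
    exact Fr_comm h4
  · have h2 := Fr_pow h4 hx
    rwa [h3, mem_bot] at h2

theorem core08 (hS : IsPGroup p S)
    (h : ⁅ZZ (⊤ : Subgroup S), (⊤ : Subgroup S)⁆ ≠ ⊥ ∨ s0 p (⊤ : Subgroup S) ≠ ⊥) : ∃ S₁ S₂, Pair p S S₁ S₂ := by
  rcases subsingleton_or_nontrivial S with hs | hs
  · exfalso
    have h1 : ∀ N : Subgroup S, N = ⊥ := fun N => Subsingleton.elim _ _
    rcases h with h | h
    · exact h (h1 _)
    · exact h (h1 _)
  rcases chain88 hS with h1 | ⟨h1, h2, h3, R, h4, h5⟩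
  · exact h1
  have h6 := h.resolve_left (not_not.2 h2)
  obtain ⟨S₁, S₂, h7, -⟩ := exists_pair_mo hS h2 h3 h4 h5.1 h6
  exact ⟨_, _, h7⟩

theorem core88 [Nontrivial S] (hS : IsPGroup p S)
    (hexc : ¬ (¬ IsMulCommutative S ∧ Cfsg.thompsonSubgroupA S = ⊤ ∧ Cfsg.IsElementaryAbelian p (Subgroup.center S) ∧ Cfsg.IsElementaryAbelian p (frattini S) ∧ (p = 2 → frattini S ≤ Subgroup.center S) ∧ (p = 3 → frattini S ≤ Subgroup.upperCentralSeries S 2) ∧ (3 < p → frattini S ≤ Subgroup.center S ∧ Monoid.exponent S = p) ∧ (∃ A ∈ Cfsg.maxAbelianSubgroups S, Cfsg.IsElementaryAbelian p A) ∧ (∀ A ∈ Cfsg.maxAbelianSubgroups S, ∀ B ∈ Cfsg.maxAbelianSubgroups S, ∀ Q : Subgroup S, Nat.card ↥A ^ 2 = Nat.card S * Nat.card ↥(Subgroup.center S) ∧ Nat.card ↥Q * Nat.card ↥(Subgroup.center ↥Q) ≤ Nat.card S * Nat.card ↥(Subgroup.center S) ∧ ((A ⊔ B : Subgroup S) : Set S) = (A : Set S) * (B : Set S) ∧ A ⊔ B = Subgroup.centralizer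 ((A ⊓ B : Subgroup S) : Set S)))) :
    ∃ S₁ S₂, Pair p S S₁ S₂ := by
  rcases chain88 hS with h1 | ⟨h1, h2, h3, R, h4, h5⟩
  · exact h1
  have h6 : s0 p (⊤ : Subgroup S) ≠ ⊥ := by
    intro h6
    apply hexc
    obtain ⟨b1, b2, b3, b4⟩ := exc_bits hS h6
    obtain ⟨c1, c2⟩ := exc_large h2 h4 h5.1
    exact ⟨h1, c1, ⟨inferInstance, h3⟩, b1, b2, b3, b4, ⟨R, (H50.CD.mcl_abelian_iff h4 h5.1 R).1 h4, h5⟩, c2⟩
  obtain ⟨S₁, S₂, h7, -⟩ := exists_pair_mo hS h2 h3 h4 h5.1 h6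
  exact ⟨_, _, h7⟩

theorem core91 [Nontrivial S] (hS : IsPGroup p S)
    (hexc : ¬ (¬ IsMulCommutative S ∧ Cfsg.thompsonSubgroupA S = ⊤ ∧ Cfsg.IsElementaryAbelian p (Subgroup.center S) ∧ Cfsg.IsElementaryAbelian p (frattini S) ∧ (p = 2 → frattini S ≤ Subgroup.center S) ∧ (p = 3 → frattini S ≤ Subgroup.upperCentralSeries S 2) ∧ (3 < p → frattini S ≤ Subgroup.center S ∧ Monoid.exponent S = p) ∧ (∀ A ∈ Cfsg.maxAbelianSubgroups S, ∀ B ∈ Cfsg.maxAbelianSubgroups S, ∀ Q : Subgroup S, Nat.card ↥A ^ 2 = Nat.card S * Nat.card ↥(Subgroup.center S) ∧ Nat.card ↥Q * Nat.card ↥(Subgroup.center ↥Q) ≤ Nat.card S * Nat.card ↥(Subgroup.center S) ∧ ((A ⊔ B : Subgroup S) : Set S) = (A : Set S) * (B : Set S) ∧ A ⊔ B = Subgroup.centralizer ((A ⊓ B : Subgroup S) : Set S)))) :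
    ∃ S₁ S₂, Pair p S S₁ S₂ ∧ ∃ C ≤ S₂, CLin (Jt S) C := by
  obtain ⟨C₀, hC₀⟩ := exists_clin (Jt S)
  by_cases hc : IsMulCommutative S
  · exact ⟨_, _, pair_comm hc, C₀, le_top, hC₀⟩
  by_cases hZ : ⁅ZZ (⊤ : Subgroup S), (⊤ : Subgroup S)⁆ = ⊥
  swap
  · exact ⟨_, _, pair_ZJ hS hZ, C₀, hC₀.1, hC₀⟩
  have hJ := Jt_top hZ
  by_cases hz : ∃ x ∈ center S, x ^ p ≠ 1
  · exact ⟨_, _, pair_agemo hZ hz, C₀, le_top, hC₀⟩
  push Not at hz
  obtain ⟨Q, hQ⟩ := H50.CD.exists_min (P := S)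
  have hQ' := mclin_top_iff.2 hQ
  by_cases hQQ : ⁅Q, Q⁆ = ⊥
  swap
  · exact ⟨_, _, pair_mcl hS hZ hQ' hQQ, Q, hQ'.le_SM, by rw [hJ]; exact hQ'.1⟩
  have hQa : IsMulCommutative Q := by
    rw [H50.CD.isMulCommutative_iff, ← commutator_eq_bot_iff_le_centralizer]
    exact hQQ
  have h6 : s0 p (⊤ : Subgroup S) ≠ ⊥ := by
    intro h6
    apply hexc
    obtain ⟨b1, b2, b3, b4⟩ := exc_bits hS h6
    obtain ⟨c1, c2⟩ := exc_large hZ hQ hQa
    exact ⟨hc, c1, ⟨inferInstance, hz⟩, b1, b2, b3, b4, c2⟩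
  obtain ⟨S₁, S₂, h7, h8⟩ := exists_pair_mo hS hZ hz hQ hQa h6
  exact ⟨_, _, h7, S₂, le_rfl, by rw [hJ]; exact h8⟩

theorem nor_of {G : Type u} [Group G] [Finite G] {S₁ S₂ : Subgroup S} (hp : Pair p S S₁ S₂) (τ : S →* G)
    (hτ : Function.Injective τ) (hsyl : ∃ P : Sylow p G, (P : Subgroup G) = τ.range)
    (hE₁ : centralizer (pCore p G : Set G) ≤ pCore p G) (hE₂ : ∃! M : Subgroup G, IsCoatom M ∧ τ.range ≤ M)
    (hE₃ : ∃ (K : Subgroup G) (_ : K.Normal) (F : Type) (_ : Field F) (_ : Fintype F) (n : ℕ),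
      Fintype.card F = p ^ n ∧ Nonempty (G ⧸ K ≃* Matrix.ProjectiveSpecialLinearGroup (Fin 2) F)) :
    (S₁.map τ).Normal ∨ (S₂.map τ).Normal := by
  obtain ⟨Q, hQ⟩ := hsyl
  obtain ⟨K, hK, F, _, _, n, hF, hE⟩ := hE₃
  haveI := hK
  have hsy : SylIn p τ.range ⊤ := by rw [← hQ]; exact sylIn_top Q
  let E : Emb p S :=
    { G := G
      ι := τ
      inj := hτ
      syl := hsy
      q := p ^ n
      K := K
      pu := ⟨RankOne.of_psl hF hE, fun R hR => pu_uniq hsy hE₂ R hR⟩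
      char := hE₁ }
  exact hp.nor E

theorem nor_of' {G : Type u} [Group G] [Finite G] {P : Subgroup G} {S₁ S₂ : Subgroup S} (hp : Pair p S S₁ S₂)
    (e : S ≃* ↥P) (h : IsPushingUpSituation p P) :
    (S₁.map (P.subtype.comp (e : S ≃* ↥P).toMonoidHom)).Normal ∨
      (S₂.map (P.subtype.comp (e : S ≃* ↥P).toMonoidHom)).Normal := by
  have hr : (P.subtype.comp (e : S ≃* ↥P).toMonoidHom).range = P := by
    rw [MonoidHom.range_comp]
    have : (e : S ≃* ↥P).toMonoidHom.range = ⊤ := MonoidHom.range_eq_top.2 e.surjective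
    rw [this, ← MonoidHom.range_eq_map, range_subtype]
  obtain ⟨-, h1, h2, h3, h4⟩ := h
  refine nor_of hp _ (P.subtype_injective.comp e.injective) ?_ h2 ?_ h4
  · rw [hr]; exact h1
  · rw [hr]; exact h3

end

end Cfsg.Agent.H47
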