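import Cfsg.Agent.H47.MO1
import Cfsg.Agent.H47.Amal4

set_option autoImplicit false
set_option linter.unusedSectionVars false
set_option linter.style.haveILetI false
open Cfsg Subgroup
open scoped commutatorElement

namespace Cfsg.Agent.H47

universe u

variable {H : Type u} [Group H] {p : ℕ} {𝒱 : Set (Subgroup H)} {X : Subgroup H → Subgroup H}

/-- chambers -/
def Ch (p : ℕ) (𝒱 : Set (Subgroup H)) (P : Subgroup H) : Prop := ∃ G ∈ 𝒱, SylIn p P G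

/-- amalgams with several orbits of vertices -/
structure MAm (p : ℕ) (𝒱 : Set (Subgroup H)) (X : Subgroup H → Subgroup H) : Prop where
  ne : 𝒱.Nonempty
  vtx : ∀ G ∈ 𝒱, ∃ q, Vtx p q G
  conj : ∀ G ∈ 𝒱, ∀ h : H, G.map (MulAut.conj h).toMonoidHom ∈ 𝒱
  tr : ∀ P P', Ch p 𝒱 P → Ch p 𝒱 P' → ∃ h : H, P' = P.map (MulAut.conj h).toMonoidHom
  zp : ∀ P, Ch p 𝒱 P → ∀ x ∈ P ⊓ centralizer (P : Set H), x ^ p = 1
  cl : ∀ P, Ch p 𝒱 P → CLin P P
  big : ∀ G ∈ 𝒱, ∀ P, SylIn p P G → ∃ A ≤ P, A ≤ centralizer (A : Set H) ∧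
    mz P ≤ Nat.card A * Nat.card A ∧ ¬ A ≤ pCoreOf p G
  core : ∀ P, Ch p 𝒱 P → ∀ C, CLin P C → normalizer (P : Set H) ≤ normalizer (C : Set H) →
    ∃ G ∈ 𝒱, SylIn p P G ∧ ¬ G ≤ normalizer (C : Set H)
  Xc : ∀ (P : Subgroup H) (h : H), X (P.map (MulAut.conj h).toMonoidHom) = (X P).map (MulAut.conj h).toMonoidHom
  Xz : ∀ P, Ch p 𝒱 P → X P ≤ P ⊓ centralizer (P : Set H)
  Xn : ∀ G ∈ 𝒱, ∀ P, SylIn p P G → ¬ G ≤ normalizer (X P : Set H)

namespace MAm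
variable [Finite H] [Fact p.Prime] {G G' P : Subgroup H} {q : ℕ}

theorem cm (ha : MAm p 𝒱 X) (hP : Ch p 𝒱 P) : CM P := (ha.cl P hP).cm

theorem omega_eq (ha : MAm p 𝒱 X) (hP : Ch p 𝒱 P) : omegaOneCenter p P = P ⊓ centralizer (P : Set H) := by
  apply le_antisymm
  · intro x hx
    rw [mem_omegaOneCenter] at hx
    exact ⟨hx.1, hx.2.1⟩
  · intro x hx
    rw [mem_omegaOneCenter]
    exact ⟨hx.1, hx.2, ha.zp P hP x hx⟩

theorem X_le (ha : MAm p 𝒱 X) (hP : Ch p 𝒱 P) : X P ≤ omegaOneCenter p P := by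
  rw [ha.omega_eq hP]; exact ha.Xz P hP

theorem nc (ha : MAm p 𝒱 X) (hG : G ∈ 𝒱) (hP : SylIn p P G) : ¬ G ≤ centralizer (X P : Set H) := fun h =>
  ha.Xn G hG P hP (h.trans (centralizer_le_normalizer _))

theorem nz (ha : MAm p 𝒱 X) (hG : G ∈ 𝒱) (hP : SylIn p P G) : ¬ G ≤ centralizer (omegaOneCenter p P : Set H) :=
  fun h => ha.nc hG hP (h.trans (centralizer_le (ha.X_le ⟨G, hG, hP⟩)))

theorem hker (ha : MAm p 𝒱 X) (hG : G ∈ 𝒱) (hP : SylIn p P G) :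
    (G ⊓ centralizer (ZV p G : Set H)) ⊔ P ≠ G := by
  intro h1
  obtain ⟨q, hv⟩ := ha.vtx G hG
  apply ha.nz hG hP
  conv_lhs => rw [← h1]
  apply sup_le
  · exact inf_le_right.trans (centralizer_le (hv.omega_le hP))
  · rw [le_centralizer_iff]
    exact fun x hx => (mem_omegaOneCenter.1 hx).2.1

theorem cent_le (ha : MAm p 𝒱 X) (hG : G ∈ 𝒱) (hP : SylIn p P G) :
    P ⊓ centralizer (ZV p G : Set H) ≤ pCoreOf p G := by
  obtain ⟨q, hv⟩ := ha.vtx G hG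
  have h1 := hv.dich hP (N := G ⊓ centralizer (ZV p G : Set H)) inf_le_left
    (le_normalizer_inf le_normalizer ((le_normalizer_ZV G).trans (normalizer_le_normalizer_centralizer _)))
  rcases h1 with h1 | h1
  · exact absurd h1 (ha.hker hG hP)
  · exact (le_inf (le_inf (inf_le_left.trans hP.le) inf_le_right) inf_le_left).trans h1

theorem core_eq (ha : MAm p 𝒱 X) (hG : G ∈ 𝒱) (hP : SylIn p P G) : cn P (ZV p G) = pCoreOf p G := by
  obtain ⟨q, hv⟩ := ha.vtx G hG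
  exact le_antisymm (ha.cent_le hG hP) (le_inf (pCoreOf_le_sylIn hP) hv.core_le_cent)

theorem natZ (ha : MAm p 𝒱 X) (hG : G ∈ 𝒱) (hv : Vtx p q G) : NatS p q G (ZV p G) ⊥ := by
  obtain ⟨P, hP⟩ := SylIn.exists p G
  obtain ⟨A, hAP, hAc, hA2, hAT⟩ := ha.big G hG P hP
  have hZT := hv.ZV_le
  have hTP := pCoreOf_le_sylIn hP
  -- the abelian group (A ⊓ T) ⊔ Z
  have hZn : A ⊓ pCoreOf p G ≤ normalizer (ZV p G : Set H) := (inf_le_left.trans (hAP.trans hP.le)).trans (le_normalizer_ZV G)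
  have h1 := card_sup_mul_card_inf hZn
  have hle : (A ⊓ pCoreOf p G) ⊔ ZV p G ≤ P := sup_le (inf_le_left.trans hAP) (hZT.trans hTP)
  have hab : (A ⊓ pCoreOf p G) ⊔ ZV p G ≤ centralizer (((A ⊓ pCoreOf p G) ⊔ ZV p G : Subgroup H) : Set H) := by
    apply sup_le
    · rw [le_centralizer_iff]
      apply sup_le
      · exact (inf_le_left.trans hAc).trans (centralizer_le inf_le_left)
      · exact hv.ZV_cent.trans (centralizer_le inf_le_right)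
    · rw [le_centralizer_iff]
      apply sup_le
      · exact inf_le_right.trans hv.core_le_cent
      · exact hv.ZV_comm
  have h2 := (ha.cm ⟨G, hG, hP⟩) _ hle
  have h3 : Nat.card ((A ⊓ pCoreOf p G) ⊔ ZV p G : Subgroup H) ≤ Nat.card (cn P ((A ⊓ pCoreOf p G) ⊔ ZV p G)) :=
    Subgroup.card_le_of_le (le_inf hle hab)
  have h4 : Nat.card ((A ⊓ pCoreOf p G) ⊔ ZV p G : Subgroup H) ≤ Nat.card A := by
    have h5 : Nat.card ((A ⊓ pCoreOf p G) ⊔ ZV p G : Subgroup H) * Nat.card ((A ⊓ pCoreOf p G) ⊔ ZV p G : Subgroup H) ≤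
        Nat.card A * Nat.card A := (Nat.mul_le_mul_left _ h3).trans (h2.trans hA2)
    exact Nat.mul_self_le_mul_self_iff.1 h5
  have h6 : Nat.card (A ⊓ pCoreOf p G ⊓ ZV p G : Subgroup H) ≤ Nat.card (cz (ZV p G) ⊥ A) := by
    apply Subgroup.card_le_of_le
    rw [cz_bot]
    exact le_inf inf_le_right ((inf_le_left.trans inf_le_left).trans hAc)
  refine natS_of hv hP (hZT.trans (pCoreOf_le p _)) bot_le (le_normalizer_ZV _)
    (fun x _ => mem_normalizer_bot x) (hP.isPGroup.to_le (hZT.trans hTP)) ?_ ?_ ?_ hAP hAT ?_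
  · rw [le_bot_iff, commutator_eq_bot_iff_le_centralizer]; exact hv.ZV_comm
  · rw [le_bot_iff, commutator_eq_bot_iff_le_centralizer]; exact hv.ZV_cent
  · rw [cmod_bot]; exact ha.hker hG hP
  · calc Nat.card (ZV p G) * Nat.card (A ⊓ pCoreOf p G : Subgroup H)
        = Nat.card ((A ⊓ pCoreOf p G) ⊔ ZV p G : Subgroup H) * Nat.card (A ⊓ pCoreOf p G ⊓ ZV p G : Subgroup H) := by
          rw [h1, mul_comm]
      _ ≤ _ := Nat.mul_le_mul h4 h6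

theorem card_Z (ha : MAm p 𝒱 X) (hG : G ∈ 𝒱) (hP : SylIn p P G) (hv : Vtx p q G) :
    Nat.card (ZV p G) = q * Nat.card (omegaOneCenter p P) := by
  rw [(ha.natZ hG hv).card_U P hP, hv.cz_omega hP]

theorem cd_Z (ha : MAm p 𝒱 X) (hG : G ∈ 𝒱) (hP : SylIn p P G) : CD P (ZV p G) := by
  obtain ⟨q, hv⟩ := ha.vtx G hG
  refine ⟨hv.ZV_le.trans (pCoreOf_le_sylIn hP), ?_⟩
  rw [ha.core_eq hG hP, ha.card_Z hG hP hv]
  unfold mz
  rw [← ha.omega_eq ⟨G, hG, hP⟩, hv.card hP]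
  ring

theorem cd_core (ha : MAm p 𝒱 X) (hG : G ∈ 𝒱) (hP : SylIn p P G) : CD P (pCoreOf p G) := by
  rw [← ha.core_eq hG hP]
  exact (ha.cd_Z hG hP).cn (ha.cm ⟨G, hG, hP⟩)

theorem Z_eq (ha : MAm p 𝒱 X) (hG : G ∈ 𝒱) (hP : SylIn p P G) : cn P (pCoreOf p G) = ZV p G := by
  rw [← ha.core_eq hG hP]
  exact (ha.cd_Z hG hP).cn_cn (ha.cm ⟨G, hG, hP⟩)

/-- the centralizer of an element of `Z_G` outside `Z(P)` -/
theorem cent_elt (ha : MAm p 𝒱 X) (hG : G ∈ 𝒱) (hP : SylIn p P G) {z : H} (hz : z ∈ ZV p G)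
    (hz2 : z ∉ omegaOneCenter p P) : P ⊓ centralizer {z} = pCoreOf p G := by
  obtain ⟨q, hv⟩ := ha.vtx G hG
  apply le_antisymm
  · rintro x ⟨hx, hx2⟩
    by_contra hx3
    apply hz2
    rw [← hv.cz_omega hP]
    refine (ha.natZ hG hv).fix P hP x hx hx3 z hz ?_
    have : x * z = z * x := mem_centralizer_singleton_iff.1 hx2
    rw [mem_bot, commutatorElement_eq_one_iff_mul_comm, this]
  · refine le_inf (pCoreOf_le_sylIn hP) ?_
    intro x hx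
    rw [mem_centralizer_singleton_iff]
    exact (mem_centralizer_iff.1 (hv.core_le_cent hx) z hz).symm

theorem A1 (ha : MAm p 𝒱 X) (hG : G ∈ 𝒱) (hP : SylIn p P G) (hG' : G' ∈ 𝒱) (hP' : SylIn p P G') {z : H}
    (hz : z ∈ ZV p G) (hz' : z ∈ ZV p G') (hz2 : z ∉ omegaOneCenter p P) : ZV p G = ZV p G' := by
  rw [← ha.Z_eq hG hP, ← ha.Z_eq hG' hP', ← ha.cent_elt hG hP hz hz2, ← ha.cent_elt hG' hP' hz' hz2]

theorem omega_le (ha : MAm p 𝒱 X) (hG : G ∈ 𝒱) (hP : SylIn p P G) : omegaOneCenter p P ≤ ZV p G := by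
  obtain ⟨q, hv⟩ := ha.vtx G hG
  exact hv.omega_le hP

theorem Z_inf (ha : MAm p 𝒱 X) (hG : G ∈ 𝒱) (hP : SylIn p P G) (hG' : G' ∈ 𝒱) (hP' : SylIn p P G')
    (hne : ZV p G ≠ ZV p G') : ZV p G ⊓ ZV p G' = omegaOneCenter p P := by
  apply le_antisymm
  · rintro z ⟨hz, hz'⟩
    by_contra hc
    exact hne (ha.A1 hG hP hG' hP' hz hz' hc)
  · exact le_inf (ha.omega_le hG hP) (ha.omega_le hG' hP')

theorem core_sup (ha : MAm p 𝒱 X) (hG : G ∈ 𝒱) (hP : SylIn p P G) (hG' : G' ∈ 𝒱) (hP' : SylIn p P G')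
    (hne : ZV p G ≠ ZV p G') : pCoreOf p G ⊔ pCoreOf p G' = P := by
  have hcm := ha.cm ⟨G, hG, hP⟩
  have h1 := ((ha.cd_core hG hP).sup hcm (ha.cd_core hG' hP')).cn_cn hcm
  rw [← h1, cn_sup, ha.Z_eq hG hP, ha.Z_eq hG' hP', ha.Z_inf hG hP hG' hP' hne]
  apply le_antisymm cn_le
  refine le_inf le_rfl ?_
  rw [le_centralizer_iff]
  exact fun x hx => (mem_omegaOneCenter.1 hx).2.1

theorem omega_le_cent : omegaOneCenter p P ≤ centralizer (P : Set H) := fun _ hx => (mem_omegaOneCenter.1 hx).2.1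

theorem omega_le_self : omegaOneCenter p P ≤ P := fun _ hx => (mem_omegaOneCenter.1 hx).1

theorem Z_le (ha : MAm p 𝒱 X) (hG : G ∈ 𝒱) : ZV p G ≤ pCoreOf p G := by
  obtain ⟨q, hv⟩ := ha.vtx G hG
  exact hv.ZV_le

theorem Z_comm (ha : MAm p 𝒱 X) (hG : G ∈ 𝒱) : ZV p G ≤ centralizer (ZV p G : Set H) := by
  obtain ⟨q, hv⟩ := ha.vtx G hG
  exact hv.ZV_comm

theorem core_cent (ha : MAm p 𝒱 X) (hG : G ∈ 𝒱) : pCoreOf p G ≤ centralizer (ZV p G : Set H) := by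
  obtain ⟨q, hv⟩ := ha.vtx G hG
  exact hv.core_le_cent

theorem Z_le_P (ha : MAm p 𝒱 X) (hG : G ∈ 𝒱) (hP : SylIn p P G) : ZV p G ≤ P :=
  (ha.Z_le hG).trans (pCoreOf_le_sylIn hP)

theorem Z_pow (ha : MAm p 𝒱 X) (hG : G ∈ 𝒱) {x : H} (hx : x ∈ ZV p G) : x ^ p = 1 := by
  obtain ⟨q, hv⟩ := ha.vtx G hG
  exact hv.ZV_pow hx

theorem V_le (ha : MAm p 𝒱 X) : VV p 𝒱 P ≤ P := by
  rw [VV_le_iff]
  intro G hG hP
  exact ha.Z_le_P hG hP

theorem ch_conj (ha : MAm p 𝒱 X) (hP : Ch p 𝒱 P) (g : H) : Ch p 𝒱 (P.map (MulAut.conj g).toMonoidHom) := by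
  obtain ⟨G, hG, hP⟩ := hP
  exact ⟨_, ha.conj G hG g, hP.map_conj g⟩

theorem cd_V (ha : MAm p 𝒱 X) (hP : Ch p 𝒱 P) : CD P (VV p 𝒱 P) := by
  unfold VV
  apply CD.sSup (ha.cm hP)
  · obtain ⟨G, hG, hPG⟩ := hP
    exact ⟨_, G, hG, hPG, rfl⟩
  · rintro _ ⟨G, hG, hP, rfl⟩
    exact ha.cd_Z hG hP

theorem cd_D (ha : MAm p 𝒱 X) (hP : Ch p 𝒱 P) : CD P (cn P (VV p 𝒱 P)) := (ha.cd_V hP).cn (ha.cm hP)

/-- CD-members containing their centralizer are centrally large -/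
theorem clin_of_cd (ha : MAm p 𝒱 X) (hP : Ch p 𝒱 P) {C : Subgroup H} (hC : CD P C) (h : cn P C ≤ C) : CLin P C := by
  refine (ha.cl P hP).of_mz hC.1 ?_
  rw [← hC.2]
  unfold mz
  apply Nat.mul_le_mul_left
  apply Subgroup.card_le_of_le
  exact le_inf h inf_le_right

theorem nV (ha : MAm p 𝒱 X) (P : Subgroup H) : normalizer (P : Set H) ≤ normalizer (VV p 𝒱 P : Set H) :=
  le_normalizer_of_equivariant (VV_conj ha.conj) P

theorem D_conj (ha : MAm p 𝒱 X) (P : Subgroup H) (h : H) :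
    cn (P.map (MulAut.conj h).toMonoidHom) (VV p 𝒱 (P.map (MulAut.conj h).toMonoidHom)) =
      (cn P (VV p 𝒱 P)).map (MulAut.conj h).toMonoidHom := by
  rw [VV_conj ha.conj, cn_conj]

theorem nD (ha : MAm p 𝒱 X) (P : Subgroup H) : normalizer (P : Set H) ≤ normalizer (cn P (VV p 𝒱 P) : Set H) :=
  le_normalizer_inf le_rfl ((ha.nV P).trans (normalizer_le_normalizer_centralizer _))

/-- the commutator with `P` -/
theorem comm_le (ha : MAm p 𝒱 X) (hG : G ∈ 𝒱) (hP : SylIn p P G) : ⁅ZV p G, P⁆ ≤ omegaOneCenter p P := by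
  obtain ⟨q, hv⟩ := ha.vtx G hG
  rw [commutator_le]
  intro u hu r hr
  rw [← hv.cz_omega hP]
  exact (ha.natZ hG hv).quad P hP u hu r hr

theorem V_comm_le (ha : MAm p 𝒱 X) : ⁅VV p 𝒱 P, P⁆ ≤ omegaOneCenter p P := by
  rw [commutator_comm]
  apply commutator_le_of_le_cmod
  rw [VV_le_iff]
  intro G hG hP u hu
  refine ⟨le_normalizer.trans (normalizer_le_normalizer_omega P) (ha.Z_le_P hG hP hu), fun s hs => ?_⟩
  exact ha.comm_le hG hP (commutator_mem_commutator hu hs)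

theorem D_le_core (ha : MAm p 𝒱 X) (hG : G ∈ 𝒱) (hP : SylIn p P G) : cn P (VV p 𝒱 P) ≤ pCoreOf p G := by
  rw [← ha.core_eq hG hP]
  exact cn_anti (le_VV hG hP)

end MAm

end Cfsg.Agent.H47
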