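import Cfsg.Agent.H47.MO2
import Cfsg.Agent.H47.BauApp

set_option autoImplicit false
set_option linter.unusedSectionVars false
set_option linter.style.haveILetI false
open Cfsg Subgroup
open scoped commutatorElement

namespace Cfsg.Agent.H47

universe u

section
variable {H : Type u} [Group H] {p : ℕ} {E D : Subgroup H}

theorem mem_sup_cent (h : E ≤ centralizer (D : Set H)) {x : H} : x ∈ E ⊔ D ↔ ∃ e ∈ E, ∃ d ∈ D, e * d = x :=
  mem_sup_of_le_normalizer (h.trans (centralizer_le_normalizer _))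

theorem comm_mul_cent {e e' d d' : H} (h1 : e * d = d * e) (h2 : e * d' = d' * e) (h3 : e' * d = d * e')
    (h4 : e' * d' = d' * e') : ⁅e * d, e' * d'⁆ = ⁅e, e'⁆ * ⁅d, d'⁆ := by
  have c1 : Commute e d := h1
  have c2 : Commute e d' := h2
  have c3 : Commute e' d := h3
  have c4 : Commute e' d' := h4
  have c5 : Commute d e'⁻¹ := c3.symm.inv_right
  have c6 : Commute d e⁻¹ := c1.symm.inv_right
  have c7 : Commute d' e⁻¹ := c2.symm.inv_right
  have c8 : Commute d' e'⁻¹ := c4.symm.inv_right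
  have c9 : Commute d⁻¹ e'⁻¹ := c5.inv_left
  rw [commutatorElement_def, commutatorElement_def, commutatorElement_def, mul_inv_rev, mul_inv_rev]
  calc e * d * (e' * d') * (d⁻¹ * e⁻¹) * (d'⁻¹ * e'⁻¹)
      = e * (d * e') * (d' * (d⁻¹ * e⁻¹)) * (d'⁻¹ * e'⁻¹) := by group
    _ = e * (e' * d) * (d' * (e⁻¹ * d⁻¹)) * (e'⁻¹ * d'⁻¹) := by
        rw [c3.eq, (c6.inv_left).eq, (c8.inv_left).eq]
    _ = e * e' * d * (d' * e⁻¹) * (d⁻¹ * e'⁻¹) * d'⁻¹ := by group
    _ = e * e' * d * (e⁻¹ * d') * (e'⁻¹ * d⁻¹) * d'⁻¹ := by rw [c7.eq, c9.eq]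
    _ = e * e' * (d * e⁻¹) * (d' * e'⁻¹) * d⁻¹ * d'⁻¹ := by group
    _ = e * e' * (e⁻¹ * d) * (e'⁻¹ * d') * d⁻¹ * d'⁻¹ := by rw [c6.eq, c8.eq]
    _ = e * e' * e⁻¹ * (d * e'⁻¹) * d' * d⁻¹ * d'⁻¹ := by group
    _ = e * e' * e⁻¹ * (e'⁻¹ * d) * d' * d⁻¹ * d'⁻¹ := by rw [c5.eq]
    _ = _ := by group

theorem comm_sup_cent {E₁ E₂ D₁ D₂ : Subgroup H} (h : E ≤ centralizer (D : Set H)) (h1 : E₁ ≤ E) (h2 : E₂ ≤ E)
    (h3 : D₁ ≤ D) (h4 : D₂ ≤ D) : ⁅E₁ ⊔ D₁, E₂ ⊔ D₂⁆ = ⁅E₁, E₂⁆ ⊔ ⁅D₁, D₂⁆ := by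
  have hc : ∀ e ∈ E, ∀ d ∈ D, e * d = d * e := fun e he d hd => (mem_centralizer_iff.1 (h he) d hd).symm
  have k1 : E₁ ≤ centralizer (D₁ : Set H) := (h1.trans h).trans (centralizer_le h3)
  have k2 : E₂ ≤ centralizer (D₂ : Set H) := (h2.trans h).trans (centralizer_le h4)
  apply le_antisymm
  · rw [commutator_le]
    intro x hx y hy
    obtain ⟨e, he, d, hd, rfl⟩ := (mem_sup_cent k1).1 hx
    obtain ⟨e', he', d', hd', rfl⟩ := (mem_sup_cent k2).1 hy
    rw [comm_mul_cent (hc e (h1 he) d (h3 hd)) (hc e (h1 he) d' (h4 hd')) (hc e' (h2 he') d (h3 hd))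
      (hc e' (h2 he') d' (h4 hd'))]
    exact mul_mem_sup (commutator_mem_commutator he he') (commutator_mem_commutator hd hd')
  · exact sup_le (commutator_mono le_sup_left le_sup_left) (commutator_mono le_sup_right le_sup_right)

theorem le_normalizer_of_cent (h : E ≤ centralizer (D : Set H)) {N : Subgroup H} (hN : D ≤ normalizer (N : Set H))
    (hND : N ≤ D) : E ⊔ D ≤ normalizer (N : Set H) :=
  sup_le ((h.trans (centralizer_le hND)).trans (centralizer_le_normalizer _)) hN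

variable [Finite H] [Fact p.Prime]

theorem Fr_sup_cent (hp : IsPGroup p (E ⊔ D : Subgroup H)) (h : E ≤ centralizer (D : Set H)) :
    Fr (E ⊔ D) = Fr E ⊔ Fr D := by
  have h' : D ≤ centralizer (E : Set H) := by rw [le_centralizer_iff]; exact h
  have hE := hp.to_le (le_sup_left : E ≤ E ⊔ D)
  have hD := hp.to_le (le_sup_right : D ≤ E ⊔ D)
  have nD : E ⊔ D ≤ normalizer (Fr D : Set H) :=
    le_normalizer_of_cent h (le_normalizer.trans (normalizer_le_normalizer_Fr D)) (Fr_le D)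
  have nE : E ⊔ D ≤ normalizer (Fr E : Set H) := by
    rw [sup_comm]
    exact le_normalizer_of_cent h' (le_normalizer.trans (normalizer_le_normalizer_Fr E)) (Fr_le E)
  apply le_antisymm
  · apply Fr_le_of (p := p) (le_normalizer_sup nE nD)
    · rw [comm_sup_cent h le_rfl le_rfl le_rfl le_rfl]
      exact sup_le_sup (Fr_comm hE) (Fr_comm hD)
    · intro x hx
      obtain ⟨e, he, d, hd, rfl⟩ := (mem_sup_cent h).1 hx
      have h1 : Commute e d := (mem_centralizer_iff.1 (h he) d hd).symm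
      rw [h1.mul_pow]
      exact mul_mem_sup (Fr_pow hE he) (Fr_pow hD hd)
  · apply sup_le
    · apply Fr_mono_normal le_sup_left
      rw [sup_comm]
      exact le_normalizer_of_cent h' le_normalizer le_rfl
    · exact Fr_mono_normal le_sup_right (le_normalizer_of_cent h le_normalizer le_rfl)

theorem pw_sup_cent (h : E ≤ centralizer (D : Set H)) :
    powerClosure p 1 (E ⊔ D) = powerClosure p 1 E ⊔ powerClosure p 1 D := by
  apply le_antisymm
  · unfold powerClosure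
    rw [closure_le]
    rintro _ ⟨x, hx, rfl⟩
    obtain ⟨e, he, d, hd, rfl⟩ := (mem_sup_cent h).1 hx
    have h1 : Commute e d := (mem_centralizer_iff.1 (h he) d hd).symm
    rw [h1.mul_pow]
    exact mul_mem_sup (subset_closure ⟨e, he, rfl⟩) (subset_closure ⟨d, hd, rfl⟩)
  · exact sup_le (powerClosure_mono le_sup_left) (powerClosure_mono le_sup_right)

/-- the group `S₀` -/
noncomputable def s0 (p : ℕ) (P : Subgroup H) : Subgroup H :=
  if p = 2 then ⁅Fr P, P⁆ ⊔ Fr (Fr P) else if p = 3 then ⁅⁅Fr P, P⁆, P⁆ ⊔ Fr (Fr P)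
  else ⁅Fr P, P⁆ ⊔ powerClosure p 1 P

theorem comm_Fr_le (P : Subgroup H) : ⁅Fr P, P⁆ ≤ Fr P := by
  rw [← le_normalizer_iff_commutator_le_left]
  exact le_normalizer.trans (normalizer_le_normalizer_Fr P)

theorem comm_comm_Fr_le (P : Subgroup H) : ⁅⁅Fr P, P⁆, P⁆ ≤ ⁅Fr P, P⁆ := by
  rw [← le_normalizer_iff_commutator_le_left]
  exact le_normalizer_commutator (le_normalizer.trans (normalizer_le_normalizer_Fr P)) le_normalizer

theorem s0_le (P : Subgroup H) : s0 p P ≤ P := by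
  unfold s0
  split_ifs
  · exact sup_le ((comm_Fr_le P).trans (Fr_le P)) ((Fr_le _).trans (Fr_le _))
  · exact sup_le ((comm_comm_Fr_le P).trans ((comm_Fr_le P).trans (Fr_le P))) ((Fr_le _).trans (Fr_le _))
  · exact sup_le ((comm_Fr_le P).trans (Fr_le P)) powerClosure_le

theorem s0_conj (P : Subgroup H) (g : H) :
    s0 p (P.map (MulAut.conj g).toMonoidHom) = (s0 p P).map (MulAut.conj g).toMonoidHom := by
  unfold s0
  split_ifs
  · rw [Subgroup.map_sup, map_commutator, ← Fr_map_conj, ← Fr_map_conj, ← Fr_map_conj]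
  · rw [Subgroup.map_sup, map_commutator, map_commutator, ← Fr_map_conj, ← Fr_map_conj, ← Fr_map_conj]
  · rw [Subgroup.map_sup, map_commutator, ← Fr_map_conj, powerClosure_one_map]

theorem s0_sup (hp : IsPGroup p (E ⊔ D : Subgroup H)) (h : E ≤ centralizer (D : Set H)) :
    s0 p (E ⊔ D) = s0 p E ⊔ s0 p D := by
  have hF := Fr_sup_cent hp h
  have hFE : Fr E ≤ centralizer (Fr D : Set H) := ((Fr_le E).trans h).trans (centralizer_le (Fr_le D))
  have hFF : Fr (Fr (E ⊔ D)) = Fr (Fr E) ⊔ Fr (Fr D) := by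
    rw [hF]
    exact Fr_sup_cent (by rw [← hF]; exact hp.to_le (Fr_le _)) hFE
  have hc : ⁅Fr (E ⊔ D), E ⊔ D⁆ = ⁅Fr E, E⁆ ⊔ ⁅Fr D, D⁆ := by
    rw [hF]; exact comm_sup_cent h (Fr_le E) le_rfl (Fr_le D) le_rfl
  have hcc : ⁅⁅Fr (E ⊔ D), E ⊔ D⁆, E ⊔ D⁆ = ⁅⁅Fr E, E⁆, E⁆ ⊔ ⁅⁅Fr D, D⁆, D⁆ := by
    rw [hc]
    exact comm_sup_cent h ((comm_Fr_le E).trans (Fr_le E)) le_rfl ((comm_Fr_le D).trans (Fr_le D)) le_rfl
  unfold s0
  split_ifs
  · rw [hc, hFF, sup_sup_sup_comm]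
  · rw [hcc, hFF, sup_sup_sup_comm]
  · rw [hc, pw_sup_cent h, sup_sup_sup_comm]

theorem s0_eq_bot (h1 : Fr E ≤ centralizer (E : Set H)) (h2 : Fr (Fr E) = ⊥)
    (h3 : p ≠ 2 → p ≠ 3 → ∀ x ∈ E, x ^ p = 1) : s0 p E = ⊥ := by
  have k1 : ⁅Fr E, E⁆ = ⊥ := by rw [commutator_eq_bot_iff_le_centralizer]; exact h1
  unfold s0
  split_ifs with i1 i2
  · rw [k1, h2, sup_bot_eq]
  · rw [k1, h2, commutator_bot_left, sup_bot_eq]
  · rw [k1, bot_sup_eq, eq_bot_iff]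
    unfold powerClosure
    rw [closure_le]
    rintro _ ⟨x, hx, rfl⟩
    rw [pow_one, h3 i1 i2 x hx]
    exact one_mem _

/-- abelian groups of exponent `p` -/
theorem Fr_eq_bot (h1 : E ≤ centralizer (E : Set H)) (h2 : ∀ x ∈ E, x ^ p = 1) : Fr E = ⊥ := by
  rw [eq_bot_iff]
  apply Fr_le_of (p := p) (fun x _ => mem_normalizer_bot x)
  · rw [le_bot_iff, commutator_eq_bot_iff_le_centralizer]; exact h1
  · intro x hx; rw [h2 x hx]; exact one_mem _

theorem Fr_bot : Fr (⊥ : Subgroup H) = ⊥ := by rw [eq_bot_iff]; exact Fr_le _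

theorem s0_of_elem (h1 : E ≤ centralizer (E : Set H)) (h2 : ∀ x ∈ E, x ^ p = 1) : s0 p E = ⊥ := by
  have h3 := Fr_eq_bot h1 h2
  refine s0_eq_bot ?_ ?_ (fun _ _ => h2)
  · rw [h3]; exact bot_le
  · rw [h3, Fr_bot]

theorem mul_pow_comm_central {a b c : H} {n : ℕ} (hc : b * a = a * b * c) (hca : Commute c a) (hcb : Commute c b) :
    (a * b) ^ n = a ^ n * b ^ n * c ^ (n.choose 2) := by
  have hb : ∀ m : ℕ, b ^ m * a = a * b ^ m * c ^ m := by
    intro m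
    induction m with
    | zero => simp
    | succ m ih =>
      have h1 : Commute (c ^ m) b := hcb.pow_left m
      calc b ^ (m + 1) * a = b ^ m * (b * a) := by rw [pow_succ, mul_assoc]
        _ = (b ^ m * a) * (b * c) := by rw [hc]; group
        _ = a * b ^ m * (c ^ m * b) * c := by rw [ih]; group
        _ = a * b ^ m * (b * c ^ m) * c := by rw [h1.eq]
        _ = a * b ^ (m + 1) * c ^ (m + 1) := by rw [pow_succ b, pow_succ c]; group
  induction n with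
  | zero => simp
  | succ n ih =>
    have h1 : Commute (c ^ (n.choose 2)) a := hca.pow_left _
    have h2 : Commute (c ^ (n.choose 2)) b := hcb.pow_left _
    have h3 : Commute (c ^ n) b := hcb.pow_left _
    have h4 : (n + 1).choose 2 = n + n.choose 2 := by
      rw [Nat.choose_succ_succ' n 1, Nat.choose_one_right]
    calc (a * b) ^ (n + 1) = a ^ n * b ^ n * (c ^ (n.choose 2) * a) * b := by rw [pow_succ, ih]; group
      _ = a ^ n * (b ^ n * a) * (c ^ (n.choose 2) * b) := by rw [h1.eq]; group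
      _ = a ^ n * (a * b ^ n * c ^ n) * (b * c ^ (n.choose 2)) := by rw [hb, h2.eq]
      _ = a ^ n * a * b ^ n * (c ^ n * b) * c ^ (n.choose 2) := by group
      _ = a ^ n * a * b ^ n * (b * c ^ n) * c ^ (n.choose 2) := by rw [h3.eq]
      _ = a ^ (n + 1) * b ^ (n + 1) * c ^ ((n + 1).choose 2) := by
          rw [pow_succ, pow_succ, h4, pow_add]; group


theorem sup_cmod_self {A B Z : Subgroup H} (hA : A ≤ centralizer (A : Set H)) (hB : B ≤ centralizer (B : Set H))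
    (hZc : Z ≤ centralizer ((A ⊔ B : Subgroup H) : Set H)) (hAB : ∀ a ∈ A, ∀ b ∈ B, ⁅a, b⁆ ∈ Z) :
    ⁅A ⊔ B, A ⊔ B⁆ ≤ Z := by
  have hn : A ⊔ B ≤ normalizer (Z : Set H) := by
    have : A ⊔ B ≤ centralizer (Z : Set H) := by rw [le_centralizer_iff]; exact hZc
    exact this.trans (centralizer_le_normalizer _)
  have h1 : A ⊔ B ≤ cmod A Z := by
    apply sup_le
    · intro x hx
      refine ⟨hn ((le_sup_left : A ≤ A ⊔ B) hx), fun v hv => ?_⟩
      have : ⁅x, v⁆ = 1 := by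
        rw [commutatorElement_eq_one_iff_mul_comm]
        exact (mem_centralizer_iff.1 (hA hx) v hv).symm
      rw [this]; exact one_mem _
    · intro x hx
      refine ⟨hn ((le_sup_right : B ≤ A ⊔ B) hx), fun v hv => ?_⟩
      rw [← commutatorElement_inv]
      exact inv_mem (hAB v hv x hx)
  have h2 : A ⊔ B ≤ cmod B Z := by
    apply sup_le
    · intro x hx
      exact ⟨hn ((le_sup_left : A ≤ A ⊔ B) hx), fun v hv => hAB x hx v hv⟩
    · intro x hx
      refine ⟨hn ((le_sup_right : B ≤ A ⊔ B) hx), fun v hv => ?_⟩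
      have : ⁅x, v⁆ = 1 := by
        rw [commutatorElement_eq_one_iff_mul_comm]
        exact (mem_centralizer_iff.1 (hB hx) v hv).symm
      rw [this]; exact one_mem _
  apply commutator_le_of_le_cmod
  apply sup_le
  · intro x hx
    refine ⟨hn ((le_sup_left : A ≤ A ⊔ B) hx), fun v hv => ?_⟩
    rw [← commutatorElement_inv]
    exact inv_mem ((h1 hv).2 x hx)
  · intro x hx
    refine ⟨hn ((le_sup_right : B ≤ A ⊔ B) hx), fun v hv => ?_⟩
    rw [← commutatorElement_inv]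
    exact inv_mem ((h2 hv).2 x hx)

theorem pow_two_gen {A B Z : Subgroup H} (hAp : ∀ x ∈ A, x ^ p = 1) (hBp : ∀ x ∈ B, x ^ p = 1)
    (hZA : Z ≤ A) (hZc : Z ≤ centralizer ((A ⊔ B : Subgroup H) : Set H)) (hAB : ∀ a ∈ A, ∀ b ∈ B, ⁅a, b⁆ ∈ Z)
    {x : H} (hx : x ∈ A ⊔ B) : ∃ c ∈ Z, x ^ p = c ^ (p.choose 2) := by
  have hn : B ≤ normalizer (A : Set H) := by
    rw [le_normalizer_iff_commutator_le_left, commutator_le]
    intro a ha b hb
    exact hZA (hAB a ha b hb)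
  rw [sup_comm, mem_sup_of_le_normalizer' hn] at hx
  obtain ⟨a, ha, b, hb, rfl⟩ := hx
  have h1 : ⁅b⁻¹, a⁻¹⁆ ∈ Z := by
    rw [← commutatorElement_inv]
    exact inv_mem (hAB _ (inv_mem ha) _ (inv_mem hb))
  have h2 : ∀ y ∈ A ⊔ B, Commute ⁅b⁻¹, a⁻¹⁆ y := fun y hy => (mem_centralizer_iff.1 (hZc h1) y hy).symm
  refine ⟨_, h1, ?_⟩
  rw [mul_pow_comm_central (c := ⁅b⁻¹, a⁻¹⁆) (by rw [commutatorElement_def]; group)
    (h2 a ((le_sup_left : A ≤ A ⊔ B) ha)) (h2 b ((le_sup_right : B ≤ A ⊔ B) hb)), hAp a ha, hBp b hb, one_mul, one_mul]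

theorem s0_two {A B Z : Subgroup H} (hA : A ≤ centralizer (A : Set H)) (hB : B ≤ centralizer (B : Set H))
    (hAp : ∀ x ∈ A, x ^ p = 1) (hBp : ∀ x ∈ B, x ^ p = 1)
    (hZA : Z ≤ A) (hZc : Z ≤ centralizer ((A ⊔ B : Subgroup H) : Set H)) (hAB : ∀ a ∈ A, ∀ b ∈ B, ⁅a, b⁆ ∈ Z) :
    s0 p (A ⊔ B) = ⊥ := by
  have hn : A ⊔ B ≤ normalizer (Z : Set H) := by
    have : A ⊔ B ≤ centralizer (Z : Set H) := by rw [le_centralizer_iff]; exact hZc
    exact this.trans (centralizer_le_normalizer _)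
  have h1 : Fr (A ⊔ B) ≤ Z := by
    apply Fr_le_of (p := p) hn (sup_cmod_self hA hB hZc hAB)
    intro x hx
    obtain ⟨c, hc, h⟩ := pow_two_gen hAp hBp hZA hZc hAB hx
    rw [h]; exact pow_mem hc _
  apply s0_eq_bot (h1.trans hZc)
  · apply Fr_eq_bot (p := p)
    · exact (h1.trans (hZA.trans hA)).trans (centralizer_le (h1.trans hZA))
    · intro x hx; exact hAp x (hZA (h1 hx))
  · intro h2 _ x hx
    obtain ⟨c, hc, h⟩ := pow_two_gen hAp hBp hZA hZc hAB hx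
    rw [h]
    have hp := Fact.out (p := p.Prime)
    obtain ⟨k, hk⟩ : p ∣ p.choose 2 := hp.dvd_choose_self (by norm_num) (by have := hp.two_le; omega)
    rw [hk, pow_mul, hAp c (hZA hc), one_pow]

variable {𝒱 : Set (Subgroup H)} {X : Subgroup H → Subgroup H} {G G' P P' : Subgroup H} {q q' : ℕ}

namespace MAm

/-- absurdity from a centralised normal subgroup over `X P` -/
theorem absurd_of (ha : MAm p 𝒱 X) (hG : G ∈ 𝒱) (hP : SylIn p P G) {T A : Subgroup H} (hT : X P ≤ T)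
    (hGT : G ≤ normalizer (T : Set H)) (hA : A ≤ centralizer (T : Set H)) (hAP : A ≤ P) (hAQ : ¬ A ≤ pCoreOf p G) :
    False := by
  obtain ⟨q, hv⟩ := ha.vtx G hG
  rcases hv.dich hP (N := G ⊓ centralizer (T : Set H)) inf_le_left
    (le_normalizer_inf le_normalizer (hGT.trans (normalizer_le_normalizer_centralizer _))) with h1 | h1
  · apply ha.nc hG hP
    conv_lhs => rw [← h1]
    apply sup_le
    · exact inf_le_right.trans (centralizer_le hT)
    · rw [le_centralizer_iff]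
      exact (ha.Xz P ⟨G, hG, hP⟩).trans inf_le_right
  · exact hAQ ((le_inf (le_inf (hAP.trans hP.le) hA) hAP).trans h1)

theorem half (ha : MAm p 𝒱 X) (hG : G ∈ 𝒱) (hP : SylIn p P G) (hG' : G' ∈ 𝒱) (hP' : SylIn p P' G')
    (h1 : ZV p G ≤ P') (h2 : ZV p G' ≤ P) (h3 : ¬ ZV p G ≤ centralizer (ZV p G' : Set H))
    (hv : Vtx p q G) (hv' : Vtx p q' G') :
    q' ≤ q ∧ Nat.card (ZV p G' ⊔ pCoreOf p G : Subgroup H) = q' * Nat.card (pCoreOf p G) := by
  have hn : ZV p G' ≤ normalizer ((pCoreOf p G : Subgroup H) : Set H) := (h2.trans hP.le).trans pCoreOf_normal_mem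
  have e1 := card_sup_mul_card_inf hn
  have e0 : ZV p G' ⊓ pCoreOf p G = ZV p G' ⊓ centralizer (ZV p G : Set H) := by
    apply le_antisymm
    · exact inf_le_inf_left _ hv.core_le_cent
    · exact le_inf inf_le_left ((inf_le_inf_right _ h2).trans (ha.cent_le hG hP))
  have e2 := (ha.natZ hG' hv').card_U P' hP'
  have e3 := (ha.natZ hG' hv').cz_eq hP' h1 (fun h => h3 (h.trans hv'.core_le_cent))
  rw [← e3, cz_bot, ← e0] at e2
  rw [e2] at e1
  have h4 : 0 < Nat.card (ZV p G' ⊓ pCoreOf p G : Subgroup H) := Nat.card_pos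
  have e4 : Nat.card (ZV p G' ⊔ pCoreOf p G : Subgroup H) = q' * Nat.card (pCoreOf p G) := by
    apply Nat.eq_of_mul_eq_mul_right h4
    rw [e1]; ring
  refine ⟨?_, e4⟩
  have h5 : Nat.card (ZV p G' ⊔ pCoreOf p G : Subgroup H) ≤ Nat.card P :=
    Subgroup.card_le_of_le (sup_le h2 (pCoreOf_le_sylIn hP))
  rw [e4, hv.card hP] at h5
  exact Nat.le_of_mul_le_mul_right h5 Nat.card_pos

theorem mutual_q (ha : MAm p 𝒱 X) (hG : G ∈ 𝒱) (hP : SylIn p P G) (hG' : G' ∈ 𝒱) (hP' : SylIn p P' G')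
    (h1 : ZV p G ≤ P') (h2 : ZV p G' ≤ P) (h3 : ¬ ZV p G ≤ centralizer (ZV p G' : Set H))
    (hv : Vtx p q G) (hv' : Vtx p q' G') : q = q' := by
  have h4 : ¬ ZV p G' ≤ centralizer (ZV p G : Set H) := fun h => h3 (by rw [le_centralizer_iff]; exact h)
  exact le_antisymm (ha.half hG' hP' hG hP h2 h1 h4 hv' hv).1 (ha.half hG hP hG' hP' h1 h2 h3 hv hv').1

theorem mutual_sup (ha : MAm p 𝒱 X) (hG : G ∈ 𝒱) (hP : SylIn p P G) (hG' : G' ∈ 𝒱) (hP' : SylIn p P' G')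
    (h1 : ZV p G ≤ P') (h2 : ZV p G' ≤ P) (h3 : ¬ ZV p G ≤ centralizer (ZV p G' : Set H)) :
    ZV p G' ⊔ pCoreOf p G = P := by
  obtain ⟨q, hv⟩ := ha.vtx G hG
  obtain ⟨q', hv'⟩ := ha.vtx G' hG'
  have e := ha.mutual_q hG hP hG' hP' h1 h2 h3 hv hv'
  apply eq_of_le_of_card_ge (sup_le h2 (pCoreOf_le_sylIn hP))
  rw [(ha.half hG hP hG' hP' h1 h2 h3 hv hv').2, hv.card hP, e]

theorem mutual_comm (ha : MAm p 𝒱 X) (hG : G ∈ 𝒱) (hP : SylIn p P G) (hG' : G' ∈ 𝒱) (hP' : SylIn p P' G')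
    (h1 : ZV p G ≤ P') (h2 : ZV p G' ≤ P) (h3 : ¬ ZV p G ≤ centralizer (ZV p G' : Set H)) :
    ⁅ZV p G, P⁆ = ⁅ZV p G, ZV p G'⁆ := by
  apply le_antisymm _ (commutator_mono le_rfl h2)
  rw [commutator_le]
  intro z hz x hx
  have hn : ZV p G' ≤ normalizer ((pCoreOf p G : Subgroup H) : Set H) := (h2.trans hP.le).trans pCoreOf_normal_mem
  rw [← ha.mutual_sup hG hP hG' hP' h1 h2 h3, mem_sup_of_le_normalizer hn] at hx
  obtain ⟨y, hy, t, ht, rfl⟩ := hx
  have h4 : t * z⁻¹ * t⁻¹ = z⁻¹ := by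
    have h2 : z⁻¹ * t = t * z⁻¹ := mem_centralizer_iff.1 (ha.core_cent hG ht) z⁻¹ (inv_mem hz)
    rw [← h2, mul_inv_cancel_right]
  have h5 : ⁅z, y * t⁆ = ⁅z, y⁆ := by
    rw [commutatorElement_def, commutatorElement_def]
    calc z * (y * t) * z⁻¹ * (y * t)⁻¹ = z * y * (t * z⁻¹ * t⁻¹) * y⁻¹ := by group
      _ = _ := by rw [h4]
  rw [h5]
  exact commutator_mem_commutator hz hy

end MAm

/-- amalgams with the subgroup `X` -/
structure MAx (p : ℕ) (𝒱 : Set (Subgroup H)) (X : Subgroup H → Subgroup H) : Prop extends MAm p 𝒱 X where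
  Xs : ∀ P, Ch p 𝒱 P → X P ≤ s0 p P
  Xm : ∀ P, Ch p 𝒱 P → ∀ Y ≤ X P, Y ≠ ⊥ → normalizer (P : Set H) ≤ normalizer (Y : Set H) → Y = X P

/-- the case `k = 0` -/
theorem MAx.Z_comm_of (hx : MAx p 𝒱 X) (hG : G ∈ 𝒱) (hP : SylIn p P G) (hG' : G' ∈ 𝒱) (hP' : SylIn p P G') :
    ZV p G ≤ centralizer (ZV p G' : Set H) := by
  have ha := hx.toMAm
  by_contra h3
  have h4 : ¬ ZV p G' ≤ centralizer (ZV p G : Set H) := fun h => h3 (by rw [le_centralizer_iff]; exact h)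
  have h1 := ha.Z_le_P hG hP
  have h2 := ha.Z_le_P hG' hP'
  have e1 := ha.mutual_sup hG hP hG' hP' h1 h2 h3
  have e2 := ha.mutual_sup hG' hP' hG hP h2 h1 h4
  set Q := pCoreOf p G with hQ
  set Q' := pCoreOf p G' with hQ'
  have hQP : Q ≤ P := pCoreOf_le_sylIn hP
  have hQP' : Q' ≤ P := pCoreOf_le_sylIn hP'
  -- Q = Z ⊔ (Q ⊓ Q')
  have f1 : ZV p G ⊔ (Q ⊓ Q') = Q := by
    have hZn : ZV p G ≤ normalizer (Q' : Set H) := (h1.trans hP'.le).trans pCoreOf_normal_mem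
    apply le_antisymm (sup_le (ha.Z_le hG) inf_le_left)
    intro x hx
    have hx2 : x ∈ ZV p G ⊔ Q' := by rw [e2]; exact hQP hx
    obtain ⟨z, hz, y, hy, rfl⟩ := (mem_sup_of_le_normalizer hZn).1 hx2
    have hy2 : y ∈ Q := by
      have := mul_mem (inv_mem (ha.Z_le hG hz)) hx
      rwa [inv_mul_cancel_left] at this
    exact mul_mem_sup hz (mem_inf.2 ⟨hy2, hy⟩)
  have f2 : (ZV p G ⊔ ZV p G') ⊔ (Q ⊓ Q') = P := by
    rw [sup_comm (ZV p G), sup_assoc, f1, e1]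
  have c1 : ZV p G ≤ centralizer ((Q ⊓ Q' : Subgroup H) : Set H) := by
    rw [le_centralizer_iff]; exact inf_le_left.trans (ha.core_cent hG)
  have c2 : ZV p G' ≤ centralizer ((Q ⊓ Q' : Subgroup H) : Set H) := by
    rw [le_centralizer_iff]; exact inf_le_right.trans (ha.core_cent hG')
  have hZω : ∀ a ∈ ZV p G, ∀ b ∈ ZV p G', ⁅a, b⁆ ∈ omegaOneCenter p P := fun a ha' b hb =>
    ha.comm_le hG hP (commutator_mem_commutator ha' (h2 hb))
  have s1 : s0 p (ZV p G ⊔ ZV p G') = ⊥ :=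
    s0_two (ha.Z_comm hG) (ha.Z_comm hG') (fun x hx => ha.Z_pow hG hx) (fun x hx => ha.Z_pow hG' hx)
      (ha.omega_le hG hP) (MAm.omega_le_cent.trans (centralizer_le (sup_le h1 h2))) hZω
  have s2 : s0 p P = s0 p (Q ⊓ Q') := by
    have := s0_sup (p := p) (E := ZV p G ⊔ ZV p G') (D := Q ⊓ Q') (by rw [f2]; exact hP.isPGroup) (sup_le c1 c2)
    rw [f2, s1, bot_sup_eq] at this
    exact this
  have s3 : s0 p Q = s0 p (Q ⊓ Q') := by
    have := s0_sup (p := p) (E := ZV p G) (D := Q ⊓ Q') (by rw [f1]; exact hP.isPGroup.to_le hQP) c1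
    rw [f1, s0_of_elem (ha.Z_comm hG) (fun x hx => ha.Z_pow hG hx), bot_sup_eq] at this
    exact this
  refine ha.absurd_of hG hP (T := s0 p Q) (A := ZV p G') ?_ ?_ ?_ h2 ?_
  · rw [s3, ← s2]; exact hx.Xs P ⟨G, hG, hP⟩
  · exact (pCoreOf_normal_mem (G := G)).trans (le_normalizer_of_equivariant (F := s0 p) s0_conj _)
  · rw [s3, le_centralizer_iff]
    exact ((s0_le _).trans inf_le_right).trans (ha.core_cent hG')
  · intro h; exact h4 (h.trans (ha.core_cent hG))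

theorem MAx.V_comm (hx : MAx p 𝒱 X) : VV p 𝒱 P ≤ centralizer (VV p 𝒱 P : Set H) := by
  rw [VV_le_iff]
  intro G hG hP
  rw [le_centralizer_iff, VV_le_iff]
  intro G' hG' hP'
  exact hx.Z_comm_of hG' hP' hG hP

theorem MAx.V_le_D (hx : MAx p 𝒱 X) : VV p 𝒱 P ≤ cn P (VV p 𝒱 P) := le_inf hx.V_le hx.V_comm

theorem MAx.clin_D (hx : MAx p 𝒱 X) (hP : Ch p 𝒱 P) : CLin P (cn P (VV p 𝒱 P)) := by
  apply hx.clin_of_cd hP (hx.cd_D hP)
  rw [(hx.cd_V hP).cn_cn (hx.cm hP)]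
  exact hx.V_le_D

end

end Cfsg.Agent.H47
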