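import Cfsg.Agent.H47.MO3

set_option autoImplicit false
set_option linter.unusedSectionVars false
set_option linter.style.haveILetI false
open Cfsg Subgroup
open scoped commutatorElement

namespace Cfsg.Agent.H47

universe u

variable {H : Type u} [Group H] {p : ℕ} {𝒱 : Set (Subgroup H)} {X : Subgroup H → Subgroup H}

/-- type `B` vertices -/
def TB (p : ℕ) (𝒱 : Set (Subgroup H)) (G : Subgroup H) : Prop :=
  ∀ P, SylIn p P G → G ≤ normalizer (VV p 𝒱 P : Set H)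

/-- adjacency over a type `B` vertex -/
def Bst (p : ℕ) (𝒱 : Set (Subgroup H)) (P P' : Subgroup H) : Prop :=
  ∃ G ∈ 𝒱, TB p 𝒱 G ∧ SylIn p P G ∧ SylIn p P' G

def Beq (p : ℕ) (𝒱 : Set (Subgroup H)) : Subgroup H → Subgroup H → Prop := Relation.ReflTransGen (Bst p 𝒱)

/-- adjacency of chambers -/
def Adj (p : ℕ) (𝒱 : Set (Subgroup H)) (P P' : Subgroup H) : Prop := ∃ G ∈ 𝒱, SylIn p P G ∧ SylIn p P' G

/-- distance modulo `Beq` -/
def mp (p : ℕ) (𝒱 : Set (Subgroup H)) : ℕ → Subgroup H → Subgroup H → Prop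
  | 0, P, P' => Beq p 𝒱 P P'
  | n + 1, P, P' => ∃ P₁ P₂, mp p 𝒱 n P P₁ ∧ Adj p 𝒱 P₁ P₂ ∧ Beq p 𝒱 P₂ P'

variable {P P' P'' : Subgroup H}

theorem Bst.symm (h : Bst p 𝒱 P P') : Bst p 𝒱 P' P := by
  obtain ⟨G, hG, hB, h1, h2⟩ := h
  exact ⟨G, hG, hB, h2, h1⟩

theorem Adj.symm (h : Adj p 𝒱 P P') : Adj p 𝒱 P' P := by
  obtain ⟨G, hG, h1, h2⟩ := h
  exact ⟨G, hG, h2, h1⟩

theorem Beq.refl : Beq p 𝒱 P P := Relation.ReflTransGen.refl

theorem Beq.symm (h : Beq p 𝒱 P P') : Beq p 𝒱 P' P := by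
  induction h with
  | refl => exact Relation.ReflTransGen.refl
  | tail _ h ih => exact Relation.ReflTransGen.head h.symm ih

theorem Beq.trans (h : Beq p 𝒱 P P') (h' : Beq p 𝒱 P' P'') : Beq p 𝒱 P P'' := Relation.ReflTransGen.trans h h'

theorem mp.beq_right {n : ℕ} (h : mp p 𝒱 n P P') (h' : Beq p 𝒱 P' P'') : mp p 𝒱 n P P'' := by
  cases n with
  | zero => exact Beq.trans h h'
  | succ n =>
    obtain ⟨P₁, P₂, h1, h2, h3⟩ := h
    exact ⟨P₁, P₂, h1, h2, h3.trans h'⟩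

theorem mp.beq_left {n : ℕ} (h : Beq p 𝒱 P P') (h' : mp p 𝒱 n P' P'') : mp p 𝒱 n P P'' := by
  induction n generalizing P'' with
  | zero => exact Beq.trans h h'
  | succ n ih =>
    obtain ⟨P₁, P₂, h1, h2, h3⟩ := h'
    exact ⟨P₁, P₂, ih h1, h2, h3⟩

theorem mp.cons {n : ℕ} {P₀ P₁ : Subgroup H} (h : Beq p 𝒱 P P₀) (h1 : Adj p 𝒱 P₀ P₁) (h' : mp p 𝒱 n P₁ P') :
    mp p 𝒱 (n + 1) P P' := by
  induction n generalizing P' with
  | zero => exact ⟨P₀, P₁, h, h1, h'⟩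
  | succ n ih =>
    obtain ⟨P₂, P₃, h2, h3, h4⟩ := h'
    exact ⟨P₂, P₃, ih h2, h3, h4⟩

theorem mp.symm {n : ℕ} (h : mp p 𝒱 n P P') : mp p 𝒱 n P' P := by
  induction n generalizing P' with
  | zero => exact Beq.symm h
  | succ n ih =>
    obtain ⟨P₁, P₂, h1, h2, h3⟩ := h
    exact mp.cons h3.symm h2.symm (ih h1)

theorem mp.first {n : ℕ} (h : mp p 𝒱 (n + 1) P P') :
    ∃ P₀ P₁, Beq p 𝒱 P P₀ ∧ Adj p 𝒱 P₀ P₁ ∧ mp p 𝒱 n P₁ P' := by
  obtain ⟨P₁, P₂, h1, h2, h3⟩ := h.symm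
  exact ⟨P₂, P₁, h3.symm, h2.symm, h1.symm⟩

theorem mp.trans {m n : ℕ} (h : mp p 𝒱 m P P') (h' : mp p 𝒱 n P' P'') : mp p 𝒱 (m + n) P P'' := by
  induction n generalizing P'' with
  | zero => exact h.beq_right h'
  | succ n ih =>
    obtain ⟨P₁, P₂, h1, h2, h3⟩ := h'
    exact ⟨P₁, P₂, ih h1, h2, h3⟩

theorem mp.adj (h : Adj p 𝒱 P P') : mp p 𝒱 1 P P' := ⟨P, P', Beq.refl, h, Beq.refl⟩

section
variable [Finite H] [Fact p.Prime] {G G' : Subgroup H} {q : ℕ}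

theorem TB.of (ha : MAm p 𝒱 X) (hP : SylIn p P G) (h : G ≤ normalizer (VV p 𝒱 P : Set H)) :
    TB p 𝒱 G := by
  intro P' hP'
  obtain ⟨g, hg, rfl⟩ := hP.conj hP'
  rw [VV_conj ha.conj, norm_map_conj (h hg)]
  exact h

theorem TB.VV_eq (ha : MAm p 𝒱 X) (h : TB p 𝒱 G) (hP : SylIn p P G) (hP' : SylIn p P' G) :
    VV p 𝒱 P = VV p 𝒱 P' := by
  obtain ⟨g, hg, rfl⟩ := hP.conj hP'
  rw [VV_conj ha.conj, norm_map_conj (h P hP hg)]

theorem MAm.D_eq (ha : MAm p 𝒱 X) (hG : G ∈ 𝒱) (hP : SylIn p P G) :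
    cn P (VV p 𝒱 P) = pCoreOf p G ⊓ centralizer (VV p 𝒱 P : Set H) :=
  le_antisymm (le_inf (ha.D_le_core hG hP) inf_le_right) (inf_le_inf_right _ (pCoreOf_le_sylIn hP))

theorem TB.D_eq (ha : MAm p 𝒱 X) (hG : G ∈ 𝒱) (h : TB p 𝒱 G) (hP : SylIn p P G) (hP' : SylIn p P' G) :
    cn P (VV p 𝒱 P) = cn P' (VV p 𝒱 P') := by
  rw [ha.D_eq hG hP, ha.D_eq hG hP', h.VV_eq ha hP hP']

theorem TB.norm_D (ha : MAm p 𝒱 X) (hG : G ∈ 𝒱) (h : TB p 𝒱 G) (hP : SylIn p P G) :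
    G ≤ normalizer (cn P (VV p 𝒱 P) : Set H) := by
  rw [ha.D_eq hG hP]
  exact le_normalizer_inf pCoreOf_normal_mem ((h P hP).trans (normalizer_le_normalizer_centralizer _))

theorem Beq.VV_eq (ha : MAm p 𝒱 X) (h : Beq p 𝒱 P P') : VV p 𝒱 P = VV p 𝒱 P' := by
  induction h with
  | refl => rfl
  | tail _ h ih =>
    obtain ⟨G, hG, hB, h1, h2⟩ := h
    rw [ih]; exact hB.VV_eq ha h1 h2

theorem Beq.D_eq (ha : MAm p 𝒱 X) (h : Beq p 𝒱 P P') : cn P (VV p 𝒱 P) = cn P' (VV p 𝒱 P') := by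
  induction h with
  | refl => rfl
  | tail _ h ih =>
    obtain ⟨G, hG, hB, h1, h2⟩ := h
    rw [ih]; exact hB.D_eq ha hG h1 h2

theorem Beq.ch (h : Beq p 𝒱 P P') (hP : Ch p 𝒱 P) : Ch p 𝒱 P' := by
  induction h with
  | refl => exact hP
  | tail _ h ih =>
    obtain ⟨G, hG, hB, h1, h2⟩ := h
    exact ⟨G, hG, h2⟩

theorem mp.ch {n : ℕ} (h : mp p 𝒱 n P P') (hP : Ch p 𝒱 P) : Ch p 𝒱 P' := by
  cases n with
  | zero => exact Beq.ch h hP
  | succ n =>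
    obtain ⟨P₁, P₂, h1, ⟨G, hG, h2, h4⟩, h3⟩ := h
    exact h3.ch ⟨G, hG, h4⟩

theorem TB.conj (ha : MAm p 𝒱 X) (h : TB p 𝒱 G) (g : H) : TB p 𝒱 (G.map (MulAut.conj g).toMonoidHom) := by
  obtain ⟨P, hP⟩ := SylIn.exists p G
  apply TB.of ha (hP.map_conj g)
  rw [VV_conj ha.conj, normalizer_map_conj]
  exact map_mono (h P hP)

theorem Beq.conj (ha : MAm p 𝒱 X) (h : Beq p 𝒱 P P') (g : H) :
    Beq p 𝒱 (P.map (MulAut.conj g).toMonoidHom) (P'.map (MulAut.conj g).toMonoidHom) := by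
  induction h with
  | refl => exact Beq.refl
  | tail _ h ih =>
    obtain ⟨G, hG, hB, h1, h2⟩ := h
    exact ih.tail ⟨_, ha.conj G hG g, hB.conj ha g, h1.map_conj g, h2.map_conj g⟩

theorem mp.conj (ha : MAm p 𝒱 X) {n : ℕ} (h : mp p 𝒱 n P P') (g : H) :
    mp p 𝒱 n (P.map (MulAut.conj g).toMonoidHom) (P'.map (MulAut.conj g).toMonoidHom) := by
  induction n generalizing P' with
  | zero => exact Beq.conj ha h g
  | succ n ih =>
    obtain ⟨P₁, P₂, h1, ⟨G, hG, h2, h4⟩, h3⟩ := h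
    exact ⟨_, _, ih h1, ⟨_, ha.conj G hG g, h2.map_conj g, h4.map_conj g⟩, h3.conj ha g⟩

/-- the inclusion lemma -/
theorem MAx.V_le_D_of (hx : MAx p 𝒱 X) {n : ℕ}
    (hlow : ∀ m ≤ n, ∀ P P', Ch p 𝒱 P → mp p 𝒱 m P P' → VV p 𝒱 P ≤ centralizer (VV p 𝒱 P' : Set H))
    (hP : Ch p 𝒱 P) (h : mp p 𝒱 n P P') : VV p 𝒱 P ≤ cn P' (VV p 𝒱 P') := by
  have ha := hx.toMAm
  induction n generalizing P' with
  | zero => rw [← Beq.D_eq ha h]; exact hx.V_le_D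
  | succ n ih =>
    obtain ⟨P₁, P₂, h1, ⟨G, hG, h2, h4⟩, h3⟩ := h
    have h5 := ih (fun m hm => hlow m (by omega)) h1
    have h6 : VV p 𝒱 P ≤ P₂ := (h5.trans (ha.D_le_core hG h2)).trans (pCoreOf_le_sylIn h4)
    rw [← h3.D_eq ha]
    exact le_inf h6 (hlow (n + 1) le_rfl P P₂ hP ⟨P₁, P₂, h1, ⟨G, hG, h2, h4⟩, Beq.refl⟩)

theorem MAm.le_core_of (ha : MAm p 𝒱 X) (hG : G ∈ 𝒱) (hP : SylIn p P G) {A : Subgroup H} (hA : A ≤ P)
    (hA2 : A ≤ centralizer (ZV p G : Set H)) : A ≤ pCoreOf p G := (le_inf hA hA2).trans (ha.cent_le hG hP)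

/-- the distance `k` exists -/
theorem MAx.exists_k (hx : MAx p 𝒱 X) :
    ∃ m P P', Ch p 𝒱 P ∧ mp p 𝒱 m P P' ∧ ¬ VV p 𝒱 P ≤ centralizer (VV p 𝒱 P' : Set H) := by
  by_contra hcon
  push Not at hcon
  have ha := hx.toMAm
  obtain ⟨G₀, hG₀⟩ := ha.ne
  obtain ⟨P, hP₀⟩ := SylIn.exists p G₀
  have hP : Ch p 𝒱 P := ⟨G₀, hG₀, hP₀⟩
  let E : Subgroup H := sSup {Y | ∃ m P', mp p 𝒱 m P P' ∧ Y = VV p 𝒱 P'}
  have hle : ∀ m P', mp p 𝒱 m P P' → VV p 𝒱 P' ≤ E := fun m P' h =>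
    le_sSup (show _ ∈ {Y | ∃ m P', mp p 𝒱 m P P' ∧ Y = VV p 𝒱 P'} from ⟨m, P', h, rfl⟩)
  have hEP : E ≤ P := by
    apply sSup_le
    rintro _ ⟨m, P', h1, rfl⟩
    exact (hx.V_le_D_of (fun m _ P P' hP h => hcon m P P' hP h) (h1.ch hP) h1.symm).trans cn_le
  have hEc : E ≤ centralizer (E : Set H) := by
    apply sSup_le
    rintro _ ⟨m, P', h1, rfl⟩
    rw [le_centralizer_iff]
    apply sSup_le
    rintro _ ⟨n, P'', h2, rfl⟩
    exact hcon _ _ _ (h2.ch hP) (h2.symm.trans h1)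
  have hinv : ∀ h : H, (∃ m, mp p 𝒱 m P (P.map (MulAut.conj h).toMonoidHom)) → h ∈ normalizer (E : Set H) := by
    rintro h ⟨m, hm⟩
    apply mem_normalizer_of_map_conj_le
    rw [map_le_iff_le_comap]
    apply sSup_le
    rintro _ ⟨n, P', h1, rfl⟩
    rw [← map_le_iff_le_comap, ← VV_conj ha.conj]
    exact hle (m + n) _ (hm.trans (h1.conj ha h))
  have hEN : normalizer (P : Set H) ≤ normalizer (E : Set H) := by
    intro g hg
    apply hinv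
    refine ⟨0, ?_⟩
    rw [norm_map_conj hg]
    exact Beq.refl
  have hEG : ∀ G ∈ 𝒱, SylIn p P G → G ≤ normalizer (E : Set H) := by
    intro G hG hPG g hg
    apply hinv
    refine ⟨1, mp.adj ⟨G, hG, hPG, ?_⟩⟩
    have := hPG.map_conj g
    rwa [norm_map_conj (le_normalizer hg)] at this
  have hcm := ha.cm hP
  let C : Subgroup H := sSup {R | CD P R ∧ R ≤ E}
  have hVm : VV p 𝒱 P ∈ {R | CD P R ∧ R ≤ E} := ⟨ha.cd_V hP, hle 0 P Beq.refl⟩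
  have hC : CD P C := CD.sSup hcm ⟨_, hVm⟩ (fun R hR => hR.1)
  have hCE : C ≤ E := sSup_le (fun R hR => hR.2)
  have hVC : VV p 𝒱 P ≤ C := le_sSup hVm
  have hCc : C ≤ cn P C := le_inf (hCE.trans hEP) ((hCE.trans hEc).trans (centralizer_le hCE))
  have hCN : normalizer (P : Set H) ≤ normalizer (C : Set H) := by
    intro g hg
    apply mem_normalizer_of_map_conj_le
    apply le_sSup
    refine ⟨?_, ?_⟩
    · have := hC.conj g
      rwa [norm_map_conj hg] at this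
    · have := map_conj_mono (g := g) hCE
      rwa [norm_map_conj (hEN hg)] at this
  have hCG : ∀ G ∈ 𝒱, SylIn p P G → G ≤ normalizer (C : Set H) ∧ cn P C = pCoreOf p G ⊓ centralizer (C : Set H) := by
    intro G hG hPG
    have hZC : ZV p G ≤ C := (le_VV hG hPG).trans hVC
    have e1 : cn P C = pCoreOf p G ⊓ centralizer (C : Set H) := by
      apply le_antisymm
      · refine le_inf ?_ inf_le_right
        rw [← ha.core_eq hG hPG]
        exact cn_anti hZC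
      · exact inf_le_inf_right _ (pCoreOf_le_sylIn hPG)
    refine ⟨?_, e1⟩
    intro g hg
    apply mem_normalizer_of_map_conj_le
    apply le_sSup
    have hCQ : C ≤ pCoreOf p G := ha.le_core_of hG hPG (hCE.trans hEP) ((hCE.trans hEc).trans (centralizer_le (hZC.trans hCE)))
    have hQg : (pCoreOf p G).map (MulAut.conj g).toMonoidHom = pCoreOf p G := norm_map_conj (pCoreOf_normal_mem hg)
    have hCgQ : C.map (MulAut.conj g).toMonoidHom ≤ pCoreOf p G := by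
      have := map_conj_mono (g := g) hCQ
      rwa [hQg] at this
    refine ⟨hcm.cd_of_le (hCgQ.trans (pCoreOf_le_sylIn hPG)) ?_, ?_⟩
    · rw [← hC.2, card_map_conj]
      apply Nat.mul_le_mul_left
      rw [e1, ← card_map_conj (N := pCoreOf p G ⊓ centralizer (C : Set H)) (g := g)]
      apply Subgroup.card_le_of_le
      rw [map_inf _ _ _ (MulAut.conj g).injective, hQg, ← centralizer_map_conj]
      exact inf_le_inf_right _ (pCoreOf_le_sylIn hPG)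
    · have := map_conj_mono (g := g) hCE
      rwa [norm_map_conj (hEG G hG hPG hg)] at this
  have hcl : CLin P (cn P C) := by
    apply ha.clin_of_cd hP (hC.cn hcm)
    rw [hC.cn_cn hcm]
    exact hCc
  obtain ⟨G, hG, hPG, hn⟩ := ha.core P hP _ hcl
    (le_normalizer_inf le_rfl (hCN.trans (normalizer_le_normalizer_centralizer _)))
  apply hn
  obtain ⟨h1, h2⟩ := hCG G hG hPG
  rw [h2]
  exact le_normalizer_inf pCoreOf_normal_mem (h1.trans (normalizer_le_normalizer_centralizer _))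

/-- the minimal distance -/
structure MK (p : ℕ) (𝒱 : Set (Subgroup H)) (X : Subgroup H → Subgroup H) (k : ℕ) : Prop extends MAx p 𝒱 X where
  low : ∀ m < k, ∀ P P', Ch p 𝒱 P → mp p 𝒱 m P P' → VV p 𝒱 P ≤ centralizer (VV p 𝒱 P' : Set H)
  ex : ∃ P P', Ch p 𝒱 P ∧ mp p 𝒱 k P P' ∧ ¬ VV p 𝒱 P ≤ centralizer (VV p 𝒱 P' : Set H)

theorem MAx.exists_MK (hx : MAx p 𝒱 X) : ∃ k, MK p 𝒱 X k := by
  classical
  have hex := hx.exists_k
  refine ⟨Nat.find hex, { hx with low := ?_, ex := Nat.find_spec hex }⟩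
  intro m hm P P' hP h
  by_contra h1
  exact Nat.find_min hex hm ⟨P, P', hP, h, h1⟩

namespace MK
variable {k : ℕ}

theorem pos (h : MK p 𝒱 X k) : 0 < k := by
  rcases Nat.eq_zero_or_pos k with h0 | h0
  · exfalso
    subst h0
    obtain ⟨P, P', hP, h1, h2⟩ := h.ex
    apply h2
    rw [← Beq.VV_eq h.toMAm h1]
    exact h.toMAx.V_comm
  · exact h0

theorem V_le_D (h : MK p 𝒱 X k) {m : ℕ} (hm : m < k) (hP : Ch p 𝒱 P) (hmp : mp p 𝒱 m P P') :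
    VV p 𝒱 P ≤ cn P' (VV p 𝒱 P') :=
  h.toMAx.V_le_D_of (fun n hn => h.low n (by omega)) hP hmp

/-- members close to a vertex -/
theorem V_le_core (h : MK p 𝒱 X k) {m : ℕ} (hm : m < k) (hP : Ch p 𝒱 P) (hmp : mp p 𝒱 m P P')
    (hG : G ∈ 𝒱) (hP' : SylIn p P' G) : VV p 𝒱 P ≤ pCoreOf p G :=
  (h.V_le_D hm hP hmp).trans (h.D_le_core hG hP')

/-- type `A` vertices exist -/
theorem _root_.Cfsg.Agent.H47.MAx.exists_A (hx : MAx p 𝒱 X) (hP : Ch p 𝒱 P) : ∃ G ∈ 𝒱, SylIn p P G ∧ ¬ TB p 𝒱 G := by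
  obtain ⟨G, hG, hPG, h1⟩ := hx.core P hP _ (hx.clin_D hP) (hx.nD P)
  exact ⟨G, hG, hPG, fun h2 => h1 (h2.norm_D hx.toMAm hG hPG)⟩

end MK

end

end Cfsg.Agent.H47
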