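import Cfsg.Agent.H47.MO4

set_option autoImplicit false
set_option linter.unusedSectionVars false
set_option linter.style.haveILetI false
open Cfsg Subgroup
open scoped commutatorElement

namespace Cfsg.Agent.H47

universe u

variable {H : Type u} [Group H] [Finite H] {p q : ℕ} [Fact p.Prime] {𝒱 : Set (Subgroup H)}
  {X : Subgroup H → Subgroup H} {G G' P P' : Subgroup H}

theorem Vtx.q_pow (hv : Vtx p q G) : ∃ n, n ≠ 0 ∧ q = p ^ n := by
  obtain ⟨P, hP⟩ := SylIn.exists p G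
  obtain ⟨m, hm⟩ := IsPGroup.iff_card.1 hP.isPGroup
  rw [hv.card hP] at hm
  have h1 : q ∣ p ^ m := ⟨_, hm.symm⟩
  obtain ⟨n, -, hn⟩ := (Nat.dvd_prime_pow (Fact.out (p := p.Prime))).1 h1
  refine ⟨n, ?_, hn⟩
  rintro rfl
  have := hv.one_lt
  rw [hn, pow_zero] at this
  omega

theorem Vtx.exists_neg (hp2 : p ≠ 2) {V : Subgroup H} (hv : Vtx p q G) (hn : NatS p q G V ⊥) (hVG : V ≤ G)
    (hGV : G ≤ normalizer (V : Set H)) (hVV : V ≤ centralizer (V : Set H)) (hP : SylIn p P G) :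
    ∃ t ∈ G, t ∈ normalizer (P : Set H) ∧ ∀ x ∈ V, x * t = t * x → x ∈ centralizer (G : Set H) := by
  have hpp : p.Prime := Fact.out
  obtain ⟨n, hn0, rfl⟩ := hv.q_pow
  have hF : Nat.card (GaloisField p n) = p ^ n := GaloisField.card p n hn0
  haveI : Finite (GaloisField p n) := Nat.finite_of_card_ne_zero (by
    rw [hF]; exact pow_ne_zero _ hpp.ne_zero)
  letI : Fintype (GaloisField p n) := Fintype.ofFinite _
  rw [Nat.card_eq_fintype_card] at hF
  have hVV' : ⁅V, V⁆ ≤ cz V ⊥ G := by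
    have h1 : ⁅V, V⁆ = ⊥ := by rw [commutator_eq_bot_iff_le_centralizer]; exact hVV
    rw [h1]; exact bot_le
  obtain ⟨σ, f, hN⟩ := hn.nm hv hVG bot_le hGV (fun x _ => mem_normalizer_bot x) hVV' hF
  obtain ⟨t₀, ht₀⟩ := hN.1 (-1)
  let K : Subgroup H := σ.ker.map G.subtype
  have hK : ∀ x : G, (x : H) ∈ K ↔ σ x = 1 := by
    intro x
    constructor
    · rintro ⟨y, hy, hyx⟩
      have : y = x := Subtype.ext hyx
      rw [← this]; exact hy
    · intro hx; exact ⟨x, hx, rfl⟩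
  have hKG : K ≤ G := map_subtype_le _
  have hGK : G ≤ normalizer (K : Set H) := by
    intro g hg
    apply mem_normalizer_of_map_conj_le
    rintro _ ⟨x, hx, rfl⟩
    have h1 := (hK ⟨x, hKG hx⟩).1 hx
    apply (hK (⟨g, hg⟩ * ⟨x, hKG hx⟩ * ⟨g, hg⟩⁻¹)).2
    rw [map_mul, map_mul, h1, mul_one, ← map_mul, mul_inv_cancel, map_one]
  set N := P ⊔ K with hNdef
  have hNG : N ≤ G := sup_le hP.le hKG
  have hPN : SylIn p P N := hP.of_le le_sup_left hNG
  have ht₀N : (t₀ : H) ∈ normalizer (N : Set H) := by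
    apply mem_normalizer_of_map_conj_le
    rw [hNdef, Subgroup.map_sup]
    apply sup_le
    · rintro _ ⟨x, hx, rfl⟩
      have h1 : (t₀ : H) * x * (t₀ : H)⁻¹ * x⁻¹ ∈ K := by
        apply (hK (t₀ * ⟨x, hP.le hx⟩ * t₀⁻¹ * ⟨x, hP.le hx⟩⁻¹)).2
        rw [map_mul, map_mul, map_mul, map_inv, map_inv, ht₀]
        rw [neg_mul, one_mul, inv_neg, inv_one, mul_neg, mul_one, neg_neg, mul_inv_cancel]
      have h2 : (MulAut.conj (t₀ : H)).toMonoidHom x = ((t₀ : H) * x * (t₀ : H)⁻¹ * x⁻¹) * x := by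
        change (t₀ : H) * x * (t₀ : H)⁻¹ = _
        group
      rw [h2]
      exact mul_mem ((le_sup_right : K ≤ P ⊔ K) h1) ((le_sup_left : P ≤ P ⊔ K) hx)
    · rw [norm_map_conj (hGK t₀.2)]; exact le_sup_right
  obtain ⟨m, hm, hmP, y, hy, hym⟩ := hPN.frattini (L := normalizer (N : Set H) ⊓ G) (le_inf le_normalizer hNG)
    inf_le_left (x := t₀) ⟨ht₀N, t₀.2⟩
  have hPK : P ≤ normalizer (K : Set H) := hP.le.trans hGK
  rw [hNdef, mem_sup_of_le_normalizer' hPK] at hy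
  obtain ⟨k, hk, s, hs, rfl⟩ := hy
  have hsm : s * m ∈ G := mul_mem (hP.le hs) hm.2
  refine ⟨s * m, hsm, mul_mem (le_normalizer hs) hmP, ?_⟩
  have hσ : σ ⟨s * m, hsm⟩ = -1 := by
    have h1 : t₀ = ⟨k, hKG hk⟩ * ⟨s * m, hsm⟩ := by
      apply Subtype.ext
      rw [hym]
      change k * s * m = k * (s * m)
      group
    have h2 := ht₀
    rw [h1, map_mul, (hK ⟨k, hKG hk⟩).1 hk, one_mul] at h2
    exact h2
  intro x hx hxt
  have h3 := hN.act ⟨s * m, hsm⟩ ⟨x, hx⟩ ⟨x, hx⟩ (by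
    change x = (s * m) * x * (s * m)⁻¹
    rw [← hxt, mul_inv_cancel_right])
  rw [hσ] at h3
  have h4 : f ⟨x, hx⟩ = 0 := by
    have h5 : (-1 : Matrix.SpecialLinearGroup (Fin 2) (GaloisField p n)).1.mulVec (f ⟨x, hx⟩) = - f ⟨x, hx⟩ := by
      rw [Matrix.SpecialLinearGroup.coe_neg, Matrix.SpecialLinearGroup.coe_one, Matrix.neg_mulVec, Matrix.one_mulVec]
    rw [h5] at h3
    have h6 : (2 : GaloisField p n) ≠ 0 := by
      haveI : CharP (GaloisField p n) p := inferInstance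
      have h7 : ((2 : ℕ) : GaloisField p n) ≠ 0 := by
        rw [Ne, CharP.cast_eq_zero_iff (GaloisField p n) p]
        intro h8
        exact hp2 ((Nat.prime_dvd_prime_iff_eq hpp Nat.prime_two).1 h8)
      exact_mod_cast h7
    ext i
    have h8 := congrFun h3 i
    rw [Pi.neg_apply, eq_neg_iff_add_eq_zero, ← two_mul] at h8
    rw [Pi.zero_apply]
    exact (mul_eq_zero.1 h8).resolve_left h6
  have h5 := (hN.2.2.2.1 _).1 h4
  rw [cz_bot] at h5
  exact h5.2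

/-- if `α` is of type `B` then `[V_P, Q_α] ≤ C(α)` -/
theorem TB.comm_le (ha : MAm p 𝒱 X) (hG : G ∈ 𝒱) (hB : TB p 𝒱 G) (hP : SylIn p P G) :
    ⁅VV p 𝒱 P, pCoreOf p G⁆ ≤ centralizer (G : Set H) := by
  obtain ⟨q, hv⟩ := ha.vtx G hG
  rw [le_centralizer_iff]
  apply hv.le_cent_of hP
  · exact le_normalizer_commutator (hB P hP) pCoreOf_normal_mem
  · rw [le_centralizer_iff]
    exact ((commutator_mono le_rfl (pCoreOf_le_sylIn hP)).trans ha.V_comm_le).trans MAm.omega_le_cent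

theorem MAm.comm_core (ha : MAm p 𝒱 X) (hG : G ∈ 𝒱) (hP : SylIn p P G) (hG' : G' ∈ 𝒱) (hP' : SylIn p P G')
    (hne : ZV p G ≠ ZV p G') : ⁅ZV p G, P⁆ = ⁅ZV p G, pCoreOf p G'⁆ := by
  apply le_antisymm _ (commutator_mono le_rfl (pCoreOf_le_sylIn hP'))
  rw [commutator_le]
  intro z hz x hx
  have hn : pCoreOf p G' ≤ normalizer ((pCoreOf p G : Subgroup H) : Set H) :=
    ((pCoreOf_le_sylIn hP').trans hP.le).trans pCoreOf_normal_mem
  rw [← ha.core_sup hG hP hG' hP' hne, sup_comm, mem_sup_of_le_normalizer hn] at hx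
  obtain ⟨y, hy, t, ht, rfl⟩ := hx
  have h4 : t * z⁻¹ * t⁻¹ = z⁻¹ := by
    have h2 : z⁻¹ * t = t * z⁻¹ := mem_centralizer_iff.1 (ha.core_cent hG ht) z⁻¹ (inv_mem hz)
    rw [← h2, mul_inv_cancel_right]
  have h5 : ⁅z, y * t⁆ = ⁅z, y⁆ := by
    rw [commutatorElement_def, commutatorElement_def]
    calc z * (y * t) * z⁻¹ * (y * t)⁻¹ = z * y * (t * z⁻¹ * t⁻¹) * y⁻¹ := by group
      _ = _ := by rw [h4]
  rw [h5]
  exact commutator_mem_commutator hz hy

/-- over a type `B` vertex `α`, the `R_β` are centralised by `α` -/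
theorem TB.R_le (ha : MAm p 𝒱 X) (hG : G ∈ 𝒱) (hB : TB p 𝒱 G) (hP : SylIn p P G) (hG' : G' ∈ 𝒱)
    (hP' : SylIn p P G') (hne : ZV p G' ≠ ZV p G) : ⁅ZV p G', P⁆ ≤ centralizer (G : Set H) := by
  rw [ha.comm_core hG' hP' hG hP hne]
  exact (commutator_mono (le_VV hG' hP') le_rfl).trans (hB.comm_le ha hG hP)

/-- `ω(P) = R_G(P) (Z_G ∩ C(G))` -/
theorem MAm.omega_decomp (ha : MAm p 𝒱 X) (hG : G ∈ 𝒱) (hP : SylIn p P G) {w : H} (hw : w ∈ omegaOneCenter p P) :
    ∃ r ∈ ⁅ZV p G, P⁆, ∃ z ∈ ZV p G, z ∈ centralizer (G : Set H) ∧ w = r * z := by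
  obtain ⟨q, hv⟩ := ha.vtx G hG
  have hn := ha.natZ hG hv
  obtain ⟨u, hu, hu2⟩ := SetLike.not_le_iff_exists.1 (hn.ne P hP)
  rw [← hv.cz_omega hP] at hw
  obtain ⟨s, hs, z, hz, e⟩ := hn.cover P hP u hu hu2 w hw
  rw [cz_bot] at hz
  exact ⟨_, commutator_mem_commutator hu hs, z, hz.1, hz.2, e⟩

/-- the replacement lemma -/
theorem MAx.replace (hx : MAx p 𝒱 X) (hp2 : p ≠ 2) (hG : G ∈ 𝒱) (hB : TB p 𝒱 G) (hP : SylIn p P G)
    (hG' : G' ∈ 𝒱) (hP' : SylIn p P G') :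
    ∃ n ∈ normalizer (P : Set H), ZV p G' = (ZV p G).map (MulAut.conj n).toMonoidHom := by
  by_contra hcon
  push Not at hcon
  have ha := hx.toMAm
  have hPc : Ch p 𝒱 P := ⟨G, hG, hP⟩
  have hXN : normalizer (P : Set H) ≤ normalizer (X P : Set H) := le_normalizer_of_equivariant ha.Xc P
  -- the conjugates of G
  have hc : ∀ n ∈ normalizer (P : Set H), ⁅ZV p G', P⁆ ≤ centralizer ((G.map (MulAut.conj n).toMonoidHom : Subgroup H) : Set H) := by
    intro n hn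
    have hPn : SylIn p P (G.map (MulAut.conj n).toMonoidHom) := by
      have := hP.map_conj n
      rwa [norm_map_conj hn] at this
    refine TB.R_le ha (ha.conj G hG n) (hB.conj ha n) hPn hG' hP' ?_
    rw [ZV_conj]
    exact hcon n hn
  let Y : Subgroup H := X P ⊓ sInf {C | ∃ n ∈ normalizer (P : Set H), C = centralizer ((G.map (MulAut.conj n).toMonoidHom : Subgroup H) : Set H)}
  have hYN : normalizer (P : Set H) ≤ normalizer (Y : Set H) := by
    intro g hg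
    apply mem_normalizer_of_map_conj_le
    apply le_inf
    · have := map_conj_mono (g := g) (inf_le_left : Y ≤ X P)
      rwa [norm_map_conj (hXN hg)] at this
    · apply le_sInf
      rintro _ ⟨n, hn, rfl⟩
      have h1 : Y ≤ centralizer ((G.map (MulAut.conj (g⁻¹ * n)).toMonoidHom : Subgroup H) : Set H) :=
        inf_le_right.trans (sInf_le ⟨g⁻¹ * n, mul_mem (inv_mem hg) hn, rfl⟩)
      have h2 := map_conj_mono (g := g) h1
      rwa [← centralizer_map_conj, ← map_conj_mul, mul_inv_cancel_left] at h2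
  -- a nontrivial element
  obtain ⟨q', hv'⟩ := ha.vtx G' hG'
  have hVG' := (ha.Z_le_P hG' hP').trans hP'.le
  obtain ⟨t, htG, htP, ht⟩ := hv'.exists_neg hp2 (ha.natZ hG' hv') hVG' (le_normalizer_ZV G') (ha.Z_comm hG') hP'
  have hY0 : Y ≠ ⊥ := by
    intro hY
    apply ha.nc hG' hP'
    rw [le_centralizer_iff]
    intro x hx'
    apply ht x (ha.omega_le hG' hP' (ha.X_le hPc hx'))
    obtain ⟨r, hr, z, hz, hz2, e⟩ := ha.omega_decomp hG' hP' (ha.X_le hPc hx')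
    have h1 : ⁅x, t⁆ = ⁅r, t⁆ := by
      have h2 : z * t * z⁻¹ = t := by
        have : t * z = z * t := mem_centralizer_iff.1 hz2 t htG
        rw [← this, mul_inv_cancel_right]
      rw [e, commutatorElement_def, commutatorElement_def]
      calc r * z * t * (r * z)⁻¹ * t⁻¹ = r * (z * t * z⁻¹) * r⁻¹ * t⁻¹ := by group
        _ = _ := by rw [h2]
    have hRn : t ∈ normalizer ((⁅ZV p G', P⁆ : Subgroup H) : Set H) := by
      have h3 : G' ⊓ normalizer (P : Set H) ≤ normalizer ((⁅ZV p G', P⁆ : Subgroup H) : Set H) :=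
        le_normalizer_commutator (inf_le_left.trans (le_normalizer_ZV G')) inf_le_right
      exact h3 ⟨htG, htP⟩
    have h3 : ⁅r, t⁆ ∈ ⁅ZV p G', P⁆ := by
      rw [commutatorElement_def, mul_assoc, mul_assoc, ← mul_assoc t]
      exact mul_mem hr ((mem_normalizer_iff.1 hRn _).1 (inv_mem hr))
    have h4 : ⁅x, t⁆ ∈ X P := by
      rw [commutatorElement_def, mul_assoc, mul_assoc, ← mul_assoc t]
      exact mul_mem hx' ((mem_normalizer_iff.1 (hXN htP) _).1 (inv_mem hx'))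
    have h5 : ⁅x, t⁆ ∈ Y := by
      have h7 : ⁅x, t⁆ ∈ sInf {C | ∃ n ∈ normalizer (P : Set H), C = centralizer ((G.map (MulAut.conj n).toMonoidHom : Subgroup H) : Set H)} := by
        rw [mem_sInf]
        rintro _ ⟨n, hn, rfl⟩
        rw [h1]
        exact hc n hn h3
      exact ⟨h4, h7⟩
    rw [hY, mem_bot, commutatorElement_eq_one_iff_mul_comm] at h5
    exact h5
  have h6 := hx.Xm P hPc Y inf_le_left hY0 hYN
  apply ha.nc hG hP
  rw [← h6, le_centralizer_iff]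
  refine inf_le_right.trans (sInf_le ⟨1, one_mem _, ?_⟩)
  rw [map_conj_one]

/-- replacing a type `B` vertex by a type `A` vertex, `p` odd -/
theorem MAx.exists_A_eq (hx : MAx p 𝒱 X) (hp2 : p ≠ 2) (hG : G ∈ 𝒱) (hP : SylIn p P G) :
    ∃ G' ∈ 𝒱, SylIn p P G' ∧ ¬ TB p 𝒱 G' ∧ ZV p G' = ZV p G := by
  by_cases hB : TB p 𝒱 G
  · obtain ⟨G', hG', hP', hA⟩ := hx.exists_A ⟨G, hG, hP⟩
    obtain ⟨n, hn, e⟩ := hx.replace hp2 hG hB hP hG' hP'
    refine ⟨_, hx.conj G' hG' n⁻¹, ?_, ?_, ?_⟩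
    · have := hP'.map_conj n⁻¹
      rwa [norm_map_conj (inv_mem hn)] at this
    · intro h1
      apply hA
      have := h1.conj hx.toMAm n
      rwa [map_conj_symm] at this
    · rw [ZV_conj, e, map_conj_symm']
  · exact ⟨G, hG, hP, hB, rfl⟩

end Cfsg.Agent.H47
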