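import Cfsg.Agent.H47.MO5

set_option autoImplicit false
set_option linter.unusedSectionVars false
set_option linter.style.haveILetI false
open Cfsg Subgroup
open scoped commutatorElement

namespace Cfsg.Agent.H47

universe u

variable {H : Type u} [Group H] [Finite H] {p q : ℕ} [Fact p.Prime] {𝒱 : Set (Subgroup H)}
  {X : Subgroup H → Subgroup H} {G G' P P' : Subgroup H}

theorem MAm.A0 (ha : MAm p 𝒱 X) (hG : G ∈ 𝒱) (hP : SylIn p P G) {A : Subgroup H} (hAP : A ≤ P)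
    (hAc : A ≤ centralizer (A : Set H)) (hA2 : mz P ≤ Nat.card A * Nat.card A) (hAQ : ¬ A ≤ pCoreOf p G) :
    (A ⊓ pCoreOf p G) ⊔ ZV p G ≤ pCoreOf p G ∧
    (A ⊓ pCoreOf p G) ⊔ ZV p G ≤ centralizer (((A ⊓ pCoreOf p G) ⊔ ZV p G : Subgroup H) : Set H) ∧
    mz P ≤ Nat.card ((A ⊓ pCoreOf p G) ⊔ ZV p G : Subgroup H) * Nat.card ((A ⊓ pCoreOf p G) ⊔ ZV p G : Subgroup H) := by
  obtain ⟨q, hv⟩ := ha.vtx G hG
  have hZT := hv.ZV_le
  have hTP := pCoreOf_le_sylIn hP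
  refine ⟨sup_le inf_le_right hZT, ?_, ?_⟩
  · apply sup_le
    · rw [le_centralizer_iff]
      apply sup_le
      · exact (inf_le_left.trans hAc).trans (centralizer_le inf_le_left)
      · exact hv.ZV_cent.trans (centralizer_le inf_le_right)
    · rw [le_centralizer_iff]
      apply sup_le
      · exact inf_le_right.trans hv.core_le_cent
      · exact hv.ZV_comm
  · have hZn : A ⊓ pCoreOf p G ≤ normalizer (ZV p G : Set H) :=
      (inf_le_left.trans (hAP.trans hP.le)).trans (le_normalizer_ZV G)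
    have h1 := card_sup_mul_card_inf hZn
    have hn : A ≤ normalizer ((pCoreOf p G : Subgroup H) : Set H) := (hAP.trans hP.le).trans pCoreOf_normal_mem
    have h2 := card_sup_mul_card_inf hn
    have h3 : Nat.card (A ⊔ pCoreOf p G : Subgroup H) ≤ Nat.card P := Subgroup.card_le_of_le (sup_le hAP hTP)
    rw [hv.card hP] at h3
    have h4 := (ha.natZ hG hv).card_U P hP
    have h5 := (ha.natZ hG hv).cz_eq hP hAP hAQ
    rw [← h5, cz_bot] at h4
    have h6 : Nat.card (A ⊓ pCoreOf p G ⊓ ZV p G : Subgroup H) ≤ Nat.card (ZV p G ⊓ centralizer (A : Set H) : Subgroup H) :=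
      Subgroup.card_le_of_le (le_inf inf_le_right ((inf_le_left.trans inf_le_left).trans hAc))
    have h7 : Nat.card A ≤ q * Nat.card (A ⊓ pCoreOf p G : Subgroup H) := by
      have : 0 < Nat.card (pCoreOf p G) := Nat.card_pos
      apply Nat.le_of_mul_le_mul_right _ this
      rw [← h2]
      calc _ ≤ q * Nat.card (pCoreOf p G) * Nat.card (A ⊓ pCoreOf p G : Subgroup H) := Nat.mul_le_mul_right _ h3
        _ = _ := by ring
    have h8 : Nat.card A ≤ Nat.card ((A ⊓ pCoreOf p G) ⊔ ZV p G : Subgroup H) := by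
      have : 0 < Nat.card (A ⊓ pCoreOf p G ⊓ ZV p G : Subgroup H) := Nat.card_pos
      apply Nat.le_of_mul_le_mul_right _ this
      rw [h1]
      calc Nat.card A * Nat.card (A ⊓ pCoreOf p G ⊓ ZV p G : Subgroup H)
          ≤ (q * Nat.card (A ⊓ pCoreOf p G : Subgroup H)) * Nat.card (ZV p G ⊓ centralizer (A : Set H) : Subgroup H) :=
            Nat.mul_le_mul h7 h6
        _ = Nat.card (A ⊓ pCoreOf p G : Subgroup H) * (q * Nat.card (ZV p G ⊓ centralizer (A : Set H) : Subgroup H)) := by ring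
        _ = _ := by rw [← h4]
    exact hA2.trans (Nat.mul_le_mul h8 h8)

theorem conj_eq_of_comm_mem {w y : H} (hc : ⁅w, y⁆ * w = w * ⁅w, y⁆) :
    y * w * y⁻¹ = ⁅w, y⁆⁻¹ * w := by
  have h1 : y * w * y⁻¹ = w * ⁅w, y⁆⁻¹ := by
    have h2 : w⁻¹ * ⁅w, y⁆ = ⁅w, y⁆ * w⁻¹ := by
      have c : Commute ⁅w, y⁆ w := hc
      exact (c.inv_right.eq).symm
    have h3 : y * w⁻¹ * y⁻¹ = w⁻¹ * ⁅w, y⁆ := by rw [commutatorElement_def]; group
    have h4 : y * w * y⁻¹ = (y * w⁻¹ * y⁻¹)⁻¹ := by group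
    rw [h4, h3, h2, mul_inv_rev, inv_inv]
  rw [h1]
  have c : Commute ⁅w, y⁆ w := hc
  exact (c.inv_left.eq).symm

/-- the block lemma, the main case -/
theorem MAx.block_main (hx : MAx p 𝒱 X) (hp2 : p = 2) (hG : G ∈ 𝒱) (hP : SylIn p P G)
    (hG' : G' ∈ 𝒱) (hP' : SylIn p P G') (hne : ZV p G' ≠ ZV p G) {R A : Subgroup H} (hR : Opp p G P R)
    (hAR : A ≤ R) (hAc : A ≤ centralizer (A : Set H)) (hA2 : mz R ≤ Nat.card A * Nat.card A) {a : H}
    (haA : a ∈ A) (haQ : a ∉ pCoreOf p G) 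
    (hW : (ZV p G' ⊔ ZV p G).map (MulAut.conj a).toMonoidHom ≠ ZV p G' ⊔ ZV p G) :
    ⁅ZV p G', P⁆ ≤ centralizer (G : Set H) := by
  have ha := hx.toMAm
  have hPc : Ch p 𝒱 P := ⟨G, hG, hP⟩
  have hRc : Ch p 𝒱 R := ⟨G, hG, hR.2.1⟩
  have hcm := ha.cm hPc
  obtain ⟨q, hv⟩ := ha.vtx G hG
  obtain ⟨q', hv'⟩ := ha.vtx G' hG'
  set Q := pCoreOf p G with hQdef
  set Q' := pCoreOf p G' with hQ'def
  set Z := ZV p G with hZdef
  set Z' := ZV p G' with hZ'def
  set W := Z' ⊔ Z with hWdef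
  set W₃ := W.map (MulAut.conj a).toMonoidHom with hW₃def
  set D := Q' ⊓ Q with hDdef
  have hQP : Q ≤ P := pCoreOf_le_sylIn hP
  have hQR : Q ≤ R := pCoreOf_le_sylIn hR.2.1
  have haR : a ∈ R := hAR haA
  have haG : a ∈ G := hR.2.1.le haR
  have hgen : zpowers a ⊔ P = G := hR.2.2.2 a haR haQ
  have haQn : Q.map (MulAut.conj a).toMonoidHom = Q := norm_map_conj (pCoreOf_normal_mem haG)
  have haZn : Z.map (MulAut.conj a).toMonoidHom = Z := norm_map_conj (le_normalizer_ZV G haG)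
  have hZQ : Z ≤ Q := ha.Z_le hG
  have hQZ : Q ≤ centralizer (Z : Set H) := ha.core_cent hG
  have hZ'P : Z' ≤ P := ha.Z_le_P hG' hP'
  have hZ'Q : Z' ≤ Q := ha.le_core_of hG hP hZ'P (hx.Z_comm_of hG' hP' hG hP)
  have hWQ : W ≤ Q := sup_le hZ'Q hZQ
  have hω : omegaOneCenter p P ≤ Z := ha.omega_le hG hP
  have hWP : ⁅W, P⁆ ≤ omegaOneCenter p P :=
    (commutator_mono (sup_le (le_VV hG' hP') (le_VV hG hP)) le_rfl).trans ha.V_comm_le
  have hcenQ : ∀ z ∈ Z, ∀ x ∈ Q, z * x = x * z := fun z hz x hx => mem_centralizer_iff.1 (hQZ hx) z hz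
  -- the Chermak-Delgado closedness
  have hcdW : CD P W := (ha.cd_Z hG' hP').sup hcm (ha.cd_Z hG hP)
  have hcnW : cn P W = D := by rw [hWdef, cn_sup, ha.core_eq hG' hP', ha.core_eq hG hP]
  have hWD : W = Q ⊓ centralizer (D : Set H) := by
    have h1 := hcdW.cn_cn hcm
    rw [hcnW] at h1
    apply le_antisymm
    · refine le_inf hWQ ?_
      rw [← h1]; exact inf_le_right
    · rw [← h1]; exact inf_le_inf_right _ hQP
  have hDW : D ≤ centralizer (W : Set H) := by rw [← hcnW]; exact inf_le_right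
  -- centralizers of elements
  have hcent : ∀ w ∈ W, w ∉ Z → ∀ x ∈ Q, x * w = w * x → x ∈ D := by
    intro w hw hwZ x hxQ hxw
    have hn : Z' ≤ normalizer (Z : Set H) := (hZ'P.trans hP.le).trans (le_normalizer_ZV G)
    obtain ⟨u, hu, z, hz, rfl⟩ := (mem_sup_of_le_normalizer hn).1 hw
    refine ⟨?_, hxQ⟩
    have hu2 : u ∉ omegaOneCenter p P := fun h => hwZ (mul_mem (hω h) hz)
    rw [hQ'def]
    rw [← ha.cent_elt hG' hP' hu hu2]
    refine ⟨hQP hxQ, ?_⟩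
    change x ∈ centralizer {u}
    rw [mem_centralizer_singleton_iff]
    have h1 := hcenQ z hz x hxQ
    have h2 : x * u * z = u * x * z := by
      calc x * u * z = x * (u * z) := by group
        _ = u * (z * x) := by rw [hxw]; group
        _ = u * x * z := by rw [h1]; group
    exact mul_right_cancel h2
  have hconjQ : ∀ x ∈ Q, a * x * a⁻¹ ∈ Q := fun x hx => by
    have := conj_mem_map_conj (g := a) hx
    rwa [haQn] at this
  have hconjQ' : ∀ x ∈ Q, a⁻¹ * x * a ∈ Q := fun x hx => by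
    rw [← haQn] at hx
    obtain ⟨y, hy, rfl⟩ := hx
    have : a⁻¹ * (MulAut.conj a).toMonoidHom y * a = y := by
      change a⁻¹ * (a * y * a⁻¹) * a = y
      group
    rw [this]; exact hy
  have hconjZ : ∀ x ∈ Z, a * x * a⁻¹ ∈ Z := fun x hx => by
    have := conj_mem_map_conj (g := a) hx
    rwa [haZn] at this
  have hconjZ' : ∀ x, a * x * a⁻¹ ∈ Z → x ∈ Z := fun x hx => by
    rw [← haZn] at hx
    obtain ⟨y, hy, h⟩ := hx
    have : y = x := by
      have h1 : a * y * a⁻¹ = a * x * a⁻¹ := h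
      exact mul_left_cancel (mul_right_cancel h1)
    rw [← this]; exact hy
  have hinf : W ⊓ W₃ = Z := by
    apply le_antisymm
    · rintro w ⟨hw, hw3⟩
      by_contra hwZ
      apply hW
      obtain ⟨v, hv2, hvw⟩ := hw3
      have hvw' : a * v * a⁻¹ = w := hvw
      have hvZ : v ∉ Z := fun h => hwZ (by rw [← hvw']; exact hconjZ v h)
      have e : D.map (MulAut.conj a).toMonoidHom = D := by
        apply le_antisymm
        · rintro _ ⟨d, hd, rfl⟩
          apply hcent w hw hwZ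
          · exact hconjQ d hd.2
          · change a * d * a⁻¹ * w = w * (a * d * a⁻¹)
            have h1 : v * d = d * v := mem_centralizer_iff.1 (hDW hd) v hv2
            rw [← hvw']
            calc a * d * a⁻¹ * (a * v * a⁻¹) = a * (d * v) * a⁻¹ := by group
              _ = a * (v * d) * a⁻¹ := by rw [h1]
              _ = _ := by group
        · intro d hd
          have h1 : a⁻¹ * d * a ∈ D := by
            apply hcent v hv2 hvZ _ (hconjQ' d hd.2)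
            have h2 : w * d = d * w := mem_centralizer_iff.1 (hDW hd) w hw
            rw [← hvw'] at h2
            calc a⁻¹ * d * a * v = a⁻¹ * (d * (a * v * a⁻¹)) * a := by group
              _ = a⁻¹ * ((a * v * a⁻¹) * d) * a := by rw [h2]
              _ = _ := by group
          exact ⟨_, h1, by change a * (a⁻¹ * d * a) * a⁻¹ = d; group⟩
      have h3 : W.map (MulAut.conj a).toMonoidHom = W := by
        nth_rewrite 1 [hWD]
        rw [map_inf _ _ _ (MulAut.conj a).injective, haQn, ← centralizer_map_conj, e, ← hWD]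
      exact h3
    · refine le_inf le_sup_right ?_
      rw [← haZn]; exact map_mono le_sup_right
  have hW₃Q : W₃ ≤ Q := by rw [← haQn]; exact map_mono hWQ
  have hWP' : P ≤ normalizer (W : Set H) := by
    rw [le_normalizer_iff_commutator_le_left]
    exact hWP.trans (hω.trans le_sup_right)
  have hcW : ∀ w ∈ W, ∀ x ∈ Q, ⁅w, x⁆ ∈ omegaOneCenter p P := fun w hw x hx =>
    hWP (commutator_mem_commutator hw (hQP hx))
  have ha2 : ∀ w ∈ W, a * (a * w * a⁻¹) * a⁻¹ ∈ W := by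
    intro w hw
    have h1 : a * a ∈ Q := by
      have := hv.pow_mem_core hR.2.1 haR
      rw [hp2, pow_two, ← hp2] at this
      exact this
    have h2 := (mem_normalizer_iff.1 (hWP' (hQP h1)) w).1 hw
    have h3 : a * (a * w * a⁻¹) * a⁻¹ = a * a * w * (a * a)⁻¹ := by group
    rw [h3]; exact h2
  -- the diagonal
  have hcomW : ∀ w ∈ W, ∀ x ∈ Q, ∃ z ∈ Z, x * w = w * x * z := by
    intro w hw x hx
    refine ⟨⁅x⁻¹, w⁻¹⁆, ?_, by rw [commutatorElement_def]; group⟩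
    rw [← commutatorElement_inv]
    exact inv_mem (hω (hcW _ (inv_mem hw) _ (inv_mem hx)))
  let Δ : Subgroup H :=
    { carrier := {x | ∃ w ∈ W, ∃ z ∈ Z, x = w * (a * w * a⁻¹) * z}
      one_mem' := ⟨1, one_mem _, 1, one_mem _, by group⟩
      mul_mem' := by
        rintro _ _ ⟨w, hw, z, hz, rfl⟩ ⟨v, hv, y, hy, rfl⟩
        obtain ⟨c, hc, e⟩ := hcomW v hv (a * w * a⁻¹) (hconjQ w (hWQ hw))
        refine ⟨w * v, mul_mem hw hv, (a * v * a⁻¹)⁻¹ * c * (a * v * a⁻¹) * z * y, ?_, ?_⟩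
        · have h1 := hcenQ c hc (a * v * a⁻¹) (hconjQ v (hWQ hv))
          have h2 : (a * v * a⁻¹)⁻¹ * c * (a * v * a⁻¹) = c := by
            rw [mul_assoc, h1, inv_mul_cancel_left]
          rw [h2]
          exact mul_mem (mul_mem hc hz) hy
        · have h1 := hcenQ z hz (v * (a * v * a⁻¹)) (mul_mem (hWQ hv) (hconjQ v (hWQ hv)))
          calc w * (a * w * a⁻¹) * z * (v * (a * v * a⁻¹) * y)
              = w * (a * w * a⁻¹) * (z * (v * (a * v * a⁻¹))) * y := by group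
            _ = w * ((a * w * a⁻¹) * v) * (a * v * a⁻¹) * z * y := by rw [h1]; group
            _ = w * (v * (a * w * a⁻¹) * c) * (a * v * a⁻¹) * z * y := by rw [e]
            _ = _ := by group
      inv_mem' := by
        rintro _ ⟨w, hw, z, hz, rfl⟩
        obtain ⟨c, hc, e⟩ := hcomW w⁻¹ (inv_mem hw) (a * w⁻¹ * a⁻¹) (hconjQ _ (inv_mem (hWQ hw)))
        refine ⟨w⁻¹, inv_mem hw, c * z⁻¹, mul_mem hc (inv_mem hz), ?_⟩
        have h1 := hcenQ z⁻¹ (inv_mem hz) (a * w⁻¹ * a⁻¹ * w⁻¹) (mul_mem (hconjQ _ (inv_mem (hWQ hw))) (inv_mem (hWQ hw)))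
        calc (w * (a * w * a⁻¹) * z)⁻¹ = z⁻¹ * (a * w⁻¹ * a⁻¹ * w⁻¹) := by group
          _ = a * w⁻¹ * a⁻¹ * w⁻¹ * z⁻¹ := h1
          _ = w⁻¹ * (a * w⁻¹ * a⁻¹) * c * z⁻¹ := by rw [e]
          _ = _ := by group }
  have hΔmem : ∀ x, x ∈ Δ ↔ ∃ w ∈ W, ∃ z ∈ Z, x = w * (a * w * a⁻¹) * z := fun x => Iff.rfl
  have hΔQ : Δ ≤ Q := by
    rintro _ ⟨w, hw, z, hz, rfl⟩
    exact mul_mem (mul_mem (hWQ hw) (hconjQ w (hWQ hw))) (hZQ hz)
  have hΔW : Δ ⊓ W = Z := by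
    apply le_antisymm
    · rintro _ ⟨⟨w, hw, z, hz, rfl⟩, h2⟩
      have h3 : a * w * a⁻¹ ∈ W := by
        have h4 := mul_mem (mul_mem (inv_mem hw) h2) (inv_mem ((le_sup_right : Z ≤ W) hz))
        have h5 : w⁻¹ * (w * (a * w * a⁻¹) * z) * z⁻¹ = a * w * a⁻¹ := by group
        rwa [h5] at h4
      have h6 : a * w * a⁻¹ ∈ Z := by rw [← hinf]; exact ⟨h3, conj_mem_map_conj hw⟩
      exact mul_mem (mul_mem (hconjZ' w h6) h6) hz
    · intro z hz
      exact ⟨(hΔmem z).2 ⟨1, one_mem _, z, hz, by group⟩, (le_sup_right : Z ≤ W) hz⟩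
  have hΔsup : Δ ⊔ W = W ⊔ W₃ := by
    apply le_antisymm
    · apply sup_le _ le_sup_left
      rintro _ ⟨w, hw, z, hz, rfl⟩
      exact mul_mem (mul_mem ((le_sup_left : W ≤ W ⊔ W₃) hw) ((le_sup_right : W₃ ≤ W ⊔ W₃) (conj_mem_map_conj hw)))
        ((le_sup_left : W ≤ W ⊔ W₃) ((le_sup_right : Z ≤ W) hz))
    · apply sup_le le_sup_right
      rintro _ ⟨w, hw, rfl⟩
      have h1 : w * (a * w * a⁻¹) ∈ Δ := (hΔmem _).2 ⟨w, hw, 1, one_mem _, by group⟩
      have h2 := mul_mem ((le_sup_right : W ≤ Δ ⊔ W) (inv_mem hw)) ((le_sup_left : Δ ≤ Δ ⊔ W) h1)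
      rwa [inv_mul_cancel_left] at h2
  have hc1 := card_sup_mul_card_inf (A := Δ) (B := W) ((hΔQ.trans hQP).trans hWP')
  have hc2 := card_sup_mul_card_inf (A := W₃) (B := W) ((hW₃Q.trans hQP).trans hWP')
  rw [hΔW, hΔsup] at hc1
  rw [inf_comm, hinf, sup_comm] at hc2
  have hW₃c : Nat.card W₃ = Nat.card W := card_map_conj
  rw [hW₃c] at hc2
  have hΔc : Nat.card Δ = Nat.card W := by
    have h0 : 0 < Nat.card W := Nat.card_pos
    exact Nat.eq_of_mul_eq_mul_right h0 (hc1.symm.trans hc2)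
  -- |W| = q' |Z|
  have hWc : Nat.card W = q' * Nat.card Z := by
    have h1 := card_sup_mul_card_inf (A := Z') (B := Z) ((hZ'P.trans hP.le).trans (le_normalizer_ZV G))
    rw [ha.Z_inf hG' hP' hG hP hne] at h1
    have h2 := ha.card_Z hG' hP' hv'
    have h0 : 0 < Nat.card (omegaOneCenter p P) := Nat.card_pos
    apply Nat.eq_of_mul_eq_mul_right h0
    rw [h1, ← hZ'def] at *
    rw [h2]; ring
  have hWWc : Nat.card (W ⊔ W₃ : Subgroup H) = q' * Nat.card W := by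
    have h0 : 0 < Nat.card Z := Nat.card_pos
    apply Nat.eq_of_mul_eq_mul_right h0
    rw [hc2]
    nth_rewrite 1 [hWc]
    ring
  -- the abelian subgroup
  have hAQ : ¬ A ≤ Q := fun h => haQ (h haA)
  obtain ⟨hA0Q, hA0c, hA02⟩ := ha.A0 hG hR.2.1 hAR hAc hA2 hAQ
  set A₁ := A ⊓ Q with hA₁def
  set A₀ := A₁ ⊔ Z with hA₀def
  have hA₁a : ∀ y ∈ A₁, a * y = y * a := fun y hy => (mem_centralizer_iff.1 (hAc haA) y hy.1).symm
  have hA₀mem : ∀ x ∈ A₀, ∃ y ∈ A₁, ∃ z ∈ Z, x = y * z := by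
    intro x hx
    have hn : A₁ ≤ normalizer (Z : Set H) := (inf_le_right.trans (hQP.trans hP.le)).trans (le_normalizer_ZV G)
    obtain ⟨y, hy, z, hz, rfl⟩ := (mem_sup_of_le_normalizer hn).1 hx
    exact ⟨y, hy, z, hz, rfl⟩
  -- A₀ ∩ C(W ⊔ W₃) = A₀ ∩ D
  have hAD : A₀ ⊓ D = A₀ ⊓ centralizer ((W ⊔ W₃ : Subgroup H) : Set H) := by
    apply le_antisymm
    · refine le_inf inf_le_left ?_
      rw [le_centralizer_iff]
      apply sup_le
      · rw [le_centralizer_iff]; exact inf_le_right.trans hDW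
      · rintro _ ⟨w, hw, rfl⟩
        rw [mem_centralizer_iff]
        rintro x ⟨hx1, hx2⟩
        obtain ⟨y, hy, z, hz, rfl⟩ := hA₀mem x hx1
        change y * z * (a * w * a⁻¹) = a * w * a⁻¹ * (y * z)
        have h1 : w * (y * z) = (y * z) * w := mem_centralizer_iff.1 (hDW hx2) w hw
        have h2 := hcenQ z hz w (hWQ hw)
        have h3 : w * y = y * w := by
          have : w * y * z = y * w * z := by
            calc w * y * z = w * (y * z) := by group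
              _ = y * (z * w) := by rw [h1]; group
              _ = _ := by rw [h2]; group
          exact mul_right_cancel this
        have h4 := hA₁a y hy
        have h5 := hcenQ z hz (a * w * a⁻¹) (hconjQ w (hWQ hw))
        have h6 : y * a * w * a⁻¹ = a * w * a⁻¹ * y := by
          have h7 : a⁻¹ * y = y * a⁻¹ := by
            have c : Commute a y := h4
            exact c.inv_left.eq
          calc y * a * w * a⁻¹ = a * (y * w) * a⁻¹ := by rw [← h4]; group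
            _ = a * w * (y * a⁻¹) := by rw [← h3]; group
            _ = _ := by rw [← h7]; group
        calc y * z * (a * w * a⁻¹) = y * (z * (a * w * a⁻¹)) := by group
          _ = y * a * w * a⁻¹ * z := by rw [h5]; group
          _ = _ := by rw [h6]; group
    · refine le_inf inf_le_left ?_
      rw [← hcnW]
      exact le_inf ((inf_le_left.trans hA0Q).trans hQP) (inf_le_right.trans (centralizer_le (le_sup_left : W ≤ W ⊔ W₃)))
  -- B ≤ Δ
  have hB : A₀ ⊓ (W ⊔ W₃) ≤ Δ := by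
    rintro b ⟨hb1, hb2⟩
    have hb1' : b ∈ A₀ := hb1
    have hb2' : b ∈ W ⊔ W₃ := hb2
    obtain ⟨y, hy, z, hz, hbyz⟩ := hA₀mem b hb1'
    have hn : W₃ ≤ normalizer (W : Set H) := (hW₃Q.trans hQP).trans hWP'
    rw [sup_comm, mem_sup_of_le_normalizer' hn] at hb2'
    obtain ⟨w, hw, w₃, hw₃, e⟩ := hb2'
    obtain ⟨v, hv2, hvw⟩ := hw₃
    have hvw' : a * v * a⁻¹ = w₃ := hvw
    -- y = w (a v a⁻¹) z⁻¹, and a y a⁻¹ = y
    have hy1 : y = w * (a * v * a⁻¹) * z⁻¹ := by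
      rw [hvw', e, hbyz]; group
    have hy2 : a * y * a⁻¹ = y := by rw [hA₁a y hy, mul_inv_cancel_right]
    -- a w a⁻¹ * (a (a v a⁻¹) a⁻¹) * (a z⁻¹ a⁻¹) = w (a v a⁻¹) z⁻¹
    have h1 : (a * w * a⁻¹) * (a * (a * v * a⁻¹) * a⁻¹) * (a * z⁻¹ * a⁻¹) = w * (a * v * a⁻¹) * z⁻¹ := by
      calc _ = a * (w * (a * v * a⁻¹) * z⁻¹) * a⁻¹ := by group
        _ = _ := by rw [← hy1, hy2]
    obtain ⟨c, hc, e2⟩ := hcomW _ (ha2 v hv2) (a * w * a⁻¹) (hconjQ w (hWQ hw))
    -- w⁻¹ (a² v a⁻²) (a w a⁻¹) c ζ = a v a⁻¹ z⁻¹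
    have hz1 : a * z⁻¹ * a⁻¹ ∈ Z := hconjZ _ (inv_mem hz)
    have hX : w⁻¹ * (a * (a * v * a⁻¹) * a⁻¹) ∈ W := mul_mem (inv_mem hw) (ha2 v hv2)
    have h3 : w⁻¹ * (a * (a * v * a⁻¹) * a⁻¹) = (a * v * a⁻¹) * z⁻¹ * (a * z⁻¹ * a⁻¹)⁻¹ * c⁻¹ * (a * w * a⁻¹)⁻¹ := by
      rw [e2] at h1
      calc w⁻¹ * (a * (a * v * a⁻¹) * a⁻¹)
          = w⁻¹ * (a * (a * v * a⁻¹) * a⁻¹ * (a * w * a⁻¹) * c * (a * z⁻¹ * a⁻¹)) * (a * z⁻¹ * a⁻¹)⁻¹ * c⁻¹ * (a * w * a⁻¹)⁻¹ := by group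
        _ = _ := by rw [h1]; group
    have hmem3 : ∀ u ∈ W, a * u * a⁻¹ ∈ W₃ := fun u hu => conj_mem_map_conj hu
    have hZW3 : Z ≤ W₃ := by rw [← haZn]; exact map_mono le_sup_right
    have h4 : w⁻¹ * (a * (a * v * a⁻¹) * a⁻¹) ∈ Z := by
      rw [← hinf]
      refine ⟨hX, ?_⟩
      change _ ∈ W₃
      rw [h3]
      exact mul_mem (mul_mem (mul_mem (mul_mem (hmem3 v hv2) (hZW3 (inv_mem hz))) (hZW3 (inv_mem hz1)))
        (hZW3 (inv_mem hc))) (inv_mem (hmem3 w hw))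
    -- so a (a v a⁻¹) a⁻¹ = w ζ, hence (a w a⁻¹) and (a v a⁻¹) agree modulo Z
    set ζ := w⁻¹ * (a * (a * v * a⁻¹) * a⁻¹) with hζ
    have h5 : a * (a * v * a⁻¹) * a⁻¹ = w * ζ := by rw [hζ]; group
    rw [h5] at h1
    -- (a w a⁻¹) w ζ η = w (a v a⁻¹) z⁻¹
    obtain ⟨c', hc', e3⟩ := hcomW w hw (a * w * a⁻¹) (hconjQ w (hWQ hw))
    have h6 : a * v * a⁻¹ = (a * w * a⁻¹) * (c' * ζ * (a * z⁻¹ * a⁻¹) * z) := by
      calc a * v * a⁻¹ = w⁻¹ * (w * (a * v * a⁻¹) * z⁻¹) * z := by group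
        _ = w⁻¹ * ((a * w * a⁻¹) * w) * ζ * (a * z⁻¹ * a⁻¹) * z := by rw [← h1]; group
        _ = w⁻¹ * (w * (a * w * a⁻¹) * c') * ζ * (a * z⁻¹ * a⁻¹) * z := by rw [e3]
        _ = _ := by group
    refine (hΔmem b).2 ⟨w, hw, c' * ζ * (a * z⁻¹ * a⁻¹) * z, mul_mem (mul_mem (mul_mem hc' h4) hz1) hz, ?_⟩
    rw [← e, ← hvw', h6]; group
  -- counting
  obtain ⟨n, hn⟩ := Subgroup.card_dvd_of_le (inf_le_left : A₀ ⊓ D ≤ A₀)
  have hkey := card_inf_ge (Q := R) (A := A₀) (W := W ⊔ W₃) (ha.cm hRc) (hA0Q.trans hQR) hA0c hA02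
    ((sup_le hWQ hW₃Q).trans hQR) (n := n) (by rw [← hAD, mul_comm, ← hn])
  have hDn : A₀ ≤ normalizer (D : Set H) := by
    have h1 : Q ≤ normalizer (D : Set H) := le_normalizer_inf
      ((hQP.trans hP'.le).trans pCoreOf_normal_mem) le_normalizer
    exact hA0Q.trans h1
  have hd1 := card_sup_mul_card_inf hDn
  have hd2 : Nat.card (A₀ ⊔ D : Subgroup H) = n * Nat.card D := by
    have h0 : 0 < Nat.card (A₀ ⊓ D : Subgroup H) := Nat.card_pos
    apply Nat.eq_of_mul_eq_mul_right h0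
    rw [hd1, hn]; ring
  have hd3 : Nat.card Q = q' * Nat.card D := by
    have h1 := card_sup_mul_card_inf (A := Q') (B := Q) ((pCoreOf_le_sylIn hP').trans (hP.le.trans pCoreOf_normal_mem))
    rw [ha.core_sup hG' hP' hG hP hne, hv'.card hP'] at h1
    have h0 : 0 < Nat.card Q' := Nat.card_pos
    apply Nat.eq_of_mul_eq_mul_left h0
    rw [← h1]; ring
  have hd4 : Nat.card (A₀ ⊔ D : Subgroup H) ≤ Nat.card Q := Subgroup.card_le_of_le (sup_le hA0Q inf_le_right)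
  have hnq : n ≤ q' := by
    rw [hd2, hd3] at hd4
    exact Nat.le_of_mul_le_mul_right hd4 Nat.card_pos
  have hBc : Nat.card (A₀ ⊓ (W ⊔ W₃) : Subgroup H) ≤ Nat.card Δ := Subgroup.card_le_of_le hB
  rw [hWWc] at hkey
  have hqn : q' ≤ n := by
    have h1 : q' * Nat.card W ≤ n * Nat.card W := hkey.trans (by rw [← hΔc]; exact Nat.mul_le_mul_left _ hBc)
    exact Nat.le_of_mul_le_mul_right h1 Nat.card_pos
  have hBΔ : A₀ ⊓ (W ⊔ W₃) = Δ := by
    apply eq_of_le_of_card_ge hB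
    rw [hΔc]
    have h1 : q' * Nat.card W ≤ q' * Nat.card (A₀ ⊓ (W ⊔ W₃) : Subgroup H) :=
      hkey.trans (Nat.mul_le_mul_right _ hnq)
    exact Nat.le_of_mul_le_mul_left h1 (by have := hv'.one_lt; omega)
  have hADQ : A₀ ⊔ D = Q := by
    apply eq_of_le_of_card_ge (sup_le hA0Q inf_le_right)
    rw [hd2, hd3]
    exact Nat.mul_le_mul_right _ hqn
  -- the final computation
  have hfin : ∀ w ∈ W, ∀ y ∈ A₁, ⁅w, y⁆ ∈ centralizer (G : Set H) := by
    intro w hw y hy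
    have hyQ : y ∈ Q := hy.2
    have hcω := hcW w hw y hyQ
    have hcZ := hω hcω
    have hcc := hcenQ _ hcZ w (hWQ hw)
    have hbA : w * (a * w * a⁻¹) ∈ A₀ := by
      have h1 : w * (a * w * a⁻¹) ∈ Δ := (hΔmem _).2 ⟨w, hw, 1, one_mem _, by group⟩
      rw [← hBΔ] at h1
      exact h1.1
    have hyA : y ∈ A₀ := (le_sup_left : A₁ ≤ A₀) hy
    have hby : y * (w * (a * w * a⁻¹)) = (w * (a * w * a⁻¹)) * y := mem_centralizer_iff.1 (hA0c hbA) y hyA
    have e1 := conj_eq_of_comm_mem hcc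
    set c := ⁅w, y⁆ with hcdef
    have h4 := hA₁a y hy
    have h7 : a⁻¹ * y = y * a⁻¹ := by
      have c : Commute a y := h4
      exact c.inv_left.eq
    have h8 : a⁻¹ * y⁻¹ = y⁻¹ * a⁻¹ := by
      have c : Commute a y := h4
      exact c.inv_inv.eq
    have e2 : y * (a * w * a⁻¹) * y⁻¹ = (a * c⁻¹ * a⁻¹) * (a * w * a⁻¹) := by
      calc y * (a * w * a⁻¹) * y⁻¹ = (y * a) * w * (a⁻¹ * y⁻¹) := by group
        _ = a * (y * w * y⁻¹) * a⁻¹ := by rw [← h4, h8]; group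
        _ = _ := by rw [e1]; group
    have e3 : c⁻¹ * w * ((a * c⁻¹ * a⁻¹) * (a * w * a⁻¹)) = w * (a * w * a⁻¹) := by
      rw [← e1, ← e2]
      calc y * w * y⁻¹ * (y * (a * w * a⁻¹) * y⁻¹) = y * (w * (a * w * a⁻¹)) * y⁻¹ := by group
        _ = _ := by rw [hby]; group
    have hcaZ : a * c⁻¹ * a⁻¹ ∈ Z := hconjZ _ (inv_mem hcZ)
    have e4 : c⁻¹ * (a * c⁻¹ * a⁻¹) = 1 := by
      have h9 := hcenQ _ hcaZ w (hWQ hw)
      have h10 : c⁻¹ * (a * c⁻¹ * a⁻¹) * (w * (a * w * a⁻¹)) = 1 * (w * (a * w * a⁻¹)) := by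
        rw [one_mul]
        calc c⁻¹ * (a * c⁻¹ * a⁻¹) * (w * (a * w * a⁻¹)) = c⁻¹ * ((a * c⁻¹ * a⁻¹) * w) * (a * w * a⁻¹) := by group
          _ = c⁻¹ * (w * (a * c⁻¹ * a⁻¹)) * (a * w * a⁻¹) := by rw [h9]
          _ = c⁻¹ * w * ((a * c⁻¹ * a⁻¹) * (a * w * a⁻¹)) := by group
          _ = _ := e3
      exact mul_right_cancel h10
    have hc2 : c * c = 1 := by
      have := ha.Z_pow hG hcZ
      rw [hp2, pow_two] at this
      exact this
    have hcinv : c⁻¹ = c := by rw [inv_eq_iff_mul_eq_one]; exact hc2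
    rw [hcinv] at e4
    have e5 : a * c * a⁻¹ = c := by
      have : a * c * a⁻¹ = c⁻¹ := by rw [← mul_eq_one_iff_eq_inv']; exact e4
      rw [this, hcinv]
    have hca : a * c = c * a := by
      calc a * c = a * c * a⁻¹ * a := by group
        _ = c * a := by rw [e5]
    have h9 : G ≤ centralizer ({c} : Set H) := by
      rw [← hgen]
      apply sup_le
      · rw [zpowers_le, mem_centralizer_singleton_iff]; exact hca
      · intro x hx
        rw [mem_centralizer_singleton_iff]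
        exact mem_centralizer_iff.1 (MAm.omega_le_cent hcω) x hx
    rw [mem_centralizer_iff]
    intro g hg
    exact mem_centralizer_singleton_iff.1 (h9 hg)
  rw [ha.comm_core hG' hP' hG hP hne, commutator_le]
  intro w hw x hxQ
  have hwW : w ∈ W := (le_sup_left : Z' ≤ W) hw
  have hxQ' : x ∈ A₀ ⊔ D := by rw [hADQ]; exact hxQ
  obtain ⟨x₀, hx₀, d, hd, rfl⟩ := (mem_sup_of_le_normalizer hDn).1 hxQ'
  obtain ⟨y, hy, z, hz, rfl⟩ := hA₀mem x₀ hx₀
  have h1 : ⁅w, y * z * d⁆ = ⁅w, y⁆ := by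
    have h2 : w * d = d * w := mem_centralizer_iff.1 (hDW hd) w hwW
    have h3 : z * w = w * z := hcenQ z hz w (hWQ hwW)
    have c1 : Commute w d := h2
    have c2 : Commute w z := h3.symm
    have c3 : (z * d) * w⁻¹ * (z * d)⁻¹ = w⁻¹ := by
      have c4 : Commute (z * d) w⁻¹ := (c2.mul_right c1).symm.inv_right
      rw [c4.eq, mul_inv_cancel_right]
    rw [commutatorElement_def, commutatorElement_def]
    calc w * (y * z * d) * w⁻¹ * (y * z * d)⁻¹ = w * y * ((z * d) * w⁻¹ * (z * d)⁻¹) * y⁻¹ := by group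
      _ = _ := by rw [c3]
  rw [h1]
  exact hfin w hwW y hy

/-- the block lemma -/
theorem MAx.block (hx : MAx p 𝒱 X) (hp2 : p = 2) (hG : G ∈ 𝒱) (hP : SylIn p P G)
    (hG' : G' ∈ 𝒱) (hP' : SylIn p P G') (hne : ZV p G' ≠ ZV p G) : ⁅ZV p G', P⁆ ≤ centralizer (G : Set H) := by
  have ha := hx.toMAm
  obtain ⟨q, hv⟩ := ha.vtx G hG
  obtain ⟨R, hR⟩ := hv.exists_opp hP
  obtain ⟨A, hAR, hAc, hA2, hAQ⟩ := ha.big G hG R hR.2.1
  obtain ⟨a, haA, haQ⟩ := SetLike.not_le_iff_exists.1 hAQ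
  by_cases hW : (ZV p G' ⊔ ZV p G).map (MulAut.conj a).toMonoidHom = ZV p G' ⊔ ZV p G
  · have hWP : ⁅ZV p G' ⊔ ZV p G, P⁆ ≤ omegaOneCenter p P :=
      (commutator_mono (sup_le (le_VV hG' hP') (le_VV hG hP)) le_rfl).trans ha.V_comm_le
    have hWP' : P ≤ normalizer ((ZV p G' ⊔ ZV p G : Subgroup H) : Set H) := by
      rw [le_normalizer_iff_commutator_le_left]
      exact hWP.trans ((ha.omega_le hG hP).trans le_sup_right)
    have hGW : G ≤ normalizer ((ZV p G' ⊔ ZV p G : Subgroup H) : Set H) := by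
      conv_lhs => rw [← hR.2.2.2 a (hAR haA) haQ]
      exact sup_le (by rw [zpowers_le]; exact mem_normalizer_of_map_conj hW) hWP'
    rw [ha.comm_core hG' hP' hG hP hne, le_centralizer_iff]
    refine le_trans (hv.le_cent_of hP (N := ⁅ZV p G' ⊔ ZV p G, pCoreOf p G⁆)
      (le_normalizer_commutator hGW pCoreOf_normal_mem) ?_) (centralizer_le (commutator_mono le_sup_left le_rfl))
    rw [le_centralizer_iff]
    exact ((commutator_mono le_rfl (pCoreOf_le_sylIn hP)).trans hWP).trans MAm.omega_le_cent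
  · exact hx.block_main hp2 hG hP hG' hP' hne hR hAR hAc hA2 haA haQ hW

end Cfsg.Agent.H47
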