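import Cfsg.Agent.H47.MO6

set_option autoImplicit false
set_option linter.unusedSectionVars false
set_option linter.style.haveILetI false
open Cfsg Subgroup
open scoped commutatorElement

namespace Cfsg.Agent.H47

universe u

variable {H : Type u} [Group H] [Finite H] {p q : ℕ} [Fact p.Prime] {𝒱 : Set (Subgroup H)}
  {X : Subgroup H → Subgroup H} {G G' P P' : Subgroup H}

theorem conj_le_of {A B : Subgroup H} {g : H} (h : A.map (MulAut.conj g).toMonoidHom ≤ B.map (MulAut.conj g).toMonoidHom) :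
    A ≤ B := (map_le_map_iff_of_injective (MulAut.conj g).injective).1 h

theorem cent_conj_iff {A B : Subgroup H} {g : H} :
    A.map (MulAut.conj g).toMonoidHom ≤ centralizer ((B.map (MulAut.conj g).toMonoidHom : Subgroup H) : Set H) ↔
      A ≤ centralizer (B : Set H) := by
  rw [centralizer_map_conj, map_le_map_iff_of_injective (MulAut.conj g).injective]

theorem map_conj_of_cent {A : Subgroup H} {g : H} {G : Subgroup H} (hA : A ≤ centralizer (G : Set H)) (hg : g ∈ G) :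
    A.map (MulAut.conj g).toMonoidHom = A := by
  apply norm_map_conj
  have h1 : G ≤ centralizer (A : Set H) := by rw [le_centralizer_iff]; exact hA
  exact (h1.trans (centralizer_le_normalizer _)) hg

namespace MAm

theorem R_not_cent (ha : MAm p 𝒱 X) (hG : G ∈ 𝒱) (hP : SylIn p P G) : ¬ ⁅ZV p G, P⁆ ≤ centralizer (G : Set H) := by
  intro h
  obtain ⟨q, hv⟩ := ha.vtx G hG
  have hn := ha.natZ hG hv
  obtain ⟨u, hu, hu2⟩ := SetLike.not_le_iff_exists.1 (hn.ne P hP)
  obtain ⟨x, hx, hx2⟩ := hv.exists_not_mem hP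
  apply hn.comm P hP x hx hx2 u hu hu2
  rw [cz_bot]
  refine ⟨?_, h (commutator_mem_commutator hu hx)⟩
  exact ha.omega_le hG hP (ha.comm_le hG hP (commutator_mem_commutator hu hx))

theorem R_move (ha : MAm p 𝒱 X) (hG : G ∈ 𝒱) {E : Subgroup H} (hE : Opp p G P E) {u : H} (hu : u ∈ P)
    (huQ : u ∉ pCoreOf p G) : u ∉ normalizer ((⁅ZV p G, E⁆ : Subgroup H) : Set H) := by
  intro h
  obtain ⟨q, hv⟩ := ha.vtx G hG
  have h1 : G ≤ normalizer ((⁅ZV p G, E⁆ : Subgroup H) : Set H) := by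
    conv_lhs => rw [← hE.2.2.1 u hu huQ]
    apply sup_le
    · rw [zpowers_le]; exact h
    · exact le_normalizer_commutator (hE.2.1.le.trans (le_normalizer_ZV G)) le_normalizer
  apply ha.R_not_cent hG hE.2.1
  rw [le_centralizer_iff]
  apply hv.le_cent_of hE.2.1 h1
  rw [le_centralizer_iff]
  exact (ha.comm_le hG hE.2.1).trans omega_le_cent

theorem R_conj (G E : Subgroup H) (g : H) :
    ⁅ZV p (G.map (MulAut.conj g).toMonoidHom), E.map (MulAut.conj g).toMonoidHom⁆ =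
      (⁅ZV p G, E⁆).map (MulAut.conj g).toMonoidHom := by
  rw [ZV_conj, map_commutator]

end MAm

theorem MK.V_le_core0 (h : MK p 𝒱 X 1) (hP : Ch p 𝒱 P) (hG : G ∈ 𝒱) (hPG : SylIn p P G) :
    VV p 𝒱 P ≤ pCoreOf p G := h.V_le_core (by omega) hP (show mp p 𝒱 0 P P from Beq.refl) hG hPG

/-- `k = 1`, `p = 2`: a type `B` vertex is not at the end of a noncommuting pair -/
theorem MK.three (h : MK p 𝒱 X 1) (hp2 : p = 2) {γ α β : Subgroup H} (hγ : γ ∈ 𝒱) (hPγ : SylIn p P γ)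
    (hα : α ∈ 𝒱) (hPα : SylIn p P α) (hB : TB p 𝒱 α) (hR : ⁅ZV p α, P⁆ ≤ centralizer (γ : Set H))
    (hP'γ : SylIn p P' γ) (hβ : β ∈ 𝒱) (hP'β : SylIn p P' β) (hnc : ¬ ZV p α ≤ centralizer (ZV p β : Set H)) :
    False := by
  have ha := h.toMAm
  have hx := h.toMAx
  obtain ⟨q, hv⟩ := ha.vtx α hα
  obtain ⟨qγ, hvγ⟩ := ha.vtx γ hγ
  have hPc : Ch p 𝒱 P := ⟨γ, hγ, hPγ⟩
  set R := ⁅ZV p α, P⁆ with hRdef
  set Q := pCoreOf p γ with hQdef
  have hQn : γ ≤ normalizer (Q : Set H) := pCoreOf_normal_mem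
  -- conjugates
  have hsyl : ∀ g ∈ γ, SylIn p (P.map (MulAut.conj g).toMonoidHom) γ := by
    intro g hg
    have := hPγ.map_conj g
    rwa [norm_map_conj (le_normalizer hg)] at this
  have hαg : ∀ g : H, α.map (MulAut.conj g).toMonoidHom ∈ 𝒱 := fun g => ha.conj α hα g
  have hPαg : ∀ g : H, SylIn p (P.map (MulAut.conj g).toMonoidHom) (α.map (MulAut.conj g).toMonoidHom) :=
    fun g => hPα.map_conj g
  have hQP : ∀ g ∈ γ, Q ≤ P.map (MulAut.conj g).toMonoidHom := fun g hg => pCoreOf_le_sylIn (hsyl g hg)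
  have hQP1 : Q ≤ P := pCoreOf_le_sylIn hPγ
  have hZQ : ZV p α ≤ Q := (le_VV hα hPα).trans (h.V_le_core0 hPc hγ hPγ)
  have hZgQ : ∀ g ∈ γ, (ZV p α).map (MulAut.conj g).toMonoidHom ≤ Q := by
    intro g hg
    have := map_conj_mono (g := g) hZQ
    rwa [norm_map_conj (hQn hg)] at this
  have hRg : ∀ g ∈ γ, R.map (MulAut.conj g).toMonoidHom = R := fun g hg => map_conj_of_cent hR hg
  have hRgc : ∀ g ∈ γ, ⁅ZV p (α.map (MulAut.conj g).toMonoidHom), P.map (MulAut.conj g).toMonoidHom⁆ = R := by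
    intro g hg
    rw [MAm.R_conj, hRg g hg]
  have hRω : R ≤ omegaOneCenter p P := ha.comm_le hα hPα
  -- noncommuting conjugates produce R
  have hmut : ∀ g ∈ γ, ∀ g' ∈ γ, ¬ (ZV p α).map (MulAut.conj g).toMonoidHom ≤
      centralizer ((ZV p α).map (MulAut.conj g').toMonoidHom : Set H) →
      ⁅(ZV p α).map (MulAut.conj g).toMonoidHom, (ZV p α).map (MulAut.conj g').toMonoidHom⁆ = R := by
    intro g hg g' hg' hn
    rw [← ZV_conj, ← ZV_conj] at hn ⊢
    rw [← hRgc g hg]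
    refine (ha.mutual_comm (hαg g) (hPαg g) (hαg g') (hPαg g') ?_ ?_ hn).symm
    · rw [ZV_conj]; exact (hZgQ g hg).trans (hQP g' hg')
    · rw [ZV_conj]; exact (hZgQ g' hg').trans (hQP g hg)
  let W : Subgroup H := sSup {Y | ∃ g ∈ γ, Y = (ZV p α).map (MulAut.conj g).toMonoidHom}
  have hZW : ∀ g ∈ γ, (ZV p α).map (MulAut.conj g).toMonoidHom ≤ W := fun g hg =>
    le_sSup (show _ ∈ {Y | ∃ g ∈ γ, Y = (ZV p α).map (MulAut.conj g).toMonoidHom} from ⟨g, hg, rfl⟩)
  have hWQ : W ≤ Q := by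
    apply sSup_le
    rintro _ ⟨g, hg, rfl⟩
    exact hZgQ g hg
  have hWn : γ ≤ normalizer (W : Set H) := by
    intro x hx'
    apply mem_normalizer_of_map_conj_le
    rw [map_le_iff_le_comap]
    apply sSup_le
    rintro _ ⟨g, hg, rfl⟩
    rw [← map_le_iff_le_comap, ← map_conj_mul]
    exact hZW _ (mul_mem hx' hg)
  -- F3
  have hF3 : ∀ δ ∈ 𝒱, SylIn p P δ → ZV p δ ≠ ZV p α → W ≤ centralizer (ZV p δ : Set H) := by
    intro δ hδ hPδ hne
    apply sSup_le
    rintro _ ⟨g, hg, rfl⟩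
    by_contra hn
    have hδQ : ZV p δ ≤ Q := (le_VV hδ hPδ).trans (h.V_le_core0 hPc hγ hPγ)
    have hn' : ¬ ZV p δ ≤ centralizer (ZV p (α.map (MulAut.conj g).toMonoidHom) : Set H) := by
      intro h1
      rw [le_centralizer_iff, ZV_conj] at h1
      exact hn h1
    have hn2 : ¬ ZV p (α.map (MulAut.conj g).toMonoidHom) ≤ centralizer (ZV p δ : Set H) := by
      rw [ZV_conj]; exact hn
    have i1 : ZV p δ ≤ P.map (MulAut.conj g).toMonoidHom := hδQ.trans (hQP g hg)
    have i2 : ZV p (α.map (MulAut.conj g).toMonoidHom) ≤ P := by rw [ZV_conj]; exact (hZgQ g hg).trans hQP1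
    have e1 := ha.mutual_comm hδ hPδ (hαg g) (hPαg g) i1 i2 hn'
    have e2 := ha.mutual_comm (hαg g) (hPαg g) hδ hPδ i2 i1 hn2
    rw [hRgc g hg, commutator_comm] at e2
    apply ha.R_not_cent hα hPα
    rw [← hRdef, e2, ← e1]
    exact hB.R_le ha hα hPα hδ hPδ hne
  -- F4
  have hF4 : W ⊓ pCoreOf p α ≤ cn P (VV p 𝒱 P) := by
    refine le_inf ((inf_le_left.trans hWQ).trans hQP1) ?_
    rw [le_centralizer_iff, VV_le_iff]
    intro δ hδ hPδ
    by_cases hne : ZV p δ = ZV p α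
    · rw [hne, le_centralizer_iff]; exact inf_le_right.trans (ha.core_cent hα)
    · rw [le_centralizer_iff]; exact inf_le_left.trans (hF3 δ hδ hPδ hne)
  -- a noncommuting conjugate
  obtain ⟨g₀, hg₀, hnc₀⟩ : ∃ g ∈ γ, ¬ (ZV p α).map (MulAut.conj g).toMonoidHom ≤ centralizer (ZV p α : Set H) := by
    by_contra hcon
    push Not at hcon
    have h1 : W ≤ centralizer (VV p 𝒱 P : Set H) := by
      rw [le_centralizer_iff, VV_le_iff]
      intro δ hδ hPδ
      rw [le_centralizer_iff]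
      by_cases hne : ZV p δ = ZV p α
      · rw [hne]
        apply sSup_le
        rintro _ ⟨g, hg, rfl⟩
        exact hcon g hg
      · exact hF3 δ hδ hPδ hne
    obtain ⟨g, hg, rfl⟩ := hPγ.conj hP'γ
    have h2 := map_conj_mono (g := g) h1
    rw [norm_map_conj (hWn hg), ← centralizer_map_conj, ← VV_conj ha.conj] at h2
    apply hnc
    have h3 := hZW 1 (one_mem _)
    rw [map_conj_one] at h3
    exact (h3.trans h2).trans (centralizer_le (le_VV hβ hP'β))
  -- F5, F6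
  have hRpow : ∀ r ∈ R, r * r = 1 := by
    intro r hr
    have := (mem_omegaOneCenter.1 (hRω hr)).2.2
    rw [hp2, pow_two] at this
    exact this
  have hRP : ∀ r ∈ R, ∀ x ∈ P, r * x = x * r := fun r hr x hx' =>
    (mem_centralizer_iff.1 (mem_omegaOneCenter.1 (hRω hr)).2.1 x hx').symm
  have hWR : ⁅W, Q⁆ ≤ R := by
    rw [commutator_comm]
    apply commutator_le_of_le_cmod
    apply sSup_le
    rintro _ ⟨g, hg, rfl⟩
    rw [le_cmod_iff]
    have hγR : γ ≤ normalizer (R : Set H) := by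
      have : γ ≤ centralizer (R : Set H) := by rw [le_centralizer_iff]; exact hR
      exact this.trans (centralizer_le_normalizer _)
    refine ⟨(hZgQ g hg).trans ((pCoreOf_le p γ).trans hγR), ?_⟩
    rw [commutator_comm]
    calc ⁅(ZV p α).map (MulAut.conj g).toMonoidHom, Q⁆
        = (⁅ZV p α, Q⁆).map (MulAut.conj g).toMonoidHom := by
          rw [map_commutator]
          congr 1
          exact (norm_map_conj (hQn hg)).symm
      _ ≤ R.map (MulAut.conj g).toMonoidHom := map_conj_mono (commutator_mono le_rfl hQP1)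
      _ = R := hRg g hg
  set D := cn P (VV p 𝒱 P) with hDdef
  have hDQ : D ≤ Q := ha.D_le_core hγ hPγ
  have hT : W ≤ centralizer (pwc 2 D : Set H) := by
    rw [le_centralizer_iff, pwc_le_iff]
    intro x hx'
    rw [mem_centralizer_iff]
    intro w hw
    have h1 : ⁅w, x⁆ ∈ R := hWR (commutator_mem_commutator hw (hDQ hx'))
    have h2 := hRpow _ h1
    have h3 := hRP _ h1 x (hQP1 (hDQ hx'))
    have h4 : w * x * w⁻¹ = ⁅w, x⁆ * x := by rw [commutatorElement_def]; group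
    have h5 : w * x ^ 2 * w⁻¹ = x ^ 2 := by
      calc w * x ^ 2 * w⁻¹ = (w * x * w⁻¹) * (w * x * w⁻¹) := by rw [pow_two]; group
        _ = ⁅w, x⁆ * (x * ⁅w, x⁆) * x := by rw [h4]; group
        _ = (⁅w, x⁆ * ⁅w, x⁆) * (x * x) := by rw [← h3]; group
        _ = x ^ 2 := by rw [h2, one_mul, pow_two]
    calc w * x ^ 2 = w * x ^ 2 * w⁻¹ * w := by group
      _ = x ^ 2 * w := by rw [h5]
  have hF6 : ∀ x ∈ D, x ^ 2 ∈ omegaOneCenter p P → x ^ 2 ∈ centralizer (α : Set H) := by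
    intro x hx' hxω
    have hαT : α ≤ normalizer (pwc 2 D : Set H) :=
      (hB.norm_D ha hα hPα).trans (le_normalizer_of_equivariant (pwc_conj 2) _)
    rcases hv.dich hPα (N := α ⊓ centralizer (pwc 2 D : Set H)) inf_le_left
      (le_normalizer_inf le_normalizer (hαT.trans (normalizer_le_normalizer_centralizer _))) with h1 | h1
    · have h2 : α ≤ centralizer ({x ^ 2} : Set H) := by
        rw [← h1]
        apply sup_le
        · refine inf_le_right.trans (centralizer_le ?_)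
          rw [Set.singleton_subset_iff]
          exact pow_mem_pwc hx'
        · intro y hy
          rw [mem_centralizer_singleton_iff]
          exact mem_centralizer_iff.1 (MAm.omega_le_cent hxω) y hy
      rw [mem_centralizer_iff]
      intro g hg
      exact mem_centralizer_singleton_iff.1 (h2 hg)
    · exfalso
      apply hnc₀
      have h2 : (ZV p α).map (MulAut.conj g₀).toMonoidHom ≤ pCoreOf p α := by
        refine le_trans ?_ h1
        have h3 : (ZV p α).map (MulAut.conj g₀).toMonoidHom ≤ P := (hZgQ g₀ hg₀).trans hQP1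
        exact le_inf (le_inf (h3.trans hPα.le) ((hZW g₀ hg₀).trans hT)) h3
      exact h2.trans (ha.core_cent hα)
  have hsq : ∀ g : H, ∀ z ∈ (ZV p α).map (MulAut.conj g).toMonoidHom, z * z = 1 := by
    intro g z hz
    rw [← ZV_conj] at hz
    have := ha.Z_pow (hαg g) hz
    rw [hp2, pow_two] at this
    exact this
  -- (*)
  have hstar : ∀ g ∈ γ, ∀ g' ∈ γ, (ZV p α).map (MulAut.conj g).toMonoidHom ≤ centralizer (ZV p α : Set H) →
      (ZV p α).map (MulAut.conj g').toMonoidHom ≤ centralizer (ZV p α : Set H) →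
      (ZV p α).map (MulAut.conj g).toMonoidHom ≤ centralizer ((ZV p α).map (MulAut.conj g').toMonoidHom : Set H) := by
    intro g hg g' hg' h1 h2
    by_contra h3
    apply ha.R_not_cent hα hPα
    rw [← hRdef, ← hmut g hg g' hg' h3, commutator_le]
    intro a ha' b hb
    have haD : a ∈ D := hF4 ⟨hZW g hg ha', ha.le_core_of hα hPα ((hZgQ g hg).trans hQP1) h1 ha'⟩
    have hbD : b ∈ D := hF4 ⟨hZW g' hg' hb, ha.le_core_of hα hPα ((hZgQ g' hg').trans hQP1) h2 hb⟩
    have ha2 := hsq g a ha'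
    have hb2 := hsq g' b hb
    have e1 : (a * b) ^ 2 = ⁅a, b⁆ := by
      rw [commutatorElement_def, inv_eq_of_mul_eq_one_right ha2, inv_eq_of_mul_eq_one_right hb2, pow_two]
      group
    have hab : ⁅a, b⁆ ∈ R := by
      rw [← hmut g hg g' hg' h3]; exact commutator_mem_commutator ha' hb
    rw [← e1]
    apply hF6 _ (mul_mem haD hbD)
    rw [e1]; exact hRω hab
  -- triangles
  obtain ⟨g₁, hg₁, hn1, hn2⟩ : ∃ g ∈ γ, ¬ (ZV p α).map (MulAut.conj g).toMonoidHom ≤ centralizer (ZV p α : Set H) ∧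
      ¬ (ZV p α).map (MulAut.conj g).toMonoidHom ≤ centralizer ((ZV p α).map (MulAut.conj g₀).toMonoidHom : Set H) := by
    by_contra hcon
    push Not at hcon
    have hsym : ∀ g : H, (ZV p α).map (MulAut.conj g).toMonoidHom ≤ centralizer (ZV p α : Set H) →
        (ZV p α).map (MulAut.conj g⁻¹).toMonoidHom ≤ centralizer (ZV p α : Set H) := by
      intro g h1
      rw [le_centralizer_iff] at h1
      have h2 := map_conj_mono (g := g⁻¹) h1
      rwa [← centralizer_map_conj, map_conj_symm'] at h2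
    let N : Subgroup H :=
      { carrier := {g | g ∈ γ ∧ (ZV p α).map (MulAut.conj g).toMonoidHom ≤ centralizer (ZV p α : Set H)}
        one_mem' := ⟨one_mem _, by rw [map_conj_one]; exact ha.Z_comm hα⟩
        mul_mem' := by
          rintro a b ⟨ha1, ha2⟩ ⟨hb1, hb2⟩
          refine ⟨mul_mem ha1 hb1, ?_⟩
          have h1 := hstar a⁻¹ (inv_mem ha1) b hb1 (hsym a ha2) hb2
          rw [le_centralizer_iff] at h1
          have h2 := map_conj_mono (g := a) h1
          rwa [← centralizer_map_conj, map_conj_symm, ← map_conj_mul] at h2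
        inv_mem' := by
          rintro a ⟨ha1, ha2⟩
          exact ⟨inv_mem ha1, hsym a ha2⟩ }
    have hNγ : N ≤ γ := fun g hg => hg.1
    have hPN : P ≤ N := by
      intro x hx'
      refine ⟨hPγ.le hx', ?_⟩
      rw [norm_map_conj ((hPα.le.trans (le_normalizer_ZV α)) hx')]
      exact ha.Z_comm hα
    have hcov : ∀ g ∈ γ, g ∉ N → g₀⁻¹ * g ∈ N := by
      intro g hg hgN
      refine ⟨mul_mem (inv_mem hg₀) hg, ?_⟩
      have h1 := hcon g hg (fun h2 => hgN ⟨hg, h2⟩)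
      have h2 := map_conj_mono (g := g₀⁻¹) h1
      rwa [← centralizer_map_conj, map_conj_symm', ← map_conj_mul] at h2
    have hg₀N : g₀ ∉ N := fun h1 => hnc₀ h1.2
    have hNn : γ ≤ normalizer (N : Set H) := by
      intro g hg
      apply mem_normalizer_of_map_conj_le
      rintro _ ⟨n, hn, rfl⟩
      change g * n * g⁻¹ ∈ N
      by_contra hc
      have h1 := hcov _ (mul_mem (mul_mem hg (hNγ hn)) (inv_mem hg)) hc
      by_cases hgN : g ∈ N
      · exact hc (mul_mem (mul_mem hgN hn) (inv_mem hgN))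
      · have h2 := hcov g hg hgN
        -- g = g₀ m, m ∈ N ; g n g⁻¹ = g₀ m' ⇒ g⁻¹ ∈ N
        have h3 : g⁻¹ ∈ N := by
          have h4 : g⁻¹ = n⁻¹ * ((g₀⁻¹ * g)⁻¹ * (g₀⁻¹ * (g * n * g⁻¹))) := by group
          rw [h4]
          exact mul_mem (inv_mem hn) (mul_mem (inv_mem h2) h1)
        exact hgN (by rw [← inv_inv g]; exact inv_mem h3)
    have := hvγ.normal_top hPγ hNγ hNn hPN
    exact hg₀N (by rw [this]; exact hg₀)
  -- the final contradiction
  set Z₀ := (ZV p α).map (MulAut.conj g₀).toMonoidHom with hZ₀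
  set Z₁ := (ZV p α).map (MulAut.conj g₁).toMonoidHom with hZ₁
  set α₀ := α.map (MulAut.conj g₀).toMonoidHom with hα₀
  set α₁ := α.map (MulAut.conj g₁).toMonoidHom with hα₁
  set P₀ := P.map (MulAut.conj g₀).toMonoidHom with hP₀
  set P₁ := P.map (MulAut.conj g₁).toMonoidHom with hP₁
  have eZ₀ : ZV p α₀ = Z₀ := ZV_conj _ _
  have eZ₁ : ZV p α₁ = Z₁ := ZV_conj _ _
  obtain ⟨q₁, hv₁⟩ := ha.vtx α₁ (hαg g₁)
  have hn₁ := ha.natZ (hαg g₁) hv₁
  obtain ⟨a₁, ha₁, ha₁2⟩ := SetLike.not_le_iff_exists.1 (hn₁.ne P₁ (hPαg g₁))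
  have hZ₁Q : Z₁ ≤ Q := hZgQ g₁ hg₁
  have hZ₀Q : Z₀ ≤ Q := hZgQ g₀ hg₀
  have hkey : ∀ A : Subgroup H, A ≤ P₁ → ¬ Z₁ ≤ centralizer (A : Set H) → a₁ ∉ centralizer (A : Set H) := by
    intro A hA1 hA2 hA3
    have h1 : ¬ A ≤ pCoreOf p α₁ := by
      intro h1
      apply hA2
      rw [le_centralizer_iff, ← eZ₁]
      exact h1.trans (ha.core_cent (hαg g₁))
    have h2 := hn₁.cz_eq (hPαg g₁) hA1 h1
    apply ha₁2
    rw [← h2, cz_bot]
    exact ⟨ha₁, hA3⟩
  have ha₁Z : a₁ ∈ Z₁ := by rw [← eZ₁]; exact ha₁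
  have k1 : a₁ ∉ centralizer (ZV p α : Set H) := hkey _ (hZQ.trans (hQP g₁ hg₁)) hn1
  have k2 : a₁ ∉ centralizer (Z₀ : Set H) := hkey _ (hZ₀Q.trans (hQP g₁ hg₁)) hn2
  -- P = Z₀ Q_α
  have hnc₀' : ¬ ZV p α ≤ centralizer (ZV p α₀ : Set H) := by
    rw [eZ₀]; intro h1; exact hnc₀ (by rw [le_centralizer_iff]; exact h1)
  have hnc₀'' : ¬ ZV p α₀ ≤ centralizer (ZV p α : Set H) := by rw [eZ₀]; exact hnc₀
  have j1 : ZV p α ≤ P₀ := hZQ.trans (hQP g₀ hg₀)
  have j2 : ZV p α₀ ≤ P := by rw [eZ₀]; exact hZ₀Q.trans hQP1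
  have s1 := ha.mutual_sup hα hPα (hαg g₀) (hPαg g₀) j1 j2 hnc₀'
  have s2 := ha.mutual_sup (hαg g₀) (hPαg g₀) hα hPα j2 j1 hnc₀''
  rw [← hα₀, eZ₀] at s1
  rw [← hα₀, ← hP₀] at s2
  have ha₁P : a₁ ∈ P := hQP1 (hZ₁Q ha₁Z)
  have nn1 : Z₀ ≤ normalizer ((pCoreOf p α : Subgroup H) : Set H) :=
    ((hZ₀Q.trans hQP1).trans hPα.le).trans pCoreOf_normal_mem
  rw [← s1, mem_sup_of_le_normalizer nn1] at ha₁P
  obtain ⟨a', ha', y, hy, hay⟩ := ha₁P
  have hyW : y ∈ W := by
    have : y = a'⁻¹ * a₁ := by rw [← hay]; group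
    rw [this]
    exact mul_mem (inv_mem (hZW g₀ hg₀ ha')) (hZW g₁ hg₁ ha₁Z)
  have hyP₀ : y ∈ P₀ := hQP g₀ hg₀ (hWQ hyW)
  have nn2 : ZV p α ≤ normalizer ((pCoreOf p α₀ : Subgroup H) : Set H) :=
    (j1.trans (hPαg g₀).le).trans pCoreOf_normal_mem
  rw [← s2, mem_sup_of_le_normalizer nn2] at hyP₀
  obtain ⟨a, haZ, c, hc, hac⟩ := hyP₀
  have hZαW : ZV p α ≤ W := by have := hZW 1 (one_mem _); rwa [map_conj_one] at this
  have hcW : c ∈ W := by
    have : c = a⁻¹ * y := by rw [← hac]; group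
    rw [this]; exact mul_mem (inv_mem (hZαW haZ)) hyW
  have hcα : c ∈ pCoreOf p α := by
    have : c = a⁻¹ * y := by rw [← hac]; group
    rw [this]; exact mul_mem (inv_mem (ha.Z_le hα haZ)) hy
  have hcD : c ∈ D := hF4 ⟨hcW, hcα⟩
  -- c commutes with a and a'
  have hca : a * c = c * a := mem_centralizer_iff.1 (ha.core_cent hα hcα) a haZ
  have hca' : a' * c = c * a' := by
    refine mem_centralizer_iff.1 (ha.core_cent (hαg g₀) hc) a' ?_
    rw [← hα₀, eZ₀]; exact ha'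
  have ha2 : a * a = 1 := by
    have := hsq 1 a (by rw [map_conj_one]; exact haZ)
    exact this
  have ha'2 : a' * a' = 1 := hsq g₀ a' ha'
  have ha₁2' : a₁ * a₁ = 1 := hsq g₁ a₁ ha₁Z
  have e0 : a₁ = a' * a * c := by rw [← hay, ← hac]; group
  have e1 : ⁅a', a⁆ * c ^ 2 = 1 := by
    have c1 : Commute a c := hca
    have c2 : Commute a' c := hca'
    have c3 : Commute (a' * a) c := c2.mul_left c1
    have c4 : a₁ * a₁ = (a' * a * (a' * a)) * c ^ 2 := by
      rw [e0]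
      calc a' * a * c * (a' * a * c) = a' * a * (c * (a' * a)) * c := by group
        _ = a' * a * (a' * a * c) * c := by rw [← c3.eq]
        _ = _ := by rw [pow_two]; group
    have c5 : ⁅a', a⁆ = a' * a * (a' * a) := by
      rw [commutatorElement_def, inv_eq_of_mul_eq_one_right ha2, inv_eq_of_mul_eq_one_right ha'2]; group
    rw [c5, ← c4, ha₁2']
  have hR0 : ⁅ZV p α, Z₀⁆ = R := by
    have := ha.mutual_comm hα hPα (hαg g₀) (hPαg g₀) j1 j2 hnc₀'
    rw [← hα₀, eZ₀] at this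
    rw [hRdef, this]
  have e2 : ⁅a', a⁆ ∈ R := by
    rw [← hR0, commutator_comm]; exact commutator_mem_commutator ha' haZ
  have e3 : c ^ 2 = ⁅a', a⁆⁻¹ := (inv_eq_of_mul_eq_one_right e1).symm
  have e4 : c ^ 2 ∈ centralizer (α : Set H) := by
    apply hF6 c hcD
    rw [e3]; exact inv_mem (hRω e2)
  have e5 : ⁅a, a'⁆ ∈ centralizer (α : Set H) := by
    rw [← commutatorElement_inv, ← e3]; exact e4
  have hn := ha.natZ hα hv
  have ha'Q : a' ∉ pCoreOf p α := by
    intro h1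
    apply k1
    apply ha.core_cent hα
    rw [← hay]; exact mul_mem h1 hy
  have haω : a ∉ cz (ZV p α) ⊥ P := by
    intro h1
    rw [cz_bot] at h1
    apply k2
    rw [e0]
    have h2 : a' ∈ centralizer (Z₀ : Set H) := by
      have := ha.Z_comm (hαg g₀)
      rw [← hα₀, eZ₀] at this
      exact this ha'
    have h3 : a ∈ centralizer (Z₀ : Set H) := centralizer_le (hZ₀Q.trans hQP1) h1.2
    have h4 : c ∈ centralizer (Z₀ : Set H) := by
      have := ha.core_cent (hαg g₀) hc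
      rwa [← hα₀, eZ₀] at this
    exact mul_mem (mul_mem h2 h3) h4
  apply hn.comm P hPα a' (hQP1 (hZ₀Q ha')) ha'Q a haZ haω
  rw [cz_bot]
  refine ⟨?_, e5⟩
  have : ⁅a, a'⁆ ∈ R := by rw [← commutatorElement_inv]; exact inv_mem e2
  exact ha.omega_le hα hPα (hRω this)

end Cfsg.Agent.H47
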