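import Cfsg.Agent.H47.MO7

set_option autoImplicit false
set_option linter.unusedSectionVars false
set_option linter.style.haveILetI false
open Cfsg Subgroup
open scoped commutatorElement

namespace Cfsg.Agent.H47

universe u

variable {H : Type u} [Group H] [Finite H] {p q : ℕ} [Fact p.Prime] {𝒱 : Set (Subgroup H)}
  {X : Subgroup H → Subgroup H} {G G' P P' : Subgroup H}

theorem TB.bst (hG : G ∈ 𝒱) (hB : TB p 𝒱 G) (hP : SylIn p P G) (hP' : SylIn p P' G) : Beq p 𝒱 P P' :=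
  Relation.ReflTransGen.single ⟨G, hG, hB, hP, hP'⟩

/-- `k ≥ 2`: a type `B` vertex is not at the end of a noncommuting pair -/
theorem MK.lemT {k : ℕ} (h : MK p 𝒱 X (k + 2)) {P₀ P₁ C β γ₁ γ α : Subgroup H}
    (hβ : β ∈ 𝒱) (hP₀β : SylIn p P₀ β) (hγ₁ : γ₁ ∈ 𝒱) (h01 : SylIn p P₀ γ₁) (h11 : SylIn p P₁ γ₁)
    (hm : mp p 𝒱 k P₁ C) (hγ : γ ∈ 𝒱) (hCγ : SylIn p C γ) (hP'γ : SylIn p P' γ) (hα : α ∈ 𝒱)
    (hP'α : SylIn p P' α) (hB : TB p 𝒱 α) (hR : ⁅ZV p α, P'⁆ ≤ centralizer (γ : Set H))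
    (hnc : ¬ ZV p β ≤ centralizer (ZV p α : Set H)) : False := by
  have ha := h.toMAm
  have hx := h.toMAx
  have hnc' : ¬ ZV p α ≤ centralizer (ZV p β : Set H) := fun h1 => hnc (by rw [le_centralizer_iff]; exact h1)
  have hc0 : Ch p 𝒱 P₀ := ⟨β, hβ, hP₀β⟩
  have hc1 : Ch p 𝒱 P₁ := ⟨γ₁, hγ₁, h11⟩
  have hcC : Ch p 𝒱 C := ⟨γ, hγ, hCγ⟩
  have hcP' : Ch p 𝒱 P' := ⟨γ, hγ, hP'γ⟩
  have m0C : mp p 𝒱 (k + 1) P₀ C := mp.cons Beq.refl ⟨γ₁, hγ₁, h01, h11⟩ hm
  have m1' : mp p 𝒱 (k + 1) P₁ P' := ⟨C, P', hm, ⟨γ, hγ, hCγ, hP'γ⟩, Beq.refl⟩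
  have hZβP' : ZV p β ≤ P' := (((le_VV hβ hP₀β).trans (h.V_le_D (by omega) hc0 m0C)).trans
    (ha.D_le_core hγ hCγ)).trans (pCoreOf_le_sylIn hP'γ)
  have hZαP₀ : ZV p α ≤ P₀ := (((le_VV hα hP'α).trans (h.V_le_D (by omega) hcP' m1'.symm)).trans
    (ha.D_le_core hγ₁ h11)).trans (pCoreOf_le_sylIn h01)
  have eR1 := ha.mutual_comm hα hP'α hβ hP₀β hZαP₀ hZβP' hnc'
  have eR2 := ha.mutual_comm hβ hP₀β hα hP'α hZβP' hZαP₀ hnc
  set R := ⁅ZV p α, P'⁆ with hRdef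
  have eR3 : ⁅ZV p β, P₀⁆ = R := by rw [eR2, commutator_comm, ← eR1]
  obtain ⟨P₁', P₂', b1, a1, m2⟩ := m1'.first
  obtain ⟨γ₂, hγ₂, s12, s22⟩ := a1
  obtain ⟨g, hg, hgC⟩ := hP'γ.conj hCγ
  set α' := α.map (MulAut.conj g).toMonoidHom with hα'def
  have hα' : α' ∈ 𝒱 := ha.conj α hα g
  have hCα' : SylIn p C α' := by have := hP'α.map_conj g; rwa [hgC] at this
  have hB' : TB p 𝒱 α' := hB.conj ha g
  have hRg : R.map (MulAut.conj g).toMonoidHom = R := map_conj_of_cent hR hg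
  have eR' : ⁅ZV p α', C⁆ = R := by
    have := MAm.R_conj (p := p) α P' g
    rwa [hgC, ← hRdef, hRg] at this
  have eZα' : ZV p α' = (ZV p α).map (MulAut.conj g).toMonoidHom := ZV_conj _ _
  -- the element u
  have hnu : ¬ (ZV p β).map (MulAut.conj g).toMonoidHom ≤ pCoreOf p α' := by
    intro h1
    apply hnc
    rw [← cent_conj_iff (g := g), ← eZα']
    exact h1.trans (ha.core_cent hα')
  obtain ⟨u, hu, huQ⟩ := SetLike.not_le_iff_exists.1 hnu
  have huC : u ∈ C := by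
    have := map_conj_mono (g := g) hZβP' hu
    rwa [hgC] at this
  obtain ⟨q, hv'⟩ := ha.vtx α' hα'
  obtain ⟨E, hE⟩ := hv'.exists_opp hCα'
  obtain ⟨x, hxα, hxE⟩ := hCα'.conj hE.2.1
  have hZα'x : (ZV p α').map (MulAut.conj x).toMonoidHom = ZV p α' := norm_map_conj (le_normalizer_ZV α' hxα)
  have hRx : ⁅ZV p α', E⁆ = R.map (MulAut.conj x).toMonoidHom := by
    rw [← eR', map_commutator, hZα'x, hxE]
  have huR : u ∉ normalizer ((R.map (MulAut.conj x).toMonoidHom : Subgroup H) : Set H) := by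
    rw [← hRx]; exact ha.R_move hα' hE huC huQ
  -- the chambers conjugated by g
  have m01 : mp p 𝒱 1 P₀ P₁ := mp.adj ⟨γ₁, hγ₁, h01, h11⟩
  have huV : u ∈ VV p 𝒱 (P₀.map (MulAut.conj g).toMonoidHom) := by
    rw [VV_conj ha.conj]
    exact map_conj_mono (g := g) (le_VV hβ hP₀β) hu
  have hc0g := ha.ch_conj hc0 g
  have huV1 : VV p 𝒱 (P₀.map (MulAut.conj g).toMonoidHom) ≤ centralizer (VV p 𝒱 (P₁.map (MulAut.conj g).toMonoidHom) : Set H) :=
    h.low 1 (by omega) _ _ hc0g (m01.conj ha g)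
  have b1g := b1.conj ha g
  have eV1 : VV p 𝒱 (P₁.map (MulAut.conj g).toMonoidHom) = VV p 𝒱 (P₁'.map (MulAut.conj g).toMonoidHom) := b1g.VV_eq ha
  have hc1g := ha.ch_conj hc1 g
  have hcP'x := ha.ch_conj hcP' x
  -- P'^x and E lie in γ^x
  have hγx : γ.map (MulAut.conj x).toMonoidHom ∈ 𝒱 := ha.conj γ hγ x
  have sEγx : SylIn p E (γ.map (MulAut.conj x).toMonoidHom) := by have := hCγ.map_conj x; rwa [hxE] at this
  have sP'γx : SylIn p (P'.map (MulAut.conj x).toMonoidHom) (γ.map (MulAut.conj x).toMonoidHom) := hP'γ.map_conj x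
  have bEC : Beq p 𝒱 E C := TB.bst hα' hB' hE.2.1 hCα'
  have m2g : mp p 𝒱 k C (P₂'.map (MulAut.conj g).toMonoidHom) := by
    have := (m2.conj ha g).symm
    rwa [hgC] at this
  have mx2 : mp p 𝒱 (k + 1) (P'.map (MulAut.conj x).toMonoidHom) (P₂'.map (MulAut.conj g).toMonoidHom) :=
    mp.cons Beq.refl ⟨_, hγx, sP'γx, sEγx⟩ (mp.beq_left bEC m2g)
  have hαx : α.map (MulAut.conj x).toMonoidHom ∈ 𝒱 := ha.conj α hα x
  have sP'αx : SylIn p (P'.map (MulAut.conj x).toMonoidHom) (α.map (MulAut.conj x).toMonoidHom) := hP'α.map_conj x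
  have hVx : VV p 𝒱 (P'.map (MulAut.conj x).toMonoidHom) ≤ P₁'.map (MulAut.conj g).toMonoidHom :=
    ((h.V_le_D (by omega) hcP'x mx2).trans (ha.D_le_core (ha.conj γ₂ hγ₂ g) (s22.map_conj g))).trans
      (pCoreOf_le_sylIn (s12.map_conj g))
  have hZαx : ZV p (α.map (MulAut.conj x).toMonoidHom) ≤ P₁'.map (MulAut.conj g).toMonoidHom :=
    (le_VV hαx sP'αx).trans hVx
  -- (iii)
  have hcomV : ZV p (α.map (MulAut.conj x).toMonoidHom) ≤ centralizer (VV p 𝒱 (P₁'.map (MulAut.conj g).toMonoidHom) : Set H) := by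
    rw [le_centralizer_iff, VV_le_iff]
    intro δ hδ hPδ
    rw [le_centralizer_iff]
    by_contra hn
    have i1 : ZV p δ ≤ P'.map (MulAut.conj x).toMonoidHom := by
      refine (le_VV hδ hPδ).trans ?_
      rw [← eV1]
      have m3 : mp p 𝒱 (k + 1) (P₁.map (MulAut.conj g).toMonoidHom) C := by
        have := m1'.conj ha g
        rwa [hgC] at this
      have h3 := h.V_le_D (by omega) hc1g m3
      rw [← bEC.D_eq ha] at h3
      exact (h3.trans (ha.D_le_core hγx sEγx)).trans (pCoreOf_le_sylIn sP'γx)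
    have e1 := ha.mutual_comm hαx sP'αx hδ hPδ hZαx i1 hn
    rw [MAm.R_conj] at e1
    apply huR
    have h4 : (R.map (MulAut.conj x).toMonoidHom : Subgroup H) ≤ VV p 𝒱 (P₁'.map (MulAut.conj g).toMonoidHom) := by
      rw [hRdef, e1]
      refine le_trans ?_ (le_VV hδ hPδ)
      rw [← le_normalizer_iff_commutator_le_right]
      exact (hZαx.trans hPδ.le).trans (le_normalizer_ZV δ)
    rw [← eV1] at h4
    exact ((huV1.trans (centralizer_le h4)).trans (centralizer_le_normalizer _)) huV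
  have hZαP₀g : ZV p (α.map (MulAut.conj x).toMonoidHom) ≤ P₀.map (MulAut.conj g).toMonoidHom := by
    have h3 : ZV p (α.map (MulAut.conj x).toMonoidHom) ≤ cn (P₁'.map (MulAut.conj g).toMonoidHom)
      (VV p 𝒱 (P₁'.map (MulAut.conj g).toMonoidHom)) := le_inf hZαx hcomV
    rw [← b1g.D_eq ha] at h3
    exact (h3.trans (ha.D_le_core (ha.conj γ₁ hγ₁ g) (h11.map_conj g))).trans (pCoreOf_le_sylIn (h01.map_conj g))
  have hcR : ∀ w ∈ ZV p (α.map (MulAut.conj x).toMonoidHom), ⁅w, u⁆ ∈ R := by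
    intro w hw
    have h3 : ⁅w, u⁆ ∈ ⁅P₀.map (MulAut.conj g).toMonoidHom, (ZV p β).map (MulAut.conj g).toMonoidHom⁆ :=
      commutator_mem_commutator (hZαP₀g hw) hu
    rw [← map_commutator, commutator_comm, eR3, hRg] at h3
    exact h3
  -- (iv)
  have hβx : β.map (MulAut.conj x).toMonoidHom ∈ 𝒱 := ha.conj β hβ x
  have sP₀βx : SylIn p (P₀.map (MulAut.conj x).toMonoidHom) (β.map (MulAut.conj x).toMonoidHom) := hP₀β.map_conj x
  have hc0x := ha.ch_conj hc0 x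
  have m0x : mp p 𝒱 (k + 1) (P₀.map (MulAut.conj x).toMonoidHom) E := by
    have := m0C.conj ha x
    rwa [hxE] at this
  have hβE : ZV p (β.map (MulAut.conj x).toMonoidHom) ≤ cn E (VV p 𝒱 E) :=
    (le_VV hβx sP₀βx).trans (h.V_le_D (by omega) hc0x m0x)
  have huα' : u ∈ α' := hCα'.le huC
  have hy : u * x ∈ α' := mul_mem huα' hxα
  have sE'α' : SylIn p (E.map (MulAut.conj u).toMonoidHom) α' := by
    have := hE.2.1.map_conj u
    rwa [norm_map_conj (le_normalizer huα')] at this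
  have eE' : C.map (MulAut.conj (u * x)).toMonoidHom = E.map (MulAut.conj u).toMonoidHom := by
    rw [map_conj_mul, hxE]
  have hDE : cn E (VV p 𝒱 E) = cn (E.map (MulAut.conj u).toMonoidHom) (VV p 𝒱 (E.map (MulAut.conj u).toMonoidHom)) :=
    hB'.D_eq ha hα' hE.2.1 sE'α'
  have hγy : γ.map (MulAut.conj (u * x)).toMonoidHom ∈ 𝒱 := ha.conj γ hγ _
  have sE'γy : SylIn p (E.map (MulAut.conj u).toMonoidHom) (γ.map (MulAut.conj (u * x)).toMonoidHom) := by
    rw [← eE']; exact hCγ.map_conj _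
  have sP'γy : SylIn p (P'.map (MulAut.conj (u * x)).toMonoidHom) (γ.map (MulAut.conj (u * x)).toMonoidHom) := hP'γ.map_conj _
  have hαy : α.map (MulAut.conj (u * x)).toMonoidHom ∈ 𝒱 := ha.conj α hα _
  have sP'αy : SylIn p (P'.map (MulAut.conj (u * x)).toMonoidHom) (α.map (MulAut.conj (u * x)).toMonoidHom) := hP'α.map_conj _
  have i1 : ZV p (β.map (MulAut.conj x).toMonoidHom) ≤ P'.map (MulAut.conj (u * x)).toMonoidHom := by
    rw [hDE] at hβE
    exact (hβE.trans (ha.D_le_core hγy sE'γy)).trans (pCoreOf_le_sylIn sP'γy)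
  have hRVE : R ≤ VV p 𝒱 E := by
    rw [bEC.VV_eq ha]
    refine le_trans ?_ (le_VV hα' hCα')
    rw [← eR', ← le_normalizer_iff_commutator_le_left]
    exact hCα'.le.trans (le_normalizer_ZV α')
  have hcE : Ch p 𝒱 E := ⟨α', hα', hE.2.1⟩
  have hRP₀x : R ≤ P₀.map (MulAut.conj x).toMonoidHom :=
    (hRVE.trans (h.V_le_D (by omega) hcE m0x.symm)).trans cn_le
  have hconj : ∀ w ∈ ZV p (α.map (MulAut.conj (u * x)).toMonoidHom), ∃ v ∈ ZV p (α.map (MulAut.conj x).toMonoidHom),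
      w = u * v * u⁻¹ := by
    intro w hw
    rw [map_conj_mul, ZV_conj] at hw
    obtain ⟨v, hv, e⟩ := hw
    exact ⟨v, hv, e.symm⟩
  have i2 : ZV p (α.map (MulAut.conj (u * x)).toMonoidHom) ≤ P₀.map (MulAut.conj x).toMonoidHom := by
    intro w hw
    obtain ⟨v, hv, rfl⟩ := hconj w hw
    have h3 : u * v * u⁻¹ = ⁅v, u⁆⁻¹ * v := by rw [commutatorElement_def]; group
    rw [h3]
    refine mul_mem (hRP₀x (inv_mem (hcR v hv))) ?_
    rw [ZV_conj] at hv
    exact map_conj_mono (g := x) hZαP₀ hv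
  have hcom2 : ZV p (β.map (MulAut.conj x).toMonoidHom) ≤ centralizer (ZV p (α.map (MulAut.conj (u * x)).toMonoidHom) : Set H) := by
    by_contra hn
    have hn' : ¬ ZV p (α.map (MulAut.conj (u * x)).toMonoidHom) ≤ centralizer (ZV p (β.map (MulAut.conj x).toMonoidHom) : Set H) :=
      fun h1 => hn (by rw [le_centralizer_iff]; exact h1)
    have e1 := ha.mutual_comm hβx sP₀βx hαy sP'αy i1 i2 hn
    have e2 := ha.mutual_comm hαy sP'αy hβx sP₀βx i2 i1 hn'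
    rw [MAm.R_conj, eR3] at e1
    rw [MAm.R_conj, ← hRdef, commutator_comm, ← e1, map_conj_mul] at e2
    exact huR (mem_normalizer_of_map_conj e2)
  -- (v)
  apply hnc
  rw [← cent_conj_iff (g := x), ← ZV_conj, ← ZV_conj, le_centralizer_iff]
  intro w hw
  have h3 : w = ⁅w, u⁆ * (u * w * u⁻¹) := by rw [commutatorElement_def]; group
  rw [h3]
  apply mul_mem
  · have h4 : cn E (VV p 𝒱 E) ≤ centralizer (R : Set H) := inf_le_right.trans (centralizer_le hRVE)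
    have h5 : ZV p (β.map (MulAut.conj x).toMonoidHom) ≤ centralizer (R : Set H) := hβE.trans h4
    rw [le_centralizer_iff] at h5
    exact h5 (hcR w hw)
  · rw [le_centralizer_iff] at hcom2
    apply hcom2
    rw [map_conj_mul, ZV_conj]
    exact ⟨w, hw, rfl⟩

/-- configurations at distance `k` -/
theorem MK.type_A {k : ℕ} (h : MK p 𝒱 X (k + 1)) {C β γ α : Subgroup H}
    (hβ : β ∈ 𝒱) (hPβ : SylIn p P β) (hm : mp p 𝒱 k P C) (hγ : γ ∈ 𝒱) (hCγ : SylIn p C γ) (hP'γ : SylIn p P' γ)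
    (hα : α ∈ 𝒱) (hP'α : SylIn p P' α) (hnc : ¬ ZV p β ≤ centralizer (ZV p α : Set H)) :
    ∃ α' ∈ 𝒱, SylIn p P' α' ∧ ¬ TB p 𝒱 α' ∧ ZV p α' = ZV p α := by
  have ha := h.toMAm
  have hx := h.toMAx
  by_cases hp2 : p = 2
  · by_cases hB : TB p 𝒱 α
    · exfalso
      have hPc : Ch p 𝒱 P := ⟨β, hβ, hPβ⟩
      -- Z_α ≠ Z_γ
      have hne : ZV p α ≠ ZV p γ := by
        intro e
        apply hnc
        rw [e]
        exact ((le_VV hβ hPβ).trans (h.low k (by omega) P C hPc hm)).trans (centralizer_le (le_VV hγ hCγ))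
      have hR : ⁅ZV p α, P'⁆ ≤ centralizer (γ : Set H) := hx.block hp2 hγ hP'γ hα hP'α hne
      cases k with
      | zero =>
        have e := Beq.VV_eq ha hm
        -- a vertex at C not commuting with α
        have h1 : ¬ VV p 𝒱 C ≤ centralizer (ZV p α : Set H) := by
          rw [← e]; intro h1; exact hnc ((le_VV hβ hPβ).trans h1)
        rw [VV_le_iff] at h1
        push Not at h1
        obtain ⟨β', hβ', hCβ', hn⟩ := h1
        exact h.three hp2 hγ hP'γ hα hP'α hB hR hCγ hβ' hCβ' (fun h2 => hn (by rw [le_centralizer_iff]; exact h2))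
      | succ k =>
        obtain ⟨P₀, P₁, b, ⟨γ₁, hγ₁, s0, s1⟩, m⟩ := hm.first
        have e := b.VV_eq ha
        have h1 : ¬ VV p 𝒱 P₀ ≤ centralizer (ZV p α : Set H) := by
          rw [← e]; intro h1; exact hnc ((le_VV hβ hPβ).trans h1)
        rw [VV_le_iff] at h1
        push Not at h1
        obtain ⟨β', hβ', hP₀β', hn⟩ := h1
        exact h.lemT hβ' hP₀β' hγ₁ s0 s1 m hγ hCγ hP'γ hα hP'α hB hR hn
    · exact ⟨α, hα, hP'α, hB, rfl⟩
  · exact hx.exists_A_eq hp2 hα hP'α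

end Cfsg.Agent.H47
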