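import Cfsg.Agent.H47.MO8

set_option autoImplicit false
set_option linter.unusedSectionVars false
set_option linter.style.haveILetI false
open Cfsg Subgroup
open scoped commutatorElement

namespace Cfsg.Agent.H47

universe u

variable {H : Type u} [Group H] [Finite H] {p q : ℕ} [Fact p.Prime] {𝒱 : Set (Subgroup H)}
  {X : Subgroup H → Subgroup H} {G G' P P' : Subgroup H}

/-- the extension argument -/
theorem MAm.ext_core (ha : MAm p 𝒱 X) {β δ R E : Subgroup H} (hβ : β ∈ 𝒱) (hPβ : SylIn p P β)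
    (hδ : δ ∈ 𝒱) (hRE : Opp p δ R E) (h1 : ZV p β ≤ R) (h2 : ZV p δ ≤ P)
    (h3 : ¬ ZV p β ≤ centralizer (ZV p δ : Set H)) (h4 : VV p 𝒱 E ≤ P) : TB p 𝒱 δ := by
  have e1 := ha.mutual_comm hβ hPβ hδ hRE.1 h1 h2 h3
  have h5 : ¬ ZV p β ≤ pCoreOf p δ := fun h => h3 (h.trans (ha.core_cent hδ))
  obtain ⟨u, hu, huQ⟩ := SetLike.not_le_iff_exists.1 h5
  apply TB.of ha hRE.2.1
  conv_lhs => rw [← hRE.2.2.1 u (h1 hu) huQ]
  apply sup_le
  · rw [zpowers_le]
    have h6 : ⁅VV p 𝒱 E, ZV p β⁆ ≤ VV p 𝒱 E := by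
      calc ⁅VV p 𝒱 E, ZV p β⁆ ≤ ⁅P, ZV p β⁆ := commutator_mono h4 le_rfl
        _ = ⁅ZV p β, ZV p δ⁆ := by rw [commutator_comm, e1]
        _ ≤ ZV p δ := by
          rw [← le_normalizer_iff_commutator_le_right]
          exact (h1.trans hRE.1.le).trans (le_normalizer_ZV δ)
        _ ≤ VV p 𝒱 E := le_VV hδ hRE.2.1
    rw [← le_normalizer_iff_commutator_le_left] at h6
    exact h6 hu
  · exact le_normalizer.trans (ha.nV E)

theorem exists_of_VV {P C : Subgroup H} (h : ¬ VV p 𝒱 P ≤ centralizer (C : Set H)) :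
    ∃ β ∈ 𝒱, SylIn p P β ∧ ¬ ZV p β ≤ centralizer (C : Set H) := by
  rw [VV_le_iff] at h
  push Not at h
  exact h

/-- the left part of a state -/
def LP (p : ℕ) (𝒱 : Set (Subgroup H)) : ℕ → Subgroup H → Subgroup H → Prop
  | 0, P, R => Beq p 𝒱 P R
  | a + 1, P, R => ∃ A, mp p 𝒱 a P A ∧ Adj p 𝒱 A R

theorem LP.to_mp {a : ℕ} {P R : Subgroup H} (h : LP p 𝒱 a P R) : mp p 𝒱 a P R := by
  cases a with
  | zero => exact h
  | succ a =>
    obtain ⟨A, h1, h2⟩ := h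
    exact ⟨A, R, h1, h2, Beq.refl⟩

theorem LP.step {a : ℕ} {P R : Subgroup H} (h : LP p 𝒱 (a + 1) P R) :
    ∃ P₀ P₁, Beq p 𝒱 P P₀ ∧ Adj p 𝒱 P₀ P₁ ∧ LP p 𝒱 a P₁ R := by
  obtain ⟨A, h1, h2⟩ := h
  cases a with
  | zero => exact ⟨A, R, h1, h2, Beq.refl⟩
  | succ a =>
    obtain ⟨P₀, P₁, b, c, d⟩ := h1.first
    exact ⟨P₀, P₁, b, c, A, d, h2⟩

/-- states -/
structure St (p : ℕ) (𝒱 : Set (Subgroup H)) (a b : ℕ) (β P : Subgroup H) (δ R : ℕ → Subgroup H) : Prop where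
  hβ : β ∈ 𝒱
  hP : SylIn p P β
  lp : LP p 𝒱 a P (R 0)
  mem : ∀ i ≤ b, δ i ∈ 𝒱
  syl : ∀ i ≤ b, SylIn p (R i) (δ i)
  opp : ∀ i < b, Opp p (δ i) (R i) (R (i + 1))
  tA : ∀ i ≤ b, ¬ TB p 𝒱 (δ i)
  nc : ¬ ZV p β ≤ centralizer (ZV p (δ b) : Set H)

/-- walking along the real part -/
theorem walk_mp {b : ℕ} {δ R : ℕ → Subgroup H} (hmem : ∀ i < b, δ i ∈ 𝒱)
    (hs : ∀ i < b, SylIn p (R i) (δ i) ∧ SylIn p (R (i + 1)) (δ i)) : ∀ i j, i + j ≤ b → mp p 𝒱 j (R i) (R (i + j)) := by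
  intro i j
  induction j with
  | zero => intro _; exact Beq.refl
  | succ j ih =>
    intro hj
    exact ⟨R (i + j), R (i + (j + 1)), ih (by omega), ⟨δ (i + j), hmem _ (by omega), (hs _ (by omega)).1,
      (hs (i + j) (by omega)).2⟩, Beq.refl⟩

theorem MK.V_le_D' {k : ℕ} (h : MK p 𝒱 X (k + 1)) (hP : Ch p 𝒱 P) (hm : mp p 𝒱 (k + 1) P P')
    (hc : VV p 𝒱 P ≤ centralizer (VV p 𝒱 P' : Set H)) : VV p 𝒱 P ≤ cn P' (VV p 𝒱 P') := by
  have ha := h.toMAm
  obtain ⟨A, B, m, ⟨γ, hγ, sA, sB⟩, b⟩ := hm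
  rw [← b.D_eq ha]
  refine le_inf ?_ (by rw [b.VV_eq ha]; exact hc)
  exact ((h.V_le_D (by omega) hP m).trans (ha.D_le_core hγ sA)).trans (pCoreOf_le_sylIn sB)

theorem St.step {k a b : ℕ} (h : MK p 𝒱 X (k + 1)) (hab : a + b = k) {β P : Subgroup H} {δ R : ℕ → Subgroup H}
    (hs : St p 𝒱 (a + 1) b β P δ R) : ∃ (β' P' : Subgroup H) (δ' R' : ℕ → Subgroup H), St p 𝒱 a (b + 1) β' P' δ' R' := by
  have ha := h.toMAm
  obtain ⟨P₀, P₁, b1, ⟨γ, hγ, s0, s1⟩, l1⟩ := hs.lp.step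
  have hPc : Ch p 𝒱 P := ⟨β, hs.hβ, hs.hP⟩
  have hP₀c : Ch p 𝒱 P₀ := ⟨γ, hγ, s0⟩
  have hP₁c : Ch p 𝒱 P₁ := ⟨γ, hγ, s1⟩
  -- β' at P₀
  obtain ⟨β', hβ', hP₀β', hn'⟩ := exists_of_VV (p := p) (𝒱 := 𝒱) (P := P₀) (C := ZV p (δ b)) (by
    rw [← b1.VV_eq ha]
    intro h1; exact hs.nc ((le_VV hs.hβ hs.hP).trans h1))
  obtain ⟨q, hv⟩ := ha.vtx (δ b) (hs.mem b le_rfl)
  obtain ⟨E, hE⟩ := hv.exists_opp (hs.syl b le_rfl)
  have hEc : Ch p 𝒱 E := ⟨δ b, hs.mem b le_rfl, hE.2.1⟩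
  have hwalk := walk_mp (p := p) (𝒱 := 𝒱) (b := b) (δ := δ) (R := R) (fun i hi => hs.mem i hi.le)
    (fun i hi => ⟨hs.syl i hi.le, (hs.opp i hi).2.1⟩)
  have m0 : mp p 𝒱 b (R 0) (R b) := by have := hwalk 0 b (by omega); rwa [Nat.zero_add] at this
  have mP₁R : mp p 𝒱 (a + b) P₁ (R b) := l1.to_mp.trans m0
  have mP₁E : mp p 𝒱 (k + 1) P₁ E := by
    rw [← hab]
    exact ⟨R b, E, mP₁R, ⟨δ b, hs.mem b le_rfl, hs.syl b le_rfl, hE.2.1⟩, Beq.refl⟩
  -- Z_{δ b} ≤ P₀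
  have i2 : ZV p (δ b) ≤ P₀ := by
    have h1 := h.V_le_D (by omega) (mP₁R.ch hP₁c) (m := a + b) mP₁R.symm
    exact (((le_VV (hs.mem b le_rfl) (hs.syl b le_rfl)).trans h1).trans (ha.D_le_core hγ s1)).trans (pCoreOf_le_sylIn s0)
  -- Z_{β'} ≤ R b
  have i1 : ZV p β' ≤ R b := by
    refine (le_VV hβ' hP₀β').trans ?_
    rw [← b1.VV_eq ha]
    rcases Nat.eq_zero_or_pos b with hb | hb
    · subst hb
      obtain ⟨A, mA, ⟨γ', hγ', sA, sR⟩⟩ := hs.lp
      exact ((h.V_le_D (by omega) hPc mA).trans (ha.D_le_core hγ' sA)).trans (pCoreOf_le_sylIn sR)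
    · obtain ⟨b', rfl⟩ : ∃ b', b = b' + 1 := ⟨b - 1, by omega⟩
      have m2 : mp p 𝒱 (a + 1 + b') P (R b') := by
        have h3 := hwalk 0 b' (by omega)
        rw [Nat.zero_add] at h3
        exact hs.lp.to_mp.trans h3
      exact ((h.V_le_D (by omega) hPc m2).trans (ha.D_le_core (hs.mem b' (by omega)) (hs.syl b' (by omega)))).trans
        (pCoreOf_le_sylIn (hs.opp b' (by omega)).2.1)
  -- V_E does not centralise V_{P₁}
  have hnc : ¬ VV p 𝒱 E ≤ centralizer (VV p 𝒱 P₁ : Set H) := by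
    intro hc
    have h1 := h.V_le_D' hEc mP₁E.symm hc
    have h2 : VV p 𝒱 E ≤ P₀ := (h1.trans (ha.D_le_core hγ s1)).trans (pCoreOf_le_sylIn s0)
    exact hs.tA b le_rfl (ha.ext_core hβ' hP₀β' (hs.mem b le_rfl) hE i1 i2 hn' h2)
  obtain ⟨ε, hε, hEε, hn2⟩ := exists_of_VV hnc
  have hn3 : ¬ VV p 𝒱 P₁ ≤ centralizer (ZV p ε : Set H) := fun h1 => hn2 (by rw [le_centralizer_iff]; exact h1)
  obtain ⟨β₁, hβ₁, hP₁β₁, hn4⟩ := exists_of_VV hn3
  obtain ⟨ε', hε', hEε', hA', eZ'⟩ := h.type_A hβ₁ hP₁β₁ (by rw [← hab]; exact mP₁R) (hs.mem b le_rfl)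
    (hs.syl b le_rfl) hE.2.1 hε hEε hn4
  refine ⟨β₁, P₁, Function.update δ (b + 1) ε', Function.update R (b + 1) E, hβ₁, hP₁β₁, ?_, ?_, ?_, ?_, ?_, ?_⟩
  · rw [Function.update_of_ne (by omega)]; exact l1
  · intro i hi
    rcases Nat.lt_or_ge i (b + 1) with h4 | h4
    · rw [Function.update_of_ne (by omega)]; exact hs.mem i (by omega)
    · have : i = b + 1 := by omega
      rw [this, Function.update_self]; exact hε'
  · intro i hi
    rcases Nat.lt_or_ge i (b + 1) with h4 | h4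
    · rw [Function.update_of_ne (by omega), Function.update_of_ne (by omega)]; exact hs.syl i (by omega)
    · have : i = b + 1 := by omega
      rw [this, Function.update_self, Function.update_self]; exact hEε'
  · intro i hi
    rw [Function.update_of_ne (by omega), Function.update_of_ne (show i ≠ b + 1 by omega)]
    rcases Nat.lt_or_ge i b with h4 | h4
    · rw [Function.update_of_ne (by omega)]; exact hs.opp i h4
    · have : i = b := by omega
      rw [this, Function.update_self]; exact hE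
  · intro i hi
    rcases Nat.lt_or_ge i (b + 1) with h4 | h4
    · rw [Function.update_of_ne (by omega)]; exact hs.tA i (by omega)
    · have : i = b + 1 := by omega
      rw [this, Function.update_self]; exact hA'
  · rw [Function.update_self, eZ']; exact hn4

theorem MK.exists_St {k : ℕ} (h : MK p 𝒱 X (k + 1)) : ∀ b ≤ k + 1,
    ∃ (β P : Subgroup H) (δ R : ℕ → Subgroup H), St p 𝒱 (k + 1 - b) b β P δ R := by
  have ha := h.toMAm
  intro b
  induction b with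
  | zero =>
    intro _
    obtain ⟨P, P', hP, hm, hn⟩ := h.ex
    obtain ⟨A, R, mA, ⟨γ, hγ, sA, sR⟩, b⟩ := hm
    rw [← b.VV_eq ha] at hn
    obtain ⟨β, hβ, hPβ, hn1⟩ := exists_of_VV hn
    have hn2 : ¬ VV p 𝒱 R ≤ centralizer (ZV p β : Set H) := fun h1 => hn1 (by rw [le_centralizer_iff]; exact h1)
    obtain ⟨α, hα, hRα, hn3⟩ := exists_of_VV hn2
    have hn4 : ¬ ZV p β ≤ centralizer (ZV p α : Set H) := fun h1 => hn3 (by rw [le_centralizer_iff]; exact h1)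
    obtain ⟨α', hα', hRα', hA', eZ'⟩ := h.type_A hβ hPβ mA hγ sA sR hα hRα hn4
    refine ⟨β, P, fun _ => α', fun _ => R, hβ, hPβ, ⟨A, mA, γ, hγ, sA, sR⟩, fun _ _ => hα', fun _ _ => hRα',
      fun i hi => absurd hi (by omega), fun _ _ => hA', ?_⟩
    change ¬ ZV p β ≤ centralizer (ZV p α' : Set H)
    rw [eZ']; exact hn4
  | succ b ih =>
    intro hb
    obtain ⟨β, P, δ, R, hs⟩ := ih (by omega)
    have e : k + 1 - b = (k + 1 - (b + 1)) + 1 := by omega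
    rw [e] at hs
    exact hs.step h (by omega)

/-- walks of type `A` vertices -/
structure MPt (p : ℕ) (𝒱 : Set (Subgroup H)) (X : Subgroup H → Subgroup H) (k M : ℕ) (δ P : ℕ → Subgroup H) : Prop where
  mK : MK p 𝒱 X k
  wk : Wk p 𝒱 M δ P
  opp : ∀ i, i + 1 < M → Opp p (δ (i + 1)) (P i) (P (i + 1))
  nle : ∀ i, i + (k + 1) ≤ M → ¬ ZV p (δ i) ≤ centralizer (ZV p (δ (i + (k + 1))) : Set H)
  tA : ∀ i ≤ M, ¬ TB p 𝒱 (δ i)

theorem MK.exists_first {k : ℕ} (h : MK p 𝒱 X (k + 1)) : ∃ δ P : ℕ → Subgroup H, MPt p 𝒱 X (k + 1) (k + 2) δ P := by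
  have ha := h.toMAm
  obtain ⟨β, P, δ, R, hs⟩ := h.exists_St (k + 1) le_rfl
  rw [Nat.sub_self] at hs
  have hb : Beq p 𝒱 P (R 0) := hs.lp
  obtain ⟨β', hβ', hRβ', hn'⟩ := exists_of_VV (p := p) (𝒱 := 𝒱) (P := R 0) (C := ZV p (δ (k + 1))) (by
    rw [← hb.VV_eq ha]
    intro h1; exact hs.nc ((le_VV hs.hβ hs.hP).trans h1))
  have hwalk := walk_mp (p := p) (𝒱 := 𝒱) (b := k + 1) (δ := δ) (R := R) (fun i hi => hs.mem i hi.le)
    (fun i hi => ⟨hs.syl i hi.le, (hs.opp i hi).2.1⟩)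
  have m1 : mp p 𝒱 k (R (k + 1)) (R 1) := by
    have := (hwalk 1 k (by omega)).symm
    rwa [Nat.add_comm 1 k] at this
  obtain ⟨β'', hβ'', hRβ'', hA'', eZ''⟩ := h.type_A (hs.mem (k + 1) le_rfl) (hs.syl (k + 1) le_rfl) m1
    (hs.mem 0 (by omega)) (hs.opp 0 (by omega)).2.1 (hs.opp 0 (by omega)).1 hβ' hRβ'
    (fun h1 => hn' (by rw [le_centralizer_iff]; exact h1))
  refine ⟨fun i => Nat.casesOn i β'' δ, R, h, ⟨?_, ?_, ?_⟩, ?_, ?_, ?_⟩
  · intro i hi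
    cases i with
    | zero => exact hβ''
    | succ i => exact hs.mem i (by omega)
  · intro i hi
    cases i with
    | zero => exact hRβ''
    | succ i => exact (hs.opp i (by omega)).2.1
  · intro i hi
    exact hs.syl i (by omega)
  · intro i hi
    exact hs.opp i (by omega)
  · intro i hi
    have : i = 0 := by omega
    subst this
    rw [Nat.zero_add]
    change ¬ ZV p β'' ≤ centralizer (ZV p (δ (k + 1)) : Set H)
    rw [eZ'']; exact hn'
  · intro i hi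
    cases i with
    | zero => exact hA''
    | succ i => exact hs.tA i (by omega)

theorem MPt.mpw {k M : ℕ} {δ P : ℕ → Subgroup H} (h : MPt p 𝒱 X k M δ P) (i j : ℕ) (hij : i + j < M) :
    mp p 𝒱 j (P i) (P (i + j)) := by
  induction j with
  | zero => exact Beq.refl
  | succ j ih =>
    exact ⟨P (i + j), P (i + (j + 1)), ih (by omega), ⟨δ (i + j + 1), h.wk.mem _ (by omega), h.wk.syl' _ (by omega),
      h.wk.syl _ (by omega)⟩, Beq.refl⟩

theorem MPt.ch {k M : ℕ} {δ P : ℕ → Subgroup H} (h : MPt p 𝒱 X k M δ P) (i : ℕ) (hi : i < M) : Ch p 𝒱 (P i) :=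
  ⟨δ i, h.wk.mem i hi.le, h.wk.syl i hi⟩

/-- inclusions along the walk: `V_{P_i} ≤ Q_{δ_j}` -/
theorem MPt.V_le_right {k M : ℕ} {δ P : ℕ → Subgroup H} (h : MPt p 𝒱 X k M δ P) (i j : ℕ) (hij : i + j < M)
    (hj : j < k) : VV p 𝒱 (P i) ≤ pCoreOf p (δ (i + j + 1)) ∧ VV p 𝒱 (P i) ≤ pCoreOf p (δ (i + j)) := by
  have h1 := h.mK.V_le_D hj (h.ch i (by omega)) (h.mpw i j hij)
  exact ⟨h1.trans (h.mK.D_le_core (h.wk.mem _ (by omega)) (h.wk.syl' _ (by omega))),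
    h1.trans (h.mK.D_le_core (h.wk.mem _ (by omega)) (h.wk.syl _ (by omega)))⟩

theorem MPt.V_le_left {k M : ℕ} {δ P : ℕ → Subgroup H} (h : MPt p 𝒱 X k M δ P) (i j : ℕ) (hij : i + j < M)
    (hj : j < k) : VV p 𝒱 (P (i + j)) ≤ pCoreOf p (δ (i + 1)) ∧ VV p 𝒱 (P (i + j)) ≤ pCoreOf p (δ i) := by
  have h1 := h.mK.V_le_D hj (h.ch (i + j) (by omega)) (h.mpw i j hij).symm
  exact ⟨h1.trans (h.mK.D_le_core (h.wk.mem _ (by omega)) (h.wk.syl' _ (by omega))),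
    h1.trans (h.mK.D_le_core (h.wk.mem _ (by omega)) (h.wk.syl _ (by omega)))⟩

theorem MPt.step {k M : ℕ} {δ P : ℕ → Subgroup H} (h : MPt p 𝒱 X (k + 1) M δ P) (hM : k + 2 ≤ M) :
    ∃ δ' P' : ℕ → Subgroup H, MPt p 𝒱 X (k + 1) (M + 1) δ' P' := by
  have ha := h.mK.toMAm
  obtain ⟨i, rfl⟩ : ∃ i, M = i + (k + 2) := ⟨M - (k + 2), by omega⟩
  -- right end δ (i+k+2), chamber P (i+k+1); left β = δ i at P i, γ = δ (i+1) at P (i+1)
  have mR : δ (i + (k + 2)) ∈ 𝒱 := h.wk.mem _ le_rfl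
  have sR : SylIn p (P (i + k + 1)) (δ (i + (k + 2))) := h.wk.syl' (i + k + 1) (by omega)
  obtain ⟨q, hv⟩ := ha.vtx _ mR
  obtain ⟨E, hE⟩ := hv.exists_opp sR
  have hEc : Ch p 𝒱 E := ⟨_, mR, hE.2.1⟩
  have mL : δ i ∈ 𝒱 := h.wk.mem _ (by omega)
  have sL : SylIn p (P i) (δ i) := h.wk.syl i (by omega)
  have mγ : δ (i + 1) ∈ 𝒱 := h.wk.mem _ (by omega)
  have sγ0 : SylIn p (P i) (δ (i + 1)) := h.wk.syl' i (by omega)
  have sγ1 : SylIn p (P (i + 1)) (δ (i + 1)) := h.wk.syl (i + 1) (by omega)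
  have i1 : ZV p (δ i) ≤ P (i + k + 1) := by
    have h1 := (h.V_le_right i k (by omega) (by omega)).1
    exact ((le_VV mL sL).trans h1).trans (pCoreOf_le_sylIn (h.wk.syl (i + k + 1) (by omega)))
  have i2 : ZV p (δ (i + (k + 2))) ≤ P i := by
    have h1 := (h.V_le_left (i + 1) k (by omega) (by omega)).2
    have h2 : ZV p (δ (i + (k + 2))) ≤ VV p 𝒱 (P (i + 1 + k)) := by
      apply le_VV mR
      rw [show i + 1 + k = i + k + 1 by omega]; exact sR
    exact (h2.trans h1).trans (pCoreOf_le_sylIn sγ0)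
  have hn := h.nle i le_rfl
  -- V_E ≤ P (i+1)
  have mE : mp p 𝒱 k E (P (i + 2)) ∨ (k = 0) := by
    rcases Nat.eq_zero_or_pos k with hk | hk
    · exact Or.inr hk
    · left
      obtain ⟨k', rfl⟩ : ∃ k', k = k' + 1 := ⟨k - 1, by omega⟩
      have h1 := (h.mpw (i + 2) k' (by omega)).symm
      apply mp.cons Beq.refl ⟨_, mR, hE.2.1, hE.1⟩
      rwa [show i + (k' + 1) + 1 = i + 2 + k' by omega]
  have hVE : VV p 𝒱 E ≤ P (i + 1) := by
    rcases mE with h1 | h1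
    · have h2 := h.mK.V_le_D (by omega) hEc h1
      rcases Nat.eq_zero_or_pos k with hk | hk
      · subst hk
        have h3 := h.mK.V_le_D (by omega) hEc (m := 0) (Beq.refl : Beq p 𝒱 E E)
        exact (h3.trans (ha.D_le_core mR hE.2.1)).trans (pCoreOf_le_sylIn sR)
      · have h3 := h2.trans (ha.D_le_core (h.wk.mem (i + 2) (by omega)) (h.wk.syl (i + 2) (by omega)))
        exact h3.trans (pCoreOf_le_sylIn (h.wk.syl' (i + 1) (by omega)))
    · subst h1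
      have h3 := h.mK.V_le_D (by omega) hEc (m := 0) (Beq.refl : Beq p 𝒱 E E)
      exact (h3.trans (ha.D_le_core mR hE.2.1)).trans (pCoreOf_le_sylIn sR)
  have hnc : ¬ VV p 𝒱 E ≤ centralizer (ZV p (δ (i + 1)) : Set H) := by
    intro hc
    have h1 : VV p 𝒱 E ≤ P i := (ha.le_core_of mγ sγ1 hVE hc).trans (pCoreOf_le_sylIn sγ0)
    exact h.tA _ le_rfl (ha.ext_core mL sL mR hE i1 i2 hn h1)
  obtain ⟨ε, hε, hEε, hn2⟩ := exists_of_VV hnc
  have hn3 : ¬ ZV p (δ (i + 1)) ≤ centralizer (ZV p ε : Set H) := fun h1 => hn2 (by rw [le_centralizer_iff]; exact h1)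
  have m3 : mp p 𝒱 k (P (i + 1)) (P (i + k + 1)) := by
    have := h.mpw (i + 1) k (by omega)
    rwa [show i + 1 + k = i + k + 1 by omega] at this
  obtain ⟨ε', hε', hEε', hA', eZ'⟩ := h.mK.type_A mγ sγ1 m3 mR sR hE.2.1 hε hEε hn3
  refine ⟨Function.update δ (i + (k + 2) + 1) ε', Function.update P (i + (k + 2)) E, h.mK, ⟨?_, ?_, ?_⟩, ?_, ?_, ?_⟩
  · intro j hj
    rcases Nat.lt_or_ge j (i + (k + 2) + 1) with h4 | h4
    · rw [Function.update_of_ne (by omega)]; exact h.wk.mem j (by omega)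
    · have : j = i + (k + 2) + 1 := by omega
      rw [this, Function.update_self]; exact hε'
  · intro j hj
    rw [Function.update_of_ne (show j ≠ i + (k + 2) + 1 by omega)]
    rcases Nat.lt_or_ge j (i + (k + 2)) with h4 | h4
    · rw [Function.update_of_ne (by omega)]; exact h.wk.syl j h4
    · have : j = i + (k + 2) := by omega
      rw [this, Function.update_self]; exact hE.2.1
  · intro j hj
    rcases Nat.lt_or_ge j (i + (k + 2)) with h4 | h4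
    · rw [Function.update_of_ne (by omega), Function.update_of_ne (show j + 1 ≠ i + (k + 2) + 1 by omega)]
      exact h.wk.syl' j h4
    · have : j = i + (k + 2) := by omega
      rw [this, Function.update_self, Function.update_self]; exact hEε'
  · intro j hj
    rw [Function.update_of_ne (show j + 1 ≠ i + (k + 2) + 1 by omega), Function.update_of_ne (show j ≠ i + (k + 2) by omega)]
    rcases Nat.lt_or_ge (j + 1) (i + (k + 2)) with h4 | h4
    · rw [Function.update_of_ne (by omega)]; exact h.opp j h4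
    · have e : j = i + k + 1 := by omega
      subst e
      rw [show i + k + 1 + 1 = i + (k + 2) by omega, Function.update_self]; exact hE
  · intro j hj
    rcases Nat.lt_or_ge (j + (k + 1 + 1)) (i + (k + 2) + 1) with h4 | h4
    · rw [Function.update_of_ne (by omega), Function.update_of_ne (by omega)]
      exact h.nle j (by omega)
    · have e : j = i + 1 := by omega
      subst e
      rw [Function.update_of_ne (by omega), show i + 1 + (k + 1 + 1) = i + (k + 2) + 1 by omega, Function.update_self, eZ']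
      exact hn3
  · intro j hj
    rcases Nat.lt_or_ge j (i + (k + 2) + 1) with h4 | h4
    · rw [Function.update_of_ne (by omega)]; exact h.tA j (by omega)
    · have : j = i + (k + 2) + 1 := by omega
      rw [this, Function.update_self]; exact hA'

theorem MPt.mono {k M M' : ℕ} {δ P : ℕ → Subgroup H} (h : MPt p 𝒱 X k M δ P) (hM : M' ≤ M) : MPt p 𝒱 X k M' δ P :=
  ⟨h.mK, ⟨fun i hi => h.wk.mem i (by omega), fun i hi => h.wk.syl i (by omega), fun i hi => h.wk.syl' i (by omega)⟩,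
    fun i hi => h.opp i (by omega), fun i hi => h.nle i (by omega), fun i hi => h.tA i (by omega)⟩

theorem MK.exists_pt {k : ℕ} (h : MK p 𝒱 X (k + 1)) (M : ℕ) : ∃ δ P : ℕ → Subgroup H, MPt p 𝒱 X (k + 1) M δ P := by
  have h1 : ∀ m : ℕ, ∃ δ P : ℕ → Subgroup H, MPt p 𝒱 X (k + 1) (m + (k + 2)) δ P := by
    intro m
    induction m with
    | zero =>
      obtain ⟨δ, P, hp⟩ := h.exists_first
      exact ⟨δ, P, by rwa [Nat.zero_add]⟩
    | succ m ih =>
      obtain ⟨δ, P, hp⟩ := ih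
      obtain ⟨δ', P', hp'⟩ := hp.step (by omega)
      exact ⟨δ', P', by rwa [show m + 1 + (k + 2) = m + (k + 2) + 1 by omega]⟩
  obtain ⟨δ, P, hp⟩ := h1 M
  exact ⟨δ, P, hp.mono (by omega)⟩

end Cfsg.Agent.H47
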