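import Cfsg.Agent.H47.Trans

set_option autoImplicit false
set_option linter.unusedSectionVars false
set_option linter.style.haveILetI false
open Cfsg Subgroup
open scoped commutatorElement

namespace Cfsg.Agent.H47

/-! ### group part -/

section
variable {G : Type*} [Group G] [Finite G] {p q : ℕ} [Fact p.Prime] {K : Subgroup G} [K.Normal]

theorem PU.sup_eq_of_le (h : PU p q K) {S R : Subgroup G} (hS : SylIn p S ⊤) (hR : SylIn p R ⊤)
    (hle : S ≤ R ⊔ K) : S ⊔ K = R ⊔ K := by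
  obtain ⟨P, hP⟩ := PU.exists_sylow S hS K
  obtain ⟨Q, hQ⟩ := PU.exists_sylow R hR K
  have h1 : (P : Subgroup (G ⧸ K)) ≤ Q := by rw [hP, hQ, map_mk_le_iff]; exact hle
  have h2 : (P : Subgroup (G ⧸ K)) = Q :=
    eq_of_le_of_card_ge h1 ((h.rk.card Q).trans (h.rk.card P).symm).le
  apply le_antisymm (sup_le hle le_sup_right)
  refine sup_le ?_ le_sup_right
  rw [← map_mk_le_iff, ← hP, ← hQ, h2]

theorem PU.opp_iff (h : PU p q K) {S R : Subgroup G} :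
    Opp p ⊤ S R ↔ SylIn p S ⊤ ∧ SylIn p R ⊤ ∧ ¬ S ≤ R ⊔ K := by
  constructor
  · intro ho
    refine ⟨ho.1, ho.2.1, fun hle => ?_⟩
    obtain ⟨x, hx, hxT⟩ := h.exists_not_mem ho.1
    have h1 := ho.2.2.1 x hx (by rwa [pCoreOf_top])
    apply h.sup_ne_top ho.2.1
    rw [eq_top_iff, ← h1]
    apply sup_le
    · rw [zpowers_le, sup_comm]; exact hle hx
    · exact le_sup_right
  · rintro ⟨hS, hR, hSR⟩
    have hRS : ¬ R ≤ S ⊔ K := by
      intro h1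
      apply hSR
      rw [h.sup_eq_of_le hR hS h1]
      exact le_sup_left
    refine ⟨hS, hR, fun x hx hxT => ?_, fun x hx hxT => ?_⟩
    · rw [pCoreOf_top] at hxT
      exact h.gen hS hR hSR hx hxT
    · rw [pCoreOf_top] at hxT
      exact h.gen hR hS hRS hx hxT

theorem PU.trans' (h : PU p q K) {A B C : Subgroup G} (hA : SylIn p A ⊤) (hB : SylIn p B ⊤)
    (hC : SylIn p C ⊤) (hAB : ¬ B ≤ A ⊔ K) (hAC : ¬ C ≤ A ⊔ K) :
    ∃ x ∈ A, C ⊔ K = B.map (MulAut.conj x).toMonoidHom ⊔ K := by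
  obtain ⟨P, hP⟩ := PU.exists_sylow A hA K
  obtain ⟨Q, hQ⟩ := PU.exists_sylow B hB K
  obtain ⟨R, hR⟩ := PU.exists_sylow C hC K
  obtain ⟨x, hx, hx2⟩ := h.rk.trans P Q R
    (fun h1 => hAB (by rw [← map_mk_le_iff, ← hP, ← hQ, h1]))
    (fun h1 => hAC (by rw [← map_mk_le_iff, ← hP, ← hR, h1]))
  rw [hP] at hx
  obtain ⟨x, hx, rfl⟩ := hx
  refine ⟨x, hx, ?_⟩
  have h1 : C.map (QuotientGroup.mk' K) = (B.map (MulAut.conj x).toMonoidHom).map (QuotientGroup.mk' K) := by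
    rw [← hR, hx2, hQ, map_map, map_map]
    congr 1
  have h3 := congrArg (fun A => A.comap (QuotientGroup.mk' K)) h1
  simp only [QuotientGroup.comap_map_mk'] at h3
  rw [sup_comm, h3, sup_comm]

theorem map_conj_sup_normal {A : Subgroup G} (g : G) : (A ⊔ K).map (MulAut.conj g).toMonoidHom =
    A.map (MulAut.conj g).toMonoidHom ⊔ K := by
  rw [Subgroup.map_sup, norm_map_conj (g := g) (N := K) (le_normalizer_of_normal (mem_top g))]

theorem SylIn.map_conj_top {S : Subgroup G} (h : SylIn p S ⊤) (g : G) :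
    SylIn p (S.map (MulAut.conj g).toMonoidHom) ⊤ := by
  have := h.map_conj g
  rwa [norm_map_conj (le_normalizer (mem_top g))] at this

/-- the elements interchanging two opposite Sylow subgroups -/
theorem PU.exists_match (h : PU p q K) {S R : Subgroup G} (ho : Opp p ⊤ S R) {w : G} (hw : w ∈ S)
    (hwT : w ∉ pCore p G) : ∃ v₁ ∈ R, ∃ v₂ ∈ R, R.map (MulAut.conj (v₁ * w * v₂)).toMonoidHom ⊔ K = S ⊔ K ∧
      S.map (MulAut.conj (v₁ * w * v₂)).toMonoidHom ⊔ K = R ⊔ K := by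
  have hS := ho.1
  have hR := ho.2.1
  have hSR := (h.opp_iff.1 ho).2.2
  have key : ∀ u : G, u ∈ S → u ∉ pCore p G → ¬ R.map (MulAut.conj u).toMonoidHom ≤ R ⊔ K := by
    intro u hu huT h1
    have h2 : u ∈ normalizer ((R ⊔ K : Subgroup G) : Set G) := by
      apply mem_normalizer_of_map_conj_le
      rw [map_conj_sup_normal]
      exact sup_le h1 le_sup_right
    have h3 := ho.2.2.1 u hu (by rwa [pCoreOf_top])
    have h4 : normalizer ((R ⊔ K : Subgroup G) : Set G) = ⊤ := by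
      rw [eq_top_iff, ← h3]
      exact sup_le (by rw [zpowers_le]; exact h2) (le_sup_left.trans le_normalizer)
    obtain ⟨g, -, hg⟩ := hR.conj hS
    apply hSR
    rw [← hg]
    have h5 := norm_map_conj (N := R ⊔ K) (g := g) (by rw [h4]; trivial)
    rw [← h5]
    exact map_mono le_sup_left
  have hwi : w⁻¹ ∉ pCore p G := fun h1 => hwT (inv_mem_iff.1 h1)
  obtain ⟨v, hv, e1⟩ := h.trans' hR hS (hR.map_conj_top w) hSR (key w hw hwT)
  obtain ⟨v₂, hv₂, e2⟩ := h.trans' hR hS (hR.map_conj_top w⁻¹) hSR (key w⁻¹ (inv_mem hw) hwi)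
  have hRv : ∀ u ∈ R, R.map (MulAut.conj u).toMonoidHom = R := fun u hu => norm_map_conj (le_normalizer hu)
  have e3 : R.map (MulAut.conj (v⁻¹ * w)).toMonoidHom ⊔ K = S ⊔ K := by
    rw [map_conj_mul, ← map_conj_sup_normal, e1, map_conj_sup_normal, ← map_conj_mul, inv_mul_cancel, map_conj_one]
  refine ⟨v⁻¹, inv_mem hv, v₂, hv₂, ?_, ?_⟩
  · rw [map_conj_mul, hRv v₂ hv₂, e3]
  · rw [map_conj_mul, ← map_conj_sup_normal, ← e2, map_conj_sup_normal, ← map_conj_mul,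
      mul_assoc, mul_inv_cancel, mul_one, hRv _ (inv_mem hv)]

end

/-! ### natural modules -/

section
variable {G : Type*} [Group G] {M : Type*} [AddCommGroup M]

/-- the fixed points of `S` in `V` -/
def Fx (ρ : G →* AddMonoid.End M) (V : AddSubgroup M) (S : Subgroup G) : AddSubgroup M where
  carrier := {m | m ∈ V ∧ ∀ s ∈ S, ρ s m = m}
  add_mem' := by
    rintro a b ⟨ha, ha2⟩ ⟨hb, hb2⟩
    exact ⟨add_mem ha hb, fun s hs => by rw [map_add, ha2 s hs, hb2 s hs]⟩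
  zero_mem' := ⟨zero_mem _, fun s _ => map_zero _⟩
  neg_mem' := by
    rintro a ⟨ha, ha2⟩
    exact ⟨neg_mem ha, fun s hs => by rw [map_neg, ha2 s hs]⟩

theorem mem_Fx {ρ : G →* AddMonoid.End M} {V : AddSubgroup M} {S : Subgroup G} {m : M} :
    m ∈ Fx ρ V S ↔ m ∈ V ∧ ∀ s ∈ S, ρ s m = m := Iff.rfl

theorem rho_mul (ρ : G →* AddMonoid.End M) (g h : G) (m : M) : ρ (g * h) m = ρ g (ρ h m) := by
  rw [map_mul]; rfl

theorem rho_one (ρ : G →* AddMonoid.End M) (m : M) : ρ 1 m = m := by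
  rw [map_one]; rfl

theorem rho_inv_mul (ρ : G →* AddMonoid.End M) (g : G) (m : M) : ρ g⁻¹ (ρ g m) = m := by
  rw [← rho_mul, inv_mul_cancel, rho_one]

theorem rho_mul_inv (ρ : G →* AddMonoid.End M) (g : G) (m : M) : ρ g (ρ g⁻¹ m) = m := by
  rw [← rho_mul, mul_inv_cancel, rho_one]

/-- natural modules (no fixed points) -/
structure Nt (p q : ℕ) (ρ : G →* AddMonoid.End M) (V : AddSubgroup M) : Prop where
  inv : ∀ (g : G), ∀ m ∈ V, ρ g m ∈ V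
  card_fx : ∀ S, SylIn p S ⊤ → Nat.card (Fx ρ V S) = q
  card_V : Nat.card V = q * q
  sup : ∀ S R, Opp p ⊤ S R → ∀ m ∈ V, ∃ x ∈ Fx ρ V S, ∃ y ∈ Fx ρ V R, m = x + y
  inf : ∀ S R, Opp p ⊤ S R → ∀ m, m ∈ Fx ρ V S → m ∈ Fx ρ V R → m = 0
  fix : ∀ S, SylIn p S ⊤ → ∀ x ∈ S, x ∉ pCore p G → ∀ u ∈ V, ρ x u = u → u ∈ Fx ρ V S
  quad : ∀ S, SylIn p S ⊤ → ∀ u ∈ V, ∀ r ∈ S, ρ r u - u ∈ Fx ρ V S
  cover : ∀ S, SylIn p S ⊤ → ∀ u ∈ V, u ∉ Fx ρ V S → ∀ w ∈ Fx ρ V S, ∃ s ∈ S, w = ρ s u - u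

variable [Finite G] {p q : ℕ} [Fact p.Prime] {K : Subgroup G} [K.Normal] {ρ : G →* AddMonoid.End M}
  {V : AddSubgroup M}

theorem Nt.mem_conj (h : Nt p q ρ V) {S : Subgroup G} {m : M} (hm : m ∈ Fx ρ V S) (g : G) :
    ρ g m ∈ Fx ρ V (S.map (MulAut.conj g).toMonoidHom) := by
  refine ⟨h.inv g m hm.1, ?_⟩
  rintro _ ⟨s, hs, rfl⟩
  change ρ (g * s * g⁻¹) (ρ g m) = ρ g m
  rw [rho_mul, rho_mul, rho_inv_mul, hm.2 s hs]

theorem Opp.conj' {S R : Subgroup G} (h : Opp p ⊤ S R) (g : G) :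
    Opp p ⊤ (S.map (MulAut.conj g).toMonoidHom) (R.map (MulAut.conj g).toMonoidHom) := by
  have := h.conj g
  rwa [norm_map_conj (le_normalizer (mem_top g))] at this

theorem Nt.K_le (h : Nt p q ρ V) (hpu : PU p q K) {S₁ S₂ : Subgroup G} (h₁ : SylIn p S₁ ⊤) (h₂ : SylIn p S₂ ⊤)
    (he : S₂ ⊔ K = S₁ ⊔ K) : Fx ρ V S₂ ≤ Fx ρ V S₁ := by
  intro u hu
  by_contra hu1
  obtain ⟨R, hR, hSR, hRS⟩ := hpu.exists_other h₁
  have ho : Opp p ⊤ S₁ R := hpu.opp_iff.2 ⟨h₁, hR, hSR⟩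
  obtain ⟨x, hx, y, hy, e⟩ := h.sup _ _ ho u hu.1
  have hyn : y ∉ Fx ρ V S₁ := fun h1 => hu1 (by rw [e]; exact add_mem hx h1)
  obtain ⟨s, hs, e2⟩ := h.cover S₁ h₁ y hy.1 hyn x hx
  have e3 : u = ρ s y := by rw [e, e2]; abel
  have h3 : u ∈ Fx ρ V (R.map (MulAut.conj s).toMonoidHom) := by
    rw [e3]; exact h.mem_conj hy s
  have ho2 : Opp p ⊤ S₂ (R.map (MulAut.conj s).toMonoidHom) := by
    have h4 := hpu.opp_iff.1 (ho.conj' s)
    rw [norm_map_conj (le_normalizer hs)] at h4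
    refine hpu.opp_iff.2 ⟨h₂, h4.2.1, fun h5 => h4.2.2 ?_⟩
    have h6 : S₂ ⊔ K ≤ R.map (MulAut.conj s).toMonoidHom ⊔ K := sup_le h5 le_sup_right
    rw [he] at h6
    exact le_sup_left.trans h6
  have h5 := h.inf _ _ ho2 u hu h3
  apply hu1
  rw [h5]; exact zero_mem _

theorem Nt.K_eq (h : Nt p q ρ V) (hpu : PU p q K) {S₁ S₂ : Subgroup G} (h₁ : SylIn p S₁ ⊤) (h₂ : SylIn p S₂ ⊤)
    (he : S₂ ⊔ K = S₁ ⊔ K) : Fx ρ V S₂ = Fx ρ V S₁ :=
  le_antisymm (h.K_le hpu h₁ h₂ he) (h.K_le hpu h₂ h₁ he.symm)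

/-- the matching relations -/
theorem Nt.match (h : Nt p q ρ V) (hpu : PU p q K) {S R : Subgroup G} (ho : Opp p ⊤ S R) {w v₁ v₂ : G}
    (hw : w ∈ S) (hv₁ : v₁ ∈ R) (hv₂ : v₂ ∈ R)
    (h1 : R.map (MulAut.conj (v₁ * w * v₂)).toMonoidHom ⊔ K = S ⊔ K)
    (h2 : S.map (MulAut.conj (v₁ * w * v₂)).toMonoidHom ⊔ K = R ⊔ K) :
    (∀ y ∈ Fx ρ V R, ρ v₁ (ρ w y - y) - (ρ w y - y) = - y) ∧
    (∀ x ∈ Fx ρ V S, ρ w (ρ v₁ x - x) - (ρ v₁ x - x) = - x) := by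
  have hS := ho.1
  have hR := ho.2.1
  have A : ∀ y ∈ Fx ρ V R, ρ v₁ (ρ w y - y) - (ρ w y - y) = - y := by
    intro y hy
    have h3 := h.mem_conj hy (v₁ * w * v₂)
    rw [h.K_eq hpu hS (hR.map_conj_top _) h1, rho_mul, hy.2 v₂ hv₂, rho_mul] at h3
    have h4 : ρ v₁ (ρ w y) = (y + (ρ v₁ (ρ w y - y) - (ρ w y - y))) + (ρ w y - y) := by
      rw [map_sub, hy.2 v₁ hv₁]; abel
    have hq := h.quad S hS y hy.1 w hw
    have h5 : y + (ρ v₁ (ρ w y - y) - (ρ w y - y)) ∈ Fx ρ V S := by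
      rw [h4] at h3
      have := sub_mem h3 hq
      rwa [add_sub_cancel_right] at this
    have h6 : y + (ρ v₁ (ρ w y - y) - (ρ w y - y)) ∈ Fx ρ V R := add_mem hy (h.quad R hR _ hq.1 v₁ hv₁)
    have h7 := h.inf _ _ ho _ h5 h6
    exact eq_neg_of_add_eq_zero_right h7
  refine ⟨A, ?_⟩
  have B : ∀ x ∈ Fx ρ V S, ρ w (ρ v₂ x - x) - (ρ v₂ x - x) = - x := by
    intro x hx
    have h3 := h.mem_conj hx (v₁ * w * v₂)
    rw [h.K_eq hpu hR (hS.map_conj_top _) h2, rho_mul, rho_mul] at h3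
    have hq := h.quad R hR x hx.1 v₂ hv₂
    set y := ρ v₂ x - x with hy
    have e1 : ρ v₂ x = x + y := by rw [hy]; abel
    have hqw := h.quad S hS y hq.1 w hw
    have e2 : ρ w (ρ v₂ x) = (x + (ρ w y - y)) + y := by
      rw [e1, map_add, hx.2 w hw]; abel
    have h4 : x + (ρ w y - y) ∈ Fx ρ V S := add_mem hx hqw
    have e3 : ρ v₁ (ρ w (ρ v₂ x)) = (x + (ρ w y - y)) + ((ρ v₁ (x + (ρ w y - y)) - (x + (ρ w y - y))) + y) := by
      rw [e2, map_add (ρ v₁), hq.2 v₁ hv₁]; abel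
    have h5 : x + (ρ w y - y) ∈ Fx ρ V R := by
      rw [e3] at h3
      have h6 : (ρ v₁ (x + (ρ w y - y)) - (x + (ρ w y - y))) + y ∈ Fx ρ V R :=
        add_mem (h.quad R hR _ h4.1 v₁ hv₁) hq
      have := sub_mem h3 h6
      rwa [add_sub_cancel_right] at this
    have h7 := h.inf _ _ ho _ h4 h5
    exact eq_neg_of_add_eq_zero_right h7
  -- v₁ = v₂ on X
  intro x hx
  have hq1 := h.quad R hR x hx.1 v₁ hv₁
  have hq2 := h.quad R hR x hx.1 v₂ hv₂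
  have e : ρ v₁ x - x = ρ v₂ x - x := by
    have h3 := A _ hq2
    have h4 := B x hx
    rw [h4, map_neg] at h3
    have h5 : -ρ v₁ x + x = -(ρ v₂ x - x) := by
      rw [← h3]; abel
    have h6 : -(ρ v₁ x - x) = -(ρ v₂ x - x) := by rw [← h5]; abel
    exact neg_injective h6
  rw [e]
  exact B x hx

end

end Cfsg.Agent.H47
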