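import Cfsg.Agent.H47.Mod1

set_option autoImplicit false
set_option linter.unusedSectionVars false
set_option linter.style.haveILetI false
open Cfsg Subgroup
open scoped commutatorElement

namespace Cfsg.Agent.H47

section
variable {G : Type*} [Group G] {M : Type*} [AddCommGroup M] {ρ : G →* AddMonoid.End M} {V : AddSubgroup M}

theorem rho_pow_of_fixed {g : G} {m c : M} (h1 : ρ g m = m + c) (h2 : ρ g c = c) (n : ℕ) :
    ρ (g ^ n) m = m + n • c := by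
  induction n with
  | zero => rw [pow_zero, rho_one, zero_smul, add_zero]
  | succ n ih => rw [pow_succ', rho_mul, ih, map_add, map_nsmul, h1, h2, succ_nsmul]; abel

/-- a matched pair of elements on a natural module -/
structure Mt (ρ : G →* AddMonoid.End M) (V : AddSubgroup M) (S R : Subgroup G) (w v : G) : Prop where
  hw : w ∈ S
  hv : v ∈ R
  span : ∀ m ∈ V, ∃ x ∈ Fx ρ V S, ∃ y ∈ Fx ρ V R, m = x + y
  by_ : ∀ y ∈ Fx ρ V R, ρ w y - y ∈ Fx ρ V S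
  ax : ∀ x ∈ Fx ρ V S, ρ v x - x ∈ Fx ρ V R
  ab : ∀ y ∈ Fx ρ V R, ρ v (ρ w y - y) - (ρ w y - y) = - y
  ba : ∀ x ∈ Fx ρ V S, ρ w (ρ v x - x) - (ρ v x - x) = - x

namespace Mt
variable {S R : Subgroup G} {w v : G}

theorem wy (h : Mt ρ V S R w v) {y : M} (hy : y ∈ Fx ρ V R) (n : ℕ) : ρ (w ^ n) y = y + n • (ρ w y - y) :=
  rho_pow_of_fixed (by abel) ((h.by_ y hy).2 w h.hw) n

theorem vx (h : Mt ρ V S R w v) {x : M} (hx : x ∈ Fx ρ V S) (n : ℕ) : ρ (v ^ n) x = x + n • (ρ v x - x) :=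
  rho_pow_of_fixed (by abel) ((h.ax x hx).2 v h.hv) n

theorem n_y (h : Mt ρ V S R w v) {y : M} (hy : y ∈ Fx ρ V R) (k m : ℕ) (hkm : (k * m) • y = y) :
    ρ (v ^ k * w ^ m * v ^ k) y = m • (ρ w y - y) := by
  have e1 : ρ (v ^ k) y = y := hy.2 _ (pow_mem h.hv k)
  rw [rho_mul, rho_mul, e1, h.wy hy, map_add, e1, map_nsmul, h.vx (h.by_ y hy), h.ab y hy, smul_add, smul_neg,
    smul_neg, smul_smul, mul_comm m k, hkm]
  abel

theorem n_x (h : Mt ρ V S R w v) {x : M} (hx : x ∈ Fx ρ V S) (k m : ℕ) (hkm : (k * m) • x = x) :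
    ρ (v ^ k * w ^ m * v ^ k) x = k • (ρ v x - x) := by
  have e1 : ρ (w ^ m) x = x := hx.2 _ (pow_mem h.hw m)
  have e2 : ρ (v ^ k) (k • (ρ v x - x)) = k • (ρ v x - x) := by
    rw [map_nsmul, (h.ax x hx).2 _ (pow_mem h.hv k)]
  have e3 : ρ (w ^ m) (k • (ρ v x - x)) = k • (ρ v x - x) - x := by
    rw [map_nsmul, h.wy (h.ax x hx), h.ba x hx, smul_add, smul_neg, smul_neg, smul_smul, hkm]
    abel
  rw [rho_mul, rho_mul, h.vx hx, map_add, e1, e3]
  have e4 : x + (k • (ρ v x - x) - x) = k • (ρ v x - x) := by abel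
  rw [e4, e2]

theorem n1_y (h : Mt ρ V S R w v) {y : M} (hy : y ∈ Fx ρ V R) : ρ (v * w * v) y = ρ w y - y := by
  have := h.n_y hy 1 1 (by rw [mul_one, one_smul])
  rwa [pow_one, pow_one, one_smul] at this

theorem n1_x (h : Mt ρ V S R w v) {x : M} (hx : x ∈ Fx ρ V S) : ρ (v * w * v) x = ρ v x - x := by
  have := h.n_x hx 1 1 (by rw [mul_one, one_smul])
  rwa [pow_one, pow_one, one_smul] at this

theorem n1i_x (h : Mt ρ V S R w v) {x : M} (hx : x ∈ Fx ρ V S) : ρ (v * w * v)⁻¹ x = -(ρ v x - x) := by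
  have h1 := h.n1_y (h.ax x hx)
  rw [h.ba x hx] at h1
  have h2 : ρ (v * w * v) (-(ρ v x - x)) = x := by rw [map_neg, h1, neg_neg]
  rw [← h2, rho_inv_mul, h2]

theorem n1i_y (h : Mt ρ V S R w v) {y : M} (hy : y ∈ Fx ρ V R) : ρ (v * w * v)⁻¹ y = -(ρ w y - y) := by
  have h1 := h.n1_x (h.by_ y hy)
  rw [h.ab y hy] at h1
  have h2 : ρ (v * w * v) (-(ρ w y - y)) = y := by rw [map_neg, h1, neg_neg]
  rw [← h2, rho_inv_mul, h2]

theorem t_eq (h : Mt ρ V S R w v) {m : M} (hm : m ∈ V) : ρ (v * w * v * (v * w * v)) m = - m := by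
  obtain ⟨x, hx, y, hy, rfl⟩ := h.span m hm
  rw [rho_mul, map_add, map_add, h.n1_x hx, h.n1_y hy, h.n1_y (h.ax x hx), h.n1_x (h.by_ y hy), h.ba x hx,
    h.ab y hy]
  abel

theorem h_x (h : Mt ρ V S R w v) {x : M} (hx : x ∈ Fx ρ V S) (k m : ℕ) (hkm : ∀ m' ∈ V, (k * m) • m' = m') :
    ρ (v ^ k * w ^ m * v ^ k * (v * w * v)⁻¹) x = m • x := by
  rw [rho_mul, h.n1i_x hx, map_neg, h.n_y (h.ax x hx) k m (hkm _ (h.ax x hx).1), h.ba x hx, smul_neg, neg_neg]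

theorem h_y (h : Mt ρ V S R w v) {y : M} (hy : y ∈ Fx ρ V R) (k m : ℕ) (hkm : ∀ m' ∈ V, (k * m) • m' = m') :
    ρ (v ^ k * w ^ m * v ^ k * (v * w * v)⁻¹) y = k • y := by
  rw [rho_mul, h.n1i_y hy, map_neg, h.n_x (h.by_ y hy) k m (hkm _ (h.by_ y hy).1), h.ab y hy, smul_neg, neg_neg]

/-- `h w = w^(m²) h` -/
theorem h_w (h : Mt ρ V S R w v) (k m : ℕ) (hkm : ∀ m' ∈ V, (k * m) • m' = m') {u : M} (hu : u ∈ V) :
    ρ ((v ^ k * w ^ m * v ^ k * (v * w * v)⁻¹) * w) u =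
      ρ (w ^ (m * m) * (v ^ k * w ^ m * v ^ k * (v * w * v)⁻¹)) u := by
  set g := v ^ k * w ^ m * v ^ k * (v * w * v)⁻¹ with hg
  obtain ⟨x, hx, y, hy, rfl⟩ := h.span u hu
  have e1 : ρ (g * w) x = m • x := by rw [rho_mul, hx.2 w h.hw, h.h_x hx k m hkm]
  have e2 : ρ (w ^ (m * m) * g) x = m • x := by
    rw [rho_mul, h.h_x hx k m hkm, map_nsmul, hx.2 _ (pow_mem h.hw _)]
  have e3 : ρ (g * w) y = k • y + m • (ρ w y - y) := by
    rw [rho_mul]
    have : ρ w y = y + (ρ w y - y) := by abel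
    rw [this, map_add, h.h_y hy k m hkm, h.h_x (h.by_ y hy) k m hkm]
    congr 2
    abel
  have e4 : ρ (w ^ (m * m) * g) y = k • y + m • (ρ w y - y) := by
    rw [rho_mul, h.h_y hy k m hkm, map_nsmul, h.wy hy, smul_add, smul_smul, ← mul_assoc, mul_comm (k * m) m,
      mul_smul, hkm _ (h.by_ y hy).1]
  rw [map_add, map_add, e1, e2, e3, e4]

end Mt

variable [Finite G] {p q : ℕ} [Fact p.Prime] {K : Subgroup G} [K.Normal]

theorem Nt.mt (h : Nt p q ρ V) (hpu : PU p q K) {S R : Subgroup G} (ho : Opp p ⊤ S R) {w v₁ v₂ : G}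
    (hw : w ∈ S) (hv₁ : v₁ ∈ R) (hv₂ : v₂ ∈ R)
    (h1 : R.map (MulAut.conj (v₁ * w * v₂)).toMonoidHom ⊔ K = S ⊔ K)
    (h2 : S.map (MulAut.conj (v₁ * w * v₂)).toMonoidHom ⊔ K = R ⊔ K) : Mt ρ V S R w v₁ := by
  obtain ⟨h3, h4⟩ := h.match hpu ho hw hv₁ hv₂ h1 h2
  exact ⟨hw, hv₁, h.sup S R ho, fun y hy => h.quad S ho.1 y hy.1 w hw, fun x hx => h.quad R ho.2.1 x hx.1 v₁ hv₁, h3, h4⟩

theorem Nt.ne_zero (h : Nt p q ρ V) (hpu : PU p q K) : ∃ m ∈ V, m ≠ 0 := by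
  by_contra hcon
  push Not at hcon
  have h1 : V = ⊥ := by
    rw [eq_bot_iff]; exact fun m hm => AddSubgroup.mem_bot.2 (hcon m hm)
  have h2 := h.card_V
  rw [h1, AddSubgroup.card_bot] at h2
  have := hpu.one_lt
  nlinarith

end

section
variable {G : Type*} [Group G] [Finite G] {M W : Type*} [AddCommGroup M] [AddCommGroup W]
  {p q : ℕ} [Fact p.Prime] {K : Subgroup G} [K.Normal] {ρ : G →* AddMonoid.End M} {ρ₂ : G →* AddMonoid.End W}
  {Zb : AddSubgroup M} {j : M →+ W}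

/-- an extension of two natural modules with trivial module in between -/
structure Ext2 (p q : ℕ) (ρ : G →* AddMonoid.End M) (ρ₂ : G →* AddMonoid.End W) (Zb : AddSubgroup M)
    (j : M →+ W) : Prop where
  n1 : Nt p q ρ Zb
  n2 : Nt p q ρ₂ ⊤
  surj : Function.Surjective j
  eqv : ∀ g m, j (ρ g m) = ρ₂ g (j m)
  zc : ∀ z ∈ Zb, j z = 0
  cz : ∀ c, j c = 0 → ∀ g, ρ g c - c ∈ Zb
  pm : ∀ m : M, p • m = 0
  tr : ∀ t ∈ pCore p G, ∀ m, ρ t m = m

/-- the elements acting trivially on both natural factors -/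
def Ext2.C0 (_h : Ext2 p q ρ ρ₂ Zb j) : Subgroup G where
  carrier := {g | (∀ z ∈ Zb, ρ g z = z) ∧ ∀ m, ρ₂ g (j m) = j m}
  one_mem' := ⟨fun z _ => rho_one ρ z, fun m => rho_one ρ₂ _⟩
  mul_mem' := by
    rintro a b ⟨ha, ha2⟩ ⟨hb, hb2⟩
    exact ⟨fun z hz => by rw [rho_mul, hb z hz, ha z hz], fun m => by rw [rho_mul, hb2, ha2]⟩
  inv_mem' := by
    rintro a ⟨ha, ha2⟩
    refine ⟨fun z hz => ?_, fun m => ?_⟩
    · conv_lhs => rw [← ha z hz]
      rw [rho_inv_mul]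
    · conv_lhs => rw [← ha2 m]
      rw [rho_inv_mul]

/-- kernel of a representation -/
def kerRep (ρ : G →* AddMonoid.End M) : Subgroup G where
  carrier := {g | ∀ m, ρ g m = m}
  one_mem' := fun m => rho_one ρ m
  mul_mem' := by
    intro a b ha hb m
    rw [rho_mul, hb, ha]
  inv_mem' := by
    intro a ha m
    conv_lhs => rw [← ha m]
    rw [rho_inv_mul]

namespace Ext2

theorem C0_normal (h : Ext2 p q ρ ρ₂ Zb j) : h.C0.Normal := by
  refine ⟨fun g hg x => ⟨fun z hz => ?_, fun m => ?_⟩⟩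
  · have h1 : ρ x⁻¹ z ∈ Zb := h.n1.inv _ z hz
    rw [rho_mul, rho_mul, hg.1 _ h1, rho_mul_inv]
  · rw [rho_mul, rho_mul, ← h.eqv x⁻¹, hg.2, h.eqv x⁻¹, rho_mul_inv]

theorem C0_inf (h : Ext2 p q ρ ρ₂ Zb j) (hpu : PU p q K) {S : Subgroup G} (hS : SylIn p S ⊤) :
    h.C0 ⊓ S ≤ pCore p G := by
  rcases hpu.dich hS h.C0_normal with h1 | h1
  · exfalso
    -- all of G acts on Zb as S
    obtain ⟨R, hR, hSR, -⟩ := hpu.exists_other hS
    have ho : Opp p ⊤ S R := hpu.opp_iff.2 ⟨hS, hR, hSR⟩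
    obtain ⟨m, hm, hm0⟩ := h.n1.ne_zero hpu
    have hfix : ∀ S', SylIn p S' ⊤ → h.C0 ⊔ S' = ⊤ → ∀ x ∈ Fx ρ Zb S', ∀ g, ρ g x = x := by
      intro S' hS' h2 x hx g
      haveI := h.C0_normal
      have hg : g ∈ h.C0 ⊔ S' := by rw [h2]; trivial
      rw [mem_sup_of_normal_left] at hg
      obtain ⟨c, hc, s, hs, rfl⟩ := hg
      rw [rho_mul, hx.2 s hs, hc.1 x hx.1]
    have h2 : h.C0 ⊔ R = ⊤ := by
      obtain ⟨g, -, rfl⟩ := hS.conj hR
      have h3 : (h.C0 ⊔ S).map (MulAut.conj g).toMonoidHom = ⊤ := by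
        rw [h1, norm_map_conj (le_normalizer (mem_top g))]
      haveI := h.C0_normal
      rwa [Subgroup.map_sup, norm_map_conj (g := g) (N := h.C0) (le_normalizer_of_normal (mem_top g))] at h3
    obtain ⟨x, hx, y, hy, rfl⟩ := h.n1.sup S R ho m hm
    apply hm0
    have hx0 : x = 0 := h.n1.inf S R ho x hx ⟨hx.1, fun s _ => hfix S hS h1 x hx s⟩
    have hy0 : y = 0 := h.n1.inf S R ho y ⟨hy.1, fun s _ => hfix R hR h2 y hy s⟩ hy
    rw [hx0, hy0, add_zero]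
  · exact h1

/-- `p` odd: `C0` acts trivially -/
theorem C0_triv (h : Ext2 p q ρ ρ₂ Zb j) (hpu : PU p q K) (hp : p ≠ 2) {g : G} (hg : g ∈ h.C0) (m : M) :
    ρ g m = m := by
  obtain ⟨S, hS⟩ := SylIn.exists p (⊤ : Subgroup G)
  haveI := h.C0_normal
  have h1 : SylIn p (S ⊓ h.C0) h.C0 := hS.inf_normal le_top le_normalizer_of_normal
  have h2 : pRes p h.C0 ≤ kerRep ρ := by
    rw [pRes_le_iff]
    intro x hx hxp
    apply mem_of_pow_mem (p := p) (k := 1) hxp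
    intro m
    rw [pow_one]
    -- (x-1)^3 = 0
    set b := ρ x m - m with hb
    have hb0 : j b = 0 := by rw [hb, map_sub, h.eqv, hx.2, sub_self]
    set c := ρ x b - b with hc
    have hc0 : c ∈ Zb := h.cz b hb0 x
    have hxc : ρ x c = c := hx.1 c hc0
    have hxb : ρ x b = b + c := by rw [hc]; abel
    have key : ∀ n : ℕ, ρ (x ^ n) m = m + n • b + (n.choose 2) • c := by
      intro n
      induction n with
      | zero => rw [pow_zero, rho_one]; simp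
      | succ n ih =>
        have e4 : (n + 1).choose 2 = n + n.choose 2 := by
          rw [Nat.choose_succ_succ' n 1, Nat.choose_one_right]
        have : ρ x m = m + b := by rw [hb]; abel
        rw [pow_succ', rho_mul, ih, map_add, map_add, map_nsmul, map_nsmul, hxb, hxc, e4, add_smul n (n.choose 2) c, succ_nsmul,
          this, smul_add]
        abel
    rw [key p, h.pm b]
    obtain ⟨k, hk⟩ : p ∣ p.choose 2 :=
      (Fact.out : p.Prime).dvd_choose_self (by omega) (by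
        have := (Fact.out : p.Prime).two_le
        omega)
    rw [hk, mul_comm, mul_smul, h.pm c, smul_zero, add_zero, add_zero]
  have h3 : h.C0 ≤ kerRep ρ := by
    rw [← h1.pRes_sup]
    refine sup_le h2 ?_
    intro x hx m
    exact h.tr x (h.C0_inf hpu hS ⟨hx.2, hx.1⟩) m
  exact h3 hg m

/-- two elements acting equally on the factors act equally -/
theorem eq_of (h : Ext2 p q ρ ρ₂ Zb j) (hpu : PU p q K) (hp : p ≠ 2) {g g' : G}
    (h1 : ∀ z ∈ Zb, ρ g z = ρ g' z) (h2 : ∀ u, ρ₂ g u = ρ₂ g' u) (m : M) : ρ g m = ρ g' m := by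
  have h3 : g'⁻¹ * g ∈ h.C0 := by
    refine ⟨fun z hz => ?_, fun m => ?_⟩
    · rw [rho_mul, h1 z hz, rho_inv_mul]
    · rw [rho_mul, h2, rho_inv_mul]
  have h4 := h.C0_triv hpu hp h3 m
  rw [rho_mul] at h4
  rw [← h4, rho_mul_inv]
  rw [h4]

end Ext2

end

end Cfsg.Agent.H47
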