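import Cfsg.Agent.H47.Mod2

set_option autoImplicit false
set_option linter.unusedSectionVars false
set_option linter.style.haveILetI false
open Cfsg Subgroup
open scoped commutatorElement

namespace Cfsg.Agent.H47

section
variable {G : Type*} [Group G] {M : Type*} [AddCommGroup M] {ρ : G →* AddMonoid.End M}

theorem rho_pow2 {x : G} {m b c : M} (h1 : ρ x m = m + b) (h2 : ρ x b = b + c) (h3 : ρ x c = c) (n : ℕ) :
    ρ (x ^ n) m = m + n • b + (n.choose 2) • c := by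
  induction n with
  | zero => rw [pow_zero, rho_one]; simp
  | succ n ih =>
    have e4 : (n + 1).choose 2 = n + n.choose 2 := by
      rw [Nat.choose_succ_succ' n 1, Nat.choose_one_right]
    rw [pow_succ', rho_mul, ih, map_add, map_add, map_nsmul, map_nsmul, h1, h2, h3, e4,
      add_smul n (n.choose 2) c, succ_nsmul, smul_add]
    abel

theorem nsmul_coprime_eq_zero {p n : ℕ} {m : M} (hp : p • m = 0) (hn : n • m = 0) (h : Nat.Coprime p n) : m = 0 := by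
  have h1 : addOrderOf m ∣ p := addOrderOf_dvd_of_nsmul_eq_zero hp
  have h2 : addOrderOf m ∣ n := addOrderOf_dvd_of_nsmul_eq_zero hn
  have h3 : addOrderOf m = 1 := Nat.eq_one_of_dvd_coprimes h h1 h2
  exact AddMonoid.addOrderOf_eq_one_iff.1 h3

end

section
variable {G : Type*} [Group G] [Finite G] {M W : Type*} [AddCommGroup M] [AddCommGroup W]
  {p q : ℕ} [Fact p.Prime] {K : Subgroup G} [K.Normal] {ρ : G →* AddMonoid.End M} {ρ₂ : G →* AddMonoid.End W}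
  {Zb : AddSubgroup M} {j : M →+ W}

namespace Ext2

/-- the central involution on `M`: it squares to the identity and commutes with everything -/
theorem t_facts (h : Ext2 p q ρ ρ₂ Zb j) (hpu : PU p q K) (hp : p ≠ 2) {S R : Subgroup G} {w v : G}
    (m1 : Mt ρ Zb S R w v) (m2 : Mt ρ₂ ⊤ S R w v) :
    (∀ m, ρ (v * w * v * (v * w * v)) (ρ (v * w * v * (v * w * v)) m) = m) ∧
    (∀ g m, ρ (v * w * v * (v * w * v)) (ρ g m) = ρ g (ρ (v * w * v * (v * w * v)) m)) := by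
  have e1 : ∀ z ∈ Zb, ρ (v * w * v * (v * w * v)) z = - z := fun z hz => m1.t_eq hz
  have e2 : ∀ u, ρ₂ (v * w * v * (v * w * v)) u = - u := fun u => m2.t_eq (AddSubgroup.mem_top u)
  generalize v * w * v * (v * w * v) = t at e1 e2 ⊢
  constructor
  · intro m
    have h3 := h.eq_of hpu hp (g := t * t) (g' := 1) (fun z hz => by
      rw [rho_mul, e1 z hz, map_neg, e1 z hz, neg_neg, rho_one]) (fun u => by
      rw [rho_mul, e2 u, map_neg, e2 u, neg_neg, rho_one]) m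
    rwa [rho_mul, rho_one] at h3
  · intro g m
    have h3 := h.eq_of hpu hp (g := t * g) (g' := g * t) (fun z hz => by
      rw [rho_mul, rho_mul, e1 z hz, map_neg, e1 _ (h.n1.inv g z hz)]) (fun u => by
      rw [rho_mul, rho_mul, e2 u, map_neg, e2 (ρ₂ g u)]) m
    rwa [rho_mul, rho_mul] at h3

/-- quadratic action on `ker j` -/
theorem quad_ker (h : Ext2 p q ρ ρ₂ Zb j) (hpu : PU p q K) (hp : p ≠ 2) {S R : Subgroup G} {w v : G}
    (hS : SylIn p S ⊤) (m1 : Mt ρ Zb S R w v) (m2 : Mt ρ₂ ⊤ S R w v) {c : M} (hc : j c = 0) :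
    ρ w (ρ w c - c) = ρ w c - c := by
  obtain ⟨ht, htc⟩ := h.t_facts hpu hp m1 m2
  have e1 : ∀ z ∈ Zb, ρ (v * w * v * (v * w * v)) z = - z := fun z hz => m1.t_eq hz
  generalize v * w * v * (v * w * v) = t at ht htc e1
  have h2 : ∀ z : M, (2 : ℕ) • z = 0 → z = 0 := by
    intro z hz
    refine nsmul_coprime_eq_zero (h.pm z) hz ?_
    rw [Nat.coprime_primes (Fact.out) Nat.prime_two]; exact hp
  -- c + t c is fixed by w
  have hct : j (ρ t c) = 0 := by rw [h.eqv, hc, map_zero]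
  set c₁ := c + ρ t c with hc₁
  have f1 : ρ w c₁ = c₁ := by
    have g1 : ρ w c₁ - c₁ ∈ Zb := h.cz c₁ (by rw [hc₁, map_add, hc, hct, add_zero]) w
    have g2 : ρ t c₁ = c₁ := by rw [hc₁, map_add, ht]; abel
    have g3 : ρ t (ρ w c₁ - c₁) = ρ w c₁ - c₁ := by rw [map_sub, htc, g2]
    have g4 : ρ w c₁ - c₁ = 0 := by
      apply h2
      rw [e1 _ g1] at g3
      rw [two_nsmul]
      nth_rewrite 1 [← g3]
      rw [neg_add_cancel]
    exact sub_eq_zero.1 g4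
  set c₂ := c - ρ t c with hc₂
  have f2 : c₂ ∈ Zb := by
    have := h.cz c hc t
    rw [hc₂, ← neg_sub]
    exact neg_mem this
  have f3 : ρ w (ρ w c₂ - c₂) = ρ w c₂ - c₂ := (h.n1.quad S hS c₂ f2 w m1.hw).2 w m1.hw
  have f4 : (2 : ℕ) • c = c₁ + c₂ := by rw [hc₁, hc₂, two_nsmul]; abel
  have f5 : (2 : ℕ) • (ρ w (ρ w c - c) - (ρ w c - c)) = 0 := by
    have : (2 : ℕ) • (ρ w (ρ w c - c) - (ρ w c - c)) =
        ρ w (ρ w ((2 : ℕ) • c) - (2 : ℕ) • c) - (ρ w ((2 : ℕ) • c) - (2 : ℕ) • c) := by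
      simp only [map_nsmul, map_sub, smul_sub]
    rw [this, f4, map_add, f1]
    have g5 : c₁ + ρ w c₂ - (c₁ + c₂) = ρ w c₂ - c₂ := by abel
    rw [g5, f3, sub_self]
  exact sub_eq_zero.1 (h2 _ f5)

theorem five_le (h : Ext2 p q ρ ρ₂ Zb j) (hpu : PU p q K) (hp : 5 ≤ p) {S R : Subgroup G} (ho : Opp p ⊤ S R)
    {w : G} (hw : w ∈ S) (hwT : w ∉ pCore p G) {a : M} (ha : j a ∈ Fx ρ₂ ⊤ R)
    (hf : ρ w (ρ w a - a) - (ρ w a - a) ∈ Fx ρ Zb S) : ρ w (ρ w a - a) - (ρ w a - a) = 0 := by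
  have hp2 : p ≠ 2 := by omega
  obtain ⟨v, hv, v₂, hv₂, e1, e2⟩ := hpu.exists_match ho hw hwT
  have m1 : Mt ρ Zb S R w v := h.n1.mt hpu ho hw hv hv₂ e1 e2
  have m2 : Mt ρ₂ ⊤ S R w v := h.n2.mt hpu ho hw hv hv₂ e1 e2
  obtain ⟨k, hk⟩ : ∃ k, 2 * k = p + 1 := by
    have := (Fact.out : p.Prime).odd_of_ne_two hp2
    obtain ⟨r, hr⟩ := this
    exact ⟨r + 1, by omega⟩
  have hk1 : ∀ m : M, (k * 2) • m = m := by
    intro m
    rw [mul_comm, hk, add_smul, h.pm, one_smul, zero_add]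
  have hk2 : ∀ u ∈ (⊤ : AddSubgroup W), (k * 2) • u = u := by
    intro u _
    obtain ⟨m, rfl⟩ := h.surj u
    rw [← map_nsmul, hk1]
  set f := ρ w (ρ w a - a) - (ρ w a - a) with hfdef
  -- the torus element
  have f1 : ∀ x ∈ Fx ρ Zb S, ρ (v ^ k * w ^ 2 * v ^ k * (v * w * v)⁻¹) x = 2 • x :=
    fun x hx => m1.h_x hx k 2 (fun m _ => hk1 m)
  have f2 : ∀ y ∈ Fx ρ₂ ⊤ R, ρ₂ (v ^ k * w ^ 2 * v ^ k * (v * w * v)⁻¹) y = k • y :=
    fun y hy => m2.h_y hy k 2 hk2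
  have f3 : ∀ m, ρ ((v ^ k * w ^ 2 * v ^ k * (v * w * v)⁻¹) * w) m =
      ρ (w ^ 4 * (v ^ k * w ^ 2 * v ^ k * (v * w * v)⁻¹)) m := fun m =>
    h.eq_of hpu hp2 (fun z hz => m1.h_w k 2 (fun m _ => hk1 m) hz)
      (fun u => m2.h_w k 2 hk2 (AddSubgroup.mem_top u)) m
  generalize v ^ k * w ^ 2 * v ^ k * (v * w * v)⁻¹ = g at f1 f2 f3
  have f3' : ∀ m, ρ g (ρ w m) = ρ (w ^ 4) (ρ g m) := fun m => by rw [← rho_mul, ← rho_mul]; exact f3 m
  -- the effect of `g` on `a`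
  set c := ρ g a - k • a with hc
  have hc0 : j c = 0 := by rw [hc, map_sub, map_nsmul, h.eqv, f2 _ ha, sub_self]
  have hga : ρ g a = k • a + c := by rw [hc]; abel
  have hcq := h.quad_ker hpu hp2 ho.1 m1 m2 hc0
  have hwf : ρ w f = f := hf.2 w hw
  have pa : ∀ n : ℕ, ρ (w ^ n) a = a + n • (ρ w a - a) + (n.choose 2) • f :=
    rho_pow2 (by abel) (by rw [hfdef]; abel) hwf
  have pc : ∀ n : ℕ, ρ (w ^ n) c = c + n • (ρ w c - c) := rho_pow_of_fixed (by abel) hcq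
  have hwa : ρ w a = a + (ρ w a - a) := by abel
  have e3 : f = ρ w (ρ w a) - 2 • ρ w a + a := by
    rw [hfdef, map_sub, two_nsmul]; abel
  have e4 : ρ g f = (16 * k) • f := by
    have g0 : ∀ u, ρ (w ^ 4) (ρ (w ^ 4) u) = ρ (w ^ 8) u := fun u => by
      have h8 : w ^ 8 = w ^ 4 * w ^ 4 := by rw [← pow_add]
      rw [h8, rho_mul]
    have g1 : ρ g f = ρ (w ^ 8) (ρ g a) - 2 • ρ (w ^ 4) (ρ g a) + ρ g a := by
      conv_lhs => rw [e3]
      rw [map_add, map_sub, map_nsmul, f3', f3', g0]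
    have g2 : Nat.choose 8 2 = 28 := by decide
    have g3 : Nat.choose 4 2 = 6 := by decide
    rw [g1, hga, map_add, map_add, map_nsmul, map_nsmul, pa, pa, pc, pc, g2, g3]
    module
  have e5 : ρ g f = 2 • f := f1 f hf
  have e6 : 6 • f = 0 := by
    have g4 : (16 * k) • f = 8 • f := by
      have : 16 * k = 8 * (k * 2) := by ring
      rw [this, mul_smul, hk1]
    have g5 : 8 • f = 2 • f := by rw [← g4, ← e4, e5]
    have g6 : 6 • f = 8 • f - 2 • f := by module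
    rw [g6, g5, sub_self]
  refine nsmul_coprime_eq_zero (h.pm f) e6 ?_
  rw [(Fact.out : p.Prime).coprime_iff_not_dvd]
  intro hd
  have := Nat.le_of_dvd (by norm_num) hd
  interval_cases p
  · omega
  · exact absurd (Fact.out : Nat.Prime 6) (by norm_num)

end Ext2
end

end Cfsg.Agent.H47
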