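import Cfsg.Agent.H47.Mod3

set_option autoImplicit false
set_option linter.unusedSectionVars false
set_option linter.style.haveILetI false
open Cfsg Subgroup
open scoped commutatorElement

namespace Cfsg.Agent.H47

universe u

section
variable {H : Type u} [Group H] {p q : ℕ}

/-- sections as modules -/
theorem exists_sec [Finite H] {G V Z : Subgroup H} (hVG : V ≤ G) (hGV : G ≤ normalizer (V : Set H))
    (hGZ : G ≤ normalizer (Z : Set H)) (hVV : ⁅V, V⁆ ≤ Z) :
    ∃ (M : Type u) (_ : AddCommGroup M) (_ : Finite M) (ρ : ↥G →* AddMonoid.End M) (π : ↥V → M),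
      Function.Surjective π ∧ (∀ a b, π (a * b) = π a + π b) ∧ (∀ v, π v = 0 ↔ (v : H) ∈ Z) ∧
      (∀ (g : G) (v : V), ∃ w : V, (w : H) = g * v * (g : H)⁻¹ ∧ π w = ρ g (π v)) := by
  haveI hZn : (Z.subgroupOf G).Normal := normal_subgroupOf_of_le hGZ
  haveI hVn : (V.subgroupOf G).Normal := normal_subgroupOf_of_le hGV
  let mk := QuotientGroup.mk' (Z.subgroupOf G)
  let Vh : Subgroup (G ⧸ Z.subgroupOf G) := (V.subgroupOf G).map mk
  haveI : Vh.Normal := Normal.map hVn _ (QuotientGroup.mk'_surjective _)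
  have hcomm : ∀ a b : Vh, a * b = b * a := by
    rintro ⟨_, ⟨a, ha, rfl⟩⟩ ⟨_, ⟨b, hb, rfl⟩⟩
    apply Subtype.ext
    change mk a * mk b = mk b * mk a
    rw [← map_mul, ← map_mul]
    change (QuotientGroup.mk (a * b) : G ⧸ Z.subgroupOf G) = QuotientGroup.mk (b * a)
    rw [QuotientGroup.eq, mem_subgroupOf]
    have h1 : ⁅(b : H)⁻¹, (a : H)⁻¹⁆ ∈ Z := hVV (commutator_mem_commutator (inv_mem hb) (inv_mem ha))
    rw [commutatorElement_def, inv_inv, inv_inv] at h1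
    have h2 : (((a * b)⁻¹ * (b * a) : G) : H) = (b : H)⁻¹ * (a : H)⁻¹ * b * a := by
      rw [Subgroup.coe_mul, Subgroup.coe_inv, Subgroup.coe_mul, Subgroup.coe_mul]; group
    rw [h2]; exact h1
  letI : CommGroup Vh := { Vh.toGroup with mul_comm := hcomm }
  let φ : G →* MulAut Vh := (MulAut.conjNormal : (G ⧸ Z.subgroupOf G) →* MulAut Vh).comp mk
  let π : V →* Vh := (mk.comp (inclusion hVG)).codRestrict Vh (fun v => ⟨inclusion hVG v, v.2, rfl⟩)
  have hπv : ∀ v : V, ((π v : Vh) : G ⧸ Z.subgroupOf G) = mk ⟨v, hVG v.2⟩ := fun v => rfl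
  have hφv : ∀ (g : G) (v : Vh), ((φ g v : Vh) : G ⧸ Z.subgroupOf G) = mk g * v * (mk g)⁻¹ :=
    fun g v => MulAut.conjNormal_apply _ _
  have hπ : Function.Surjective π := by
    rintro ⟨_, ⟨a, ha, rfl⟩⟩
    exact ⟨⟨a, ha⟩, rfl⟩
  have hπker : ∀ v : V, π v = 1 ↔ (v : H) ∈ Z := by
    intro v
    have h1 : π v = 1 ↔ mk ⟨v, hVG v.2⟩ = 1 := by
      rw [← hπv]
      exact ⟨fun h2 => by rw [h2]; rfl, fun h2 => Subtype.ext h2⟩
    rw [h1]
    change (QuotientGroup.mk (⟨v, hVG v.2⟩ : G) : G ⧸ Z.subgroupOf G) = 1 ↔ _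
    rw [QuotientGroup.eq_one_iff, mem_subgroupOf]
  have heq : ∀ (g : G) (v : V), ∃ w : V, (w : H) = g * v * (g : H)⁻¹ ∧ π w = φ g (π v) := by
    intro g v
    have h1 : (g : H) * v * (g : H)⁻¹ ∈ V := (mem_normalizer_iff.1 (hGV g.2) _).1 v.2
    refine ⟨⟨_, h1⟩, rfl, Subtype.ext ?_⟩
    rw [hφv, hπv, hπv, ← map_mul, ← map_inv, ← map_mul]
    rfl
  let ρ : G →* AddMonoid.End (Additive Vh) :=
    { toFun := fun g => MonoidHom.toAdditive (φ g).toMonoidHom
      map_one' := by rw [map_one]; rfl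
      map_mul' := fun a b => by rw [map_mul]; rfl }
  refine ⟨Additive Vh, inferInstance, inferInstance, ρ, fun v => Additive.ofMul (π v), hπ, fun a b => ?_, hπker,
    fun g v => ?_⟩
  · change Additive.ofMul (π (a * b)) = Additive.ofMul (π a * π b)
    rw [map_mul]
  · obtain ⟨w, hw, hw2⟩ := heq g v
    refine ⟨w, hw, ?_⟩
    change Additive.ofMul (π w) = _
    rw [hw2]
    rfl

theorem card_sec {A C : Subgroup H} {M : Type*} [AddCommGroup M] {B : AddSubgroup M} (g : A → M)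
    (hadd : ∀ a b, g (a * b) = g a + g b) (hB : ∀ a, g a ∈ B) (hs : ∀ b ∈ B, ∃ a, g a = b)
    (hker : ∀ a, g a = 0 ↔ (a : H) ∈ C) (hCA : C ≤ A) : Nat.card A = Nat.card B * Nat.card C := by
  let f : A →* Multiplicative B :=
    { toFun := fun a => Multiplicative.ofAdd ⟨g a, hB a⟩
      map_one' := by
        have : g 1 = 0 := (hker 1).2 (one_mem _)
        apply Multiplicative.toAdd.injective
        apply Subtype.ext
        exact this
      map_mul' := fun a b => by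
        apply Multiplicative.toAdd.injective
        apply Subtype.ext
        exact hadd a b }
  have hf : Function.Surjective f := by
    intro b
    obtain ⟨a, ha⟩ := hs _ (Multiplicative.toAdd b).2
    refine ⟨a, ?_⟩
    apply Multiplicative.toAdd.injective
    apply Subtype.ext
    exact ha
  rw [Subgroup.card_eq_card_quotient_mul_card_subgroup f.ker,
    Nat.card_congr (QuotientGroup.quotientKerEquivOfSurjective f hf).toEquiv]
  have h1 : f.ker = C.subgroupOf A := by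
    ext a
    rw [MonoidHom.mem_ker, mem_subgroupOf, ← hker]
    constructor
    · intro h
      exact congrArg (fun b : Multiplicative B => ((Multiplicative.toAdd b : B) : M)) h
    · intro h
      apply Multiplicative.toAdd.injective
      apply Subtype.ext
      exact h
  rw [h1, Nat.card_congr (subgroupOfEquivOfLe hCA).toEquiv]
  rfl

variable [Finite H] [Fact p.Prime]

/-- from `NatS` to `Nt` -/
theorem nt_of_natS {G V Z : Subgroup H} (hn : NatS p q G V Z) (hv : Vtx p q G) (hVG : V ≤ G)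
    (hZV : Z ≤ V) (hGV : G ≤ normalizer (V : Set H)) (hGZ : G ≤ normalizer (Z : Set H)) {M : Type*}
    [AddCommGroup M] [Finite M] (ρ : ↥G →* AddMonoid.End M) (f : ↥V → M) (hadd : ∀ a b, f (a * b) = f a + f b)
    (hker : ∀ v, f v = 0 ↔ (v : H) ∈ cz V Z G)
    (heq : ∀ (g : G) (v : V), ∃ w : V, (w : H) = g * v * (g : H)⁻¹ ∧ f w = ρ g (f v)) (Vb : AddSubgroup M)
    (hVb : ∀ m, m ∈ Vb ↔ ∃ v, f v = m) : Nt p q ρ Vb ∧
      ∀ S : Subgroup G, SylIn p S ⊤ → ∀ v : V, f v ∈ Fx ρ Vb S ↔ (v : H) ∈ cz V Z (S.map G.subtype) := by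
  set C := cz V Z G with hC
  have hZC : Z ≤ C := by
    intro z hz
    have h1 : ⁅Z, G⁆ ≤ Z := by rw [← le_normalizer_iff_commutator_le_left]; exact hGZ
    exact ⟨hZV hz, le_normalizer hz, fun s hs => h1 (commutator_mem_commutator hz hs)⟩
  have hinv : ∀ a, f a⁻¹ = - f a := by
    intro a
    have h1 := hadd a⁻¹ a
    rw [inv_mul_cancel, (hker 1).2 (one_mem _)] at h1
    exact (neg_eq_of_add_eq_zero_left h1.symm).symm
  -- commutators
  have hco : ∀ (g : G) (v : V), ∃ c : V, (c : H) = ⁅(v : H), (g : H)⁆ ∧ f c = - (ρ g (f v) - f v) := by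
    intro g v
    obtain ⟨w, hw, hw2⟩ := heq g v
    refine ⟨v * w⁻¹, ?_, ?_⟩
    · rw [Subgroup.coe_mul, Subgroup.coe_inv, hw, commutatorElement_def]; group
    · rw [hadd, hinv, hw2]; abel
  have hcoC : ∀ (g : G) (v : V), ρ g (f v) = f v ↔ ⁅(v : H), (g : H)⁆ ∈ C := by
    intro g v
    obtain ⟨c, hc, hc2⟩ := hco g v
    rw [← hc, ← hker, hc2, neg_eq_zero, sub_eq_zero]
  have hsyl : ∀ S : Subgroup G, SylIn p S ⊤ → SylIn p (S.map G.subtype) G := fun S hS => sylIn_map_subtype hS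
  have hT : ∀ x : G, x ∉ pCore p G → (x : H) ∉ pCoreOf p G := fun x hx h1 => hx (mem_pCoreOf_iff.1 h1)
  -- fixed points
  have hfx : ∀ S : Subgroup G, SylIn p S ⊤ → ∀ v : V, f v ∈ Fx ρ Vb S ↔ (v : H) ∈ cz V Z (S.map G.subtype) := by
    intro S hS v
    constructor
    · intro h1
      by_contra h2
      obtain ⟨x, hx, hxT⟩ := hv.exists_not_mem (hsyl S hS)
      have h3 := hn.comm _ (hsyl S hS) x hx hxT v v.2 h2
      obtain ⟨x, hx, rfl⟩ := hx
      exact h3 ((hcoC x v).1 (h1.2 x hx))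
    · intro h1
      refine ⟨(hVb _).2 ⟨v, rfl⟩, fun s hs => ?_⟩
      rw [hcoC]
      exact hZC (h1.2.2 s ⟨s, hs, rfl⟩)
  have hopp : ∀ S R : Subgroup G, Opp p ⊤ S R → Opp p G (S.map G.subtype) (R.map G.subtype) := by
    intro S R h
    have := h.map_inj G.subtype_injective
    rwa [← MonoidHom.range_eq_map, range_subtype] at this
  have hcard : ∀ S : Subgroup G, SylIn p S ⊤ →
      Nat.card (cz V Z (S.map G.subtype)) = Nat.card (Fx ρ Vb S) * Nat.card C := by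
    intro S hS
    apply card_sec (g := fun a : cz V Z (S.map G.subtype) => f ⟨a, a.2.1⟩)
    · intro a b; exact hadd ⟨a, a.2.1⟩ ⟨b, b.2.1⟩
    · intro a; exact (hfx S hS _).2 a.2
    · intro b hb
      obtain ⟨v, rfl⟩ := (hVb _).1 hb.1
      exact ⟨⟨v, (hfx S hS v).1 hb⟩, rfl⟩
    · intro a; exact hker _
    · exact cz_anti (hsyl S hS).le
  have hCpos : 0 < Nat.card C := Nat.card_pos
  have hfxq : ∀ S, SylIn p S ⊤ → Nat.card (Fx ρ Vb S) = q := by
    intro S hS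
    have h1 := hcard S hS
    rw [hn.card_fx _ (hsyl S hS)] at h1
    exact (Nat.eq_of_mul_eq_mul_right hCpos h1).symm
  refine ⟨?_, hfx⟩
  refine ⟨?_, hfxq, ?_, ?_, ?_, ?_, ?_, ?_⟩
  · intro g m hm
    obtain ⟨v, rfl⟩ := (hVb _).1 hm
    obtain ⟨w, -, hw2⟩ := heq g v
    exact (hVb _).2 ⟨w, hw2⟩
  · obtain ⟨S, hS⟩ := SylIn.exists p (⊤ : Subgroup G)
    have h1 : Nat.card V = Nat.card Vb * Nat.card C :=
      card_sec (g := f) hadd (fun a => (hVb _).2 ⟨a, rfl⟩) (fun b hb => (hVb _).1 hb) hker cz_le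
    rw [hn.card_U _ (hsyl S hS), hn.card_fx _ (hsyl S hS)] at h1
    apply Nat.eq_of_mul_eq_mul_right hCpos
    rw [← h1]
    change q * (q * Nat.card C) = _
    ring
  · intro S R hSR m hm
    obtain ⟨v, rfl⟩ := (hVb _).1 hm
    have h1 : (v : H) ∈ cz V Z (S.map G.subtype) ⊔ cz V Z (R.map G.subtype) := by
      rw [hn.sup _ _ (hopp S R hSR)]; exact v.2
    let Y : Subgroup V :=
      { carrier := {v | ∃ x ∈ Fx ρ Vb S, ∃ y ∈ Fx ρ Vb R, f v = x + y}
        one_mem' := ⟨0, zero_mem _, 0, zero_mem _, by rw [(hker 1).2 (one_mem _), add_zero]⟩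
        mul_mem' := by
          rintro a b ⟨x, hx, y, hy, e⟩ ⟨x', hx', y', hy', e'⟩
          exact ⟨x + x', add_mem hx hx', y + y', add_mem hy hy', by rw [hadd, e, e']; abel⟩
        inv_mem' := by
          rintro a ⟨x, hx, y, hy, e⟩
          exact ⟨-x, neg_mem hx, -y, neg_mem hy, by rw [hinv, e]; abel⟩ }
    have h2 : cz V Z (S.map G.subtype) ⊔ cz V Z (R.map G.subtype) ≤ Y.map V.subtype := by
      apply sup_le
      · intro x hx
        exact ⟨⟨x, hx.1⟩, ⟨f ⟨x, hx.1⟩, (hfx S hSR.1 _).2 hx, 0, zero_mem _, by rw [add_zero]⟩, rfl⟩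
      · intro x hx
        exact ⟨⟨x, hx.1⟩, ⟨0, zero_mem _, f ⟨x, hx.1⟩, (hfx R hSR.2.1 _).2 hx, by rw [zero_add]⟩, rfl⟩
    obtain ⟨v', hv', e⟩ := h2 h1
    have : v' = v := Subtype.ext e
    rw [← this]
    exact hv'
  · intro S R hSR m hm hm2
    obtain ⟨v, rfl⟩ := (hVb _).1 hm.1
    rw [hker, hC, ← hn.inf _ _ (hopp S R hSR)]
    exact ⟨(hfx S hSR.1 v).1 hm, (hfx R hSR.2.1 v).1 hm2⟩
  · intro S hS x hx hxT u hu hux
    obtain ⟨v, rfl⟩ := (hVb _).1 hu
    rw [hfx S hS]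
    by_contra h2
    exact hn.comm _ (hsyl S hS) x ⟨x, hx, rfl⟩ (hT x hxT) v v.2 h2 ((hcoC x v).1 hux)
  · intro S hS u hu r hr
    obtain ⟨v, rfl⟩ := (hVb _).1 hu
    obtain ⟨c, hc, hc2⟩ := hco r v
    have h1 := hn.quad _ (hsyl S hS) v v.2 r ⟨r, hr, rfl⟩
    rw [← hc, ← hfx S hS, hc2] at h1
    exact neg_mem_iff.1 h1
  · intro S hS u hu hu2 w hw
    obtain ⟨v, rfl⟩ := (hVb _).1 hu
    obtain ⟨w, rfl⟩ := (hVb _).1 hw.1
    have hv2 : (v : H) ∉ cz V Z (S.map G.subtype) := fun h1 => hu2 ((hfx S hS v).2 h1)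
    have hw2 : (w : H)⁻¹ ∈ cz V Z (S.map G.subtype) := inv_mem ((hfx S hS w).1 hw)
    obtain ⟨s, hs, z, hz, e⟩ := hn.cover _ (hsyl S hS) v v.2 hv2 _ hw2
    obtain ⟨s, hs, rfl⟩ := hs
    obtain ⟨c, hc, hc2⟩ := hco s v
    refine ⟨s, hs, ?_⟩
    have hzV : z ∈ V := hz.1
    have e2 : w⁻¹ = c * ⟨z, hzV⟩ := by
      apply Subtype.ext
      rw [Subgroup.coe_inv, Subgroup.coe_mul, hc]
      exact e
    have e3 := congrArg f e2
    rw [hinv, hadd, hc2, (hker ⟨z, hzV⟩).2 hz, add_zero] at e3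
    exact neg_injective e3

end

/-- factorization of additive maps -/
theorem exists_factor {V M W : Type*} [Group V] [AddCommGroup M] [AddCommGroup W] (π : V → M) (π₂ : V → W)
    (hs : Function.Surjective π) (h1 : ∀ a b, π (a * b) = π a + π b) (h2 : ∀ a b, π₂ (a * b) = π₂ a + π₂ b)
    (hk : ∀ v, π v = 0 → π₂ v = 0) : ∃ j : M →+ W, ∀ v, j (π v) = π₂ v := by
  have h0 : π 1 = 0 := by
    have := h1 1 1
    rw [mul_one] at this
    exact left_eq_add.1 this
  have h0' : π₂ 1 = 0 := hk 1 h0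
  have hinv : ∀ a, π a⁻¹ = - π a := by
    intro a
    have h3 := h1 a⁻¹ a
    rw [inv_mul_cancel, h0] at h3
    exact (neg_eq_of_add_eq_zero_left h3.symm).symm
  have hinv' : ∀ a, π₂ a⁻¹ = - π₂ a := by
    intro a
    have h3 := h2 a⁻¹ a
    rw [inv_mul_cancel, h0'] at h3
    exact (neg_eq_of_add_eq_zero_left h3.symm).symm
  have key : ∀ a b, π a = π b → π₂ a = π₂ b := by
    intro a b hab
    have h3 := hk (a * b⁻¹) (by rw [h1, hinv, hab, add_neg_cancel])
    rw [h2, hinv'] at h3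
    exact eq_of_sub_eq_zero (by rw [sub_eq_add_neg]; exact h3)
  choose r hr using hs
  refine ⟨{ toFun := fun m => π₂ (r m), map_zero' := ?_, map_add' := ?_ }, ?_⟩
  · rw [← h0']
    exact key _ _ (by rw [hr, h0])
  · intro a b
    rw [← h2]
    exact key _ _ (by rw [hr, h1, hr, hr])
  · intro v
    exact key _ _ (hr _)

end Cfsg.Agent.H47
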