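import Cfsg.Agent.H47.Off3

set_option autoImplicit false
set_option linter.unusedSectionVars false
open Cfsg Subgroup
open scoped commutatorElement

namespace Cfsg.Agent.H47

variable {G : Type*} [Group G] [Finite G] {p q : ℕ} [Fact p.Prime] {K : Subgroup G} [K.Normal]

/-- natural modules inside `G` -/
structure NatV (p q : ℕ) {G : Type*} [Group G] [Finite G] (K V : Subgroup G) : Prop where
  card_fx : ∀ S : Subgroup G, SylIn p S ⊤ → Nat.card (V ⊓ centralizer (S : Set G) : Subgroup G) =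
    q * Nat.card (V ⊓ center G : Subgroup G)
  card_U : ∀ S : Subgroup G, SylIn p S ⊤ → Nat.card V = q * Nat.card (V ⊓ centralizer (S : Set G) : Subgroup G)
  sup : ∀ S R : Subgroup G, SylIn p S ⊤ → SylIn p R ⊤ → ¬ S ≤ R ⊔ K →
    (V ⊓ centralizer (S : Set G)) ⊔ (V ⊓ centralizer (R : Set G)) = V
  inf : ∀ S R : Subgroup G, SylIn p S ⊤ → SylIn p R ⊤ → ¬ S ≤ R ⊔ K → ∀ v ∈ V, v ∈ centralizer (S : Set G) →
    v ∈ centralizer (R : Set G) → v ∈ center G
  fix : ∀ S : Subgroup G, SylIn p S ⊤ → ∀ x ∈ S, x ∉ pCore p G → ∀ u ∈ V, x * u * x⁻¹ = u → u ∈ centralizer (S : Set G)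
  quad : ∀ S : Subgroup G, SylIn p S ⊤ → ∀ u ∈ V, ∀ r ∈ S, r * u * r⁻¹ * u⁻¹ ∈ V ⊓ centralizer (S : Set G)
  comm : ∀ S : Subgroup G, SylIn p S ⊤ → ∀ x ∈ S, x ∉ pCore p G → ∀ u ∈ V, u ∉ centralizer (S : Set G) →
    x * u * x⁻¹ * u⁻¹ ∉ center G
  cover : ∀ S : Subgroup G, SylIn p S ⊤ → ∀ u ∈ V, u ∉ centralizer (S : Set G) →
    ∀ w ∈ V, w ∈ centralizer (S : Set G) → ∃ s ∈ S, ∃ z ∈ V ⊓ center G, w = s * u * s⁻¹ * u⁻¹ * z
  ne : ∀ S : Subgroup G, SylIn p S ⊤ → ¬ V ≤ centralizer (S : Set G)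

theorem mem_centralizer_iff' {S : Subgroup G} {v : G} : v ∈ centralizer (S : Set G) ↔
    ∀ x ∈ S, x * v * x⁻¹ = v := by
  rw [mem_centralizer_iff]
  constructor
  · intro h x hx; rw [h x hx, mul_inv_cancel_right]
  · intro h x hx
    have := h x hx
    calc x * v = x * v * x⁻¹ * x := by group
      _ = v * x := by rw [this]

theorem mem_center_iff' {v : G} : v ∈ center G ↔ ∀ x : G, x * v * x⁻¹ = v := by
  rw [mem_center_iff]
  constructor
  · intro h x; rw [h x, mul_inv_cancel_right]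
  · intro h x
    have := h x
    calc x * v = x * v * x⁻¹ * x := by group
      _ = v * x := by rw [this]

theorem natV_of (h : PU p q K) {S : Subgroup G} (hS : SylIn p S ⊤) {V : Subgroup G} [V.Normal]
    (hVp : IsPGroup p V) (hVc : V ≤ centralizer (V : Set G)) (hVT : pCore p G ≤ centralizer (V : Set G))
    (hker : centralizer (V : Set G) ⊔ S ≠ ⊤) {A : Subgroup G} (hAS : A ≤ S) (hAT : ¬ A ≤ pCore p G)
    (hoff : Nat.card V * Nat.card (A ⊓ pCore p G : Subgroup G) ≤
      Nat.card A * Nat.card (V ⊓ centralizer (A : Set G) : Subgroup G)) : NatV p q K V := by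
  letI : CommGroup V := { V.toGroup with mul_comm := fun a b => Subtype.ext ((mem_centralizer_iff.1 (hVc b.2) a a.2)) }
  let φ : G →* MulAut V := MulAut.conjNormal
  have hφ : ∀ (g : G) (v : V), ((φ g v : V) : G) = g * v * g⁻¹ := fun g v => MulAut.conjNormal_apply g v
  have hfx : ∀ X : Subgroup G, (fx φ X).map V.subtype = V ⊓ centralizer (X : Set G) := by
    intro X
    ext v
    constructor
    · rintro ⟨v, hv, rfl⟩
      refine ⟨v.2, mem_centralizer_iff'.2 fun x hx => ?_⟩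
      have := congrArg (Subtype.val) (hv x hx)
      rw [hφ] at this
      exact this
    · rintro ⟨hv, hv2⟩
      refine ⟨⟨v, hv⟩, fun x hx => ?_, rfl⟩
      apply Subtype.ext
      rw [hφ]
      exact mem_centralizer_iff'.1 hv2 x hx
  have hcard : ∀ X : Subgroup G, Nat.card (fx φ X) = Nat.card (V ⊓ centralizer (X : Set G) : Subgroup G) := by
    intro X
    rw [← hfx]
    exact Nat.card_congr ((fx φ X).equivMapOfInjective V.subtype V.subtype_injective).toEquiv
  have hmem : ∀ (X : Subgroup G) (v : V), v ∈ fx φ X ↔ (v : G) ∈ centralizer (X : Set G) := by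
    intro X v
    constructor
    · intro hv
      have : (v : G) ∈ (fx φ X).map V.subtype := ⟨v, hv, rfl⟩
      rw [hfx] at this
      exact this.2
    · intro hv
      have : (v : G) ∈ (fx φ X).map V.subtype := by rw [hfx]; exact ⟨v.2, hv⟩
      obtain ⟨w, hw, hwv⟩ := this
      have : w = v := Subtype.ext hwv
      rw [← this]; exact hw
  have hcen : centralizer ((⊤ : Subgroup G) : Set G) = center G := by
    rw [coe_top, centralizer_univ]
  have hkerφ : φ.ker = centralizer (V : Set G) := by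
    ext g
    rw [MonoidHom.mem_ker, mem_centralizer_iff]
    constructor
    · intro hg v hv
      have h1 : φ g ⟨v, hv⟩ = ⟨v, hv⟩ := by rw [hg]; rfl
      have h2 := congrArg Subtype.val h1
      rw [hφ] at h2
      change g * v * g⁻¹ = v at h2
      calc v * g = (g * v * g⁻¹) * g := by rw [h2]
        _ = g * v := by group
    · intro hg
      ext v
      rw [hφ, MulAut.one_apply]
      rw [← hg v v.2, mul_inv_cancel_right]
  have htriv : ∀ t ∈ pCore p G, φ t = 1 := by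
    intro t ht
    rw [← MonoidHom.mem_ker, hkerφ]
    exact hVT ht
  have hmx := off_mx (φ := φ) h hS htriv hAS hAT (by rw [hcard]; exact hoff)
  have hN := off_nat (φ := φ) h hS hVp htriv (by rw [hkerφ]; exact hker) hmx
  have hco : ∀ (x : G) (u : V), ((φ x u * u⁻¹ : V) : G) = x * u * x⁻¹ * (u : G)⁻¹ := by
    intro x u
    rw [Subgroup.coe_mul, hφ, Subgroup.coe_inv]
  refine ⟨?_, ?_, ?_, ?_, ?_, ?_, ?_, ?_, ?_⟩
  · intro S hS
    rw [← hcard, ← hcen, ← hcard]
    exact hN.card_fx S hS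
  · intro S hS
    rw [← hcard]
    exact hN.card_U S hS
  · intro S R hS hR hSR
    rw [← hfx, ← hfx, ← Subgroup.map_sup, hN.sup S R hS hR hSR, ← MonoidHom.range_eq_map, range_subtype]
  · intro S R hS hR hSR v hv h1 h2
    have h3 : (⟨v, hv⟩ : V) ∈ fx φ S ⊓ fx φ R := ⟨(hmem _ _).2 h1, (hmem _ _).2 h2⟩
    rw [hN.inf S R hS hR hSR, hmem, hcen] at h3
    exact h3
  · intro S hS x hx hxT u hu hxu
    have := hN.fix S hS x hx hxT ⟨u, hu⟩ (Subtype.ext (by rw [hφ]; exact hxu))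
    exact (hmem _ _).1 this
  · intro S hS u hu r hr
    have h1 := hN.quad S hS ⟨u, hu⟩ r hr
    have h2 := (hmem _ _).1 h1
    rw [hco] at h2
    refine ⟨?_, h2⟩
    have h3 := (φ r ⟨u, hu⟩ * (⟨u, hu⟩ : V)⁻¹ : V).2
    rw [hco] at h3
    exact h3
  · intro S hS x hx hxT u hu hu2 hc
    apply hN.comm S hS x hx hxT ⟨u, hu⟩ (fun h1 => hu2 ((hmem _ _).1 h1))
    rw [hmem, hco, hcen]
    exact hc
  · intro S hS u hu hu2 w hw hw2
    obtain ⟨s, hs, z, hz, hz2⟩ := hN.cover S hS ⟨u, hu⟩ (fun h1 => hu2 ((hmem _ _).1 h1)) ⟨w, hw⟩ ((hmem _ _).2 hw2)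
    have h3 := congrArg Subtype.val hz2
    rw [Subgroup.coe_mul, hco] at h3
    rw [hmem, hcen] at hz
    exact ⟨s, hs, z, ⟨z.2, hz⟩, h3⟩
  · intro S hS h1
    apply hN.ne S hS
    rw [eq_top_iff]
    intro v _
    exact (hmem _ _).2 (h1 v.2)

end Cfsg.Agent.H47
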