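import Cfsg.Agent.H47.BauApp
import Cfsg.Agent.H47.CLin

set_option autoImplicit false
set_option linter.unusedSectionVars false
set_option linter.style.haveILetI false
open Cfsg Subgroup
open scoped commutatorElement

namespace Cfsg.Agent.H47

variable {G : Type*} [Group G] [Finite G] {p q : ℕ} [Fact p.Prime] {K : Subgroup G} [K.Normal]

theorem PU.card_le (h : PU p q K) {S : Subgroup G} (hS : SylIn p S ⊤) {R : Subgroup G} (hR : R ≤ S) :
    Nat.card R ≤ q * Nat.card (R ⊓ pCore p G : Subgroup G) := by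
  haveI := pCore_normal p G
  have hn : R ≤ normalizer ((pCore p G : Subgroup G) : Set G) := by rw [normalizer_eq_top]; exact le_top
  have h1 := card_sup_mul_card_inf hn
  have h2 : Nat.card (R ⊔ pCore p G : Subgroup G) ≤ Nat.card S :=
    Subgroup.card_le_of_le (sup_le hR (pCore_le_sylIn hS))
  have h3 : 0 < Nat.card (pCore p G) := Nat.card_pos
  apply Nat.le_of_mul_le_mul_right _ h3
  rw [← h1]
  calc _ ≤ Nat.card S * Nat.card (R ⊓ pCore p G : Subgroup G) := Nat.mul_le_mul_right _ h2
    _ = _ := by rw [h.card hS]; ring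

theorem NatV.inf_eq {V : Subgroup G} (hN : NatV p q K V) {S : Subgroup G} (hS : SylIn p S ⊤) {R : Subgroup G}
    (hR : R ≤ S) (hRT : ¬ R ≤ pCore p G) : V ⊓ centralizer (R : Set G) = V ⊓ centralizer (S : Set G) := by
  obtain ⟨a, ha, haT⟩ := SetLike.not_le_iff_exists.1 hRT
  apply le_antisymm
  · rintro v ⟨hv, hv2⟩
    exact ⟨hv, hN.fix S hS a (hR ha) haT v hv (mem_centralizer_iff'.1 hv2 a ha)⟩
  · exact inf_le_inf_left _ (centralizer_le hR)

/-- the fundamental step for minimal centrally large subgroups -/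
theorem mcl_key (h : PU p q K) {S : Subgroup G}
    (hS : SylIn p S ⊤) {V : Subgroup G} [V.Normal] (hVT : V ≤ pCore p G)
    (hVc : V ≤ centralizer (pCore p G : Set G)) (hker : centralizer (V : Set G) ⊔ S ≠ ⊤)
    {R : Subgroup G} (hR : MCLin S R) (hRT : ¬ R ≤ pCore p G) :
    NatV p q K V ∧ ((R ⊓ centralizer (R : Set G)) ⊔ (R ⊓ pCore p G) = R) ∧
      (¬ R ⊓ centralizer (R : Set G) ≤ pCore p G) ∧ CLin S (V ⊔ (R ⊓ pCore p G)) ∧
      Nat.card (V ⊔ (R ⊓ pCore p G) : Subgroup G) = Nat.card R ∧ V ⊓ R = V ⊓ centralizer (S : Set G) ∧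
      Nat.card R = q * Nat.card (R ⊓ pCore p G : Subgroup G) ∧
      Nat.card (R ⊓ centralizer (R : Set G) : Subgroup G) =
        q * Nat.card ((R ⊓ centralizer (R : Set G)) ⊓ pCore p G : Subgroup G) := by
  haveI := pCore_normal p G
  have hTS := pCore_le_sylIn hS
  have hVS := hVT.trans hTS
  set Zr := R ⊓ centralizer (R : Set G) with hZr
  have hZrR : Zr ≤ R := inf_le_left
  have hZrS : Zr ≤ S := hZrR.trans hR.1.1
  set X := V ⊔ (R ⊓ pCore p G) with hX
  set Y := V ⊔ (Zr ⊓ pCore p G) with hY
  have hCR : V ⊓ centralizer (R : Set G) = V ⊓ (Zr ⊓ pCore p G) := by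
    apply le_antisymm
    · rintro x ⟨hx, hx2⟩
      have h1 : x ∈ R := hR.1.centralizer_le ⟨hVS hx, hx2⟩
      exact ⟨hx, ⟨h1, hx2⟩, hVT hx⟩
    · exact inf_le_inf_left _ (inf_le_left.trans inf_le_right)
  have hVR : V ⊓ R = V ⊓ (R ⊓ pCore p G) := by
    apply le_antisymm
    · exact le_inf inf_le_left (le_inf inf_le_right (inf_le_left.trans hVT))
    · exact inf_le_inf_left _ inf_le_left
  have hnV : ∀ W : Subgroup G, W ≤ pCore p G → V ≤ normalizer (W : Set G) := by
    intro W hW
    exact (hVc.trans (centralizer_le hW)).trans (centralizer_le_normalizer _)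
  have e1 := card_sup_mul_card_inf (hnV (R ⊓ pCore p G) inf_le_right)
  have e2 := card_sup_mul_card_inf (hnV (Zr ⊓ pCore p G) inf_le_right)
  rw [← hVR, ← hX] at e1
  rw [← hCR, ← hY] at e2
  have hYX : Y ≤ X := sup_le_sup_left (inf_le_inf_right _ hZrR) _
  have hXT : X ≤ pCore p G := sup_le hVT inf_le_right
  have hYC : Y ≤ centralizer (X : Set G) := by
    rw [le_centralizer_iff]
    apply sup_le
    · rw [le_centralizer_iff]
      exact (hYX.trans hXT).trans (pCore_le_centralizer_of hVc)
    · rw [le_centralizer_iff]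
      apply sup_le
      · exact hVc.trans (centralizer_le inf_le_right)
      · exact (inf_le_left.trans inf_le_right).trans (centralizer_le inf_le_left)
  have hXY : Nat.card X * Nat.card Y ≤ mz X := Nat.mul_le_mul_left _ (Subgroup.card_le_of_le (le_inf hYX hYC))
  have hmain : Nat.card X * Nat.card Y ≤ Nat.card R * Nat.card Zr := hXY.trans (hR.1.2 X (hXT.trans hTS))
  have ha := h.card_le hS hR.1.1
  have hz := h.card_le hS hZrS
  have hrc : V ⊓ R ≤ V ⊓ centralizer (Zr : Set G) := by
    apply inf_le_inf_left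
    rw [le_centralizer_iff]; exact inf_le_right
  have hrc' := Subgroup.card_le_of_le hrc
  have hrv := Subgroup.card_le_of_le (inf_le_left : V ⊓ R ≤ V)
  have hVp : IsPGroup p V := hS.isPGroup.to_le hVS
  have hVV : V ≤ centralizer (V : Set G) := hVc.trans (centralizer_le hVT)
  have hTV := pCore_le_centralizer_of hVc
  -- star
  have hstar : (Nat.card V * Nat.card (R ⊓ pCore p G : Subgroup G)) *
      (Nat.card V * Nat.card (Zr ⊓ pCore p G : Subgroup G)) ≤
      (Nat.card R * Nat.card (V ⊓ centralizer (R : Set G) : Subgroup G)) *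
        (Nat.card Zr * Nat.card (V ⊓ R : Subgroup G)) := by
    rw [← e1, ← e2]
    calc _ = (Nat.card X * Nat.card Y) * (Nat.card (V ⊓ R : Subgroup G) *
          Nat.card (V ⊓ centralizer (R : Set G) : Subgroup G)) := by ring
      _ ≤ (Nat.card R * Nat.card Zr) * (Nat.card (V ⊓ R : Subgroup G) *
          Nat.card (V ⊓ centralizer (R : Set G) : Subgroup G)) := Nat.mul_le_mul_right _ hmain
      _ = _ := by ring
  have hNat : NatV p q K V := by
    by_cases hα : Nat.card V * Nat.card (R ⊓ pCore p G : Subgroup G) ≤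
        Nat.card R * Nat.card (V ⊓ centralizer (R : Set G) : Subgroup G)
    · exact natV_of h hS hVp hVV hTV hker hR.1.1 hRT hα
    · push Not at hα
      have hβ : Nat.card V * Nat.card (Zr ⊓ pCore p G : Subgroup G) < Nat.card Zr * Nat.card (V ⊓ R : Subgroup G) := by
        by_contra h1
        push Not at h1
        have h2 : 0 < Nat.card V * Nat.card (Zr ⊓ pCore p G : Subgroup G) := Nat.mul_pos Nat.card_pos Nat.card_pos
        have h3 := Nat.mul_lt_mul_of_lt_of_le hα h1 h2
        exact absurd hstar (not_le.2 h3)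
      refine natV_of h hS hVp hVV hTV hker hZrS ?_ (hβ.le.trans (Nat.mul_le_mul_left _ hrc'))
      intro h1
      rw [inf_eq_left.2 h1, mul_comm] at hβ
      exact absurd (Nat.mul_le_mul_left _ hrv) (not_le.2 hβ)
  have hc0 := hNat.inf_eq hS hR.1.1 hRT
  have hvc := hNat.card_U S hS
  rw [hc0] at hstar e2
  set c₀ := Nat.card (V ⊓ centralizer (S : Set G) : Subgroup G) with hc₀
  set v := Nat.card V with hv
  set a := Nat.card R with ha'
  set a' := Nat.card (R ⊓ pCore p G : Subgroup G) with ha''
  set z := Nat.card Zr with hz'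
  set z' := Nat.card (Zr ⊓ pCore p G : Subgroup G) with hz''
  set r := Nat.card (V ⊓ R : Subgroup G) with hr
  have pc : 0 < c₀ := Nat.card_pos
  have pa : 0 < a := Nat.card_pos
  have pa' : 0 < a' := Nat.card_pos
  have pz : 0 < z := Nat.card_pos
  have pz' : 0 < z' := Nat.card_pos
  have pr : 0 < r := Nat.card_pos
  have pv : 0 < v := Nat.card_pos
  have hstar2 : (q * a') * (v * z') ≤ a * (z * r) := by
    apply Nat.le_of_mul_le_mul_right _ pc
    calc _ = (q * c₀ * a') * (v * z') := by ring
      _ = (v * a') * (v * z') := by rw [← hvc]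
      _ ≤ _ := hstar
      _ = _ := by ring
  have hYc : Nat.card Y = q * z' := by
    apply Nat.eq_of_mul_eq_mul_right pc
    rw [e2, hvc]; ring
  have hZrT : ¬ Zr ≤ pCore p G := by
    intro h1
    have h2 : z' = z := by rw [hz'', hz', inf_eq_left.2 h1]
    have h3 : v ≤ r := by
      have h4 : a * (v * z') ≤ a * (z * r) := (Nat.mul_le_mul_right _ ha).trans hstar2
      have h5 := Nat.le_of_mul_le_mul_left h4 pa
      rw [h2, mul_comm] at h5
      exact Nat.le_of_mul_le_mul_left h5 pz
    have h4 : V ⊓ R = V := eq_of_le_of_card_ge inf_le_left h3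
    have h5 : X = R ⊓ pCore p G := by
      apply le_antisymm
      · exact sup_le (le_inf (inf_eq_left.1 h4) hVT) le_rfl
      · exact le_sup_right
    have h6 : CLin S X := by
      apply hR.1.of_mz (hXT.trans hTS)
      refine le_trans ?_ hXY
      rw [hYc, h5]
      calc mz R = a * z := rfl
        _ ≤ (q * a') * z := Nat.mul_le_mul_right _ ha
        _ = a' * (q * z') := by rw [h2]; ring
    have h7 := hR.2 X (by rw [h5]; exact inf_le_left) h6
    exact hRT (by rw [← h7]; exact hXT)
  have hrc2 : V ⊓ R = V ⊓ centralizer (S : Set G) := by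
    apply le_antisymm
    · rw [← hNat.inf_eq hS hZrS hZrT]; exact hrc
    · rw [← hc0, hCR]
      exact inf_le_inf_left _ (inf_le_left.trans hZrR)
  have hrc3 : r = c₀ := by rw [hr, hrc2]
  have hstar3 : (q * a') * (q * z') ≤ a * z := by
    apply Nat.le_of_mul_le_mul_right _ pc
    calc _ = (q * a') * (q * c₀ * z') := by ring
      _ = (q * a') * (v * z') := by rw [← hvc]
      _ ≤ _ := hstar2
      _ = _ := by rw [hrc3]; ring
  have heqa : a = q * a' := by
    apply le_antisymm ha
    have h1 : (q * a') * z ≤ a * z := (Nat.mul_le_mul_left _ hz).trans hstar3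
    exact Nat.le_of_mul_le_mul_right h1 pz
  have heqz : z = q * z' := by
    apply le_antisymm hz
    have h1 : a * (q * z') ≤ a * z := (Nat.mul_le_mul_right _ ha).trans hstar3
    exact Nat.le_of_mul_le_mul_left h1 pa
  have hXc : Nat.card X = a := by
    apply Nat.eq_of_mul_eq_mul_right pr
    rw [e1, heqa, hrc3, hvc]; ring
  refine ⟨hNat, ?_, hZrT, ?_, hXc, hrc2, heqa, heqz⟩
  · have hn : Zr ≤ normalizer ((R ⊓ pCore p G : Subgroup G) : Set G) := by
      have hn1 : Zr ≤ centralizer (R : Set G) := inf_le_right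
      have hn2 : centralizer (R : Set G) ≤ centralizer ((R ⊓ pCore p G : Subgroup G) : Set G) :=
        centralizer_le inf_le_left
      exact (hn1.trans hn2).trans (centralizer_le_normalizer _)
    have h1 := card_sup_mul_card_inf hn
    have h2 : Zr ⊓ (R ⊓ pCore p G) = Zr ⊓ pCore p G := by
      rw [← inf_assoc, inf_eq_left.2 hZrR]
    rw [h2] at h1
    apply eq_of_le_of_card_ge (sup_le hZrR inf_le_left)
    apply Nat.le_of_mul_le_mul_right _ pz'
    rw [h1]
    change a * z' ≤ z * a'
    rw [heqa, heqz]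
    exact le_of_eq (by ring)
  · apply hR.1.of_mz (hXT.trans hTS)
    refine le_trans ?_ hXY
    rw [hYc, hXc, ← heqz]
    exact le_rfl

/-- O_p(G) contains a minimal centrally large subgroup -/
theorem mcl_der_normal {S Q₀ : Subgroup G} (hTS : pCore p G ≤ S) (hQ₀ : MCLin S Q₀) (hQT : Q₀ ≤ pCore p G) :
    (⁅Q₀, Q₀⁆ : Subgroup G).Normal := by
  haveI := pCore_normal p G
  have h1 := hQ₀.of_le hQT hTS
  rw [← normalizer_eq_top_iff, eq_top_iff]
  intro g _
  rw [mem_normalizer_iff_map_conj, map_commutator]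
  have h2 := h1.conj g
  have h3 : (pCore p G).map (MulAut.conj g).toMonoidHom = pCore p G := norm_map_conj (by
    rw [normalizer_eq_top]; trivial)
  rw [h3] at h2
  exact h2.commutator_eq h1

theorem mcl_case (h : PU p q K) (hE : centralizer (pCore p G : Set G) ≤ pCore p G) {S : Subgroup G}
    (hS : SylIn p S ⊤) {Q : Subgroup G} (hQ : MCLin S Q) :
    (ZC S ⊓ ⁅Q, Q⁆).Normal ∨ (SM S).Normal := by
  haveI := pCore_normal p G
  by_cases hZ : (ZC S).Normal
  · exact Or.inl (normal_of_le_center (inf_le_left.trans (h.ZC_central hS hZ)))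
  by_cases hJ : SM S ≤ pCore p G
  · right
    rw [← SM_eq_of_le (pCore_le_sylIn hS) hJ]
    exact SM_normal inferInstance
  · left
    rw [SM_le_iff] at hJ
    push Not at hJ
    obtain ⟨R, hR, hRT⟩ := hJ
    set V := normalClosure (ZC S : Set G) with hV
    have hZV : ZC S ≤ V := subset_normalClosure
    have h1 : V ≤ pCore p G ⊓ centralizer (pCore p G : Set G) := by
      rw [hV]
      exact normalClosure_le_normal (ZC_le hE hS)
    have hker : centralizer (V : Set G) ⊔ S ≠ ⊤ := by
      intro h3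
      exact hZ (normal_of_le_center (ZC_central_of_sup hZV h3))
    obtain ⟨-, h2, h3, h4, -⟩ := mcl_key h hS (h1.trans inf_le_left) (h1.trans inf_le_right) hker hR hRT
    obtain ⟨Q₀, hQ₀X, hQ₀⟩ := h4.exists_min
    have hQ₀T : Q₀ ≤ pCore p G := hQ₀X.trans (sup_le (h1.trans inf_le_left) inf_le_right)
    have h5 := mcl_der_normal (pCore_le_sylIn hS) hQ₀ hQ₀T
    rw [hQ.commutator_eq hQ₀]
    have h6 : R ⊓ centralizer (R : Set G) ≤ centralizer ((⁅Q₀, Q₀⁆ : Subgroup G) : Set G) := by
      rw [← hR.commutator_eq hQ₀]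
      exact inf_le_right.trans (centralizer_le (commutator_le_self R))
    haveI := h5
    have h7 : (centralizer ((⁅Q₀, Q₀⁆ : Subgroup G) : Set G)).Normal := inferInstance
    have h8 : centralizer ((⁅Q₀, Q₀⁆ : Subgroup G) : Set G) ⊔ S = ⊤ := by
      rcases h.dich hS h7 with h9 | h9
      · exact h9
      · exact absurd ((le_inf h6 (inf_le_left.trans hR.1.1)).trans h9) h3
    apply normal_of_le_center
    rintro x ⟨hx, hx2⟩
    have h9 : (⊤ : Subgroup G) ≤ centralizer ({x} : Set G) := by
      rw [← h8]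
      apply sup_le
      · exact centralizer_le (Set.singleton_subset_iff.2 hx2)
      · intro s hs
        rw [mem_centralizer_singleton_iff]
        exact mem_centralizer_iff.1 hx.2 s hs
    rw [mem_center_iff]
    intro g
    exact mem_centralizer_singleton_iff.1 (h9 (mem_top g))

end Cfsg.Agent.H47
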