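import Cfsg.Agent.H47.Ident3

set_option autoImplicit false
set_option linter.unusedSectionVars false
set_option linter.style.haveILetI false
open Cfsg Subgroup

namespace Cfsg.Agent.H47.SLM

section rel
variable {F : Type*} [Field F]

def w0 : Matrix.SpecialLinearGroup (Fin 2) F := ⟨!![0, -1; 1, 0], by simp [Matrix.det_fin_two_of]⟩

def hh (a : F) (ha : a ≠ 0) : Matrix.SpecialLinearGroup (Fin 2) F :=
  ⟨!![a, 0; 0, a⁻¹], by simp [Matrix.det_fin_two_of, ha]⟩

theorem w0_xp (t : F) : w0 * xp t = xm (-t) * w0 := by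
  apply Subtype.ext
  change !![0, -1; 1, 0] * !![1, t; 0, 1] = !![1, 0; -t, 1] * !![0, -1; 1, (0 : F)]
  rw [Matrix.mul_fin_two, Matrix.mul_fin_two]
  simp

theorem w0_xm (t : F) : w0 * xm t = xp (-t) * w0 := by
  apply Subtype.ext
  change !![0, -1; 1, 0] * !![1, 0; t, 1] = !![1, -t; 0, 1] * !![0, -1; 1, (0 : F)]
  rw [Matrix.mul_fin_two, Matrix.mul_fin_two]
  simp

theorem xp_hh_w0 (a : F) (ha : a ≠ 0) : xp a * (hh a ha * w0) = xm a⁻¹ * xp (-a) := by
  apply Subtype.ext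
  change !![1, a; 0, 1] * (!![a, 0; 0, a⁻¹] * !![0, -1; 1, (0 : F)]) = !![1, 0; a⁻¹, 1] * !![1, -a; 0, 1]
  rw [Matrix.mul_fin_two, Matrix.mul_fin_two, Matrix.mul_fin_two]
  simp [ha]

theorem hh_xp (a : F) (ha : a ≠ 0) (t : F) : xp t * hh a ha = hh a ha * xp (a⁻¹ * a⁻¹ * t) := by
  apply Subtype.ext
  change !![1, t; 0, 1] * !![a, 0; 0, a⁻¹] = !![a, 0; 0, a⁻¹] * !![1, a⁻¹ * a⁻¹ * t; 0, 1]
  rw [Matrix.mul_fin_two, Matrix.mul_fin_two]
  have : a * (a⁻¹ * a⁻¹ * t) = t * a⁻¹ := by field_simp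
  simp [this]

theorem hh_w0 (a : F) (ha : a ≠ 0) : hh a ha * w0 = w0 * hh a⁻¹ (inv_ne_zero ha) := by
  apply Subtype.ext
  change !![a, 0; 0, a⁻¹] * !![0, -1; 1, (0 : F)] = !![0, -1; 1, (0 : F)] * !![a⁻¹, 0; 0, a⁻¹⁻¹]
  rw [Matrix.mul_fin_two, Matrix.mul_fin_two]
  simp

theorem w0_w0 : (w0 : Matrix.SpecialLinearGroup (Fin 2) F) * w0 = hh (-1) (by simp) := by
  apply Subtype.ext
  change !![0, -1; 1, (0 : F)] * !![0, -1; 1, (0 : F)] = !![-1, 0; 0, (-1)⁻¹]
  rw [Matrix.mul_fin_two]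
  simp

theorem hh_mul (a b : F) (ha : a ≠ 0) (hb : b ≠ 0) : hh a ha * hh b hb = hh (a * b) (mul_ne_zero ha hb) := by
  apply Subtype.ext
  change !![a, 0; 0, a⁻¹] * !![b, 0; 0, b⁻¹] = !![a * b, 0; 0, (a * b)⁻¹]
  rw [Matrix.mul_fin_two]
  simp [mul_comm]

theorem hh_one : hh (1 : F) one_ne_zero = 1 := by
  apply Subtype.ext
  change !![(1 : F), 0; 0, (1 : F)⁻¹] = 1
  rw [inv_one, Matrix.one_fin_two]

theorem w0_inv : (w0 : Matrix.SpecialLinearGroup (Fin 2) F)⁻¹ = w0 * w0 * w0 := by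
  rw [inv_eq_iff_mul_eq_one]
  have : (w0 : Matrix.SpecialLinearGroup (Fin 2) F) * (w0 * w0 * w0) = (w0 * w0) * (w0 * w0) := by
    simp only [mul_assoc]
  rw [this, w0_w0, hh_mul]
  apply Subtype.ext
  change !![((-1) * (-1) : F), 0; 0, ((-1) * (-1) : F)⁻¹] = 1
  rw [Matrix.one_fin_two]
  simp

theorem xp_neg_mul (t : F) : (xp t)⁻¹ = xp (-t) := by
  rw [inv_eq_iff_mul_eq_one, xp_mul, add_neg_cancel, xp_zero]

end rel

section
variable {F : Type*} [Field F] {M : Type*} [AddCommGroup M]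

/-- irreducible nontrivial modules -/
structure Irr (p : ℕ) (ρ : Matrix.SpecialLinearGroup (Fin 2) F →* AddMonoid.End M) : Prop where
  pM : ∀ m : M, p • m = 0
  irr : ∀ D : AddSubgroup M, (∀ g, ∀ m ∈ D, ρ g m ∈ D) → D = ⊥ ∨ D = ⊤
  nt : ∃ g m, ρ g m ≠ m

variable (ρ : Matrix.SpecialLinearGroup (Fin 2) F →* AddMonoid.End M)

def XX : AddSubgroup M where
  carrier := {m | ∀ t, ρ (xp t) m = m}
  add_mem' := by
    intro a b ha hb t
    rw [map_add, ha t, hb t]
  zero_mem' := fun t => map_zero _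
  neg_mem' := by
    intro a ha t
    rw [map_neg, ha t]

def YY : AddSubgroup M where
  carrier := {m | ∀ t, ρ (xm t) m = m}
  add_mem' := by
    intro a b ha hb t
    rw [map_add, ha t, hb t]
  zero_mem' := fun t => map_zero _
  neg_mem' := by
    intro a ha t
    rw [map_neg, ha t]

theorem mem_XX {m : M} : m ∈ XX ρ ↔ ∀ t, ρ (xp t) m = m := Iff.rfl
theorem mem_YY {m : M} : m ∈ YY ρ ↔ ∀ t, ρ (xm t) m = m := Iff.rfl

theorem w0_XX {m : M} (h : m ∈ XX ρ) : ρ w0 m ∈ YY ρ := by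
  intro t
  have h1 : ρ (xm t * w0) m = ρ w0 m := by
    have h2 := w0_xp (-t)
    rw [neg_neg] at h2
    rw [← h2, rho_mul, h (-t)]
  rw [rho_mul] at h1
  exact h1

theorem w0_YY {m : M} (h : m ∈ YY ρ) : ρ w0 m ∈ XX ρ := by
  intro t
  have h1 : ρ (xp t * w0) m = ρ w0 m := by
    have h2 := w0_xm (-t)
    rw [neg_neg] at h2
    rw [← h2, rho_mul, h (-t)]
  rw [rho_mul] at h1
  exact h1

theorem hh_XX {m : M} (h : m ∈ XX ρ) (a : F) (ha : a ≠ 0) : ρ (hh a ha) m ∈ XX ρ := by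
  intro t
  rw [← rho_mul, hh_xp, rho_mul, h]

theorem w0_inj {m : M} (h : ρ w0 m = 0) : m = 0 := by
  rw [← rho_inv_mul ρ w0 m, h, map_zero]

/-- invariance from generators -/
theorem inv_of_gen {D : AddSubgroup M} (h1 : ∀ t, ∀ m ∈ D, ρ (xp t) m ∈ D) (h2 : ∀ m ∈ D, ρ w0 m ∈ D) :
    ∀ g, ∀ m ∈ D, ρ g m ∈ D := by
  let K : Subgroup (Matrix.SpecialLinearGroup (Fin 2) F) :=
    { carrier := {g | (∀ m ∈ D, ρ g m ∈ D) ∧ (∀ m ∈ D, ρ g⁻¹ m ∈ D)}
      one_mem' := by
        refine ⟨fun m hm => by rw [rho_one]; exact hm, fun m hm => by rw [inv_one, rho_one]; exact hm⟩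
      mul_mem' := by
        rintro a b ⟨ha, ha'⟩ ⟨hb, hb'⟩
        refine ⟨fun m hm => by rw [rho_mul]; exact ha _ (hb _ hm), fun m hm => ?_⟩
        rw [mul_inv_rev, rho_mul]; exact hb' _ (ha' _ hm)
      inv_mem' := by
        rintro a ⟨ha, ha'⟩
        exact ⟨ha', by rw [inv_inv]; exact ha⟩ }
  have hw : w0 ∈ K := by
    refine ⟨h2, fun m hm => ?_⟩
    rw [w0_inv, rho_mul, rho_mul]
    exact h2 _ (h2 _ (h2 _ hm))
  have hp : ∀ t, xp t ∈ K := fun t => ⟨h1 t, fun m hm => by rw [xp_neg_mul]; exact h1 _ _ hm⟩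
  have hm' : ∀ t, xm t ∈ K := by
    intro t
    have h3 := w0_xp (-t)
    rw [neg_neg] at h3
    have h4 : xm t = w0 * xp (-t) * w0⁻¹ := by rw [h3]; group
    rw [h4]
    exact mul_mem (mul_mem hw (hp _)) (inv_mem hw)
  have hK : K = ⊤ := by
    rw [eq_top_iff, ← H81.Tsl_sup_e]
    apply sup_le
    · intro x hx
      rw [eq_xp hx]; exact hp _
    · intro x hx
      rw [eq_xm hx]; exact hm' _
  intro g m hm
  have hg : g ∈ K := by rw [hK]; trivial
  exact hg.1 m hm

variable {ρ} {p : ℕ}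

theorem fix_all (h : Irr p ρ) {m : M} (hm : ∀ g, ρ g m = m) : m = 0 := by
  let D : AddSubgroup M :=
    { carrier := {m | ∀ g, ρ g m = m}
      add_mem' := by
        intro a b ha hb t
        rw [map_add, ha t, hb t]
      zero_mem' := fun t => map_zero _
      neg_mem' := by
        intro a ha t
        rw [map_neg, ha t] }
  rcases h.irr D (fun g m hm => by rw [hm g]; exact hm) with h1 | h1
  · have h2 : m ∈ D := hm
    rw [h1] at h2
    exact h2
  · exfalso
    obtain ⟨g, m', hg⟩ := h.nt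
    have h2 : m' ∈ D := by rw [h1]; trivial
    exact hg (h2 g)

theorem fix_one (h : Irr p ρ) {m : M} {t : F} (ht : t ≠ 0) (h1 : ρ (xp t) m = m) (h2 : m ∈ YY ρ) : m = 0 := by
  apply fix_all h
  let K : Subgroup (Matrix.SpecialLinearGroup (Fin 2) F) :=
    { carrier := {g | ρ g m = m}
      one_mem' := rho_one ρ m
      mul_mem' := by
        intro a b ha hb
        change ρ (a * b) m = m
        rw [rho_mul, hb, ha]
      inv_mem' := by
        intro a ha
        change ρ a⁻¹ m = m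
        have h3 := rho_inv_mul ρ a m
        have h4 : ρ a m = m := ha
        rwa [h4] at h3 }
  have hK : K = ⊤ := by
    rw [eq_top_iff, ← gen_sl (v := (![1, 0] : Fin 2 → F)) (w := ![0, 1]) (by simp) (xp_mem t)
      (fun h3 => ht (xp_inj (h3.trans xp_zero.symm)))]
    apply sup_le
    · rw [zpowers_le]; exact h1
    · intro x hx
      rw [eq_xm hx]; exact h2 _
  intro g
  have hg : g ∈ K := by rw [hK]; trivial
  exact hg

theorem inf_XY (h : Irr p ρ) {m : M} (h1 : m ∈ XX ρ) (h2 : m ∈ YY ρ) : m = 0 :=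
  fix_one h one_ne_zero (h1 1) h2

theorem sub_top (K : Subgroup (Matrix.SpecialLinearGroup (Fin 2) F)) (hp : ∀ t, xp t ∈ K) (hw : w0 ∈ K) : K = ⊤ := by
  have hm' : ∀ t, xm t ∈ K := by
    intro t
    have h3 := w0_xp (-t)
    rw [neg_neg] at h3
    have h4 : xm t = w0 * xp (-t) * w0⁻¹ := by rw [h3]; group
    rw [h4]
    exact mul_mem (mul_mem hw (hp _)) (inv_mem hw)
  rw [eq_top_iff, ← H81.Tsl_sup_e]
  apply sup_le
  · intro x hx
    rw [eq_xp hx]; exact hp _
  · intro x hx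
    rw [eq_xm hx]; exact hm' _

/-- the natural module from quadratic action -/
theorem nat_of_quad (h : Irr p ρ) (hX : XX ρ ≠ ⊥)
    (hq : ∀ s t m, ρ (xp s) (ρ (xp t) m - m) = ρ (xp t) m - m) :
    ∃ ψ : M ≃+ (Fin 2 → F), ∀ g m, ψ (ρ g m) = g.1.mulVec (ψ m) := by
  set kap : F → AddMonoid.End M := fun t => ρ (xp t) * ρ w0 - ρ w0 with hkap
  have kdef : ∀ t m, kap t m = ρ (xp t) (ρ w0 m) - ρ w0 m := fun t m => rfl
  have k1 : ∀ t m, kap t m ∈ XX ρ := fun t m s => by rw [kdef, hq]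
  have k2 : ∀ s t m, kap (s + t) m = kap s m + kap t m := by
    intro s t m
    rw [kdef, kdef, kdef, ← xp_mul, rho_mul]
    have h1 := hq s t (ρ w0 m)
    rw [map_sub] at h1
    rw [sub_eq_iff_eq_add] at h1
    rw [h1]
    abel
  have k0 : ∀ m, kap 0 m = 0 := by
    intro m
    rw [kdef, xp_zero, rho_one, sub_self]
  have hYq : ∀ t m, ρ (xm t) m - m ∈ YY ρ := by
    intro t m
    have h3 := w0_xp (-t)
    rw [neg_neg] at h3
    have h4 : xm t = w0 * xp (-t) * w0⁻¹ := by rw [h3]; group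
    have h5 : ρ (xm t) m - m = ρ w0 (ρ (xp (-t)) (ρ w0⁻¹ m) - ρ w0⁻¹ m) := by
      rw [h4, rho_mul, rho_mul, map_sub, rho_mul_inv]
    rw [h5]
    exact w0_XX ρ (fun s => hq s _ _)
  have k3 : ∀ (a : F) (ha : a ≠ 0) (x : M), x ∈ XX ρ → kap a x = ρ (hh a ha) x := by
    intro a ha x hx
    have hx' := hh_XX ρ hx a ha
    have h1 : ρ (xp a) (ρ w0 x) = ρ (xm a⁻¹) (ρ (hh a ha) x) := by
      have h2 : ρ (xp a * (hh a ha * w0)) (ρ (hh a ha) x) = ρ (xm a⁻¹ * xp (-a)) (ρ (hh a ha) x) := by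
        rw [xp_hh_w0]
      rw [rho_mul ρ (xm a⁻¹), hx' (-a)] at h2
      rw [← h2, hh_w0, rho_mul, rho_mul, ← rho_mul ρ (hh a⁻¹ _), hh_mul]
      have e : hh (a⁻¹ * a) (mul_ne_zero (inv_ne_zero ha) ha) = 1 := by
        rw [← hh_one]
        congr 1
        exact inv_mul_cancel₀ ha
      rw [e, rho_one]
    have h2 : kap a x - ρ (hh a ha) x = (ρ (xm a⁻¹) (ρ (hh a ha) x) - ρ (hh a ha) x) - ρ w0 x := by
      rw [kdef, h1]; abel
    have h3 : kap a x - ρ (hh a ha) x = 0 := by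
      apply inf_XY h
      · exact sub_mem (k1 a x) hx'
      · rw [h2]
        exact sub_mem (hYq _ _) (w0_XX ρ hx)
    exact sub_eq_zero.1 h3
  have k4 : ∀ x ∈ XX ρ, kap 1 x = x := by
    intro x hx
    rw [k3 1 one_ne_zero x hx, hh_one, rho_one]
  have k5 : ∀ a b, ∀ x ∈ XX ρ, kap (a * b) x = kap a (kap b x) := by
    intro a b x hx
    by_cases ha : a = 0
    · rw [ha, zero_mul, k0, k0]
    by_cases hb : b = 0
    · rw [hb, mul_zero, k0, map_zero]
    rw [k3 (a * b) (mul_ne_zero ha hb) x hx, k3 b hb x hx, k3 a ha _ (hh_XX ρ hx b hb), ← rho_mul, hh_mul]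
  have kn : ∀ x ∈ XX ρ, ρ w0 (ρ w0 x) = - x := by
    intro x hx
    rw [← rho_mul, w0_w0, ← k3 (-1) (by simp) x hx]
    have h1 := k2 (-1) 1 x
    rw [neg_add_cancel, k0, k4 x hx] at h1
    exact eq_neg_of_add_eq_zero_left h1.symm
  obtain ⟨x₀, hx₀, hne⟩ : ∃ x ∈ XX ρ, x ≠ 0 := (AddSubgroup.ne_bot_iff_exists_ne_zero).1 hX |>.elim
    (fun x hx => ⟨x, x.2, fun h1 => hx (Subtype.ext h1)⟩)
  let φ : (Fin 2 → F) →+ M :=
    { toFun := fun f => kap (f 0) x₀ + ρ w0 (kap (f 1) x₀)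
      map_zero' := by
        change kap 0 x₀ + ρ w0 (kap 0 x₀) = 0
        rw [k0, map_zero, add_zero]
      map_add' := by
        intro f g
        change kap (f 0 + g 0) x₀ + ρ w0 (kap (f 1 + g 1) x₀) = _
        rw [k2, k2, map_add]; abel }
  have hφ : ∀ f, φ f = kap (f 0) x₀ + ρ w0 (kap (f 1) x₀) := fun f => rfl
  have hφp : ∀ t f, φ ((xp t).1.mulVec f) = ρ (xp t) (φ f) := by
    intro t f
    rw [xp_mulVec, hφ, hφ]
    change kap (f 0 + t * f 1) x₀ + ρ w0 (kap (f 1) x₀) = _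
    rw [map_add, k1 (f 0) x₀ t, k2, k5 t (f 1) x₀ hx₀, kdef t]
    abel
  have hφw : ∀ f, φ ((w0 : Matrix.SpecialLinearGroup (Fin 2) F).1.mulVec f) = ρ w0 (φ f) := by
    intro f
    have h1 : (w0 : Matrix.SpecialLinearGroup (Fin 2) F).1.mulVec f = ![- f 1, f 0] := by
      rw [mulVec_fin2]
      ext i
      fin_cases i <;> simp [w0]
    rw [h1, hφ, hφ]
    change kap (- f 1) x₀ + ρ w0 (kap (f 0) x₀) = _
    rw [map_add, kn _ (k1 (f 1) x₀)]
    have h2 := k2 (- f 1) (f 1) x₀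
    rw [neg_add_cancel, k0] at h2
    rw [eq_neg_of_add_eq_zero_left h2.symm]
    abel
  have hφg : ∀ (g : Matrix.SpecialLinearGroup (Fin 2) F) f, φ (g.1.mulVec f) = ρ g (φ f) := by
    let K : Subgroup (Matrix.SpecialLinearGroup (Fin 2) F) :=
      { carrier := {g | ∀ f, φ (g.1.mulVec f) = ρ g (φ f)}
        one_mem' := by
          intro f
          rw [rho_one]
          change φ ((1 : Matrix (Fin 2) (Fin 2) F).mulVec f) = φ f
          rw [Matrix.one_mulVec]
        mul_mem' := by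
          intro a b ha hb f
          change φ ((a.1 * b.1).mulVec f) = _
          rw [← Matrix.mulVec_mulVec, ha, hb, rho_mul]
        inv_mem' := by
          intro a ha f
          change φ ((a⁻¹).1.mulVec f) = ρ a⁻¹ (φ f)
          have h1 := ha ((a⁻¹).1.mulVec f)
          have h2 : a.1.mulVec ((a⁻¹).1.mulVec f) = f := by
            rw [Matrix.mulVec_mulVec]
            have h3 : a.1 * (a⁻¹).1 = 1 := by
              have := congrArg Subtype.val (mul_inv_cancel a)
              exact this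
            rw [h3, Matrix.one_mulVec]
          rw [h2] at h1
          rw [h1, rho_inv_mul] }
    have hK : K = ⊤ := sub_top K hφp hφw
    intro g f
    have hg : g ∈ K := by rw [hK]; trivial
    exact hg f
  have hinj : Function.Injective φ := by
    rw [injective_iff_map_eq_zero]
    intro f hf
    rw [hφ] at hf
    have h1 : kap (f 0) x₀ = 0 := by
      apply inf_XY h (k1 _ _)
      rw [eq_neg_of_add_eq_zero_left hf]
      exact neg_mem (w0_XX ρ (k1 _ _))
    have h2 : kap (f 1) x₀ = 0 := by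
      rw [h1, zero_add] at hf
      exact w0_inj ρ hf
    have h3 : ∀ a, kap a x₀ = 0 → a = 0 := by
      intro a ha
      by_contra hne'
      apply hne
      have h4 := k5 a⁻¹ a x₀ hx₀
      rw [inv_mul_cancel₀ hne', k4 x₀ hx₀, ha, map_zero] at h4
      exact h4
    ext i
    fin_cases i
    · exact h3 _ h1
    · exact h3 _ h2
  have hsurj : Function.Surjective φ := by
    have h1 : φ.range = ⊤ := by
      rcases h.irr φ.range (fun g m hm => by
        obtain ⟨f, rfl⟩ := hm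
        exact ⟨_, hφg g f⟩) with h2 | h2
      · exfalso
        apply hne
        have h3 : φ ![1, 0] ∈ φ.range := ⟨_, rfl⟩
        rw [h2, AddSubgroup.mem_bot, hφ] at h3
        change kap 1 x₀ + ρ w0 (kap 0 x₀) = 0 at h3
        rw [k4 x₀ hx₀, k0, map_zero, add_zero] at h3
        exact h3
      · exact h2
    exact AddMonoidHom.range_eq_top.1 h1
  refine ⟨(AddEquiv.ofBijective φ ⟨hinj, hsurj⟩).symm, fun g m => ?_⟩
  rw [AddEquiv.symm_apply_eq]
  change ρ g m = φ _
  rw [hφg]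
  congr 1
  exact ((AddEquiv.ofBijective φ ⟨hinj, hsurj⟩).apply_symm_apply m).symm

/-! ### the counting case -/

theorem card_le_of_inf {N : Type*} [AddCommGroup N] [Finite N] {A B C : AddSubgroup N} (hA : A ≤ C) (hB : B ≤ C)
    (h : ∀ x, x ∈ A → x ∈ B → x = 0) : Nat.card A * Nat.card B ≤ Nat.card C := by
  rw [← Nat.card_prod]
  apply Nat.card_le_card_of_injective (fun x : A × B => (⟨x.1 + x.2, add_mem (hA x.1.2) (hB x.2.2)⟩ : C))
  rintro ⟨a, b⟩ ⟨a', b'⟩ hab
  have h1 : (a : N) + b = a' + b' := congrArg Subtype.val hab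
  have h2 : (a : N) - a' = b' - b := by
    rw [sub_eq_sub_iff_add_eq_add, h1, add_comm]
  have h3 : (a : N) - a' = 0 := h _ (sub_mem a.2 a'.2) (by rw [h2]; exact sub_mem b'.2 b.2)
  have h4 : (a : N) = a' := sub_eq_zero.1 h3
  rw [h4] at h1
  exact Prod.ext (Subtype.ext h4) (Subtype.ext (add_left_cancel h1))

theorem card_le_of_sup {N : Type*} [AddCommGroup N] [Finite N] {A B C : AddSubgroup N}
    (h : ∀ x ∈ C, ∃ a ∈ A, ∃ b ∈ B, x = a + b) : Nat.card C ≤ Nat.card A * Nat.card B := by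
  rw [← Nat.card_prod]
  choose! a ha b hb e using h
  apply Nat.card_le_card_of_injective (fun x : C => ((⟨a x, ha x x.2⟩, ⟨b x, hb x x.2⟩) : A × B))
  intro x y hxy
  have h1 : a x = a y := congrArg Subtype.val (Prod.mk.inj hxy).1
  have h2 : b x = b y := congrArg Subtype.val (Prod.mk.inj hxy).2
  apply Subtype.ext
  rw [e x x.2, e y y.2, h1, h2]

theorem exists_fixed [Fintype F] [Fact p.Prime] {n : ℕ} (hF : Fintype.card F = p ^ n) {N : Type*} [AddCommGroup N]
    [Finite N] (pN : ∀ m : N, p • m = 0) (u : F → N → N) (u0 : ∀ m, u 0 m = m)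
    (uadd : ∀ s t m, u (s + t) m = u s (u t m)) (uz : ∀ t, u t 0 = 0) {D : AddSubgroup N}
    (hD : ∀ t, ∀ m ∈ D, u t m ∈ D) (hne : D ≠ ⊥) : ∃ m ∈ D, m ≠ 0 ∧ ∀ t, u t m = m := by
  letI : MulAction (Multiplicative F) D :=
    { smul := fun t m => ⟨u (Multiplicative.toAdd t) m, hD _ _ m.2⟩
      one_smul := fun m => Subtype.ext (u0 m)
      mul_smul := fun s t m => Subtype.ext (uadd _ _ _) }
  have hp : IsPGroup p (Multiplicative F) := IsPGroup.of_card (n := n) (by
    rw [Nat.card_eq_fintype_card, Fintype.card_multiplicative, hF])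
  have h1 : p ∣ Nat.card D := by
    obtain ⟨x, hx⟩ := (AddSubgroup.ne_bot_iff_exists_ne_zero).1 hne
    have h2 : addOrderOf x = p := addOrderOf_eq_prime (by
      apply Subtype.ext
      exact pN x) hx
    rw [← h2]
    exact addOrderOf_dvd_natCard x
  obtain ⟨b, hb, hb0⟩ := hp.exists_fixed_point_of_prime_dvd_card_of_fixed_point (α := D) h1
    (a := 0) (fun t => Subtype.ext (uz _))
  refine ⟨b, b.2, fun h2 => hb0 (Subtype.ext h2.symm), fun t => ?_⟩
  have h3 := hb (Multiplicative.ofAdd t)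
  exact congrArg Subtype.val h3

/-- `[M, U]` -/
def NN (ρ : Matrix.SpecialLinearGroup (Fin 2) F →* AddMonoid.End M) : AddSubgroup M :=
  AddSubgroup.closure {n | ∃ t m, n = ρ (xp t) m - m}

theorem mem_NN (t : F) (m : M) : ρ (xp t) m - m ∈ NN ρ := AddSubgroup.subset_closure ⟨t, m, rfl⟩

theorem NN_xp (t : F) {m : M} (hm : m ∈ NN ρ) : ρ (xp t) m ∈ NN ρ := by
  have h1 : ρ (xp t) m = (ρ (xp t) m - m) + m := by abel
  rw [h1]
  exact add_mem (mem_NN t m) hm

theorem NN_hh (a : F) (ha : a ≠ 0) {m : M} (hm : m ∈ NN ρ) : ρ (hh a ha) m ∈ NN ρ := by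
  have h1 : NN ρ ≤ (NN ρ).comap (ρ (hh a ha)) := by
    unfold NN
    rw [AddSubgroup.closure_le]
    rintro _ ⟨t, m, rfl⟩
    change ρ (hh a ha) (ρ (xp t) m - m) ∈ NN ρ
    have h2 := hh_xp a ha (a * a * t)
    have h3 : a⁻¹ * a⁻¹ * (a * a * t) = t := by field_simp
    rw [h3] at h2
    rw [map_sub, ← rho_mul, ← h2, rho_mul]
    exact mem_NN _ _
  exact h1 hm

theorem xm_XX {x : M} (hx : x ∈ XX ρ) (b : F) (hb : b ≠ 0) :
    ρ (xm b) x = ρ (xp b⁻¹) (ρ w0 (ρ (hh b hb) x)) := by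
  have h1 := xp_hh_w0 b⁻¹ (inv_ne_zero hb)
  have h2 : ρ (xm b⁻¹⁻¹ * xp (-b⁻¹)) x = ρ (xp b⁻¹ * (hh b⁻¹ (inv_ne_zero hb) * w0)) x := by rw [h1]
  rw [rho_mul, hx, rho_mul, hh_w0, rho_mul] at h2
  have h3 : hh b⁻¹⁻¹ (inv_ne_zero (inv_ne_zero hb)) = hh b hb := by
    congr 1
    exact inv_inv b
  rw [h3, inv_inv] at h2
  exact h2

/-- the submodule generated by a torus invariant subgroup of `X` -/
theorem gen_top (h : Irr p ρ) {X₁ : AddSubgroup M} (hX : X₁ ≤ XX ρ) (hi : ∀ a ha, ∀ x ∈ X₁, ρ (hh a ha) x ∈ X₁)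
    (hne : X₁ ≠ ⊥) : X₁ ⊔ AddSubgroup.closure {m | ∃ t, ∃ x ∈ X₁, m = ρ (xp t) (ρ w0 x)} = ⊤ := by
  set D := X₁ ⊔ AddSubgroup.closure {m | ∃ t, ∃ x ∈ X₁, m = ρ (xp t) (ρ w0 x)} with hD
  have h1 : X₁ ≤ D := le_sup_left
  have h2 : ∀ t, ∀ x ∈ X₁, ρ (xp t) (ρ w0 x) ∈ D := fun t x hx =>
    (le_sup_right : _ ≤ D) (AddSubgroup.subset_closure ⟨t, x, hx, rfl⟩)
  have h3 : ∀ g, ∀ m ∈ D, ρ g m ∈ D := by
    apply inv_of_gen
    · intro s
      have h4 : D ≤ D.comap (ρ (xp s)) := by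
        conv_lhs => rw [hD]
        refine sup_le ?_ ?_
        · intro x hx
          change ρ (xp s) x ∈ D
          rw [hX hx s]
          exact h1 hx
        · rw [AddSubgroup.closure_le]
          rintro _ ⟨t, x, hx, rfl⟩
          change ρ (xp s) (ρ (xp t) (ρ w0 x)) ∈ D
          rw [← rho_mul, xp_mul]
          exact h2 _ _ hx
      exact fun m hm => h4 hm
    · have h4 : D ≤ D.comap (ρ w0) := by
        conv_lhs => rw [hD]
        refine sup_le ?_ ?_
        · intro x hx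
          change ρ w0 x ∈ D
          have := h2 0 x hx
          rwa [xp_zero, rho_one] at this
        · rw [AddSubgroup.closure_le]
          rintro _ ⟨t, x, hx, rfl⟩
          change ρ w0 (ρ (xp t) (ρ w0 x)) ∈ D
          rw [← rho_mul, w0_xp, rho_mul, ← rho_mul ρ w0 w0, w0_w0]
          have hx' := hi (-1) (by simp) x hx
          by_cases ht : t = 0
          · have : xm (-t) = (1 : Matrix.SpecialLinearGroup (Fin 2) F) := by
              rw [ht, neg_zero]
              apply Subtype.ext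
              change !![(1 : F), 0; 0, 1] = 1
              rw [Matrix.one_fin_two]
            rw [this, rho_one]
            exact h1 hx'
          · rw [xm_XX (hX hx') (-t) (neg_ne_zero.2 ht)]
            exact h2 _ _ (hi _ _ _ hx')
      exact fun m hm => h4 hm
  rcases h.irr D h3 with h4 | h4
  · exact absurd (eq_bot_iff.2 (h1.trans h4.le)) hne
  · exact h4

theorem gen_B (h : Irr p ρ) {X₁ : AddSubgroup M} (hX : X₁ ≤ XX ρ) (hi : ∀ a ha, ∀ x ∈ X₁, ρ (hh a ha) x ∈ X₁)
    (hne : X₁ ≠ ⊥) (hN : X₁ ≤ NN ρ) (m : M) : ∃ x ∈ X₁, ∃ n ∈ NN ρ, m = ρ w0 x + n := by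
  have h1 : X₁ ⊔ AddSubgroup.closure {m | ∃ t, ∃ x ∈ X₁, m = ρ (xp t) (ρ w0 x)} ≤ X₁.map (ρ w0) ⊔ NN ρ := by
    apply sup_le (hN.trans le_sup_right)
    rw [AddSubgroup.closure_le]
    rintro _ ⟨t, x, hx, rfl⟩
    have h2 : ρ (xp t) (ρ w0 x) = ρ w0 x + (ρ (xp t) (ρ w0 x) - ρ w0 x) := by abel
    rw [h2]
    exact add_mem ((le_sup_left : _ ≤ X₁.map (ρ w0) ⊔ NN ρ) ⟨x, hx, rfl⟩)
      ((le_sup_right : NN ρ ≤ X₁.map (ρ w0) ⊔ NN ρ) (mem_NN _ _))
  rw [gen_top h hX hi hne] at h1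
  obtain ⟨a, ⟨x, hx, rfl⟩, n, hn, e⟩ := AddSubgroup.mem_sup.1 (h1 (AddSubgroup.mem_top m))
  exact ⟨x, hx, n, hn, e.symm⟩

theorem quad_of_card [Fintype F] [Finite M] [Fact p.Prime] {n : ℕ} (hF : Fintype.card F = p ^ n) (h : Irr p ρ)
    (hN : NN ρ ≠ ⊤) (hc : Nat.card M ≤ Nat.card (XX ρ) ^ 2) : NN ρ ≤ XX ρ := by
  classical
  have hpp : p.Prime := Fact.out
  have hcX : Nat.card (XX ρ) = Nat.card (YY ρ) := by
    apply le_antisymm
    · apply Nat.card_le_card_of_injective (fun x : XX ρ => (⟨ρ w0 x, w0_XX ρ x.2⟩ : YY ρ))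
      intro a b hab
      have h1 : ρ w0 (a : M) = ρ w0 b := congrArg Subtype.val hab
      have h2 : ρ w0 ((a : M) - b) = 0 := by rw [map_sub, h1, sub_self]
      exact Subtype.ext (sub_eq_zero.1 (w0_inj ρ h2))
    · apply Nat.card_le_card_of_injective (fun x : YY ρ => (⟨ρ w0 x, w0_YY ρ x.2⟩ : XX ρ))
      intro a b hab
      have h1 : ρ w0 (a : M) = ρ w0 b := congrArg Subtype.val hab
      have h2 : ρ w0 ((a : M) - b) = 0 := by rw [map_sub, h1, sub_self]
      exact Subtype.ext (sub_eq_zero.1 (w0_inj ρ h2))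
  have hcM : Nat.card M = Nat.card (XX ρ) ^ 2 := by
    apply le_antisymm hc
    rw [pow_two]
    nth_rewrite 2 [hcX]
    have h1 := card_le_of_inf (C := (⊤ : AddSubgroup M)) (le_top : XX ρ ≤ ⊤) (le_top : YY ρ ≤ ⊤)
      (fun x h1 h2 => inf_XY h h1 h2)
    rwa [Nat.card_congr (AddSubgroup.topEquiv (G := M)).toEquiv] at h1
  -- the decomposition
  have hdec : ∀ m : M, ∃ x ∈ XX ρ, ∃ y ∈ YY ρ, m = x + y := by
    let f : XX ρ × YY ρ → M := fun x => x.1 + x.2
    have hinj : Function.Injective f := by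
      rintro ⟨a, b⟩ ⟨a', b'⟩ hab
      have h1 : (a : M) + b = a' + b' := hab
      have h2 : (a : M) - a' = b' - b := by
        rw [sub_eq_sub_iff_add_eq_add, h1, add_comm]
      have h3 : (a : M) - a' = 0 := inf_XY h (sub_mem a.2 a'.2) (by rw [h2]; exact sub_mem b'.2 b.2)
      have h4 : (a : M) = a' := sub_eq_zero.1 h3
      rw [h4] at h1
      exact Prod.ext (Subtype.ext h4) (Subtype.ext (add_left_cancel h1))
    have hbij : Function.Bijective f := by
      rw [Nat.bijective_iff_injective_and_card]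
      refine ⟨hinj, ?_⟩
      rw [Nat.card_prod, ← hcX, hcM, pow_two]
    intro m
    obtain ⟨⟨a, b⟩, hab⟩ := hbij.2 m
    exact ⟨a, a.2, b, b.2, hab.symm⟩
  have hfix : ∀ t ≠ 0, ∀ m, ρ (xp t) m = m → m ∈ XX ρ := by
    intro t ht m hm
    obtain ⟨x, hx, y, hy, rfl⟩ := hdec m
    rw [map_add, hx t] at hm
    have h1 := fix_one h ht (add_left_cancel hm) hy
    rw [h1, add_zero]; exact hx
  have hM : ∃ m : M, m ≠ 0 := by
    obtain ⟨g, m, hm⟩ := h.nt
    exact ⟨m, fun h1 => hm (by rw [h1, map_zero])⟩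
  have hXtop : XX ρ ≠ ⊤ := by
    intro h1
    obtain ⟨m, hm⟩ := hM
    obtain ⟨x, hx, y, hy, rfl⟩ := hdec m
    apply hm
    have h2 : y = 0 := inf_XY h (by rw [h1]; trivial) hy
    have h3 : ρ w0 x = 0 := inf_XY h (by rw [h1]; trivial) (w0_XX ρ hx)
    rw [h2, w0_inj ρ h3, add_zero]
  have hNbot : NN ρ ≠ ⊥ := by
    intro h1
    apply hXtop
    rw [eq_top_iff]
    intro m _ t
    have h2 := mem_NN (ρ := ρ) t m
    rw [h1, AddSubgroup.mem_bot] at h2
    exact sub_eq_zero.1 h2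
  have huadd : ∀ s t m, ρ (xp (s + t)) m = ρ (xp s) (ρ (xp t) m) := by
    intro s t m
    rw [← xp_mul, rho_mul]
  have hu0 : ∀ m, ρ (xp 0) m = m := fun m => by rw [xp_zero, rho_one]
  obtain ⟨x5, hx5N, hx50, hx5X⟩ := exists_fixed hF h.pM (fun t => ρ (xp t)) hu0 huadd (fun t => map_zero _)
    (fun t m hm => NN_xp t hm) hNbot
  have hpow : ∀ (a : F) (ha : a ≠ 0) (x : M), ρ w0 (ρ (hh a ha) x) = ρ (hh a⁻¹ (inv_ne_zero ha)) (ρ w0 x) := by
    intro a ha x
    have h1 := hh_w0 a⁻¹ (inv_ne_zero ha)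
    have h2 : hh a⁻¹⁻¹ (inv_ne_zero (inv_ne_zero ha)) = hh a ha := by
      congr 1
      exact inv_inv a
    rw [h2] at h1
    rw [← rho_mul, ← h1, rho_mul]
  let X4 : AddSubgroup M := XX ρ ⊓ (NN ρ).comap (ρ w0)
  have hX4 : ∀ x, x ∈ X4 ↔ x ∈ XX ρ ∧ ρ w0 x ∈ NN ρ := fun x => Iff.rfl
  have hX4h : ∀ a ha, ∀ x ∈ X4, ρ (hh a ha) x ∈ X4 := by
    intro a ha x hx
    rw [hX4] at hx ⊢
    refine ⟨hh_XX ρ hx.1 a ha, ?_⟩
    rw [hpow]
    exact NN_hh _ _ hx.2
  by_cases hX4b : X4 = ⊥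
  · -- first case
    have h1 : Nat.card (NN ρ) ≤ Nat.card (XX ρ) := by
      have h2 : Nat.card ((XX ρ).map (ρ w0)) = Nat.card (XX ρ) := by
        symm
        apply Nat.card_congr
        refine Equiv.ofBijective (fun x : XX ρ => (⟨ρ w0 x, ⟨x, x.2, rfl⟩⟩ : (XX ρ).map (ρ w0))) ⟨?_, ?_⟩
        · intro a b hab
          have h1 : ρ w0 (a : M) = ρ w0 b := congrArg Subtype.val hab
          have h2 : ρ w0 ((a : M) - b) = 0 := by rw [map_sub, h1, sub_self]
          exact Subtype.ext (sub_eq_zero.1 (w0_inj ρ h2))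
        · rintro ⟨_, x, hx, rfl⟩
          exact ⟨⟨x, hx⟩, rfl⟩
      have h3 := card_le_of_inf (A := (XX ρ).map (ρ w0)) (B := NN ρ) (C := (⊤ : AddSubgroup M)) le_top le_top (by
        rintro _ ⟨x, hx, rfl⟩ hx2
        have h4 : x ∈ X4 := ⟨hx, hx2⟩
        rw [hX4b, AddSubgroup.mem_bot] at h4
        rw [h4]
        exact map_zero (ρ w0))
      rw [Nat.card_congr (AddSubgroup.topEquiv (G := M)).toEquiv, h2, hcM, pow_two] at h3
      exact Nat.le_of_mul_le_mul_left h3 Nat.card_pos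
    have h2 := gen_B h (X₁ := XX ρ ⊓ NN ρ) inf_le_left (fun a ha x hx => ⟨hh_XX ρ hx.1 a ha, NN_hh a ha hx.2⟩)
      (by
        rw [AddSubgroup.ne_bot_iff_exists_ne_zero]
        exact ⟨⟨x5, hx5X, hx5N⟩, fun h3 => hx50 (congrArg Subtype.val h3)⟩) inf_le_right
    have h3 : Nat.card M ≤ Nat.card (XX ρ ⊓ NN ρ : AddSubgroup M) * Nat.card (NN ρ) := by
      rw [← Nat.card_prod]
      choose a ha b hb e using h2
      apply Nat.card_le_card_of_injective (fun m : M => ((⟨a m, ha m⟩, ⟨b m, hb m⟩) :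
        (XX ρ ⊓ NN ρ : AddSubgroup M) × NN ρ))
      intro x y hxy
      have h1 : a x = a y := congrArg Subtype.val (Prod.mk.inj hxy).1
      have h2 : b x = b y := congrArg Subtype.val (Prod.mk.inj hxy).2
      rw [e x, e y, h1, h2]
    have h4 : Nat.card (XX ρ ⊓ NN ρ : AddSubgroup M) ≤ Nat.card (NN ρ) :=
      Nat.card_le_card_of_injective (fun x : (XX ρ ⊓ NN ρ : AddSubgroup M) => (⟨x, x.2.2⟩ : NN ρ))
        (fun a b hab => Subtype.ext (congrArg (fun z : NN ρ => (z : M)) hab))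
    have h5 : Nat.card (NN ρ) ≤ Nat.card (XX ρ ⊓ NN ρ : AddSubgroup M) := by
      by_contra hcon
      push Not at hcon
      have h6 : Nat.card (XX ρ ⊓ NN ρ : AddSubgroup M) * Nat.card (NN ρ) < Nat.card (XX ρ) * Nat.card (XX ρ) :=
        Nat.mul_lt_mul_of_lt_of_le (lt_of_lt_of_le hcon h1) h1 Nat.card_pos
      rw [hcM, pow_two] at h3
      omega
    have h6 : XX ρ ⊓ NN ρ = NN ρ := by
      apply AddSubgroup.eq_of_le_of_card_ge inf_le_right h5
    exact inf_eq_right.1 h6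
  · -- second case
    exfalso
    have hdis : ∀ x, x ∈ X4 → x ∈ NN ρ → x = 0 := by
      intro x hx hxN
      by_contra hx0
      apply hN
      rw [eq_top_iff]
      intro m _
      obtain ⟨x', hx', n, hn, rfl⟩ := gen_B h (X₁ := X4 ⊓ NN ρ) (inf_le_left.trans (fun y hy => hy.1))
        (fun a ha x hx => ⟨hX4h a ha x hx.1, NN_hh a ha hx.2⟩) (by
          rw [AddSubgroup.ne_bot_iff_exists_ne_zero]
          exact ⟨⟨x, hx, hxN⟩, fun h3 => hx0 (congrArg Subtype.val h3)⟩) inf_le_right m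
      exact add_mem hx'.1.2 hn
    have hgen := gen_top h (X₁ := X4) (fun y hy => hy.1) hX4h hX4b
    have hcl : AddSubgroup.closure {m | ∃ t, ∃ x ∈ X4, m = ρ (xp t) (ρ w0 x)} ≤ NN ρ := by
      rw [AddSubgroup.closure_le]
      rintro _ ⟨t, x, hx, rfl⟩
      exact NN_xp t hx.2
    let f : (F → X4) →+ M :=
      { toFun := fun x => ∑ t, ρ (xp t) (ρ w0 (x t))
        map_zero' := by simp
        map_add' := by
          intro x y
          rw [← Finset.sum_add_distrib]
          apply Finset.sum_congr rfl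
          intro t _
          rw [Pi.add_apply, AddSubgroup.coe_add, map_add, map_add] }
    have hf : ∀ x, f x = ∑ t, ρ (xp t) (ρ w0 (x t)) := fun x => rfl
    have hsh : ∀ s x, f (fun t => x (t - s)) = ρ (xp s) (f x) := by
      intro s x
      rw [hf, hf, map_sum]
      rw [← Equiv.sum_comp (Equiv.addRight s)]
      apply Finset.sum_congr rfl
      intro t _
      rw [Equiv.coe_addRight, add_sub_cancel_right]
      change ρ (xp (t + s)) _ = _
      rw [add_comm, ← xp_mul, rho_mul]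
    have hcon : ∀ c : X4, ρ w0 (∑ t, ρ (xp t) (ρ w0 (c : M))) = 0 → c = 0 := by
      intro c hc0
      have hc' : ρ (hh (-1) (by simp)) (c : M) ∈ X4 := hX4h _ _ _ c.2
      have h1 : ∀ t, ρ w0 (ρ (xp t) (ρ w0 (c : M))) = ρ (xm (-t)) (ρ (hh (-1) (by simp)) (c : M)) := by
        intro t
        rw [← rho_mul, w0_xp, rho_mul, ← rho_mul ρ w0 w0, w0_w0]
      rw [map_sum] at hc0
      simp only [h1] at hc0
      have h2 : (xm (-0) : Matrix.SpecialLinearGroup (Fin 2) F) = 1 := by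
        rw [neg_zero]
        apply Subtype.ext
        change !![(1 : F), 0; 0, 1] = 1
        rw [Matrix.one_fin_two]
      rw [← Finset.add_sum_erase _ _ (Finset.mem_univ (0 : F)), h2, rho_one] at hc0
      have h3 : ρ (hh (-1) (by simp)) (c : M) ∈ NN ρ := by
        rw [eq_neg_of_add_eq_zero_left hc0]
        apply neg_mem
        apply AddSubgroup.sum_mem
        intro t ht
        have ht0 : t ≠ 0 := (Finset.mem_erase.1 ht).1
        rw [xm_XX hc'.1 (-t) (neg_ne_zero.2 ht0)]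
        exact NN_xp _ (hX4h _ _ _ hc').2
      have h4 := hdis _ hc' h3
      apply Subtype.ext
      rw [← rho_inv_mul ρ (hh (-1) (by simp)) (c : M), h4, map_zero]
      rfl
    have hfinj : Function.Injective f := by
      rw [injective_iff_map_eq_zero]
      by_contra hcon'
      push Not at hcon'
      obtain ⟨x, hx, hx0⟩ := hcon'
      obtain ⟨y, hy, hy0, hyf⟩ := exists_fixed (p := p) hF (N := F → X4) (fun m => funext fun t => Subtype.ext (h.pM _))
        (fun s x => fun t => x (t - s)) (fun m => by funext t; simp)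
        (fun s t m => by funext r; change m (r - (s + t)) = m (r - s - t); congr 1; ring)
        (fun t => rfl) (D := f.ker) (fun t m hm => by
          rw [AddMonoidHom.mem_ker] at hm ⊢
          rw [hsh, hm, map_zero])
        (by
          intro hb
          have : x ∈ f.ker := hx
          rw [hb] at this
          exact hx0 this)
      have hconst : ∀ t, y t = y 0 := by
        intro t
        have := congrFun (hyf (-t)) 0
        simp only [zero_sub, neg_neg] at this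
        exact this
      apply hy0
      have h5 : y 0 = 0 := by
        apply hcon
        rw [AddMonoidHom.mem_ker, hf] at hy
        simp only [hconst] at hy
        rw [hy, map_zero]
      funext t
      rw [hconst t, h5]; rfl
    have hrange : ∀ m ∈ NN ρ, ∃ x, f x = m := by
      have h1 : AddSubgroup.closure {m | ∃ t, ∃ x ∈ X4, m = ρ (xp t) (ρ w0 x)} ≤ f.range := by
        rw [AddSubgroup.closure_le]
        rintro _ ⟨t, x, hx, rfl⟩
        refine ⟨Pi.single t ⟨x, hx⟩, ?_⟩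
        rw [hf, Finset.sum_eq_single t]
        · rw [Pi.single_eq_same]
        · intro s _ hs
          rw [Pi.single_eq_of_ne hs]; simp
        · intro h; exact absurd (Finset.mem_univ _) h
      intro m hm
      have h2 : m ∈ X4 ⊔ AddSubgroup.closure {m | ∃ t, ∃ x ∈ X4, m = ρ (xp t) (ρ w0 x)} := by rw [hgen]; trivial
      obtain ⟨x, hx, c, hc, rfl⟩ := AddSubgroup.mem_sup.1 h2
      have h3 : x ∈ NN ρ := by
        have := sub_mem hm (hcl hc)
        rwa [add_sub_cancel_right] at this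
      rw [hdis x hx h3, zero_add]
      exact h1 hc
    have hfN : ∀ x, f x ∈ NN ρ := by
      intro x
      rw [hf]
      exact AddSubgroup.sum_mem _ (fun t _ => NN_xp t (x t).2.2)
    have hcN : Nat.card (NN ρ) = Nat.card X4 ^ Fintype.card F := by
      have h1 : Nat.card (F → X4) = Nat.card (NN ρ) := by
        apply Nat.card_congr
        refine Equiv.ofBijective (fun x => (⟨f x, hfN x⟩ : NN ρ)) ⟨?_, ?_⟩
        · intro x y hxy
          exact hfinj (congrArg Subtype.val hxy)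
        · rintro ⟨m, hm⟩
          obtain ⟨x, hx⟩ := hrange m hm
          exact ⟨x, Subtype.ext hx⟩
      rw [← h1, Nat.card_fun, Nat.card_eq_fintype_card (α := F)]
    have hcM2 : Nat.card M = Nat.card X4 * Nat.card (NN ρ) := by
      apply le_antisymm
      · rw [← Nat.card_congr (AddSubgroup.topEquiv (G := M)).toEquiv]
        apply card_le_of_sup
        intro m _
        have h2 : m ∈ X4 ⊔ AddSubgroup.closure {m | ∃ t, ∃ x ∈ X4, m = ρ (xp t) (ρ w0 x)} := by rw [hgen]; trivial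
        obtain ⟨x, hx, c, hc, rfl⟩ := AddSubgroup.mem_sup.1 h2
        exact ⟨x, hx, c, hcl hc, rfl⟩
      · rw [← Nat.card_congr (AddSubgroup.topEquiv (G := M)).toEquiv]
        exact card_le_of_inf le_top le_top hdis
    have hcXN : Nat.card (XX ρ ⊓ NN ρ : AddSubgroup M) = Nat.card X4 := by
      symm
      apply Nat.card_congr
      have hcN0 : ∀ c : X4, f (fun _ => c) ∈ XX ρ ⊓ NN ρ := by
        intro c
        refine ⟨fun s => ?_, hfN _⟩
        rw [← hsh]
      refine Equiv.ofBijective (fun c : X4 => (⟨f (fun _ => c), hcN0 c⟩ : (XX ρ ⊓ NN ρ : AddSubgroup M))) ⟨?_, ?_⟩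
      · intro c c' hcc
        have h1 : f (fun _ => c) = f (fun _ => c') := congrArg Subtype.val hcc
        exact congrFun (hfinj h1) 0
      · rintro ⟨m, hm⟩
        obtain ⟨x, rfl⟩ := hrange m hm.2
        refine ⟨x 0, Subtype.ext ?_⟩
        change f (fun _ => x 0) = f x
        congr 1
        funext t
        have h1 : f (fun r => x (r - (-t))) = f x := by rw [hsh]; exact hm.1 (-t)
        have h2 := congrFun (hfinj h1) 0
        simp only [zero_sub, neg_neg] at h2
        exact h2.symm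
    have hcX2 : Nat.card (XX ρ) = Nat.card X4 * Nat.card X4 := by
      apply le_antisymm
      · nth_rewrite 2 [← hcXN]
        apply card_le_of_sup
        intro m hm
        have h2 : m ∈ X4 ⊔ AddSubgroup.closure {m | ∃ t, ∃ x ∈ X4, m = ρ (xp t) (ρ w0 x)} := by rw [hgen]; trivial
        obtain ⟨x, hx, c, hc, rfl⟩ := AddSubgroup.mem_sup.1 h2
        refine ⟨x, hx, c, ⟨?_, hcl hc⟩, rfl⟩
        have := sub_mem hm hx.1
        rwa [add_sub_cancel_left] at this
      · nth_rewrite 2 [← hcXN]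
        exact card_le_of_inf (fun y hy => hy.1) inf_le_left (fun y h1 h2 => hdis y h1 h2.2)
    have hX4p : p ≤ Nat.card X4 := by
      obtain ⟨x, hx⟩ := (AddSubgroup.ne_bot_iff_exists_ne_zero).1 hX4b
      have h2 : addOrderOf x = p := addOrderOf_eq_prime (by
        apply Subtype.ext
        exact h.pM x) hx
      rw [← h2]
      exact Nat.le_of_dvd Nat.card_pos (addOrderOf_dvd_natCard x)
    have hX42 : 2 ≤ Nat.card X4 := hpp.two_le.trans hX4p
    have hq3 : Fintype.card F = 3 := by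
      have h1 : Nat.card X4 ^ (Fintype.card F + 1) = Nat.card X4 ^ 4 := by
        rw [pow_succ', ← hcN, ← hcM2, hcM, hcX2]; ring
      have h2 := Nat.pow_right_injective hX42 h1
      simpa using h2
    have hp3 : p = 3 := by
      rw [hF] at hq3
      have h1 : p ∣ 3 := by
        rw [← hq3]
        refine dvd_pow_self p ?_
        rintro rfl
        simp at hq3
      exact (Nat.prime_dvd_prime_iff_eq hpp Nat.prime_three).1 h1
    -- a nonzero `x'` killed by the norm
    obtain ⟨x', hx'X, hx'0, hx'N⟩ : ∃ x ∈ XX ρ, x ≠ 0 ∧ ∑ t, ρ (xp t) (ρ w0 x) = 0 := by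
      by_contra hcon'
      push Not at hcon'
      have hT : ∀ x : M, (∑ t, ρ (xp t) (ρ w0 x)) ∈ XX ρ ⊓ NN ρ := by
        intro x
        constructor
        · intro s
          rw [map_sum, ← Equiv.sum_comp (Equiv.addLeft s) (fun t => ρ (xp t) (ρ w0 x))]
          apply Finset.sum_congr rfl
          intro t _
          rw [Equiv.coe_addLeft]
          change _ = ρ (xp (s + t)) (ρ w0 x)
          rw [huadd]
        · have h1 : ∑ t, ρ (xp t) (ρ w0 x) = ∑ t, (ρ (xp t) (ρ w0 x) - ρ w0 x) := by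
            rw [Finset.sum_sub_distrib, Finset.sum_const, Finset.card_univ, hq3, ← hp3, h.pM, sub_zero]
          rw [h1]
          exact AddSubgroup.sum_mem _ (fun t _ => mem_NN _ _)
      have h1 : Nat.card (XX ρ) ≤ Nat.card (XX ρ ⊓ NN ρ : AddSubgroup M) := by
        apply Nat.card_le_card_of_injective (fun x : XX ρ => (⟨_, hT x⟩ : (XX ρ ⊓ NN ρ : AddSubgroup M)))
        intro a b hab
        have h2 : ∑ t, ρ (xp t) (ρ w0 (a : M)) = ∑ t, ρ (xp t) (ρ w0 (b : M)) := congrArg Subtype.val hab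
        have h3 : ∑ t, ρ (xp t) (ρ w0 ((a : M) - b)) = 0 := by
          simp only [map_sub, Finset.sum_sub_distrib, h2, sub_self]
        by_contra hne
        exact hcon' _ (sub_mem a.2 b.2) (fun h4 => hne (Subtype.ext (sub_eq_zero.1 h4))) h3
      rw [hcXN, hcX2] at h1
      nlinarith
    have hz : ∀ m, ρ (hh (-1) (by simp)) m = m ∨ ρ (hh (-1) (by simp)) m = - m := by
      let E : AddSubgroup M :=
        { carrier := {m | ρ (hh (-1) (by simp)) m = m}
          add_mem' := by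
            intro a b ha hb
            change ρ _ (a + b) = a + b
            have ha' : ρ (hh (-1) (by simp)) a = a := ha
            have hb' : ρ (hh (-1) (by simp)) b = b := hb
            rw [map_add, ha', hb']
          zero_mem' := map_zero _
          neg_mem' := by
            intro a ha
            change ρ _ (-a) = -a
            have ha' : ρ (hh (-1) (by simp)) a = a := ha
            rw [map_neg, ha'] }
      have hzc : ∀ g : Matrix.SpecialLinearGroup (Fin 2) F, hh (-1) (by simp) * g = g * hh (-1) (by simp) := by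
        intro g
        apply Subtype.ext
        change !![(-1 : F), 0; 0, (-1)⁻¹] * g.1 = g.1 * !![(-1 : F), 0; 0, (-1)⁻¹]
        have : !![(-1 : F), 0; 0, (-1)⁻¹] = -1 := by
          ext i j
          fin_cases i <;> fin_cases j <;> simp [inv_neg]
        rw [this, neg_mul, one_mul, mul_neg, mul_one]
      have hz2 : ∀ m, ρ (hh (-1) (by simp)) (ρ (hh (-1) (by simp)) m) = m := by
        intro m
        rw [← rho_mul, hh_mul]
        have : hh ((-1 : F) * -1) (mul_ne_zero (by simp) (by simp)) = 1 := by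
          rw [← hh_one]
          congr 1
          ring
        rw [this, rho_one]
      intro m
      rcases h.irr E (fun g m hm => by
        change ρ (hh (-1) (by simp)) (ρ g m) = ρ g m
        have hm' : ρ (hh (-1) (by simp)) m = m := hm
        rw [← rho_mul, hzc, rho_mul, hm']) with h1 | h1
      · right
        have h2 : ρ (hh (-1) (by simp)) m + m ∈ E := by
          change ρ (hh (-1) (by simp)) (ρ (hh (-1) (by simp)) m + m) = _
          rw [map_add, hz2, add_comm]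
        rw [h1, AddSubgroup.mem_bot] at h2
        exact eq_neg_of_add_eq_zero_left h2
      · left
        have h2 : m ∈ E := by rw [h1]; trivial
        exact h2
    have hF3 : ∀ a : F, a = 0 ∨ a = 1 ∨ a = -1 := by
      intro a
      by_cases ha : a = 0
      · exact Or.inl ha
      right
      have h1 := FiniteField.pow_card_sub_one_eq_one a ha
      rw [hq3] at h1
      exact sq_eq_one_iff.1 h1
    have hn1 : (-1 : F) ≠ 1 := by
      intro h1
      haveI : CharP F p := charP_of_card_eq_prime_pow hF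
      have h2 : ((2 : ℕ) : F) = 0 := by
        push_cast
        have : (1 : F) + 1 = 0 := by nth_rewrite 1 [← h1]; ring
        rw [← this]; norm_num
      have h3 := (CharP.cast_eq_zero_iff F p 2).1 h2
      rw [hp3] at h3
      omega
    have hsum : ρ w0 x' + ρ (xp 1) (ρ w0 x') + ρ (xp (-1)) (ρ w0 x') = 0 := by
      have hu : (Finset.univ : Finset F) = {0, 1, -1} := by
        ext a
        simp only [Finset.mem_univ, Finset.mem_insert, Finset.mem_singleton, true_iff]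
        exact hF3 a
      rw [hu, Finset.sum_insert (by simp), Finset.sum_insert (by simp [Ne.symm hn1]), Finset.sum_singleton, hu0,
        ← add_assoc] at hx'N
      exact hx'N
    have hD := gen_top h (X₁ := AddSubgroup.zmultiples x') (by rw [AddSubgroup.zmultiples_le]; exact hx'X)
      (by
        rintro a ha _ ⟨k, rfl⟩
        have h1 : ρ (hh a ha) x' ∈ AddSubgroup.zmultiples x' := by
          rcases hF3 a with rfl | rfl | rfl
          · exact absurd rfl ha
          · rw [hh_one, rho_one]; exact AddSubgroup.mem_zmultiples _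
          · rcases hz x' with h2 | h2
            · rw [h2]; exact AddSubgroup.mem_zmultiples _
            · rw [h2]; exact neg_mem (AddSubgroup.mem_zmultiples _)
        change ρ (hh a ha) (k • x') ∈ _
        rw [map_zsmul]
        exact AddSubgroup.zsmul_mem _ h1 k)
      (by
        rw [AddSubgroup.ne_bot_iff_exists_ne_zero]
        exact ⟨⟨x', AddSubgroup.mem_zmultiples _⟩, fun h3 => hx'0 (congrArg Subtype.val h3)⟩)
    have hD2 : ∀ m : M, ∃ a ∈ AddSubgroup.zmultiples x', ∃ b ∈ (AddSubgroup.zmultiples (ρ w0 x') ⊔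
        AddSubgroup.zmultiples (ρ (xp 1) (ρ w0 x'))), m = a + b := by
      intro m
      have h1 : m ∈ AddSubgroup.zmultiples x' ⊔
          AddSubgroup.closure {m | ∃ t, ∃ x ∈ AddSubgroup.zmultiples x', m = ρ (xp t) (ρ w0 x)} := by rw [hD]; trivial
      obtain ⟨a, ha, b, hb, rfl⟩ := AddSubgroup.mem_sup.1 h1
      refine ⟨a, ha, b, ?_, rfl⟩
      refine (AddSubgroup.closure_le _).2 ?_ hb
      rintro _ ⟨t, x, ⟨k, rfl⟩, rfl⟩
      change ρ (xp t) (ρ w0 (k • x')) ∈ _
      rw [map_zsmul, map_zsmul]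
      apply AddSubgroup.zsmul_mem
      have e1 : ρ w0 x' ∈ (AddSubgroup.zmultiples (ρ w0 x') ⊔ AddSubgroup.zmultiples (ρ (xp 1) (ρ w0 x'))) :=
        (le_sup_left : AddSubgroup.zmultiples (ρ w0 x') ≤ _) (AddSubgroup.mem_zmultiples _)
      have e2 : ρ (xp 1) (ρ w0 x') ∈ (AddSubgroup.zmultiples (ρ w0 x') ⊔ AddSubgroup.zmultiples (ρ (xp 1) (ρ w0 x'))) :=
        (le_sup_right : AddSubgroup.zmultiples (ρ (xp 1) (ρ w0 x')) ≤ _) (AddSubgroup.mem_zmultiples _)
      rcases hF3 t with rfl | rfl | rfl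
      · rw [hu0]; exact e1
      · exact e2
      · have h3 : ρ (xp (-1)) (ρ w0 x') = -(ρ w0 x' + ρ (xp 1) (ρ w0 x')) := by
          rw [eq_neg_iff_add_eq_zero, ← hsum]; abel
        rw [h3]
        exact neg_mem (add_mem e1 e2)
    have hz3 : ∀ m : M, Nat.card (AddSubgroup.zmultiples m) ≤ 3 := by
      intro m
      rw [Nat.card_zmultiples]
      exact Nat.le_of_dvd (by norm_num) (addOrderOf_dvd_of_nsmul_eq_zero (by rw [← hp3]; exact h.pM m))
    have h27 : Nat.card M ≤ 27 := by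
      rw [← Nat.card_congr (AddSubgroup.topEquiv (G := M)).toEquiv]
      have h1 := card_le_of_sup (C := (⊤ : AddSubgroup M)) (fun m _ => hD2 m)
      have h2 := card_le_of_sup (C := (AddSubgroup.zmultiples (ρ w0 x') ⊔ AddSubgroup.zmultiples (ρ (xp 1) (ρ w0 x'))))
        (A := AddSubgroup.zmultiples (ρ w0 x')) (B := AddSubgroup.zmultiples (ρ (xp 1) (ρ w0 x')))
        (fun m hm => by
          obtain ⟨a, ha, b, hb, e⟩ := AddSubgroup.mem_sup.1 hm
          exact ⟨a, ha, b, hb, e.symm⟩)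
      have h3 := hz3 x'
      have h4 := hz3 (ρ w0 x')
      have h5 := hz3 (ρ (xp 1) (ρ w0 x'))
      calc _ ≤ _ := h1
        _ ≤ 3 * (3 * 3) := Nat.mul_le_mul h3 (h2.trans (Nat.mul_le_mul h4 h5))
    have h81 : 81 ≤ Nat.card M := by
      rw [hcM, hcX2]
      rw [hp3] at hX4p
      calc 81 = (3 * 3) ^ 2 := by norm_num
        _ ≤ _ := Nat.pow_le_pow_left (Nat.mul_le_mul hX4p hX4p) 2
    omega

end

end Cfsg.Agent.H47.SLM
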